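import Mathlib

/-!
A point stabiliser of an affine group, a maximal subgroup of it and a second overgroup.
-/

set_option autoImplicit false

namespace Cfsg.Lib.Classical.AffineExample

open scoped LinearAlgebra.Projectivization

variable {F V : Type} [Field F] [AddCommGroup V] [Module F V]

/-- Maximality in one overgroup does not give maximality in another. -/
theorem exists_example [Finite V] (v₀ v₁ : V) (hv : LinearIndependent F ![v₀, v₁]) :
    ∃ (G : Type) (_ : Group G) (_ : Finite G) (M H K : Subgroup G), IsCoatom M ∧ M.index = Nat.card V ∧ H ≤ M ∧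
      IsCoatom (H.subgroupOf M) ∧ IsCoatom K ∧ H ≤ K ∧ ¬ IsCoatom (H.subgroupOf K) := by
  classical
  have hv₀ : v₀ ≠ 0 := by simpa using hv.ne_zero 0
  have hv₁ : v₁ ≠ 0 := by simpa using hv.ne_zero 1
  rw [LinearIndependent.pair_iff] at hv
  let P₀ : ℙ F V := Projectivization.mk F v₀ hv₀
  let W := Submodule.span F {v₀}
  let lin : (V ≃ᵃ[F] V) →* (V ≃ₗ[F] V) := AffineEquiv.linearHom
  have hlin : Function.Surjective lin := fun e => ⟨e.toAffineEquiv, LinearEquiv.ext fun x => rfl⟩
  let S : Subgroup (V ≃ₗ[F] V) := MulAction.stabilizer (V ≃ₗ[F] V) P₀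
  have h2 : MulAction.IsMultiplyPretransitive (V ≃ₗ[F] V) (ℙ F V) 2 := inferInstance
  have hprim : MulAction.IsPreprimitive (V ≃ₗ[F] V) (ℙ F V) :=
    MulAction.isPreprimitive_of_is_two_pretransitive h2
  have hS : IsCoatom S := by
    have : Nontrivial (ℙ F V) := by
      refine ⟨P₀, Projectivization.mk F v₁ hv₁, fun h => ?_⟩
      obtain ⟨a, ha⟩ := (Projectivization.mk_eq_mk_iff' F _ _ _ _).1 h
      exact one_ne_zero (hv 1 (-a) (by rw [one_smul, neg_smul, ha, add_neg_cancel])).1
    exact (MulAction.isCoatom_stabilizer_iff_preprimitive (G := V ≃ₗ[F] V) P₀).2 hprim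
  have hSW : ∀ e ∈ S, ∀ w ∈ W, e w ∈ W := by
    intro e he w hw
    obtain ⟨c, rfl⟩ := Submodule.mem_span_singleton.1 hw
    obtain ⟨a, ha⟩ := (Projectivization.mk_eq_mk_iff' F _ _ _ _).1 (show e • Projectivization.mk F v₀ hv₀ = Projectivization.mk F v₀ hv₀ from he)
    rw [map_smul, show e v₀ = a • v₀ from ha.symm]
    exact W.smul_mem _ (W.smul_mem _ (Submodule.mem_span_singleton_self v₀))
  let M : Subgroup (V ≃ᵃ[F] V) :=
    { carrier := {g | g 0 = 0}
      one_mem' := rfl
      mul_mem' := fun {g g'} (h : g 0 = 0) (h' : g' 0 = 0) => show g (g' 0) = 0 by rw [h', h]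
      inv_mem' := fun {g} (h : g 0 = 0) => show g.symm 0 = 0 by rw [AffineEquiv.symm_apply_eq, h] }
  let tr : V → V ≃ᵃ[F] V := fun v => AffineEquiv.constVAdd F V v
  have htr : ∀ v x, tr v x = v + x := fun v x => rfl
  have happ : ∀ (g : V ≃ᵃ[F] V) x, g x = g 0 + lin g x := fun g x => by
    have := g.map_vadd 0 x
    simp only [vadd_eq_add, add_zero] at this
    rw [this, add_comm]; rfl
  have hdec : ∀ g : V ≃ᵃ[F] V, g = tr (g 0) * (lin g).toAffineEquiv := fun g =>
    AffineEquiv.ext fun x => happ g x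
  have hlinM : ∀ e : V ≃ₗ[F] V, e.toAffineEquiv ∈ M := fun e => map_zero e
  have hMcoatom : IsCoatom M := by
    constructor
    · intro h
      have h' : tr v₀ ∈ M := h ▸ Subgroup.mem_top _
      exact hv₀ (by simpa [htr] using (show tr v₀ 0 = 0 from h'))
    · intro J hJ
      obtain ⟨g, hgJ, hgM⟩ := SetLike.exists_of_lt hJ
      have hv' : tr (g 0) ∈ J := by
        have h1 := J.mul_mem hgJ (J.inv_mem (hJ.le (hlinM (lin g))))
        rwa [← eq_mul_inv_iff_mul_eq.2 (hdec g).symm] at h1
      have hg0 : g 0 ≠ 0 := hgM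
      rw [eq_top_iff]
      intro x _
      rw [hdec x]
      refine J.mul_mem ?_ (hJ.le (hlinM _))
      rcases eq_or_ne (x 0) 0 with h0 | h0
      · rw [h0, show tr 0 = 1 from AffineEquiv.ext fun y => by simp [htr]]; exact J.one_mem
      · obtain ⟨e, he⟩ := MulAction.exists_smul_eq (V ≃ₗ[F] V) (Projectivization.mk F (g 0) hg0) (Projectivization.mk F (x 0) h0)
        obtain ⟨a, ha⟩ := (Projectivization.mk_eq_mk_iff' F _ _ _ _).1 he
        have ha0 : a ≠ 0 := fun h => hg0 (e.injective (by
          rw [LinearEquiv.map_zero]; rw [h, zero_smul] at ha; exact ha.symm))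
        let e' : V ≃ₗ[F] V := e.trans (LinearEquiv.smulOfUnit (Units.mk0 a ha0)⁻¹)
        have he' : e' (g 0) = x 0 := by
          change (Units.mk0 a ha0)⁻¹ • e (g 0) = x 0
          rw [show e (g 0) = a • x 0 from ha.symm, Units.smul_def, smul_smul]
          simp [ha0]
        have : tr (x 0) = e'.toAffineEquiv * tr (g 0) * (e'.toAffineEquiv)⁻¹ := by
          rw [eq_mul_inv_iff_mul_eq]
          refine AffineEquiv.ext fun y => ?_
          change x 0 + e' y = e' (g 0 + y)
          rw [map_add, he']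
        rw [this]
        exact J.mul_mem (J.mul_mem (hJ.le (hlinM _)) hv') (J.inv_mem (hJ.le (hlinM _)))
  let K : Subgroup (V ≃ᵃ[F] V) := S.comap lin
  let H : Subgroup (V ≃ᵃ[F] V) := M ⊓ K
  refine ⟨V ≃ᵃ[F] V, inferInstance, Finite.of_injective (fun g : V ≃ᵃ[F] V => (g : V → V)) DFunLike.coe_injective, M, H, K, hMcoatom, ?_, inf_le_left, ?_,
    Subgroup.isCoatom_comap_of_surjective hlin hS, inf_le_right, ?_⟩
  · refine Nat.card_eq_of_bijective (fun q => Quotient.liftOn' q (fun g : V ≃ᵃ[F] V => g 0) fun a b h => ?_) ⟨?_, ?_⟩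
    · rw [QuotientGroup.leftRel_apply] at h
      exact (congrArg a (show a⁻¹ (b 0) = 0 from h)).symm.trans (a.apply_symm_apply _)
    · intro p q
      induction p using QuotientGroup.induction_on with | _ a =>
      induction q using QuotientGroup.induction_on with | _ b =>
      intro h
      apply QuotientGroup.eq.2
      change a.symm (b 0) = 0
      rw [← (show a 0 = b 0 from h)]
      exact a.symm_apply_apply 0
    · intro v
      exact ⟨(tr v : V ≃ᵃ[F] V), by change tr v 0 = v; simp [htr]⟩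
  · have hsurj : Function.Surjective (lin.comp M.subtype) := fun e => ⟨⟨e.toAffineEquiv, hlinM e⟩, LinearEquiv.ext fun x => rfl⟩
    have : H.subgroupOf M = S.comap (lin.comp M.subtype) := by
      ext x; simp [H, K, Subgroup.mem_subgroupOf]
    rw [this]
    exact Subgroup.isCoatom_comap_of_surjective hsurj hS
  · rintro ⟨-, hmax⟩
    let L : Subgroup (V ≃ᵃ[F] V) :=
      { carrier := {g | g 0 ∈ W ∧ lin g ∈ S}
        one_mem' := ⟨W.zero_mem, map_one lin ▸ S.one_mem⟩
        mul_mem' := fun {g g'} h h' => ⟨by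
          rw [show (g * g') 0 = g (g' 0) from rfl, happ g]
          exact W.add_mem h.1 (hSW _ h.2 _ h'.1), by rw [map_mul]; exact S.mul_mem h.2 h'.2⟩
        inv_mem' := fun {g} h => ⟨by
          have h1 : g (g⁻¹ 0) = 0 := g.apply_symm_apply 0
          rw [happ g] at h1
          have h2 : g⁻¹ 0 = (lin g)⁻¹ (-(g 0)) := by
            rw [← eq_neg_of_add_eq_zero_right h1]
            exact ((lin g).symm_apply_apply _).symm
          rw [h2]
          exact hSW _ (S.inv_mem h.2) _ (W.neg_mem h.1), by rw [map_inv]; exact S.inv_mem h.2⟩ }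
    have hone : ∀ v, lin (tr v) = 1 := fun v => LinearEquiv.ext fun x => rfl
    have htL : tr v₀ ∈ L := ⟨by rw [htr, add_zero]; exact Submodule.mem_span_singleton_self v₀, by
      rw [hone]; exact S.one_mem⟩
    have hlt : H.subgroupOf K < L.subgroupOf K := by
      refine lt_of_le_of_ne (fun x hx => ⟨by rw [show (K.subtype x) 0 = 0 from hx.1]; exact W.zero_mem, hx.2⟩) fun he => ?_
      have hx : (⟨tr v₀, htL.2⟩ : K) ∈ H.subgroupOf K := by rw [he]; exact htL
      exact hv₀ (by simpa [htr] using (show tr v₀ 0 = 0 from hx.1))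
    have htop := hmax _ hlt
    have hK1 : tr v₁ ∈ K := by
      change lin (tr v₁) ∈ S
      rw [hone]; exact S.one_mem
    have h2 : (⟨tr v₁, hK1⟩ : K) ∈ L.subgroupOf K := by rw [htop]; exact Subgroup.mem_top _
    obtain ⟨c, hc⟩ := Submodule.mem_span_singleton.1 (show tr v₁ 0 ∈ W from h2.1)
    rw [htr, add_zero] at hc
    exact one_ne_zero (neg_eq_zero.1 (hv c (-1) (by rw [hc, neg_smul, one_smul, add_neg_cancel])).2)

end Cfsg.Lib.Classical.AffineExample
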