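import Mathlib

/-!
# Composition length of finite groups via chains of subgroups
-/

set_option autoImplicit false

namespace Cfsg.Lib.CompLen

open Subgroup

/-- A subnormal chain with `l` strict steps. -/
def IsSChain (G : Type*) [Group G] (l : ℕ) (H : Fin (l + 1) → Subgroup G) : Prop :=
  H 0 = ⊥ ∧ H (Fin.last l) = ⊤ ∧
    ∀ i : Fin l, H i.castSucc < H i.succ ∧ ((H i.castSucc).subgroupOf (H i.succ)).Normal

/-- Composition length. -/
noncomputable def cl (G : Type*) [Group G] : ℕ := sSup {l | ∃ H, IsSChain G l H}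

variable {G G' : Type*} [Group G] [Group G'] [Finite G]

omit [Finite G] in
theorem normal_subgroupOf_map (f : G →* G') (hf : Function.Injective f) {A B : Subgroup G}
    (hAB : (A.subgroupOf B).Normal) : ((A.map f).subgroupOf (B.map f)).Normal := by
  refine ⟨fun x hx g => ?_⟩
  obtain ⟨x, hxB⟩ := x
  obtain ⟨g, b, hb, rfl⟩ := g
  obtain ⟨a, ha, hax⟩ := mem_subgroupOf.1 hx
  obtain ⟨a', ha', hax'⟩ := hxB
  obtain rfl := hf (hax'.trans hax.symm)
  exact ⟨b * a' * b⁻¹, hAB.conj_mem ⟨a', ha'⟩ ha ⟨b, hb⟩, by simp [hax']⟩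

theorem le_card_of_chain {l : ℕ} {H : Fin (l + 1) → Subgroup G} (h : IsSChain G l H) : l ≤ Nat.card G := by
  have hmono : StrictMono fun i => Nat.card (H i) := Fin.strictMono_iff_lt_succ.2 fun i => by
    have h1 := (h.2.2 i).1
    exact lt_of_le_of_ne (Subgroup.card_le_of_le h1.le) fun e => h1.ne (Subgroup.eq_of_le_of_card_ge h1.le e.ge)
  have key : ∀ i : Fin (l + 1), (i : ℕ) < Nat.card (H i) := by
    intro i
    induction i using Fin.induction with
    | zero => exact Nat.card_pos
    | succ i ih =>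
      have := hmono (Fin.castSucc_lt_succ (i := i))
      simp only [Fin.val_castSucc, Fin.val_succ] at *
      omega
  have := key (Fin.last l)
  rw [h.2.1, Subgroup.card_top, Fin.val_last] at this
  omega

theorem le_cl {l : ℕ} {H : Fin (l + 1) → Subgroup G} (h : IsSChain G l H) : l ≤ cl G :=
  le_csSup ⟨Nat.card G, fun _ ⟨_, h'⟩ => le_card_of_chain h'⟩ ⟨H, h⟩

theorem exists_chain : ∃ H : Fin (cl G + 1) → Subgroup G, IsSChain G (cl G) H := by
  refine Nat.sSup_mem (s := {l | ∃ H, IsSChain G l H}) ?_ ⟨Nat.card G, fun _ ⟨_, h'⟩ => le_card_of_chain h'⟩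
  rcases subsingleton_or_nontrivial G with hG | hG
  · exact ⟨0, fun _ => ⊥, rfl, Subgroup.subsingleton_iff.2 hG |>.elim _ _, fun i => i.elim0⟩
  · refine ⟨1, ![⊥, ⊤], rfl, rfl, fun i => ?_⟩
    obtain rfl : i = 0 := Subsingleton.elim _ _
    exact ⟨bot_lt_top, by show ((⊥ : Subgroup G).subgroupOf ⊤).Normal; infer_instance⟩

theorem cl_le_of_equiv [Finite G'] (e : G ≃* G') : cl G ≤ cl G' := by
  obtain ⟨H, h0, hl, hs⟩ := exists_chain (G := G)
  refine le_cl (H := fun i => (H i).map e.toMonoidHom) ⟨?_, ?_, fun i => ⟨?_, ?_⟩⟩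
  · show (H 0).map e.toMonoidHom = ⊥
    rw [h0, Subgroup.map_bot]
  · show (H (Fin.last _)).map e.toMonoidHom = ⊤
    rw [hl, Subgroup.map_top_of_surjective _ e.surjective]
  · exact Subgroup.map_lt_map_iff_of_injective e.injective |>.2 (hs i).1
  · exact normal_subgroupOf_map _ e.injective (hs i).2

theorem cl_congr [Finite G'] (e : G ≃* G') : cl G = cl G' :=
  le_antisymm (cl_le_of_equiv e) (cl_le_of_equiv e.symm)

theorem succ_le {M : Subgroup G} [hM : M.Normal] (hne : M ≠ ⊤) : cl M + 1 ≤ cl G := by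
  obtain ⟨H, h0, hl, hs⟩ := exists_chain (G := M)
  refine le_cl (H := Fin.snoc (fun i => (H i).map M.subtype) ⊤) ⟨?_, Fin.snoc_last _ _, fun i => ?_⟩
  · rw [← Fin.castSucc_zero, Fin.snoc_castSucc, h0, Subgroup.map_bot]
  · induction i using Fin.lastCases with
    | last =>
      rw [Fin.snoc_castSucc, Fin.succ_last, Fin.snoc_last, hl, ← MonoidHom.range_eq_map, Subgroup.range_subtype]
      exact ⟨lt_top_iff_ne_top.2 hne, inferInstance⟩
    | cast i =>
      rw [Fin.snoc_castSucc, Fin.succ_castSucc, Fin.snoc_castSucc]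
      exact ⟨Subgroup.map_lt_map_iff_of_injective M.subtype_injective |>.2 (hs i).1,
        normal_subgroupOf_map _ M.subtype_injective (hs i).2⟩

theorem cl_eq_zero [Subsingleton G] : cl G = 0 := by
  obtain ⟨H, h0, hl, hs⟩ := exists_chain (G := G)
  by_contra h
  obtain ⟨m, hm⟩ := Nat.exists_eq_succ_of_ne_zero h
  exact (hs ⟨0, by omega⟩).1.ne (Subgroup.subsingleton_iff.2 inferInstance |>.elim _ _)

/-- The last proper term of a longest chain. -/
theorem exists_step [Nontrivial G] : ∃ M : Subgroup G, M.Normal ∧ M ≠ ⊤ ∧ cl G ≤ cl M + 1 := by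
  obtain ⟨H, h0, hl, hs⟩ := exists_chain (G := G)
  obtain ⟨m, hm⟩ : ∃ m, cl G = m + 1 := by
    rcases Nat.eq_zero_or_eq_succ_pred (cl G) with h | h
    · exfalso
      have : Fin.last (cl G) = 0 := Fin.ext h
      rw [this, h0] at hl
      exact bot_ne_top hl
    · exact ⟨_, h⟩
  rw [hm]
  generalize cl G = L at hm H h0 hl hs
  subst hm
  have hlast := hs (Fin.last m)
  rw [Fin.succ_last, hl] at hlast
  set M := H (Fin.last m).castSucc with hM
  refine ⟨M, ?_, hlast.1.ne, Nat.succ_le_succ ?_⟩
  · refine ⟨fun x hx g => ?_⟩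
    simpa [Subgroup.mem_subgroupOf] using hlast.2.conj_mem ⟨x, Subgroup.mem_top x⟩ hx ⟨g, Subgroup.mem_top g⟩
  · have hmono : Monotone H := (Fin.strictMono_iff_lt_succ.2 fun i => (hs i).1).monotone
    refine le_cl (H := fun i => (H i.castSucc).subgroupOf M) ⟨?_, ?_, fun i => ?_⟩
    · simp [h0]
    · simp [hM]
    · have hle : ∀ j : Fin (m + 1), H j.castSucc ≤ M := fun j => hmono (Fin.castSucc_le_castSucc_iff.2 j.le_last)
      have h1 := hs i.castSucc
      rw [← Fin.castSucc_succ] at h1
      refine ⟨lt_of_le_of_ne (Subgroup.comap_mono h1.1.le) fun e => h1.1.ne ?_, ?_⟩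
      · rw [← Subgroup.map_subgroupOf_eq_of_le (hle i.castSucc), ← Subgroup.map_subgroupOf_eq_of_le (hle i.succ)]
        exact congrArg _ e
      · refine ⟨fun x hx g => ?_⟩
        exact h1.2.conj_mem ⟨_, x.2⟩ hx ⟨_, g.2⟩

theorem cl_le_of_normal (M : Subgroup G) [M.Normal] : cl M ≤ cl G := by
  by_cases h : M = ⊤
  · subst h; exact (cl_congr Subgroup.topEquiv).le
  · exact (Nat.le_succ _).trans (succ_le h)

theorem cl_pos [Nontrivial G] : 1 ≤ cl G := by
  have := succ_le (G := G) (M := ⊥) bot_ne_top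
  omega

theorem cl_le_one [IsSimpleGroup G] : cl G ≤ 1 := by
  obtain ⟨M, hM, hne, hle⟩ := exists_step (G := G)
  obtain rfl := (hM.eq_bot_or_eq_top).resolve_right hne
  simpa [cl_eq_zero] using hle

omit [Finite G] in
theorem ker_comp_subtype_map (f : G →* G') (M : Subgroup G) :
    (f.comp M.subtype).ker.map M.subtype = M ⊓ f.ker := by
  ext x; constructor
  · rintro ⟨⟨y, hy⟩, hy', rfl⟩; exact ⟨hy, hy'⟩
  · rintro ⟨hx, hx'⟩; exact ⟨⟨x, hx⟩, hx', rfl⟩

omit [Finite G] in
theorem range_comp_subtype (f : G →* G') (M : Subgroup G) : (f.comp M.subtype).range = M.map f := by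
  rw [MonoidHom.range_comp, Subgroup.range_subtype]

theorem ext_aux.{u, v} : ∀ (n : ℕ) (G : Type u) [Group G] [Finite G] (G' : Type v) [Group G'] (f : G →* G'),
    Nat.card G = n → cl G = cl f.ker + cl f.range := by
  intro n
  induction n using Nat.strong_induction_on with
  | _ n ih =>
  intro G _ _ G' _ f hn
  have hfin : Finite f.range := Finite.of_surjective _ f.rangeRestrict_surjective
  have hrec : ∀ M : Subgroup G, M ≠ ⊤ →
      cl M = cl (M ⊓ f.ker : Subgroup G) + cl (M.map f) := by
    intro M hne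
    rw [ih _ (hn ▸ lt_of_le_of_ne (Subgroup.card_le_card_group M) fun e => hne ((Subgroup.card_eq_iff_eq_top M).1 e))
      M G' (f.comp M.subtype) rfl]
    have hf1 : Finite (f.comp M.subtype).range := Finite.of_surjective _ (f.comp M.subtype).rangeRestrict_surjective
    have hf2 : Finite (M.map f) := by rw [← range_comp_subtype]; exact hf1
    rw [cl_congr (((f.comp M.subtype).ker.equivMapOfInjective M.subtype M.subtype_injective).trans
      (MulEquiv.subgroupCongr (ker_comp_subtype_map f M))), cl_congr (MulEquiv.subgroupCongr (range_comp_subtype f M))]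
  refine le_antisymm ?_ ?_
  · rcases subsingleton_or_nontrivial G with hG | hG
    · rw [cl_eq_zero]; exact Nat.zero_le _
    obtain ⟨M, hM, hne, hle⟩ := exists_step (G := G)
    have h := hrec M hne
    have hfm : Finite (M.map f) := Finite.of_injective _ (Subgroup.inclusion_injective (Subgroup.map_le_range f M))
    by_cases hk : f.ker ≤ M
    · -- strict step in the image
      have hlt : M.map f ≠ f.range := fun e => hne (top_le_iff.1 fun x _ => by
        obtain ⟨y, hy, hyx⟩ := e.ge ⟨x, rfl⟩
        have h1 := M.mul_mem hy (hk (show y⁻¹ * x ∈ f.ker by simp [MonoidHom.mem_ker, hyx]))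
        rwa [mul_inv_cancel_left] at h1)
      haveI : ((M.map f).subgroupOf f.range).Normal := by
        refine ⟨fun x hx g => ?_⟩
        obtain ⟨a, ha, hax⟩ := hx
        obtain ⟨_, b, rfl⟩ := g
        exact ⟨b * a * b⁻¹, hM.conj_mem a ha b, by simp at hax ⊢; simp [hax]⟩
      have h1 := succ_le (G := f.range) (M := (M.map f).subgroupOf f.range) fun e => hlt
        (le_antisymm (Subgroup.map_le_range f M) (Subgroup.subgroupOf_eq_top.1 e))
      rw [cl_congr (Subgroup.subgroupOfEquivOfLe (Subgroup.map_le_range f M))] at h1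
      rw [inf_eq_right.2 hk] at h
      omega
    · haveI : ((M ⊓ f.ker).subgroupOf f.ker).Normal :=
        ⟨fun x hx g => ⟨hM.conj_mem _ hx.1 _, (g * x * g⁻¹).2⟩⟩
      have h1 := succ_le (G := f.ker) (M := (M ⊓ f.ker).subgroupOf f.ker) fun e => hk
        ((Subgroup.subgroupOf_eq_top.1 e).trans inf_le_left)
      rw [cl_congr (Subgroup.subgroupOfEquivOfLe inf_le_right)] at h1
      haveI : ((M.map f).subgroupOf f.range).Normal := by
        refine ⟨fun x hx g => ?_⟩
        obtain ⟨a, ha, hax⟩ := hx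
        obtain ⟨_, b, rfl⟩ := g
        exact ⟨b * a * b⁻¹, hM.conj_mem a ha b, by simp at hax ⊢; simp [hax]⟩
      have h2 := cl_le_of_normal ((M.map f).subgroupOf f.range)
      rw [cl_congr (Subgroup.subgroupOfEquivOfLe (Subgroup.map_le_range f M))] at h2
      omega
  · rcases subsingleton_or_nontrivial f.range with hr | hr
    · rw [cl_eq_zero (G := f.range), add_zero]
      exact cl_le_of_normal _
    obtain ⟨M', hM', hne', hle'⟩ := exists_step (G := f.range)
    let M := M'.comap f.rangeRestrict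
    have hne : M ≠ ⊤ := fun e => hne' (top_le_iff.1 fun y _ => by
      obtain ⟨x, rfl⟩ := f.rangeRestrict_surjective y
      exact e.ge (Subgroup.mem_top x))
    have h := hrec M hne
    have hker : M ⊓ f.ker = f.ker := inf_eq_right.2 fun x hx => by
      show f.rangeRestrict x ∈ M'
      rw [show f.rangeRestrict x = 1 from Subtype.ext hx]; exact M'.one_mem
    have hmap : M.map f = M'.map f.range.subtype := by
      rw [← Subgroup.map_comap_eq_self_of_surjective f.rangeRestrict_surjective M', Subgroup.map_map]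
      rfl
    have hfm : Finite (M.map f) := Finite.of_injective _ (Subgroup.inclusion_injective (Subgroup.map_le_range f M))
    have hfm' : Finite (M'.map f.range.subtype) := hmap ▸ hfm
    rw [hker, cl_congr (MulEquiv.subgroupCongr hmap),
      ← cl_congr (M'.equivMapOfInjective f.range.subtype f.range.subtype_injective)] at h
    have := succ_le (G := G) (M := M) hne
    omega

/-- Composition length is additive. -/
theorem cl_eq_ker_add_range (f : G →* G') : cl G = cl f.ker + cl f.range := ext_aux _ G G' f rfl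

/-- Additivity for a normal subgroup. -/
theorem cl_eq_add_quot (N : Subgroup G) [N.Normal] : cl G = cl N + cl (G ⧸ N) := by
  rw [cl_eq_ker_add_range (QuotientGroup.mk' N), cl_congr (MulEquiv.subgroupCongr (QuotientGroup.ker_mk' N)),
    cl_congr ((MulEquiv.subgroupCongr (MonoidHom.range_eq_top.2 (QuotientGroup.mk'_surjective N))).trans Subgroup.topEquiv)]

theorem cl_le_cardFactors_aux.{u} : ∀ (n : ℕ) (G : Type u) [Group G] [Finite G], Nat.card G = n →
    cl G ≤ ArithmeticFunction.cardFactors n := by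
  intro n
  induction n using Nat.strong_induction_on with
  | _ n ih =>
  intro G _ _ hn
  rcases subsingleton_or_nontrivial G with hG | hG
  · rw [cl_eq_zero]; exact Nat.zero_le _
  obtain ⟨M, hM, hne, hle⟩ := exists_step (G := G)
  have hmul : Nat.card M * M.index = n := hn ▸ M.card_mul_index
  have hlt : Nat.card M < n := hn ▸ lt_of_le_of_ne (Subgroup.card_le_card_group M) fun e => hne ((Subgroup.card_eq_iff_eq_top M).1 e)
  have h1 := ih _ hlt M rfl
  have h2 : M.index ≠ 0 := Subgroup.index_ne_zero_of_finite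
  have h3 : 1 ≤ ArithmeticFunction.cardFactors M.index := by
    rw [ArithmeticFunction.cardFactors_apply, Nat.one_le_iff_ne_zero]
    intro e
    rw [List.length_eq_zero_iff, Nat.primeFactorsList_eq_nil] at e
    rcases e with e | e
    · exact h2 e
    · exact hne (Subgroup.index_eq_one.1 e)
  rw [← hmul, ArithmeticFunction.cardFactors_mul Nat.card_pos.ne' h2]
  omega

theorem cl_le_cardFactors : cl G ≤ ArithmeticFunction.cardFactors (Nat.card G) := cl_le_cardFactors_aux _ G rfl

theorem two_pow_cl_le : 2 ^ cl G ≤ Nat.card G := by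
  refine (Nat.pow_le_pow_right two_pos cl_le_cardFactors).trans ?_
  rw [ArithmeticFunction.cardFactors_apply]
  conv_rhs => rw [← Nat.prod_primeFactorsList (n := Nat.card G) Nat.card_pos.ne']
  exact List.pow_card_le_prod _ _ fun x hx => (Nat.prime_of_mem_primeFactorsList hx).two_le

end Cfsg.Lib.CompLen
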