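import Mathlib

/-!
A square-zero matrix commuting with an extension field inside a matrix algebra.
-/

set_option autoImplicit false

namespace Cfsg.Lib.Classical.FieldTransvection

open scoped Matrix

variable {F E : Type*} [Field F] [Field E] [Algebra F E] {n : ℕ}

/-- A transvection over `E`, as a matrix over `F`. -/
theorem exists_sq_zero [FiniteDimensional F E] (ψ : E →ₐ[F] Matrix (Fin n) (Fin n) F)
    (h2 : 2 * Module.finrank F E ≤ n) :
    ∃ N : Matrix (Fin n) (Fin n) F, N * N = 0 ∧ N ≠ 0 ∧ N.rank ≤ Module.finrank F E ∧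
      ∀ y : E, N * ψ y = ψ y * N := by
  let iM : Module E (Fin n → F) := Module.compHom _ ((Matrix.toLinAlgEquiv'.toAlgHom.comp ψ)).toRingHom
  have hsm : ∀ (k : E) (x : Fin n → F), k • x = ψ k *ᵥ x := fun k x => rfl
  have : IsScalarTower F E (Fin n → F) := ⟨fun c k x => by
    rw [hsm, hsm, map_smul]; exact Matrix.smul_mulVec _ _ _⟩
  have : Module.Finite E (Fin n → F) := Module.Finite.of_restrictScalars_finite F E _
  have hd : 0 < Module.finrank F E := Module.finrank_pos
  have hmul : Module.finrank F E * Module.finrank E (Fin n → F) = n := by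
    rw [Module.finrank_mul_finrank, Module.finrank_fin_fun]
  have h2' : 2 ≤ Module.finrank E (Fin n → F) := by
    by_contra hlt
    push Not at hlt
    rcases Nat.le_one_iff_eq_zero_or_eq_one.1 (Nat.le_of_lt_succ hlt) with h | h <;> rw [h] at hmul <;> omega
  let b := Module.finBasis E (Fin n → F)
  let i₀ : Fin (Module.finrank E (Fin n → F)) := ⟨0, by omega⟩
  let i₁ : Fin (Module.finrank E (Fin n → F)) := ⟨1, by omega⟩
  let T : (Fin n → F) →ₗ[E] (Fin n → F) := (b.coord i₁).smulRight (b i₀)
  refine ⟨LinearMap.toMatrix' (T.restrictScalars F), ?_, ?_, ?_, ?_⟩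
  · rw [← LinearMap.toMatrix'_comp]
    have : (T.restrictScalars F).comp (T.restrictScalars F) = 0 := LinearMap.ext fun x => by
      have : i₀ ≠ i₁ := by simp [i₀, i₁]
      simp [T, Finsupp.single_apply, this]
    rw [this, map_zero]
  · intro h
    have h' := congrArg (fun A => A *ᵥ b i₁) h
    simp only [LinearMap.toMatrix'_mulVec, Matrix.zero_mulVec] at h'
    simp [T] at h'
    exact b.ne_zero i₀ h'
  · rw [Matrix.rank, ← Matrix.toLin'_apply', Matrix.toLin'_toMatrix']
    let s : E →ₗ[F] (Fin n → F) := ((LinearMap.id : E →ₗ[E] E).smulRight (b i₀)).restrictScalars F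
    refine (Submodule.finrank_mono (t := LinearMap.range s) ?_).trans (LinearMap.finrank_range_le _)
    rintro _ ⟨x, rfl⟩
    exact ⟨b.coord i₁ x, rfl⟩
  · intro y
    refine Matrix.ext_iff_mulVec.2 fun x => ?_
    rw [← Matrix.mulVec_mulVec, ← Matrix.mulVec_mulVec, LinearMap.toMatrix'_mulVec, LinearMap.toMatrix'_mulVec]
    exact T.map_smul y x

end Cfsg.Lib.Classical.FieldTransvection
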