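-- Helper library: linear involutions (mod scalars) permuting decompositions.
import Mathlib
import Cfsg.Prelude.Def_GeometricClasses

set_option autoImplicit false

namespace Cfsg.Lib.InvolBlocks

universe u

/-- The standard involution: swaps the two members of each pair and fixes the singles. -/
def swp {k : ℕ} {R : Type u} : (Fin k × Bool) ⊕ R → (Fin k × Bool) ⊕ R :=
  Sum.map (fun p => (p.1, !p.2)) id

@[simp] lemma swp_inl {k : ℕ} {R : Type u} (i : Fin k) (s : Bool) :
    swp (R := R) (Sum.inl (i, s)) = Sum.inl (i, !s) := rfl

@[simp] lemma swp_inr {k : ℕ} {R : Type u} (r : R) : swp (k := k) (Sum.inr r) = Sum.inr r := rfl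

/-- `β × Fin a` carries a block-permuting involution with `k` transpositions. -/
def Good (β : Type) (a k : ℕ) : Prop :=
  ∃ (R : Type) (_ : Fintype R) (e : (Fin k × Bool) ⊕ R ≃ β × Fin a) (σ : Equiv.Perm β),
    ∀ i, (e (swp i)).1 = σ (e i).1

lemma Good.congr {β γ : Type} {a k : ℕ} (h : Good β a k) (f : β ≃ γ) : Good γ a k := by
  obtain ⟨R, hR, e, σ, he⟩ := h
  refine ⟨R, hR, e.trans (f.prodCongr (Equiv.refl _)), (f.symm.trans σ).trans f, fun i => ?_⟩
  simp [Equiv.prodCongr_apply, he]

lemma Good.add {β γ : Type} {a k l : ℕ} (h : Good β a k) (h' : Good γ a l) : Good (β ⊕ γ) a (k + l) := by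
  obtain ⟨R, hR, e, σ, he⟩ := h
  obtain ⟨R', hR', e', σ', he'⟩ := h'
  haveI := hR; haveI := hR'
  refine ⟨R ⊕ R', inferInstance,
    ((((finSumFinEquiv.symm.prodCongr (Equiv.refl Bool)).trans (Equiv.sumProdDistrib _ _ _)).sumCongr (Equiv.refl _)).trans
      ((Equiv.sumSumSumComm _ _ _ _).trans ((e.sumCongr e').trans (Equiv.sumProdDistrib _ _ _).symm))),
    σ.sumCongr σ', ?_⟩
  rintro (⟨i, s⟩ | (r | r))
  · obtain ⟨j, rfl⟩ := finSumFinEquiv.surjective i
    rcases j with j | j
    · have := he (Sum.inl (j, s))
      rcases h1 : e (Sum.inl (j, s)) with ⟨x, y⟩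
      rcases h2 : e (Sum.inl (j, !s)) with ⟨x', y'⟩
      simp [h1, h2] at this ⊢
      exact this
    · have := he' (Sum.inl (j, s))
      rcases h1 : e' (Sum.inl (j, s)) with ⟨x, y⟩
      rcases h2 : e' (Sum.inl (j, !s)) with ⟨x', y'⟩
      simp [h1, h2] at this ⊢
      exact this
  · have := he (Sum.inr r)
    rcases h1 : e (Sum.inr r) with ⟨x, y⟩
    simp [h1] at this ⊢
    exact this
  · have := he' (Sum.inr r)
    rcases h1 : e' (Sum.inr r) with ⟨x, y⟩
    simp [h1] at this ⊢
    exact this

lemma good_empty (a : ℕ) : Good (Fin 0) a 0 :=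
  ⟨Empty, inferInstance, Equiv.equivOfIsEmpty _ _, 1, fun i => isEmptyElim i⟩

lemma good_one {a k : ℕ} (h : 2 * k ≤ a) : Good Unit a k :=
  ⟨Fin (a - 2 * k), inferInstance, Fintype.equivOfCardEq (by simp; omega), 1, fun _ => rfl⟩

lemma good_two (a : ℕ) : Good Bool a a :=
  ⟨Empty, inferInstance, (Equiv.sumEmpty _ _).trans (Equiv.prodComm _ _), Equiv.boolNot, fun i => by
    rcases i with ⟨i, s⟩ | r
    · rfl
    · exact r.elim⟩

lemma good_fin (a : ℕ) : ∀ t k : ℕ, 2 * k ≤ t * a → Good (Fin t) a k := by
  intro t
  induction t using Nat.strong_induction_on with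
  | _ t ih =>
    intro k hk
    match t with
    | 0 => obtain rfl : k = 0 := by omega
           exact good_empty a
    | 1 => exact (good_one (by omega)).congr finOneEquiv.symm
    | t + 2 =>
      by_cases hka : a ≤ k
      · have h := ((good_two a).add (ih t (by omega) (k - a) (by rw [add_mul] at hk; omega))).congr
          ((finTwoEquiv.symm.sumCongr (Equiv.refl _)).trans (finSumFinEquiv.trans (finCongr (by omega) : _ ≃ Fin (t + 2))))
        rwa [show a + (k - a) = k by omega] at h
      · have h1 : 2 * (k - min k (a / 2)) ≤ (t + 1) * a := by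
          have : a ≤ (t + 1) * a := Nat.le_mul_of_pos_left a (by omega)
          omega
        have h := ((good_one (a := a) (k := min k (a / 2)) (by omega)).add (ih (t + 1) (by omega) _ h1)).congr
          ((finOneEquiv.symm.sumCongr (Equiv.refl _)).trans (finSumFinEquiv.trans (finCongr (by omega) : _ ≃ Fin (t + 2))))
        rwa [show min k (a / 2) + (k - min k (a / 2)) = k by omega] at h

/-- Arranging `k` pairs and some singles into `t` blocks of size `a` so that the pairing permutes the blocks. -/
theorem exists_layout {k t a : ℕ} (R : Type u) [Fintype R] (h : 2 * k + Fintype.card R = t * a) :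
    ∃ (e : (Fin k × Bool) ⊕ R ≃ Fin t × Fin a) (σ : Equiv.Perm (Fin t)), ∀ i, (e (swp i)).1 = σ (e i).1 := by
  obtain ⟨R', hR', e, σ, he⟩ := good_fin a t k (by omega)
  have hc := Fintype.card_congr e
  simp at hc
  let f : R ≃ R' := Fintype.equivOfCardEq (by omega)
  refine ⟨((Equiv.refl _).sumCongr f).trans e, σ, fun i => ?_⟩
  rcases i with ⟨i, s⟩ | r
  · exact he (Sum.inl (i, s))
  · exact he (Sum.inr (f r))

section Basis

open Module

variable {F : Type*} [Field F] {V : Type*} [AddCommGroup V] [Module F V] [FiniteDimensional F V]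

/-- A linear map squaring to a non-zero scalar is monomial with respect to some basis, with an involutory
permutation. -/
theorem exists_monomial (T : V →ₗ[F] V) {z : F} (hz : z ≠ 0) (hT : ∀ v, T (T v) = z • v) :
    ∃ (k r : ℕ) (b : Basis ((Fin k × Bool) ⊕ Fin r) F V), ∀ i, T (b i) ∈ F ∙ b (swp i) := by
  classical
  by_cases hsq : ∃ c, c * c = z
  · obtain ⟨c, rfl⟩ := hsq
    have hc : c ≠ 0 := left_ne_zero_of_mul hz
    let N : V →ₗ[F] V := T - c • LinearMap.id
    have hN : ∀ v, N v = T v - c • v := fun v => rfl
    by_cases h2 : (2 : F) = 0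
    · -- unipotent up to a scalar
      have hNN : ∀ v, N (N v) = 0 := fun v => by
        rw [hN, hN, map_sub, map_smul, hT]
        match_scalars <;>
          first | linear_combination (c * c) * h2 | linear_combination (-c) * h2 | linear_combination c * h2 | linear_combination -(c * c) * h2
      obtain ⟨C, hC⟩ := Submodule.exists_isCompl (LinearMap.ker N)
      obtain ⟨E₀, hE₀⟩ := Submodule.exists_isCompl (LinearMap.range N)
      let E : Submodule F V := E₀ ⊓ LinearMap.ker N
      have hRK : LinearMap.range N ≤ LinearMap.ker N := by rintro _ ⟨v, rfl⟩; exact hNN v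
      have hRE : LinearMap.range N ⊔ E = LinearMap.ker N := by
        rw [← sup_inf_assoc_of_le E₀ hRK, hE₀.sup_eq_top, top_inf_eq]
      let bC := finBasis F C
      let bE := finBasis F E
      let f : (Fin (finrank F C) × Bool) ⊕ Fin (finrank F E) → V :=
        Sum.elim (fun p => if p.2 then T (bC p.1 : V) else (bC p.1 : V)) (fun j => (bE j : V))
      have hspan : ⊤ ≤ Submodule.span F (Set.range f) := by
        have hCle : C ≤ Submodule.span F (Set.range f) := by
          intro x hx
          have hs := congrArg Subtype.val (bC.sum_repr ⟨x, hx⟩)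
          simp only [Submodule.coe_sum, Submodule.coe_smul] at hs
          rw [← hs]
          exact Submodule.sum_mem _ fun i _ => Submodule.smul_mem _ _ (Submodule.subset_span ⟨Sum.inl (i, false), rfl⟩)
        have hEle : E ≤ Submodule.span F (Set.range f) := by
          intro x hx
          have hs := congrArg Subtype.val (bE.sum_repr ⟨x, hx⟩)
          simp only [Submodule.coe_sum, Submodule.coe_smul] at hs
          rw [← hs]
          exact Submodule.sum_mem _ fun i _ => Submodule.smul_mem _ _ (Submodule.subset_span ⟨Sum.inr i, rfl⟩)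
        have hRle : LinearMap.range N ≤ Submodule.span F (Set.range f) := by
          rintro _ ⟨x, rfl⟩
          obtain ⟨a, b, ha, hb, rfl⟩ := Submodule.codisjoint_iff_exists_add_eq.1 hC.codisjoint x
          have hs := congrArg Subtype.val (bC.sum_repr ⟨b, hb⟩)
          simp only [Submodule.coe_sum, Submodule.coe_smul] at hs
          rw [map_add, LinearMap.mem_ker.1 ha, zero_add, ← hs, map_sum]
          refine Submodule.sum_mem _ fun i _ => ?_
          rw [map_smul]
          exact Submodule.smul_mem _ _ (Submodule.sub_mem _ (Submodule.subset_span ⟨Sum.inl (i, true), rfl⟩)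
            (Submodule.smul_mem _ c (Submodule.subset_span ⟨Sum.inl (i, false), rfl⟩)))
        rw [← hC.sup_eq_top, ← hRE]
        exact sup_le (sup_le hRle hEle) hCle
      have hcard : Fintype.card ((Fin (finrank F C) × Bool) ⊕ Fin (finrank F E)) = finrank F V := by
        simp only [Fintype.card_sum, Fintype.card_prod, Fintype.card_fin, Fintype.card_bool]
        have e1 := LinearMap.finrank_range_add_finrank_ker N
        have e2 := Submodule.finrank_add_eq_of_isCompl hC
        have e3 := Submodule.finrank_sup_add_finrank_inf_eq (LinearMap.range N) E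
        have e4 : LinearMap.range N ⊓ E = ⊥ :=
          le_bot_iff.1 ((inf_le_inf_left _ inf_le_left).trans hE₀.inf_eq_bot.le)
        rw [hRE, e4, finrank_bot] at e3
        omega
      refine ⟨_, _, basisOfTopLeSpanOfCardEqFinrank f hspan hcard, fun i => ?_⟩
      rw [coe_basisOfTopLeSpanOfCardEqFinrank]
      rcases i with ⟨i, _ | _⟩ | j
      · exact Submodule.mem_span_singleton_self _
      · show T (T (bC i : V)) ∈ F ∙ (bC i : V)
        rw [hT]; exact Submodule.mem_span_singleton.2 ⟨_, rfl⟩
      · show T (bE j : V) ∈ F ∙ (bE j : V)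
        exact Submodule.mem_span_singleton.2 ⟨c, (sub_eq_zero.1 ((bE j).2.2 : N (bE j : V) = 0)).symm⟩
    · -- diagonalisable
      let bP := finBasis F (LinearMap.ker N)
      let bM := finBasis F (LinearMap.ker (T + c • LinearMap.id))
      have hcpl : IsCompl (LinearMap.ker N) (LinearMap.ker (T + c • LinearMap.id)) := by
        refine ⟨Submodule.disjoint_def.2 fun v h1 h2' => ?_, Submodule.codisjoint_iff_exists_add_eq.2 fun v => ?_⟩
        · have a1 : T v - c • v = 0 := h1
          have a2 : T v + c • v = 0 := h2'
          have : (2 * c) • v = 0 := by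
            rw [two_mul, add_smul]; linear_combination (norm := module) a2 - a1
          exact (smul_eq_zero.1 this).resolve_left (mul_ne_zero h2 hc)
        · refine ⟨(2 * c)⁻¹ • (T v + c • v), -(2 * c)⁻¹ • (T v - c • v), ?_, ?_, ?_⟩
          · show N _ = 0
            rw [hN, map_smul, map_add, map_smul, hT]; module
          · show T _ + c • _ = 0
            rw [map_smul, map_sub, map_smul, hT, LinearMap.id_apply]; module
          · rw [neg_smul, ← sub_eq_add_neg, ← smul_sub, show T v + c • v - (T v - c • v) = (2 * c) • v by module, smul_smul,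
              inv_mul_cancel₀ (mul_ne_zero h2 hc), one_smul]
      let b := (bP.prod bM).map (Submodule.prodEquivOfIsCompl _ _ hcpl)
      refine ⟨0, _, b.reindex (finSumFinEquiv.trans (Equiv.emptySum _ _).symm), fun i => ?_⟩
      rcases i with ⟨i, _⟩ | j
      · exact i.elim0
      · rw [swp_inr]
        obtain ⟨j, rfl⟩ := finSumFinEquiv.surjective j
        rw [Basis.reindex_apply]
        simp only [Equiv.symm_trans_apply, Equiv.symm_symm, Equiv.emptySum_apply_inr, Equiv.symm_apply_apply]
        rcases j with j | j
        · have e : b (Sum.inl j) = (bP j : V) := by simp [b]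
          rw [e]
          exact Submodule.mem_span_singleton.2 ⟨c, (sub_eq_zero.1 ((bP j).2 : N (bP j : V) = 0)).symm⟩
        · have e : b (Sum.inr j) = (bM j : V) := by simp [b]
          rw [e]
          exact Submodule.mem_span_singleton.2 ⟨-c, by
            rw [neg_smul]; exact (eq_neg_of_add_eq_zero_left ((bM j).2 : T (bM j : V) + c • (bM j : V) = 0)).symm⟩
  · -- no eigenvalue
    let P : ℕ → Prop := fun k => ∃ v : Fin k → V,
      LinearIndependent F (fun p : Fin k × Bool => if p.2 then T (v p.1) else v p.1)
    have hP0 : P 0 := ⟨Fin.elim0, linearIndependent_empty_type⟩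
    have hbound : ∀ k, P k → k ≤ finrank F V := fun k ⟨v, hv⟩ => by
      have := hv.fintype_card_le_finrank
      simp at this; omega
    let k := Nat.findGreatest P (finrank F V)
    obtain ⟨v, hv⟩ : P k := Nat.findGreatest_spec (Nat.zero_le _) hP0
    set g := fun p : Fin k × Bool => if p.2 then T (v p.1) else v p.1 with hg
    set S := Submodule.span F (Set.range g) with hS
    have hTS : ∀ x ∈ S, T x ∈ S := fun x hx => by
      induction hx using Submodule.span_induction with
      | mem x hx =>
        obtain ⟨⟨i, _ | _⟩, rfl⟩ := hx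
        · exact Submodule.subset_span ⟨(i, true), rfl⟩
        · show T (T (v i)) ∈ S
          rw [hT]; exact Submodule.smul_mem _ _ (Submodule.subset_span ⟨(i, false), rfl⟩)
      | zero => simp
      | add x y _ _ hx hy => rw [map_add]; exact add_mem hx hy
      | smul a x _ hx => rw [map_smul]; exact Submodule.smul_mem _ _ hx
    have htop : ⊤ ≤ S := by
      by_contra hne
      obtain ⟨w, -, hw⟩ := SetLike.not_le_iff_exists.1 hne
      have hw2 : ∀ a b : F, a • w + b • T w ∈ S → a = 0 ∧ b = 0 := by
        intro a b hab
        by_cases hb : b = 0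
        · subst hb
          rw [zero_smul, add_zero] at hab
          exact ⟨by_contra fun ha => hw (by simpa [ha] using S.smul_mem a⁻¹ hab), rfl⟩
        · exfalso
          refine hw ?_
          have h1 : (b * z) • w + a • T w ∈ S := by
            have := hTS _ hab
            rw [map_add, map_smul, map_smul, hT, smul_smul, add_comm] at this
            exact this
          have h2 : (b * (b * z) - a * a) • w ∈ S := by
            have := S.sub_mem (S.smul_mem b h1) (S.smul_mem a hab)
            convert this using 1
            module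
          have h3 : b * (b * z) - a * a ≠ 0 := fun h => hsq ⟨a / b, by field_simp; linear_combination -h⟩
          simpa [h3] using S.smul_mem (b * (b * z) - a * a)⁻¹ h2
      let v' : Fin (k + 1) → V := Fin.snoc v w
      have hv' : P (k + 1) := by
        refine ⟨v', ?_⟩
        rw [Fintype.linearIndependent_iff]
        intro cf hcf
        rw [Fintype.sum_prod_type, Fin.sum_univ_castSucc] at hcf
        simp only [v', Fin.snoc_castSucc, Fin.snoc_last, Fintype.sum_bool, if_true] at hcf
        simp only [Bool.false_eq_true, if_false] at hcf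
        have hmem : ∑ i : Fin k, (cf (i.castSucc, true) • T (v i) + cf (i.castSucc, false) • v i) ∈ S :=
          Submodule.sum_mem _ fun i _ => add_mem (Submodule.smul_mem _ _ (Submodule.subset_span ⟨(i, true), rfl⟩))
            (Submodule.smul_mem _ _ (Submodule.subset_span ⟨(i, false), rfl⟩))
        obtain ⟨ha, hb⟩ := hw2 (cf (Fin.last k, false)) (cf (Fin.last k, true)) (by
          have := S.neg_mem hmem
          convert this using 1
          linear_combination (norm := module) hcf)
        rw [ha, hb] at hcf
        simp only [zero_smul, add_zero] at hcf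
        have hz' := Fintype.linearIndependent_iff.1 hv (fun p => cf (p.1.castSucc, p.2)) (by
          rw [Fintype.sum_prod_type]; simpa [Fintype.sum_bool, g] using hcf)
        rintro ⟨i, s⟩
        rcases Fin.eq_castSucc_or_eq_last i with ⟨i, rfl⟩ | rfl
        · exact hz' (i, s)
        · cases s <;> assumption
      have := Nat.le_findGreatest (hbound _ hv') hv'
      omega
    refine ⟨k, 0, (Basis.mk hv htop).reindex (Equiv.sumEmpty _ _).symm, fun i => ?_⟩
    rcases i with ⟨i, s⟩ | j
    · simp only [swp_inl, Basis.reindex_apply, Equiv.symm_symm, Equiv.sumEmpty_apply_inl, Basis.coe_mk]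
      cases s
      · exact Submodule.mem_span_singleton_self _
      · show T (T (v i)) ∈ F ∙ v i
        rw [hT]; exact Submodule.mem_span_singleton.2 ⟨_, rfl⟩
    · exact j.elim0

end Basis

end Cfsg.Lib.InvolBlocks
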