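import Mathlib

/-! Adapted bases of endomorphisms of square zero, and conjugacy by determinant one. -/

set_option autoImplicit false

namespace Cfsg.Agent.InvolJordan

variable {F V : Type*} [Field F] [AddCommGroup V] [Module F V] [FiniteDimensional F V]

theorem exists_basis (N : V →ₗ[F] V) (hN : ∀ v, N (N v) = 0) {n l : ℕ} (hn : Module.finrank F V = n)
    (hl : Module.finrank F (LinearMap.range N) = l) :
    2 * l ≤ n ∧ ∃ b : Module.Basis (Fin l ⊕ (Fin l ⊕ Fin (n - 2 * l))) F V,
      (∀ i, N (b (.inl i)) = b (.inr (.inl i))) ∧ ∀ j, N (b (.inr j)) = 0 := by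
  classical
  set R := LinearMap.range N with hR
  have hRK : R ≤ LinearMap.ker N := by
    rintro _ ⟨v, rfl⟩; exact hN v
  obtain ⟨C, hC⟩ := Submodule.exists_isCompl R
  set K := C ⊓ LinearMap.ker N with hK
  have hRKinf : R ⊓ K = ⊥ := le_bot_iff.1 (by rw [← hC.inf_eq_bot, hK]; exact inf_le_inf_left _ inf_le_left)
  have hRKsup : R ⊔ K = LinearMap.ker N := by
    rw [hK, ← sup_inf_assoc_of_le C hRK, hC.sup_eq_top, top_inf_eq]
  have hdK : l + Module.finrank F K + l = n := by
    have h1 := Submodule.finrank_sup_add_finrank_inf_eq R K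
    rw [hRKinf, hRKsup, finrank_bot, add_zero, hl] at h1
    have h2 := LinearMap.finrank_range_add_finrank_ker N
    rw [← hR, hl, hn] at h2
    omega
  have hle : 2 * l ≤ n := by omega
  refine ⟨hle, ?_⟩
  let bR := Module.finBasisOfFinrankEq F R hl
  let bK := Module.finBasisOfFinrankEq F K (show Module.finrank F K = n - 2 * l by omega)
  choose x hx using fun i => (bR i).2
  let w : Fin l ⊕ (Fin l ⊕ Fin (n - 2 * l)) → V :=
    Sum.elim x (Sum.elim (fun i => (bR i : V)) (fun j => (bK j : V)))
  have hLI : LinearIndependent F w := by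
    rw [Fintype.linearIndependent_iff]
    intro c hc
    simp only [Fintype.sum_sum_type, w, Sum.elim_inl, Sum.elim_inr] at hc
    have hKz : ∀ j, N (bK j : V) = 0 := fun j => (bK j).2.2
    have hRz : ∀ i, N (bR i : V) = 0 := fun i => hRK (bR i).2
    have h1 := congrArg N hc
    simp only [map_add, map_sum, map_smul, hx, hKz, hRz, smul_zero, Finset.sum_const_zero, add_zero, map_zero] at h1
    have h1' : ∑ i, c (.inl i) • bR i = 0 := Subtype.ext (by simpa using h1)
    have ha := Fintype.linearIndependent_iff.1 bR.linearIndependent _ h1'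
    simp only [ha, zero_smul, Finset.sum_const_zero, zero_add] at hc
    have h2 : ((∑ i, c (.inr (.inl i)) • bR i : R) : V) ∈ R ⊓ K := by
      refine ⟨Subtype.prop _, ?_⟩
      have e : ((∑ i, c (.inr (.inl i)) • bR i : R) : V) = -((∑ j, c (.inr (.inr j)) • bK j : K) : V) := by
        simp only [Submodule.coe_sum, SetLike.val_smul]
        exact eq_neg_of_add_eq_zero_left hc
      rw [e]; exact K.neg_mem (Subtype.prop _)
    rw [hRKinf, Submodule.mem_bot] at h2
    have hb := Fintype.linearIndependent_iff.1 bR.linearIndependent _ (Subtype.ext h2)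
    simp only [hb, zero_smul, Finset.sum_const_zero, zero_add] at hc
    have hk := Fintype.linearIndependent_iff.1 bK.linearIndependent _
      (show (∑ j, c (.inr (.inr j)) • bK j : K) = 0 from Subtype.ext (by simpa using hc))
    rintro (i | i | j)
    exacts [ha i, hb i, hk j]
  let b := basisOfLinearIndependentOfCardEqFinrank' w hLI (by
    rw [hn]; simp only [Fintype.card_sum, Fintype.card_fin]; omega)
  have hb : ⇑b = w := coe_basisOfLinearIndependentOfCardEqFinrank' w hLI _
  refine ⟨b, fun i => ?_, fun j => ?_⟩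
  · simp [hb, w, hx]
  · rcases j with i | j
    · simpa [hb, w] using hRK (bR i).2
    · simpa [hb, w] using (bK j).2.2

/-- Two square-zero endomorphisms of equal positive rank are intertwined by an equivalence of any
determinant that differs from a fixed one by a square. -/
theorem exists_intertwine (N M : V →ₗ[F] V) (hN : ∀ v, N (N v) = 0) (hM : ∀ v, M (M v) = 0)
    (hNM : Module.finrank F (LinearMap.range N) = Module.finrank F (LinearMap.range M)) (hN0 : N ≠ 0)
    (hsq : ∀ c : F, IsSquare c) :
    ∃ g : V ≃ₗ[F] V, LinearMap.det (g : V →ₗ[F] V) = 1 ∧ ∀ v, g (N v) = M (g v) := by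
  classical
  obtain ⟨hle, b, hb1, hb2⟩ := exists_basis N hN (n := Module.finrank F V) rfl rfl
  obtain ⟨-, b', hb1', hb2'⟩ := exists_basis M hM (n := Module.finrank F V) rfl hNM.symm
  let g₀ : V ≃ₗ[F] V := b.equiv b' (Equiv.refl _)
  have hg₀ : ∀ k, g₀ (b k) = b' k := fun k => by simp [g₀]
  have hl : 0 < Module.finrank F (LinearMap.range N) := by
    rw [Module.finrank_pos_iff]
    by_contra h
    rw [not_nontrivial_iff_subsingleton] at h
    exact hN0 (LinearMap.ext fun v => congrArg Subtype.val
      (Subsingleton.elim (⟨N v, v, rfl⟩ : LinearMap.range N) 0))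
  let i₀ : Fin (Module.finrank F (LinearMap.range N)) := ⟨0, hl⟩
  have hd : LinearMap.det (g₀ : V →ₗ[F] V) ≠ 0 := (LinearEquiv.isUnit_det' g₀).ne_zero
  obtain ⟨s, hs⟩ := hsq (LinearMap.det (g₀ : V →ₗ[F] V))⁻¹
  have hs0 : s ≠ 0 := by
    rintro rfl
    rw [mul_zero, inv_eq_zero] at hs
    exact hd hs
  let σ : Fin (Module.finrank F (LinearMap.range N)) → F := fun i => if i = i₀ then s else 1
  have hσ : ∀ i, σ i ≠ 0 := fun i => by simp only [σ]; split_ifs <;> simp [hs0]
  let d : Fin (Module.finrank F (LinearMap.range N)) ⊕ (Fin (Module.finrank F (LinearMap.range N)) ⊕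
      Fin (Module.finrank F V - 2 * Module.finrank F (LinearMap.range N))) → Fˣ :=
    Sum.elim (fun i => Units.mk0 _ (hσ i)) (Sum.elim (fun i => Units.mk0 _ (hσ i)) fun _ => 1)
  let h : V ≃ₗ[F] V := b.equiv (b.unitsSMul d) (Equiv.refl _)
  have hh : ∀ k, h (b k) = (d k : F) • b k := fun k => by
    simp only [h, Module.Basis.equiv_apply, Equiv.refl_apply, Module.Basis.unitsSMul_apply]
    rfl
  have hdet : LinearMap.det (h : V →ₗ[F] V) = s * s := by
    rw [← LinearMap.det_toMatrix b,
      show LinearMap.toMatrix b b (h : V →ₗ[F] V) = Matrix.diagonal (fun k => (d k : F)) from by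
        ext i j
        rw [LinearMap.toMatrix_apply]
        simp [hh, Matrix.diagonal_apply, Finsupp.single_apply, eq_comm]
        split_ifs with e <;> simp [e],
      Matrix.det_diagonal]
    simp [d, Fintype.prod_sum_type, σ, Finset.prod_ite_eq']
  refine ⟨h.trans g₀, ?_, ?_⟩
  · rw [LinearEquiv.coe_trans, LinearMap.det_comp, hdet, ← hs, mul_inv_cancel₀ hd]
  · intro v
    have e : ((h.trans g₀ : V ≃ₗ[F] V) : V →ₗ[F] V) ∘ₗ N = M ∘ₗ ((h.trans g₀ : V ≃ₗ[F] V) : V →ₗ[F] V) := by
      refine b.ext fun k => ?_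
      show g₀ (h (N (b k))) = M (g₀ (h (b k)))
      rw [hh, map_smul, map_smul, hg₀]
      rcases k with i | j
      · rw [hb1, hb1', hh, map_smul, hg₀]
        rfl
      · rw [hb2, hb2', map_zero, map_zero, smul_zero]
    exact LinearMap.congr_fun e v

end Cfsg.Agent.InvolJordan
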