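import Mathlib
import Cfsg.Agent.Lib.Classical.Witt

/-!
Maximal totally singular subspaces of a hyperbolic space: parity of intersections.
-/

set_option autoImplicit false

namespace Cfsg.Lib.Classical.PlusFamilies

open Module

variable {F V : Type*} [Field F] [AddCommGroup V] [Module F V] [FiniteDimensional F V] {Q : QuadraticForm F V}
  {m : ℕ}

local notation "β" => QuadraticMap.polarBilin Q

/-- Totally singular. -/
def TS (Q : QuadraticForm F V) (W : Submodule F V) : Prop := ∀ w ∈ W, Q w = 0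

lemma TS.polar {W : Submodule F V} (h : TS Q W) {x y : V} (hx : x ∈ W) (hy : y ∈ W) : β x y = 0 := by
  have := Witt.quad_add Q x y
  rw [h _ (W.add_mem hx hy), h _ hx, h _ hy] at this
  linear_combination -this

lemma TS.le_perp {W : Submodule F V} (h : TS Q W) : W ≤ LinearMap.BilinForm.orthogonal β W :=
  fun _ hw _ hv => h.polar hv hw

lemma TS.sup {A B : Submodule F V} (hA : TS Q A) (hB : TS Q B) (h : ∀ a ∈ A, ∀ b ∈ B, β a b = 0) : TS Q (A ⊔ B) := by
  intro w hw
  obtain ⟨a, ha, b, hb, rfl⟩ := Submodule.mem_sup.1 hw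
  rw [Witt.quad_add, hA a ha, hB b hb, h a ha b hb]
  ring

variable (hB : (QuadraticMap.polarBilin Q).Nondegenerate) (hd : finrank F V = 2 * m)
include hB hd

lemma finrank_perp (W : Submodule F V) : finrank F (LinearMap.BilinForm.orthogonal β W) = 2 * m - finrank F W := by
  rw [LinearMap.BilinForm.finrank_orthogonal hB, hd]

lemma TS.finrank_le {W : Submodule F V} (h : TS Q W) : finrank F W ≤ m := by
  have h1 := Submodule.finrank_mono h.le_perp
  have h2 := W.finrank_le
  rw [finrank_perp hB hd] at h1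
  omega

/-- One of two adjacent maximal subspaces meets any maximal subspace in one dimension more. -/
lemma adjacent {W X M Y : Submodule F V} (hW : TS Q W) (hWd : finrank F W = m) (hX : TS Q X) (hXd : finrank F X = m)
    (hM : TS Q M) (hMd : finrank F M = m) (hYW : Y ≤ W) (hYX : Y ≤ X) (hY : finrank F Y + 1 = m) (hne : W ≠ X) :
    (finrank F ↥(M ⊓ W) = finrank F ↥(M ⊓ Y) + 1 ∧ finrank F ↥(M ⊓ X) = finrank F ↥(M ⊓ Y)) ∨
    (finrank F ↥(M ⊓ X) = finrank F ↥(M ⊓ Y) + 1 ∧ finrank F ↥(M ⊓ W) = finrank F ↥(M ⊓ Y)) := by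
  have hWX : W ⊓ X = Y := by
    refine (Submodule.eq_of_le_of_finrank_le (le_inf hYW hYX) ?_).symm
    by_contra h
    have h1 : finrank F ↥(W ⊓ X) = m := le_antisymm (hWd ▸ Submodule.finrank_mono inf_le_left) (by omega)
    exact hne ((Submodule.eq_of_le_of_finrank_eq inf_le_left (h1.trans hWd.symm)).symm.trans
      (Submodule.eq_of_le_of_finrank_eq inf_le_right (h1.trans hXd.symm)))
  have hsup : finrank F ↥(W ⊔ X) = m + 1 := by
    have := Submodule.finrank_sup_add_finrank_inf_eq W X
    rw [hWX] at this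
    omega
  have hperp : W ⊔ X = LinearMap.BilinForm.orthogonal β Y := by
    refine Submodule.eq_of_le_of_finrank_eq (sup_le ?_ ?_) (by rw [hsup, finrank_perp hB hd]; omega)
    · exact fun w hw y hy => hW.polar (hYW hy) hw
    · exact fun w hw y hy => hX.polar (hYX hy) hw
  set A := M ⊓ LinearMap.BilinForm.orthogonal β Y with hA
  have hMperp : LinearMap.BilinForm.orthogonal β M = M :=
    (Submodule.eq_of_le_of_finrank_eq hM.le_perp (by rw [finrank_perp hB hd]; omega)).symm
  have hAd : finrank F A = finrank F ↥(M ⊓ Y) + 1 := by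
    have e : A = LinearMap.BilinForm.orthogonal β (M ⊔ Y) := by
      ext x
      constructor
      · rintro ⟨hxM, hxY⟩ z hz
        obtain ⟨a, ha, b, hb, rfl⟩ := Submodule.mem_sup.1 hz
        show β (a + b) x = 0
        have hax : β a x = 0 := hM.polar ha hxM
        have hbx : β b x = 0 := hxY b hb
        rw [map_add, LinearMap.add_apply, hax, hbx, add_zero]
      · intro hx
        refine ⟨?_, fun y hy => hx y (Submodule.mem_sup_right hy)⟩
        rw [← hMperp]
        exact fun a ha => hx a (Submodule.mem_sup_left ha)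
    rw [e, finrank_perp hB hd]
    have := Submodule.finrank_sup_add_finrank_inf_eq M Y
    have := Submodule.finrank_mono (inf_le_right : M ⊓ Y ≤ Y)
    omega
  have hY' : Y ≤ LinearMap.BilinForm.orthogonal β Y := fun y hy z hz => hW.polar (hYW hz) (hYW hy)
  have hMY : M ⊓ Y ≤ A := le_inf inf_le_left (inf_le_right.trans hY')
  obtain ⟨z, hzA, hzY⟩ : ∃ z ∈ A, z ∉ Y := by
    by_contra! h
    have := Submodule.finrank_mono (le_inf inf_le_left h : A ≤ M ⊓ Y)
    omega
  have hz : z ∈ W ∨ z ∈ X := by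
    have hzwx : z ∈ W ⊔ X := hperp ▸ hzA.2
    obtain ⟨w, hw, x, hx, hwx⟩ := Submodule.mem_sup.1 hzwx
    subst hwx
    by_cases hwY : w ∈ Y
    · exact Or.inr (X.add_mem (hYX hwY) hx)
    by_cases hxY : x ∈ Y
    · exact Or.inl (W.add_mem hw (hYW hxY))
    exfalso
    have hwx : β w x = 0 := by
      have := Witt.quad_add Q w x
      rw [hM _ hzA.1, hW w hw, hX x hx] at this
      linear_combination -this
    have hspan : ∀ (U : Submodule F V), Y ≤ U → finrank F U = m → ∀ u ∈ U, u ∉ Y → Y ⊔ Submodule.span F {u} = U := by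
      intro U hYU hU u hu huY
      refine Submodule.eq_of_le_of_finrank_le (sup_le hYU (by simpa using hu)) ?_
      have : Y < Y ⊔ Submodule.span F {u} := lt_of_le_of_ne le_sup_left fun h =>
        huY (h.symm ▸ Submodule.mem_sup_right (Submodule.mem_span_singleton_self u))
      have := Submodule.finrank_lt_finrank_of_lt this
      omega
    have hts : TS Q (W ⊔ X) := TS.sup hW hX fun a ha b hb => by
      rw [← hspan W hYW hWd w hw hwY] at ha
      rw [← hspan X hYX hXd x hx hxY] at hb
      obtain ⟨ya, hya, ua, hua, rfl⟩ := Submodule.mem_sup.1 ha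
      obtain ⟨yb, hyb, ub, hub, rfl⟩ := Submodule.mem_sup.1 hb
      obtain ⟨c, rfl⟩ := Submodule.mem_span_singleton.1 hua
      obtain ⟨d, rfl⟩ := Submodule.mem_span_singleton.1 hub
      simp only [map_add, map_smul, LinearMap.add_apply, LinearMap.smul_apply, hW.polar (hYW hya) (hYW hyb),
        hX.polar (hYX hya) hx, hW.polar hw (hYW hyb), hwx, smul_zero, add_zero]
    have := hts.finrank_le hB hd
    omega
  have hstep : ∀ {W X : Submodule F V}, W ⊓ X = Y → W ≤ LinearMap.BilinForm.orthogonal β Y →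
      X ≤ LinearMap.BilinForm.orthogonal β Y → z ∈ W → finrank F ↥(M ⊓ W) = finrank F ↥(M ⊓ Y) + 1 ∧ finrank F ↥(M ⊓ X) = finrank F ↥(M ⊓ Y) := by
    intro W X hWX hWp hXp hzW
    have h1 : M ⊓ W ≤ A := inf_le_inf_left M hWp
    have hlt : M ⊓ Y < M ⊓ W := lt_of_le_of_ne (inf_le_inf_left M (hWX ▸ inf_le_left)) fun h =>
      hzY ((h.symm ▸ (⟨hzA.1, hzW⟩ : z ∈ M ⊓ W) : z ∈ M ⊓ Y).2)
    have h2 := Submodule.finrank_lt_finrank_of_lt hlt
    have h3 := Submodule.finrank_mono h1
    have hAW : M ⊓ W = A := Submodule.eq_of_le_of_finrank_le h1 (by omega)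
    refine ⟨by omega, congrArg (fun U : Submodule F V => finrank F U) ?_⟩
    refine le_antisymm (le_inf inf_le_left fun x hx => ?_) (inf_le_inf_left M (hWX ▸ inf_le_right))
    have : x ∈ M ⊓ W := hAW.symm ▸ (⟨hx.1, hXp hx.2⟩ : x ∈ A)
    exact hWX ▸ (⟨this.2, hx.2⟩ : x ∈ W ⊓ X)
  rcases hz with hz | hz
  · exact Or.inl (hstep hWX (hperp ▸ le_sup_left) (hperp ▸ le_sup_right) hz)
  · exact Or.inr (hstep (inf_comm W X ▸ hWX) (hperp ▸ le_sup_right) (hperp ▸ le_sup_left) hz)

theorem parity : ∀ (n : ℕ) (U W X : Submodule F V), TS Q U → finrank F U = m → TS Q W → finrank F W = m →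
    TS Q X → finrank F X = m → finrank F ↥(W ⊓ X) + n = m →
    Even ((m - finrank F ↥(U ⊓ W)) + n + (m - finrank F ↥(U ⊓ X))) := by
  intro n
  induction n with
  | zero =>
    intro U W X hU hUd hW hWd hX hXd h
    have h1 : W = X := (Submodule.eq_of_le_of_finrank_eq inf_le_left (by omega)).symm.trans
      (Submodule.eq_of_le_of_finrank_eq inf_le_right (by omega))
    subst h1
    exact ⟨m - finrank F ↥(U ⊓ W), by omega⟩
  | succ n ih =>
    intro U W X hU hUd hW hWd hX hXd h
    obtain ⟨Y, hIY, hYX, hY⟩ : ∃ Y : Submodule F V, W ⊓ X ≤ Y ∧ Y ≤ X ∧ finrank F Y + 1 = m := by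
      obtain ⟨x, hx, hxI⟩ : ∃ x ∈ X, x ∉ W ⊓ X := by
        by_contra! h'
        have := Submodule.finrank_mono (show X ≤ W ⊓ X from h')
        omega
      obtain ⟨φ, hφx, hφ⟩ := Witt.exists_fun_of_not_mem _ hxI
      refine ⟨(LinearMap.ker φ) ⊓ X, le_inf (fun s hs => hφ s hs) inf_le_right, inf_le_right, ?_⟩
      have hne : φ.comp X.subtype ≠ 0 := fun h0 => by
        have := LinearMap.congr_fun h0 ⟨x, hx⟩
        simp [hφx] at this
      have h1 := Module.Dual.finrank_ker_add_one_of_ne_zero hne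
      have h2 := (Submodule.comapSubtypeEquivOfLe (inf_le_right : LinearMap.ker φ ⊓ X ≤ X)).finrank_eq
      have h3 : Submodule.comap X.subtype (LinearMap.ker φ ⊓ X) = LinearMap.ker (φ.comp X.subtype) := by ext; simp
      rw [h3] at h2
      omega
    obtain ⟨z, hz, hzY⟩ : ∃ z ∈ W ⊓ LinearMap.BilinForm.orthogonal β Y, z ∉ Y := by
      by_contra! h'
      have hle : W ⊓ LinearMap.BilinForm.orthogonal β Y ≤ W ⊓ X := le_inf inf_le_left (fun x hx => hYX (h' x hx))
      have e : LinearMap.BilinForm.orthogonal β (W ⊔ Y) ≤ W ⊓ LinearMap.BilinForm.orthogonal β Y := by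
        refine le_inf (fun x hx => ?_) (fun x hx y hy => hx y (Submodule.mem_sup_right hy))
        rw [show W = LinearMap.BilinForm.orthogonal β W from
          Submodule.eq_of_le_of_finrank_eq hW.le_perp (by rw [finrank_perp hB hd]; omega)]
        exact fun a ha => hx a (Submodule.mem_sup_left ha)
      have h2 := Submodule.finrank_mono (e.trans hle)
      rw [finrank_perp hB hd] at h2
      have h3 := Submodule.finrank_sup_add_finrank_inf_eq W Y
      have h4 : W ⊓ Y = W ⊓ X := le_antisymm (inf_le_inf_left W hYX) (le_inf inf_le_left hIY)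
      rw [h4] at h3
      omega
    set X' := Y ⊔ Submodule.span F {z}
    have hzX : z ∉ X := fun h' => hzY (hIY ⟨hz.1, h'⟩)
    have hX' : TS Q X' := TS.sup (fun y hy => hX y (hYX hy)) (fun w hw => by
      obtain ⟨c, rfl⟩ := Submodule.mem_span_singleton.1 hw
      rw [Witt.quad_smul, hW z hz.1, mul_zero]) fun a ha b hb => by
      obtain ⟨c, rfl⟩ := Submodule.mem_span_singleton.1 hb
      have hb' : β a z = 0 := hz.2 a ha
      rw [map_smul, hb', smul_zero]
    have hX'd : finrank F X' = m := by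
      refine le_antisymm (hX'.finrank_le hB hd) ?_
      have : finrank F Y < finrank F X' := Submodule.finrank_lt_finrank_of_lt (lt_of_le_of_ne (le_sup_left : Y ≤ X') fun h' =>
        hzY (h'.symm ▸ Submodule.mem_sup_right (Submodule.mem_span_singleton_self z)))
      omega
    have hzX' : z ∈ X' := Submodule.mem_sup_right (Submodule.mem_span_singleton_self z)
    have hne : X' ≠ X := fun h' => hzX (h' ▸ hzX')
    have hWY : W ⊓ Y = W ⊓ X := le_antisymm (inf_le_inf_left W hYX) (le_inf inf_le_left hIY)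
    have hstep : finrank F ↥(W ⊓ X') = finrank F ↥(W ⊓ X) + 1 := by
      rcases adjacent hB hd hX' hX'd hX hXd hW hWd le_sup_left hYX hY hne with ⟨a, b⟩ | ⟨a, b⟩ <;> rw [hWY] at a b
      · exact a
      · omega
    have := ih U W X' hU hUd hW hWd hX' hX'd (by omega)
    have hu := adjacent hB hd hX' hX'd hX hXd hU hUd le_sup_left hYX hY hne
    have l1 := hUd ▸ Submodule.finrank_mono (inf_le_left : U ⊓ X ≤ U)
    have l2 := hUd ▸ Submodule.finrank_mono (inf_le_left : U ⊓ X' ≤ U)
    rw [Nat.even_iff] at this ⊢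
    omega

end Cfsg.Lib.Classical.PlusFamilies
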