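import Mathlib
import Cfsg.Agent.Lib.Classical.OmegaCrit
import Cfsg.Agent.Lib.Classical.PlusFamilies
import Cfsg.Agent.Lib.Classical.SphereMod

/-! Transitivity of `Omega` on subspaces. -/

set_option autoImplicit false

namespace Cfsg.Lib.Classical.OmegaMove

open Module Reflections Spinor OrthMatrix PlusFamilies

variable {F V : Type*} [Field F] [AddCommGroup V] [Module F V] [FiniteDimensional F V] {Q : QuadraticForm F V}

local notation "β" => QuadraticMap.polarBilin Q
local notation "G" => Witt.quadIso Q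

variable (hB : (QuadraticMap.polarBilin Q).Nondegenerate)

/-- An isometry between subspaces extends. -/
theorem exists_map (hB : (QuadraticMap.polarBilin Q).Nondegenerate) {U W : Submodule F V} (e : U ≃ₗ[F] W)
    (he : ∀ u : U, Q (e u : V) = Q (u : V)) : ∃ g : G, U.map g.1.toLinearMap = W := by
  let b := finBasis F U
  obtain ⟨g, hg, hge⟩ := Witt.quad_witt hB (fun i => (b i : V)) (fun i => (e (b i) : V))
    (b.linearIndependent.map' U.subtype U.ker_subtype) ((b.map e).linearIndependent.map' W.subtype W.ker_subtype)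
    (fun i => (he _).symm) (fun i j => by
      have := he (b i + b j)
      rw [map_add, Submodule.coe_add, Submodule.coe_add, Witt.quad_add, Witt.quad_add, he, he] at this
      exact (add_left_cancel this).symm)
  refine ⟨⟨g, hg⟩, ?_⟩
  have key : ∀ u : U, g (u : V) = (e u : V) := fun u =>
    LinearMap.congr_fun (b.ext (f₁ := g.toLinearMap.comp U.subtype) (f₂ := W.subtype.comp e.toLinearMap) fun i => hge i) u
  refine le_antisymm ?_ fun w hw => ⟨(e.symm ⟨w, hw⟩ : U), (e.symm ⟨w, hw⟩).2, ?_⟩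
  · rintro _ ⟨u, hu, rfl⟩
    show g u ∈ W
    rw [key ⟨u, hu⟩]; exact (e _).2
  · show g _ = w
    rw [key, e.apply_symm_apply]

omit [FiniteDimensional F V] in
lemma map_mul_eq {U W : Submodule F V} {g h : G} (hg : U.map g.1.toLinearMap = W) (hh : W.map h.1.toLinearMap = W) :
    U.map (h * g).1.toLinearMap = W := by
  rw [show (h * g).1.toLinearMap = h.1.toLinearMap.comp g.1.toLinearMap from rfl, Submodule.map_comp, hg, hh]

lemma refl_map_eq {W : Submodule F V} {v : V} (hv : v ∈ W ∨ ∀ w ∈ W, β v w = 0) :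
    W.map (refl Q v).1.toLinearMap = W := by
  refine Submodule.eq_of_le_of_finrank_eq ?_
    (Submodule.equivMapOfInjective _ (refl Q v).1.injective W).finrank_eq.symm
  rintro _ ⟨w, hw, rfl⟩
  show (refl Q v).1 w ∈ W
  rw [refl_apply]
  rcases hv with hv | hv
  · exact W.sub_mem hw (W.smul_mem _ hv)
  · rw [hv w hw, mul_zero, zero_smul, sub_zero]; exact hw

variable [Finite F] [Finite V] (hex : (∃ c : F, c ≠ 0 ∧ c ≠ 1) ∨ finrank F V ≠ 4)
include hex hB

/-- Adjusting an isometry by the stabilizer of the target, odd characteristic. -/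
theorem adjust_odd (h2 : (2 : F) ≠ 0) (hn : 2 ≤ finrank F V) {U W : Submodule F V} {g : G} (hg : U.map g.1.toLinearMap = W)
    (hd : delta hB hex g = 1 ∨ ∃ h : G, W.map h.1.toLinearMap = W ∧ delta hB hex h = -1)
    (hθ : ∃ h : G, W.map h.1.toLinearMap = W ∧ delta hB hex h = 1 ∧ theta h = -1) :
    ∃ g' : G, g' ∈ commutator G ∧ U.map g'.1.toLinearMap = W := by
  obtain ⟨g₁, hg₁, hd₁⟩ : ∃ g₁ : G, U.map g₁.1.toLinearMap = W ∧ delta hB hex g₁ = 1 := by
    rcases Int.units_eq_one_or (delta hB hex g) with e | e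
    · exact ⟨g, hg, e⟩
    · obtain ⟨h, hh, hhd⟩ := hd.resolve_left fun e' => absurd (e'.symm.trans e) (by decide)
      exact ⟨h * g, map_mul_eq hg hh, by rw [map_mul, hhd, e]; rfl⟩
  obtain ⟨h, hh, hhd, hhθ⟩ := hθ
  rw [commutator_eq hB hex h2 hn]
  rcases Int.units_eq_one_or (theta g₁) with e | e
  · exact ⟨g₁, Prod.ext hd₁ e, hg₁⟩
  · exact ⟨h * g₁, Prod.ext (by show delta hB hex (h * g₁) = 1; rw [map_mul, hhd, hd₁, mul_one])
      (by show theta (h * g₁) = 1; rw [map_mul, hhθ, e]; rfl), map_mul_eq hg₁ hh⟩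

/-- Adjusting an isometry by the stabilizer of the target, characteristic two. -/
theorem adjust_even (h2 : (2 : F) = 0) {U W : Submodule F V} {g : G} (hg : U.map g.1.toLinearMap = W)
    (hd : delta hB hex g = 1 ∨ ∃ h : G, W.map h.1.toLinearMap = W ∧ delta hB hex h = -1) :
    ∃ g' : G, g' ∈ commutator G ∧ U.map g'.1.toLinearMap = W := by
  rw [commutator_eq_even hB hex h2]
  rcases Int.units_eq_one_or (delta hB hex g) with e | e
  · exact ⟨g, e, hg⟩
  · obtain ⟨h, hh, hhd⟩ := hd.resolve_left fun e' => absurd (e'.symm.trans e) (by decide)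
    exact ⟨h * g, (by show delta hB hex (h * g) = 1; rw [map_mul, hhd, e]; rfl), map_mul_eq hg hh⟩

/-- A totally singular `W ≠ 0` has stabilizer elements of determinant one and spinor sign `-1`. -/
theorem exists_theta_ts (h2 : (2 : F) ≠ 0) {W : Submodule F V} (hW : TS Q W) (hne : W ≠ ⊥) :
    ∃ h : G, W.map h.1.toLinearMap = W ∧ delta hB hex h = 1 ∧ theta h = -1 := by
  classical
  haveI := Fintype.ofFinite F
  obtain ⟨d, hd⟩ := FiniteField.exists_nonsquare (F := F) fun h => h2 (by haveI := ringChar.of_eq h; exact CharTwo.two_eq_zero)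
  have hd0 : d ≠ 0 := fun h => hd (h ▸ IsSquare.zero)
  obtain ⟨w, hw, hw0⟩ := Submodule.exists_mem_ne_zero_of_ne_bot hne
  obtain ⟨f0, hf0⟩ : ∃ f0, β f0 w = 1 := by
    obtain ⟨y, hy⟩ : ∃ y, β w y ≠ 0 := by
      by_contra! h0; exact hw0 (hB.1 w h0)
    exact ⟨(β w y)⁻¹ • y, by rw [map_smul, LinearMap.smul_apply, Witt.polar_symm' Q y w, smul_eq_mul, inv_mul_cancel₀ hy]⟩
  let f := f0 - Q f0 • w
  have hfw : β f w = 1 := by simp only [f, map_sub, map_smul, LinearMap.sub_apply, LinearMap.smul_apply, hW.polar hw hw, hf0, smul_zero, sub_zero]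
  have hQf : Q f = 0 := by
    have := Witt.quad_add Q f (Q f0 • w)
    rw [show f + Q f0 • w = f0 from sub_add_cancel _ _, Witt.quad_smul, hW w hw, map_smul, hfw, smul_eq_mul] at this
    linear_combination -this
  let v : F → V := fun c => w - c • f
  have hQv : ∀ c, Q (v c) = -c := fun c => by
    rw [show v c = w + (-c) • f by simp [v, sub_eq_add_neg], Witt.quad_add, Witt.quad_smul, hQf, hW w hw, map_smul, Witt.polar_symm' Q w f, hfw, smul_eq_mul]
    ring
  have hv0 : ∀ {c : F}, c ≠ 0 → Q (v c) ≠ 0 := fun hc => by rw [hQv]; exact neg_ne_zero.2 hc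
  have hstep : ∀ a b : F, a ≠ 0 → b ≠ 0 → ∀ x ∈ W, (refl Q (v a) * refl Q (v b)).1 x ∈ W := by
    intro a b ha hb x hx
    show (refl Q (v a)).1 ((refl Q (v b)).1 x) ∈ W
    have hvx : ∀ c, β (v c) x = -c * β f x := fun c => by
      simp only [v, map_sub, map_smul, LinearMap.sub_apply, LinearMap.smul_apply, hW.polar hw hx, smul_eq_mul]; ring
    have hvv : β (v a) (v b) = -a - b := by
      simp only [v, map_sub, map_smul, LinearMap.sub_apply, LinearMap.smul_apply, hW.polar hw hw, hfw,
        Witt.polar_symm' Q w f, Witt.polar_self' Q f, hQf, smul_eq_mul]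
      ring
    rw [refl_apply, refl_apply, hQv, hQv, LinearMap.map_sub (β (v a)), LinearMap.map_smul (β (v a)), hvx, hvx, hvv, smul_eq_mul]
    have : x - ((-b)⁻¹ * (-b * β f x)) • v b - ((-a)⁻¹ * (-a * β f x - (-b)⁻¹ * (-b * β f x) * (-a - b))) • v a
        = x - (β f x - β f x * (b / a)) • w := by
      match_scalars <;> field_simp <;> ring
    rw [this]
    exact W.sub_mem hx (W.smul_mem _ hw)
  refine ⟨refl Q (v 1) * refl Q (v d), Submodule.eq_of_le_of_finrank_eq ?_ (Submodule.equivMapOfInjective _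
    (refl Q (v 1) * refl Q (v d)).1.injective W).finrank_eq.symm, ?_, ?_⟩
  · rintro _ ⟨x, hx, rfl⟩; exact hstep 1 d one_ne_zero hd0 x hx
  · rw [map_mul, delta_refl hB hex (hv0 one_ne_zero), delta_refl hB hex (hv0 hd0)]; rfl
  · refine Units.ext ?_
    rw [map_mul, Units.val_mul]
    have key : ∀ {c : F}, c ≠ 0 → ((theta (refl Q (v c)) : ℤˣ) : ℤ) = -quadraticChar F (-c) := fun {c} hc => by
      by_cases hs : IsSquare (-c)
      · rw [(theta_refl h2 (hv0 hc)).2 (by rwa [hQv]), (quadraticChar_one_iff_isSquare (neg_ne_zero.2 hc)).2 hs]; rfl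
      · rw [(Int.units_eq_one_or _).resolve_right fun e => hs (hQv c ▸ (theta_refl h2 (hv0 hc)).1 e),
          quadraticChar_neg_one_iff_not_isSquare.2 hs]; rfl
    rw [key one_ne_zero, key hd0, neg_mul_neg, ← map_mul, neg_mul_neg, one_mul, quadraticChar_neg_one_iff_not_isSquare.2 hd]
    rfl

omit [Finite F] [Finite V] in
/-- A reflection moves a Lagrangian to an adjacent one. -/
theorem even_iff_delta {m : ℕ} (hd : finrank F V = 2 * m) {U : Submodule F V} (hU : TS Q U) (hUd : finrank F U = m) (g : G) :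
    Even (m - finrank F ↥(U ⊓ U.map g.1.toLinearMap)) ↔ delta hB hex g = 1 := by
  induction g using induction_refl hB hex with
  | h1 =>
    rw [show U.map (1 : G).1.toLinearMap = U from U.map_id, inf_idem, hUd, map_one]
    simp
  | h v g hv ih =>
    set W := U.map g.1.toLinearMap with hW
    have hWts : TS Q W := by rintro _ ⟨u, hu, rfl⟩; exact (g.2 u).trans (hU u hu)
    have hWd : finrank F W = m := (Submodule.equivMapOfInjective _ g.1.injective U).finrank_eq.symm.trans hUd
    have hX : U.map (refl Q v * g).1.toLinearMap = W.map (refl Q v).1.toLinearMap := by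
      rw [hW, ← Submodule.map_comp]; rfl
    rw [hX]
    set X := W.map (refl Q v).1.toLinearMap with hXdef
    have hXts : TS Q X := by rintro _ ⟨u, hu, rfl⟩; exact ((refl Q v).2 u).trans (hWts u hu)
    have hXd : finrank F X = m := (Submodule.equivMapOfInjective _ (refl Q v).1.injective W).finrank_eq.symm.trans hWd
    have hvW : v ∉ W := fun h => hv (hWts v h)
    have hperp : LinearMap.BilinForm.orthogonal β W = W :=
      (Submodule.eq_of_le_of_finrank_eq hWts.le_perp (by rw [finrank_perp hB hd]; omega)).symm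
    have hWX : W ⊓ X = LinearMap.ker (β v) ⊓ W := by
      ext x
      constructor
      · rintro ⟨hxW, y, hy, hyx⟩
        have hyx' : y - ((Q v)⁻¹ * β v y) • v = x := by rw [← refl_apply]; exact hyx
        have : ((Q v)⁻¹ * β v y) • v ∈ W := by
          rw [show ((Q v)⁻¹ * β v y) • v = y - x by rw [← hyx']; abel]
          exact W.sub_mem hy hxW
        have h0 : (Q v)⁻¹ * β v y = 0 := by
          by_contra hc
          exact hvW ((W.smul_mem_iff hc).1 this)
        rw [h0, zero_smul, sub_zero] at hyx'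
        subst hyx'
        exact ⟨(mul_eq_zero.1 h0).resolve_left (inv_ne_zero hv), hxW⟩
      · rintro ⟨hx, hxW⟩
        exact ⟨hxW, x, hxW, refl_fix Q (hx : β v x = 0)⟩
    have hne : (β v).comp W.subtype ≠ 0 := fun h0 => hvW (by
      rw [← hperp]
      intro w hw
      show β w v = 0
      rw [Witt.polar_symm']
      exact LinearMap.congr_fun h0 ⟨w, hw⟩)
    have h1 := Module.Dual.finrank_ker_add_one_of_ne_zero hne
    have h3 := (Submodule.comapSubtypeEquivOfLe (inf_le_right : LinearMap.ker (β v) ⊓ W ≤ W)).finrank_eq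
    rw [show Submodule.comap W.subtype (LinearMap.ker (β v) ⊓ W) = LinearMap.ker ((β v).comp W.subtype) by ext; simp, ← hWX] at h3
    have := PlusFamilies.parity hB hd 1 U W X hU hUd hWts hWd hXts hXd (by omega)
    rw [map_mul, delta_refl hB hex hv]
    have e : Even (m - finrank F ↥(U ⊓ X)) ↔ ¬ Even (m - finrank F ↥(U ⊓ W)) := by
      simp only [Nat.even_iff] at this ⊢; omega
    rw [e, ih]
    rcases Int.units_eq_one_or (delta hB hex g) with e' | e' <;> simp [e']

end Cfsg.Lib.Classical.OmegaMove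

namespace Cfsg.Lib.Classical.OmegaMove

open OrthMatrix

variable {ι : Type} [Fintype ι] [DecidableEq ι] {F : Type*} [Field F] {f : (ι → F) → F}
  {Q : QuadraticForm F (ι → F)} (h : ∀ v, Q v = f v)

include h in
/-- Back to matrices. -/
theorem to_matrix {U W : Submodule F (ι → F)}
    (hg : ∃ g : Witt.quadIso Q, g ∈ _root_.commutator ↥(Witt.quadIso Q) ∧ U.map g.1.toLinearMap = W) :
    ∃ g : Cfsg.isometryGroup F f, g ∈ Cfsg.Omega F f ∧
      U.map (Matrix.mulVecLin ((g : Matrix.GeneralLinearGroup ι F) : Matrix ι ι F)) = W := by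
  obtain ⟨g, hg, hgU⟩ := hg
  refine ⟨(eI h).symm g, ?_, ?_⟩
  · rw [omega_eq h]; simpa using hg
  · refine Eq.trans ?_ hgU
    congr 1
    refine LinearMap.ext fun x => ?_
    show ((((eI h).symm g : Cfsg.isometryGroup F f) : Matrix.GeneralLinearGroup ι F) : Matrix ι ι F).mulVec x = g.1 x
    rw [← eI_apply h, MulEquiv.apply_symm_apply]

end Cfsg.Lib.Classical.OmegaMove

namespace Cfsg.Lib.Classical.OmegaMove

open Module Reflections Spinor

variable {F V : Type*} [Field F] [AddCommGroup V] [Module F V] [FiniteDimensional F V] {Q : QuadraticForm F V}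

local notation "β" => QuadraticMap.polarBilin Q

/-- A nondegenerate nonzero subspace contains a nonsingular vector. -/
theorem exists_ne_zero_of_nondeg {S : Submodule F V} (hS : S ⊓ LinearMap.BilinForm.orthogonal β S = ⊥) (hne : S ≠ ⊥) :
    ∃ v ∈ S, Q v ≠ 0 := by
  by_contra! h
  refine hne (eq_bot_iff.2 fun x hx => hS ▸ (⟨hx, fun y hy => ?_⟩ : x ∈ S ⊓ LinearMap.BilinForm.orthogonal β S))
  exact PlusFamilies.TS.polar h hy hx

omit [FiniteDimensional F V] in
theorem nondeg_restrict {S : Submodule F V} (hS : S ⊓ LinearMap.BilinForm.orthogonal β S = ⊥) :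
    (QuadraticMap.polarBilin (Q.comp S.subtype)).Nondegenerate := by
  refine QuadOrders.nondeg_of_left (fun x y => Witt.polar_symm' _ x y) fun x hx => Subtype.ext ?_
  have : (x : V) ∈ S ⊓ LinearMap.BilinForm.orthogonal β S := ⟨x.2, fun y hy => by
    show β y x = 0
    rw [Witt.polar_symm']
    have := hx ⟨y, hy⟩
    simpa [QuadraticMap.polar] using this⟩
  rwa [hS] at this

omit [FiniteDimensional F V] in
theorem mem_or_perp {W S : Submodule F V} (hS : S = W ∨ S = LinearMap.BilinForm.orthogonal β W) {v : V} (hv : v ∈ S) :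
    v ∈ W ∨ ∀ w ∈ W, β v w = 0 := by
  rcases hS with rfl | rfl
  · exact Or.inl hv
  · exact Or.inr fun w hw => by rw [Witt.polar_symm']; exact hv w hw

variable [Finite F] [Finite V] (hB : (QuadraticMap.polarBilin Q).Nondegenerate)
  (hex : (∃ c : F, c ≠ 0 ∧ c ≠ 1) ∨ finrank F V ≠ 4)

/-- A nondegenerate plane or larger gives both spinor classes inside a stabilizer. -/
theorem exists_theta_nondeg (h2 : (2 : F) ≠ 0) {W S : Submodule F V} (hSW : S = W ∨ S = LinearMap.BilinForm.orthogonal β W)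
    (hS : S ⊓ LinearMap.BilinForm.orthogonal β S = ⊥) (hd : 2 ≤ finrank F S) :
    ∃ h : Witt.quadIso Q, W.map h.1.toLinearMap = W ∧ delta hB hex h = 1 ∧ theta h = -1 := by
  classical
  haveI := Fintype.ofFinite F
  obtain ⟨d, hdsq⟩ := FiniteField.exists_nonsquare (F := F) fun h => h2 (by haveI := ringChar.of_eq h; exact CharTwo.two_eq_zero)
  obtain ⟨u, hu⟩ := Spinor.exists_value (nondeg_restrict hS) h2 hd 1
  obtain ⟨w, hw⟩ := Spinor.exists_value (nondeg_restrict hS) h2 hd d
  have hu' : Q (u : V) = 1 := hu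
  have hw' : Q (w : V) = d := hw
  have hu0 : Q (u : V) ≠ 0 := by rw [hu']; exact one_ne_zero
  have hw0 : Q (w : V) ≠ 0 := by rw [hw']; exact fun h => hdsq (h ▸ IsSquare.zero)
  refine ⟨refl Q (u : V) * refl Q (w : V), map_mul_eq (refl_map_eq (mem_or_perp hSW w.2)) (refl_map_eq (mem_or_perp hSW u.2)), ?_, ?_⟩
  · rw [map_mul, delta_refl hB hex hu0, delta_refl hB hex hw0]; rfl
  · rw [map_mul, (theta_refl h2 hu0).2 (hu' ▸ IsSquare.one),
      (Int.units_eq_one_or _).resolve_right fun h => hdsq (hw' ▸ (theta_refl h2 hw0).1 h), mul_one]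

end Cfsg.Lib.Classical.OmegaMove
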