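import Mathlib
import Cfsg.Agent.Lib.Classical.OmegaCrit
import Cfsg.Agent.Lib.Classical.OmegaMove

/-! Involutions of orthogonal groups in characteristic two. -/

set_option autoImplicit false

namespace Cfsg.Lib.Classical.InvolOmega

open Module Reflections Spinor OrthMatrix
open scoped Matrix

variable {ι : Type} [Fintype ι] [DecidableEq ι] {F : Type*} [Field F] {f : (ι → F) → F}
  {Q : QuadraticForm F (ι → F)} (h : ∀ v, Q v = f v)

include h

lemma rank_eq (g : Cfsg.isometryGroup F f) :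
    (((g : Matrix.GeneralLinearGroup ι F) : Matrix ι ι F) - 1).rank = rk Q (eI h g) := by
  rw [Matrix.rank, show Matrix.mulVecLin (((g : Matrix.GeneralLinearGroup ι F) : Matrix ι ι F) - 1) =
    ((eI h g).1 : (ι → F) →ₗ[F] (ι → F)) - LinearMap.id from LinearMap.ext fun x => by simp [Matrix.sub_mulVec, eI_apply h]]
  rfl

lemma movSp_eq_range (g : Cfsg.isometryGroup F f) :
    movSp Q (eI h g) = LinearMap.range (Matrix.toLin' (((g : Matrix.GeneralLinearGroup ι F) : Matrix ι ι F) - 1)) := by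
  rw [movSp]
  congr 1
  refine LinearMap.ext fun x => ?_
  simp [Matrix.sub_mulVec, eI_apply h]

variable (hB : (QuadraticMap.polarBilin Q).Nondegenerate) (hex : (∃ c : F, c ≠ 0 ∧ c ≠ 1) ∨ finrank F (ι → F) ≠ 4)
include hB hex

lemma mem_iff [Finite F] (h2 : (2 : F) = 0) (g : Cfsg.isometryGroup F f) :
    g ∈ Cfsg.Omega F f ↔ delta hB hex (eI h g) = 1 := by
  rw [omega_eq h, commutator_eq_even hB hex h2]
  exact Iff.rfl

theorem mem_iff_rank [Finite F] (h2 : (2 : F) = 0) (g : Cfsg.isometryGroup F f) :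
    g ∈ Cfsg.Omega F f ↔ Even (((g : Matrix.GeneralLinearGroup ι F) : Matrix ι ι F) - 1).rank := by
  rw [mem_iff h hB hex h2, rank_eq h]
  exact neg_one_pow_eq_one_iff_even (by decide)

omit hB hex in
lemma mov_le_fix (h2 : (2 : F) = 0) {t : Cfsg.isometryGroup F f} (ht : t * t = 1) :
    movSp Q (eI h t) ≤ fixSp Q (eI h t) := by
  rintro x hx
  obtain ⟨z, rfl⟩ := mem_movSp.1 hx
  have h1 : (eI h t).1 ((eI h t).1 z) = z := by
    show (eI h t * eI h t).1 z = z
    rw [← map_mul, ht, map_one]; rfl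
  rw [mem_fixSp, map_sub, h1, ← sub_eq_zero]
  have : z - (eI h t).1 z - ((eI h t).1 z - z) = (2 : F) • (z - (eI h t).1 z) := by rw [two_smul]; abel
  rw [this, h2, zero_smul]

/-- A conjugating element can be chosen in `Omega` when `t` fixes a nonsingular vector. -/
theorem exists_conj [Finite F] (h2 : (2 : F) = 0) {t s : Cfsg.isometryGroup F f} (hc : IsConj t s)
    (hv : ∃ v, (eI h t).1 v = v ∧ Q v ≠ 0) : ∃ g ∈ Cfsg.Omega F f, g * t * g⁻¹ = s := by
  obtain ⟨g, hg⟩ := isConj_iff.1 hc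
  obtain ⟨v, hfix, hv0⟩ := hv
  rcases Int.units_eq_one_or (delta hB hex (eI h g)) with e | e
  · exact ⟨g, (mem_iff h hB hex h2 g).2 e, hg⟩
  · let r := (eI h).symm (refl Q v)
    have hrt : r * t = t * r := by
      apply (eI h).injective
      rw [map_mul, map_mul, MulEquiv.apply_symm_apply, eq_comm, ← mul_inv_eq_iff_eq_mul, conj_refl, hfix]
    refine ⟨g * r, (mem_iff h hB hex h2 _).2 ?_, ?_⟩
    · rw [map_mul, map_mul, MulEquiv.apply_symm_apply, e, delta_refl hB hex hv0]; rfl
    · rw [← hg, mul_inv_rev, mul_assoc g r t, hrt]; group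

omit hex in
/-- Dimension of the fixed space of an involution. -/
theorem fix_dim (h2 : (2 : F) = 0) {t : Cfsg.isometryGroup F f} (ht : t * t = 1) :
    finrank F (ι → F) ≤ 2 * finrank F (fixSp Q (eI h t)) ∧
      finrank F (fixSp Q (eI h t)) + (((t : Matrix.GeneralLinearGroup ι F) : Matrix ι ι F) - 1).rank = finrank F (ι → F) := by
  have h1 := fix_add_mov (eI h t)
  have h3 : rk Q (eI h t) ≤ finrank F (fixSp Q (eI h t)) := Submodule.finrank_mono (mov_le_fix h h2 ht)
  rw [rank_eq h]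
  omega

end Cfsg.Lib.Classical.InvolOmega
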