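import Mathlib

/-!
Irredundant bases of permutation groups: equal sizes if and only if invariant under reordering.
-/

set_option autoImplicit false

namespace Cfsg.Lib.Classical.IrredundantBase

variable {G Ω : Type*} [Group G] [MulAction G Ω]

/-- The subgroup of `H` fixing every point of a list. -/
def fix (H : Subgroup G) : List Ω → Subgroup G
  | [] => H
  | x :: l => fix (H ⊓ MulAction.stabilizer G x) l

/-- An irredundant base of `H`. -/
def Irr (H : Subgroup G) : List Ω → Prop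
  | [] => H = ⊥
  | x :: l => ¬ H ≤ MulAction.stabilizer G x ∧ Irr (H ⊓ MulAction.stabilizer G x) l

lemma mem_fix {H : Subgroup G} {l : List Ω} {g : G} : g ∈ fix H l ↔ g ∈ H ∧ ∀ x ∈ l, g • x = x := by
  induction l generalizing H with
  | nil => simp [fix]
  | cons x l ih => simp [fix, ih, and_assoc]

lemma Irr.fix_eq_bot {H : Subgroup G} {l : List Ω} (h : Irr H l) : fix H l = ⊥ := by
  induction l generalizing H with
  | nil => exact h
  | cons x l ih => exact ih h.2

lemma exists_prune (H : Subgroup G) (l : List Ω) (h : fix H l = ⊥) : ∃ l', List.Sublist l' l ∧ Irr H l' := by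
  induction l generalizing H with
  | nil => exact ⟨[], List.Sublist.slnil, h⟩
  | cons x l ih =>
    obtain ⟨l', hl, hi⟩ := ih _ h
    by_cases hx : H ≤ MulAction.stabilizer G x
    · rw [inf_eq_left.2 hx] at hi
      exact ⟨l', hl.cons x, hi⟩
    · exact ⟨x :: l', hl.cons_cons x, hx, hi⟩

lemma exists_equiv_get {α : Type*} {l l' : List α} (h : List.Perm l' l) :
    ∃ σ : Fin l'.length ≃ Fin l.length, ∀ i, l'.get i = l.get (σ i) := by
  induction h with
  | nil => exact ⟨Equiv.refl _, fun i => rfl⟩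
  | cons x _ ih =>
    obtain ⟨σ, hσ⟩ := ih
    refine ⟨(finSuccEquiv _).trans ((Equiv.optionCongr σ).trans (finSuccEquiv _).symm), fun i => ?_⟩
    refine Fin.cases ?_ (fun i => ?_) i
    · simp
    · simpa using hσ i
  | swap x y l =>
    refine ⟨Equiv.swap (0 : Fin (l.length + 2)) 1, fun i => ?_⟩
    refine Fin.cases ?_ (fun i => Fin.cases ?_ (fun i => ?_) i) i
    · simp
    · simp
    · rw [Equiv.swap_apply_of_ne_of_ne (by simp [Fin.ext_iff]) (by simp [Fin.ext_iff])]
      rfl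
  | trans _ _ ih₁ ih₂ =>
    obtain ⟨σ, hσ⟩ := ih₁
    obtain ⟨τ, hτ⟩ := ih₂
    exact ⟨σ.trans τ, fun i => (hσ i).trans (hτ _)⟩

lemma exists_ofFn_eq {α : Type*} {l l' : List α} (h : List.Perm l' l) :
    ∃ σ : Equiv.Perm (Fin l.length), List.ofFn (l.get ∘ σ) = l' := by
  obtain ⟨σ, hσ⟩ := exists_equiv_get h
  refine ⟨(finCongr h.length_eq.symm).trans σ, List.ext_get (by simp [h.length_eq]) fun i h₁ h₂ => ?_⟩
  simp only [List.get_eq_getElem, List.getElem_ofFn]
  exact (hσ ⟨i, h₂⟩).symm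

/-- Bases of `H` can be reordered. -/
def Reorder (H : Subgroup G) : Prop := ∀ l l' : List Ω, Irr H l → List.Perm l' l → Irr H l'

/-- All irredundant bases of `H` have equal length. -/
def SameSize (H : Subgroup G) : Prop := ∀ l l' : List Ω, Irr H l → Irr H l' → l.length = l'.length

theorem reorder_of_sameSize {H : Subgroup G} (h : SameSize (Ω := Ω) H) : Reorder (Ω := Ω) H := by
  intro l l' hl hp
  have hb : fix H l' = ⊥ := by
    rw [← hl.fix_eq_bot]
    ext g
    simp [mem_fix, hp.mem_iff]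
  obtain ⟨l'', hs, hi⟩ := exists_prune H l' hb
  rwa [hs.eq_of_length (by rw [h l'' l hi hl, hp.length_eq])] at hi

theorem sameSize_of_reorder [Finite G] : ∀ (n : ℕ) (H : Subgroup G), Nat.card H ≤ n →
    Reorder (Ω := Ω) H → SameSize (Ω := Ω) H := by
  intro n
  induction n with
  | zero => intro H h; exact absurd h (Nat.not_le.2 Nat.card_pos)
  | succ n ih =>
    intro H hn hR l l' hl hl'
    rcases l with _ | ⟨x, l⟩ <;> rcases l' with _ | ⟨y, l'⟩
    · rfl
    · exact absurd ((show H = ⊥ from hl) ▸ bot_le) hl'.1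
    · exact absurd ((show H = ⊥ from hl') ▸ bot_le) hl.1
    have sub : ∀ z : Ω, ¬ H ≤ MulAction.stabilizer G z → SameSize (Ω := Ω) (H ⊓ MulAction.stabilizer G z) := by
      intro z hz
      refine ih _ ?_ fun a a' ha hp => (hR (z :: a) (z :: a') ⟨hz, ha⟩ (hp.cons z)).2
      have hlt : Nat.card ↥(H ⊓ MulAction.stabilizer G z) < Nat.card H := by
        by_contra h
        exact hz (inf_eq_left.1 (Subgroup.eq_of_le_of_card_ge inf_le_left (not_lt.1 h)))
      omega
    simp only [List.length_cons, add_left_inj]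
    set Sx := MulAction.stabilizer G x
    set Sy := MulAction.stabilizer G y
    -- if one point stabiliser fixes the other point, they are equal
    have key : ∀ a b : Ω, ¬ H ≤ MulAction.stabilizer G b → ∀ r : List Ω, Irr (H ⊓ MulAction.stabilizer G a) r →
        H ⊓ MulAction.stabilizer G a ≤ MulAction.stabilizer G b →
        H ⊓ MulAction.stabilizer G b ≤ MulAction.stabilizer G a := by
      intro a b hb r hr hab
      by_contra hba
      have e : H ⊓ MulAction.stabilizer G b ⊓ MulAction.stabilizer G a = H ⊓ MulAction.stabilizer G a := by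
        rw [inf_right_comm]; exact inf_eq_left.2 hab
      exact (hR (b :: a :: r) (a :: b :: r) ⟨hb, hba, by rw [e]; exact hr⟩ (List.Perm.swap b a r)).2.1 hab
    by_cases hxy : H ⊓ Sx ≤ Sy
    · have hyx := key x y hl'.1 l hl.2 hxy
      have e : H ⊓ Sx = H ⊓ Sy := le_antisymm (le_inf inf_le_left hxy) (le_inf inf_le_left hyx)
      exact sub x hl.1 l l' hl.2 (e ▸ hl'.2)
    · have hyx : ¬ H ⊓ Sy ≤ Sx := fun h => hxy (key y x hl.1 l' hl'.2 h)
      have hb : fix (H ⊓ Sx ⊓ Sy) (l ++ l') = ⊥ := by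
        rw [eq_bot_iff]
        intro g hg
        rw [mem_fix] at hg
        exact hl.2.fix_eq_bot ▸ mem_fix.2 ⟨hg.1.1, fun z hz => hg.2 z (List.mem_append.2 (Or.inl hz))⟩
      obtain ⟨r, -, hr⟩ := exists_prune _ _ hb
      have e1 := sub x hl.1 l (y :: r) hl.2 ⟨hxy, hr⟩
      have e2 := sub y hl'.1 l' (x :: r) hl'.2 ⟨hyx, by rw [inf_right_comm]; exact hr⟩
      rw [e1, e2]; rfl

lemma irr_ofFn (t : ℕ) (f : Fin t → Ω) (H : Subgroup G) :
    Irr H (List.ofFn f) ↔ ((∀ g ∈ H, (∀ i, g • f i = f i) → g = 1) ∧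
      ∀ i, ∃ g ∈ H, (∀ j, j < i → g • f j = f j) ∧ g • f i ≠ f i) := by
  induction t generalizing H with
  | zero => simp [Irr, Subgroup.eq_bot_iff_forall]
  | succ t ih =>
    rw [List.ofFn_succ, Irr, ih, SetLike.not_le_iff_exists]
    constructor
    · rintro ⟨⟨g, hg, hg'⟩, hb, hi⟩
      refine ⟨fun g hg h => hb g ⟨hg, h 0⟩ fun i => h i.succ, Fin.cases ?_ fun i => ?_⟩
      · exact ⟨g, hg, fun j hj => absurd hj (Fin.not_lt_zero j), hg'⟩
      · obtain ⟨g, hg, hj, hgi⟩ := hi i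
        exact ⟨g, hg.1, fun j => Fin.cases (fun _ => hg.2) (fun j hji => hj j (Fin.succ_lt_succ_iff.1 hji)) j, hgi⟩
    · rintro ⟨hb, hi⟩
      obtain ⟨g, hg, -, hg'⟩ := hi 0
      refine ⟨⟨g, hg, hg'⟩, fun g hg h => hb g hg.1 (Fin.cases hg.2 h), fun i => ?_⟩
      obtain ⟨g, hg, hj, hgi⟩ := hi i.succ
      exact ⟨g, ⟨hg, hj 0 (Fin.succ_pos i)⟩, fun j h => hj j.succ (Fin.succ_lt_succ_iff.2 h), hgi⟩

lemma irr_top_ofFn (t : ℕ) (f : Fin t → Ω) :
    ((∀ g : G, (∀ i : Fin t, g • f i = f i) → g = 1) ∧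
      ∀ i : Fin t, ∃ g : G, (∀ j : Fin t, j < i → g • f j = f j) ∧ g • f i ≠ f i) ↔ Irr (⊤ : Subgroup G) (List.ofFn f) := by
  simp [irr_ofFn]

end Cfsg.Lib.Classical.IrredundantBase
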