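import Mathlib
import Cfsg.Agent.Lib.Classical.OmegaCrit
import Cfsg.Agent.Lib.Classical.QuadOrders
import Cfsg.Agent.Lib.Classical.SLGroup
import Cfsg.Agent.Lib.Classical.SphereMod

/-! The Levi subgroup `GL m` of the plus-type orthogonal group and `Omega`. -/

set_option autoImplicit false

namespace Cfsg.Lib.Classical.LeviOmega

open Module Reflections Spinor OrthMatrix
open scoped Matrix MatrixGroups

variable {F : Type*} [Field F] {m : ℕ}

/-- The plus form as a quadratic form. -/
noncomputable def Qp (F : Type*) [Field F] (m : ℕ) : QuadraticForm F (Fin m ⊕ Fin m → F) :=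
  (QuadOrders.Qs m (QuadOrders.Q0 (F := F))).comp (QuadOrders.ePlus F m).toLinearMap

lemma Qp_apply (v : Fin m ⊕ Fin m → F) : Qp F m v = Cfsg.quadFormPlus m F v := QuadOrders.ePlus_form m v

lemma Qp_nondeg : (QuadraticMap.polarBilin (Qp F m)).Nondegenerate :=
  QuadOrders.nondeg_comp _ (QuadOrders.nondeg_std QuadOrders.Q0_nondeg)

lemma hex_plus [Fintype F] (h : Fintype.card F ≠ 2 ∨ m ≠ 2) :
    (∃ c : F, c ≠ 0 ∧ c ≠ 1) ∨ finrank F (Fin m ⊕ Fin m → F) ≠ 4 := by
  classical
  rcases h with h | h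
  · left
    by_contra! hc
    refine h ?_
    have hu : (Finset.univ : Finset F) = {0, 1} := by
      ext x
      simp only [Finset.mem_univ, Finset.mem_insert, Finset.mem_singleton, true_iff]
      exact (em (x = 0)).imp_right (hc x)
    rw [← Finset.card_univ, hu, Finset.card_pair zero_ne_one]
  · right; simp; omega

/-- `A ↦ diag(A, A⁻ᵀ)` as matrices. -/
noncomputable def levMat : GL (Fin m) F →* Matrix (Fin m ⊕ Fin m) (Fin m ⊕ Fin m) F where
  toFun A := Matrix.fromBlocks (A : Matrix (Fin m) (Fin m) F) 0 0 ((A⁻¹ : GL (Fin m) F) : Matrix (Fin m) (Fin m) F)ᵀ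
  map_one' := by simp [Matrix.fromBlocks_one]
  map_mul' A B := by simp [Matrix.fromBlocks_multiply, Matrix.transpose_mul]

lemma levMat_form (A : GL (Fin m) F) (v : Fin m ⊕ Fin m → F) :
    Cfsg.quadFormPlus m F (levMat A *ᵥ v) = Cfsg.quadFormPlus m F v := by
  simp only [levMat, MonoidHom.coe_mk, OneHom.coe_mk, Cfsg.quadFormPlus, Matrix.fromBlocks_mulVec, Sum.elim_inl,
    Sum.elim_inr, Matrix.zero_mulVec, add_zero, zero_add]
  show dotProduct _ _ = dotProduct (v ∘ Sum.inl) (v ∘ Sum.inr)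
  rw [Matrix.dotProduct_mulVec, Matrix.vecMul_transpose, Matrix.mulVec_mulVec, ← Units.val_mul, inv_mul_cancel,
    Units.val_one, Matrix.one_mulVec]

/-- `A ↦ diag(A, A⁻ᵀ)` into the isometry group. -/
noncomputable def lev : GL (Fin m) F →* Cfsg.isometryGroup F (Cfsg.quadFormPlus m F) :=
  (levMat (F := F) (m := m)).toHomUnits.codRestrict (Cfsg.isometryGroup F (Cfsg.quadFormPlus m F)) (fun A => by
    intro u v
    exact levMat_form A u)

lemma coe_lev (A : GL (Fin m) F) :
    ((lev A : Matrix.GeneralLinearGroup (Fin m ⊕ Fin m) F) : Matrix (Fin m ⊕ Fin m) (Fin m ⊕ Fin m) F) =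
      Matrix.fromBlocks (A : Matrix (Fin m) (Fin m) F) 0 0 ((A : Matrix (Fin m) (Fin m) F)⁻¹)ᵀ := by
  rw [← Matrix.coe_units_inv]; rfl

lemma lev_comm {A : GL (Fin m) F} (hA : A ∈ commutator (GL (Fin m) F)) :
    lev A ∈ Cfsg.Omega F (Cfsg.quadFormPlus m F) := by
  have := Subgroup.mem_map_of_mem (lev (F := F) (m := m)) hA
  rw [commutator_def, Subgroup.map_commutator] at this
  exact Subgroup.commutator_mono le_top le_top this

theorem lev_mem_iff [Fintype F] (hm : 1 ≤ m) (h : Fintype.card F ≠ 2 ∨ m ≠ 2) (A : GL (Fin m) F) :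
    lev A ∈ Cfsg.Omega F (Cfsg.quadFormPlus m F) ↔ IsSquare (A : Matrix (Fin m) (Fin m) F).det := by
  classical
  set d : F := (A : Matrix (Fin m) (Fin m) F).det with hd
  have hd0 : d ≠ 0 := Matrix.GeneralLinearGroup.det_ne_zero A
  let j : Fin m := ⟨0, hm⟩
  let D : GL (Fin m) F := Matrix.GeneralLinearGroup.mkOfDetNeZero
    (Matrix.diagonal fun k => if k = j then d else 1) (by simp [Finset.prod_ite_eq', hd0])
  have hDA : D⁻¹ * A ∈ commutator (GL (Fin m) F) := by
    have hker : D⁻¹ * A ∈ (Matrix.GeneralLinearGroup.det : GL (Fin m) F →* Fˣ).ker := by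
      rw [MonoidHom.mem_ker, map_mul, map_inv, inv_mul_eq_one]
      refine Units.ext ?_
      show (Matrix.diagonal fun k => if k = j then d else 1).det = d
      simp [Finset.prod_ite_eq']
    rcases Nat.lt_or_ge m 2 with hm2 | hm2
    · have : D⁻¹ * A = 1 := by
        obtain rfl : m = 1 := by omega
        refine Units.ext (Matrix.ext fun i k => ?_)
        obtain rfl : i = 0 := Subsingleton.elim _ _
        obtain rfl : k = 0 := Subsingleton.elim _ _
        have h1 := congrArg Units.val (MonoidHom.mem_ker.1 hker)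
        simpa using h1
      rw [this]; exact one_mem _
    · rw [SLGroup.commutator_gl_eq_ker]
      · exact hker
      rcases hex_plus h with hc | hne
      · exact Or.inr hc
      · left; simp at hne ⊢; omega
  have e1 : lev A ∈ Cfsg.Omega F (Cfsg.quadFormPlus m F) ↔ lev D ∈ Cfsg.Omega F (Cfsg.quadFormPlus m F) := by
    rw [show A = D * (D⁻¹ * A) by group, map_mul]
    exact Subgroup.mul_mem_cancel_right _ (lev_comm hDA)
  rw [e1]
  set Q := Qp F m
  have hf : ∀ v, Q v = Cfsg.quadFormPlus m F v := Qp_apply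
  have hB : (QuadraticMap.polarBilin Q).Nondegenerate := Qp_nondeg
  have hex := hex_plus h
  let v : F → (Fin m ⊕ Fin m → F) := fun c => Sum.elim (Pi.single j 1) (Pi.single j (-c))
  have hQv : ∀ c, Q (v c) = -c := fun c => by simp [hf, v, Cfsg.quadFormPlus, Pi.single_apply]
  have hL : ∀ w ∈ [v 1, v d], Q w ≠ 0 := by simp [hQv, hd0]
  have hg : ((lev D : Matrix.GeneralLinearGroup (Fin m ⊕ Fin m) F) : Matrix (Fin m ⊕ Fin m) (Fin m ⊕ Fin m) F) =
      ([v 1, v d].map (Cfsg.reflectionMatrix (Cfsg.quadFormPlus m F))).prod := by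
    refine Cfsg.Lib.Classical.ext_mulVec fun x => ?_
    rw [List.map_cons, List.map_cons, List.map_nil, List.prod_cons, List.prod_cons, List.prod_nil, mul_one,
      ← Matrix.mulVec_mulVec, mulVec_reflectionMatrix hf, mulVec_reflectionMatrix hf]
    have hβ : ∀ (c : F) (y : Fin m ⊕ Fin m → F), QuadraticMap.polarBilin Q (v c) y = y (Sum.inr j) - c * y (Sum.inl j) := by
      intro c y
      simp only [QuadraticMap.polarBilin_apply_apply, QuadraticMap.polar, hf, Cfsg.quadFormPlus, v, Pi.add_apply,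
        Sum.elim_inl, Sum.elim_inr, ← Finset.sum_sub_distrib]
      rw [Finset.sum_eq_single j]
      · simp; ring
      · intro k _ hk; simp [Pi.single_apply, hk]
      · simp
    rw [refl_apply, refl_apply, hβ, hβ, hQv, hQv, coe_lev]
    have hinv : ((D : Matrix (Fin m) (Fin m) F)⁻¹) = Matrix.diagonal fun k => if k = j then d⁻¹ else 1 := by
      refine Matrix.inv_eq_right_inv ?_
      show Matrix.diagonal _ * Matrix.diagonal _ = 1
      rw [Matrix.diagonal_mul_diagonal, ← Matrix.diagonal_one]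
      congr 1; funext k; split_ifs <;> simp [hd0]
    rw [hinv, Matrix.diagonal_transpose]
    show Matrix.fromBlocks (Matrix.diagonal fun k => if k = j then d else 1) 0 0 _ *ᵥ x = _
    rw [Matrix.fromBlocks_mulVec]
    funext k
    rcases k with k | k <;> by_cases hk : k = j <;>
      simp [hk, v, Matrix.mulVec_diagonal, Pi.single_apply] <;> field_simp <;> ring
  have he := OmegaCrit.eI_list hf (lev D) [v 1, v d] hg
  by_cases h2 : (2 : F) = 0
  · haveI : CharP F 2 := CharTwo.of_one_ne_zero_of_two_eq_zero one_ne_zero h2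
    simp only [FiniteField.isSquare_of_char_two (ringChar.eq F 2) d, iff_true]
    rw [omega_eq hf, commutator_eq_even hB hex h2]
    show delta hB hex (eI hf (lev D)) = 1
    rw [he]
    simp [delta_refl hB hex, hQv, hd0]
  · rw [OmegaCrit.mem_omega_list hf hB h2 (by simp; omega) _ _ hL he]
    simp [hQv]

theorem exists_iff [Fintype F] (hm : 1 ≤ m) (h : Fintype.card F ≠ 2 ∨ m ≠ 2) (A : GL (Fin m) F) :
    (∃ g : Cfsg.isometryGroup F (Cfsg.quadFormPlus m F), g ∈ Cfsg.Omega F (Cfsg.quadFormPlus m F) ∧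
      ((g : Matrix.GeneralLinearGroup (Fin m ⊕ Fin m) F) : Matrix (Fin m ⊕ Fin m) (Fin m ⊕ Fin m) F) =
        Matrix.fromBlocks (A : Matrix (Fin m) (Fin m) F) 0 0 ((A : Matrix (Fin m) (Fin m) F)⁻¹)ᵀ) ↔
      IsSquare (A : Matrix (Fin m) (Fin m) F).det := by
  rw [← lev_mem_iff hm h A]
  refine ⟨?_, fun hg => ⟨_, hg, coe_lev A⟩⟩
  rintro ⟨g, hg, e⟩
  obtain rfl : g = lev A := Subtype.ext (Units.ext (e.trans (coe_lev A).symm))
  exact hg

end Cfsg.Lib.Classical.LeviOmega
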