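import Mathlib
import Cfsg.Agent.Lib.Classical.OmegaCrit
import Cfsg.Agent.Lib.Classical.QuadOrders

/-! Orthogonal direct sums and `Omega`. -/

set_option autoImplicit false

namespace Cfsg.Lib.Classical.OmegaSum

open Module Reflections Spinor OrthMatrix
open scoped Matrix commutatorElement

variable {F : Type*} [Field F] {α γ : Type} [Fintype α] [DecidableEq α] [Fintype γ] [DecidableEq γ]
  (Q₁ : QuadraticForm F (α → F)) (Q₂ : QuadraticForm F (γ → F))

/-- The form on the direct sum. -/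
abbrev sumFn : (α ⊕ γ → F) → F := fun v => Q₁ (v ∘ Sum.inl) + Q₂ (v ∘ Sum.inr)

/-- The quadratic form on the direct sum. -/
noncomputable def Qsum : QuadraticForm F (α ⊕ γ → F) :=
  Q₁.comp (LinearMap.funLeft F F Sum.inl) + Q₂.comp (LinearMap.funLeft F F Sum.inr)

omit [Fintype α] [DecidableEq α] [Fintype γ] [DecidableEq γ] in
lemma Qsum_apply (v : α ⊕ γ → F) : Qsum Q₁ Q₂ v = sumFn Q₁ Q₂ v := rfl

omit [Fintype α] [DecidableEq α] [Fintype γ] [DecidableEq γ] in
lemma polar_elim (v : α ⊕ γ → F) (x : α → F) (y : γ → F) :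
    QuadraticMap.polarBilin (Qsum Q₁ Q₂) v (Sum.elim x y) =
      QuadraticMap.polarBilin Q₁ (v ∘ Sum.inl) x + QuadraticMap.polarBilin Q₂ (v ∘ Sum.inr) y := by
  simp only [QuadraticMap.polarBilin_apply_apply, QuadraticMap.polar, Qsum_apply, sumFn]
  rw [show (v + Sum.elim x y) ∘ Sum.inl = v ∘ Sum.inl + x from rfl, show (v + Sum.elim x y) ∘ Sum.inr = v ∘ Sum.inr + y from rfl,
    Sum.elim_comp_inl, Sum.elim_comp_inr]
  ring

omit [Fintype α] [DecidableEq α] [Fintype γ] [DecidableEq γ] in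
lemma Qsum_nondeg (h₁ : (QuadraticMap.polarBilin Q₁).Nondegenerate) (h₂ : (QuadraticMap.polarBilin Q₂).Nondegenerate) :
    (QuadraticMap.polarBilin (Qsum Q₁ Q₂)).Nondegenerate := by
  refine QuadOrders.nondeg_of_left (fun x y => Witt.polar_symm' _ x y) fun v hv => ?_
  have e1 : v ∘ Sum.inl = 0 := h₁.1 _ fun x => by
    have := hv (Sum.elim x 0)
    rwa [polar_elim, map_zero, add_zero] at this
  have e2 : v ∘ Sum.inr = 0 := h₂.1 _ fun y => by
    have := hv (Sum.elim 0 y)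
    rwa [polar_elim, map_zero, zero_add] at this
  rw [← Sum.elim_comp_inl_inr v, e1, e2]
  exact funext fun k => by rcases k with k | k <;> rfl

/-- Block-diagonal matrices. -/
noncomputable def blockMat : GL α F × GL γ F →* Matrix (α ⊕ γ) (α ⊕ γ) F where
  toFun p := Matrix.fromBlocks (p.1 : Matrix α α F) 0 0 (p.2 : Matrix γ γ F)
  map_one' := by simp [Matrix.fromBlocks_one]
  map_mul' p p' := by simp [Matrix.fromBlocks_multiply]

/-- The product of the isometry groups inside the isometry group of the sum. -/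
noncomputable def sumHom :
    Cfsg.isometryGroup F ⇑Q₁ × Cfsg.isometryGroup F ⇑Q₂ →* Cfsg.isometryGroup F (sumFn Q₁ Q₂) :=
  ((blockMat (F := F) (α := α) (γ := γ)).comp
    ((Cfsg.isometryGroup F ⇑Q₁).subtype.prodMap (Cfsg.isometryGroup F ⇑Q₂).subtype)).toHomUnits.codRestrict
      (Cfsg.isometryGroup F (sumFn Q₁ Q₂)) (fun p => by
        intro u v
        show sumFn Q₁ Q₂ (Matrix.fromBlocks ((p.1 : GL α F) : Matrix α α F) 0 0 ((p.2 : GL γ F) : Matrix γ γ F) *ᵥ u) = _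
        simp only [sumFn, Matrix.fromBlocks_mulVec, Sum.elim_comp_inl, Sum.elim_comp_inr, Matrix.zero_mulVec, add_zero, zero_add]
        exact congrArg₂ (· + ·) (p.1.2 _ 0) (p.2.2 _ 0))

lemma coe_sumHom (p : Cfsg.isometryGroup F ⇑Q₁ × Cfsg.isometryGroup F ⇑Q₂) :
    ((sumHom Q₁ Q₂ p : GL (α ⊕ γ) F) : Matrix (α ⊕ γ) (α ⊕ γ) F) =
      Matrix.fromBlocks ((p.1 : GL α F) : Matrix α α F) 0 0 ((p.2 : GL γ F) : Matrix γ γ F) := rfl

lemma eq_of_coe {p : Cfsg.isometryGroup F ⇑Q₁ × Cfsg.isometryGroup F ⇑Q₂} {g : Cfsg.isometryGroup F (sumFn Q₁ Q₂)}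
    (h : ((g : GL (α ⊕ γ) F) : Matrix (α ⊕ γ) (α ⊕ γ) F) =
      Matrix.fromBlocks ((p.1 : GL α F) : Matrix α α F) 0 0 ((p.2 : GL γ F) : Matrix γ γ F)) : g = sumHom Q₁ Q₂ p :=
  Subtype.ext (Units.ext (h.trans (coe_sumHom Q₁ Q₂ p).symm))

lemma sumHom_comm {p : Cfsg.isometryGroup F ⇑Q₁ × Cfsg.isometryGroup F ⇑Q₂}
    (h₁ : p.1 ∈ Cfsg.Omega F ⇑Q₁) (h₂ : p.2 ∈ Cfsg.Omega F ⇑Q₂) : sumHom Q₁ Q₂ p ∈ Cfsg.Omega F (sumFn Q₁ Q₂) := by
  have hp : p = (p.1, 1) * (1, p.2) := by simp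
  rw [hp, map_mul]
  refine mul_mem ?_ ?_
  · have := Subgroup.mem_map_of_mem ((sumHom Q₁ Q₂).comp (MonoidHom.inl _ _)) (show p.1 ∈ ⁅(⊤ : Subgroup (Cfsg.isometryGroup F ⇑Q₁)), ⊤⁆ from h₁)
    rw [Subgroup.map_commutator] at this
    exact Subgroup.commutator_mono le_top le_top this
  · have := Subgroup.mem_map_of_mem ((sumHom Q₁ Q₂).comp (MonoidHom.inr _ _)) (show p.2 ∈ ⁅(⊤ : Subgroup (Cfsg.isometryGroup F ⇑Q₂)), ⊤⁆ from h₂)
    rw [Subgroup.map_commutator] at this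
    exact Subgroup.commutator_mono le_top le_top this

theorem left_mem_iff [Fintype F] (h₁ : (QuadraticMap.polarBilin Q₁).Nondegenerate)
    (h₂ : (QuadraticMap.polarBilin Q₂).Nondegenerate) (hex₁ : (∃ c : F, c ≠ 0 ∧ c ≠ 1) ∨ finrank F (α → F) ≠ 4)
    (hex : (∃ c : F, c ≠ 0 ∧ c ≠ 1) ∨ finrank F (α ⊕ γ → F) ≠ 4) (g₁ : Cfsg.isometryGroup F ⇑Q₁) :
    sumHom Q₁ Q₂ (g₁, 1) ∈ Cfsg.Omega F (sumFn Q₁ Q₂) ↔ g₁ ∈ Cfsg.Omega F ⇑Q₁ := by
  classical
  refine ⟨fun hg => ?_, fun hg => sumHom_comm Q₁ Q₂ hg (one_mem _)⟩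
  have hf : ∀ v, Qsum Q₁ Q₂ v = sumFn Q₁ Q₂ v := Qsum_apply Q₁ Q₂
  have hB := Qsum_nondeg Q₁ Q₂ h₁ h₂
  obtain ⟨L, hL, e⟩ := OmegaCrit.exists_list (fun _ => rfl) h₁ hex₁ g₁
  let L' := L.map fun v => Sum.elim v (0 : γ → F)
  have hQ' : ∀ v : α → F, Qsum Q₁ Q₂ (Sum.elim v 0) = Q₁ v := fun v => by simp [Qsum_apply, sumFn]
  have hL' : ∀ v ∈ L', Qsum Q₁ Q₂ v ≠ 0 := by
    intro v hv
    obtain ⟨w, hw, rfl⟩ := List.mem_map.1 hv
    rw [hQ']; exact hL w hw
  have happ : ∀ (L : List (α → F)) (x : α ⊕ γ → F),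
      (((L.map fun v => Sum.elim v (0 : γ → F)).map (refl (Qsum Q₁ Q₂))).prod).1 x =
        Sum.elim (((L.map (refl Q₁)).prod).1 (x ∘ Sum.inl)) (x ∘ Sum.inr) := by
    intro L
    induction L with
    | nil => intro x; exact (Sum.elim_comp_inl_inr x).symm
    | cons v L ih =>
      intro x
      show (refl (Qsum Q₁ Q₂) (Sum.elim v 0)).1 ((((L.map fun v => Sum.elim v (0 : γ → F)).map (refl (Qsum Q₁ Q₂))).prod).1 x) =
        Sum.elim ((refl Q₁ v).1 (((L.map (refl Q₁)).prod).1 (x ∘ Sum.inl))) (x ∘ Sum.inr)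
      rw [ih, refl_apply, refl_apply, hQ', polar_elim, Sum.elim_comp_inl, Sum.elim_comp_inr, map_zero, LinearMap.zero_apply, add_zero]
      funext k
      rcases k with k | k <;> simp
  have e' : eI hf (sumHom Q₁ Q₂ (g₁, 1)) = (L'.map (refl (Qsum Q₁ Q₂))).prod := by
    refine Subtype.ext (LinearEquiv.ext fun x => ?_)
    rw [eI_apply, coe_sumHom, happ L x, ← e, eI_apply, Matrix.fromBlocks_mulVec, Matrix.zero_mulVec, Matrix.zero_mulVec,
      add_zero, zero_add]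
    show _ = Sum.elim _ (x ∘ Sum.inr)
    congr 1
    exact Matrix.one_mulVec _
  by_cases h2 : (2 : F) = 0
  · have hd : ∀ L : List (α → F), (∀ v ∈ L, Q₁ v ≠ 0) → delta h₁ hex₁ (L.map (refl Q₁)).prod =
        delta hB hex ((L.map fun v => Sum.elim v (0 : γ → F)).map (refl (Qsum Q₁ Q₂))).prod := by
      intro L
      induction L with
      | nil => intro _; simp
      | cons v L ih =>
        intro hL
        simp only [List.map_cons, List.prod_cons, map_mul]
        rw [delta_refl h₁ hex₁ (hL v List.mem_cons_self), delta_refl hB hex (by rw [hQ']; exact hL v List.mem_cons_self),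
          ih fun w hw => hL w (List.mem_cons_of_mem _ hw)]
    rw [omega_eq hf, commutator_eq_even hB hex h2] at hg
    rw [omega_eq (fun v => (rfl : Q₁ v = Q₁ v)), commutator_eq_even h₁ hex₁ h2]
    show delta h₁ hex₁ (eI _ g₁) = 1
    rw [e, hd L hL]
    exact (congrArg (delta hB hex) e').symm.trans hg
  · rcases Nat.lt_or_ge (finrank F (α → F)) 2 with hk | hk
    · -- at most a line: an even product of reflections is trivial
      have hev : delta hB hex (eI hf (sumHom Q₁ Q₂ (g₁, 1))) = 1 :=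
        Abelianization.commutator_subset_ker ((delta hB hex).comp (eI hf).toMonoidHom) hg
      have hneg : ∀ v, Q₁ v ≠ 0 → ∀ x, (refl Q₁ v).1 x = -x := by
        intro v hv x
        have hv0 : v ≠ 0 := fun h0 => hv (by rw [h0, map_zero])
        haveI : Nontrivial (α → F) := ⟨⟨v, 0, hv0⟩⟩
        have h1 : finrank F (α → F) = 1 := by have := Module.finrank_pos (R := F) (M := α → F); omega
        obtain ⟨c, rfl⟩ := exists_smul_eq_of_finrank_eq_one h1 hv0 x
        rw [map_smul, refl_apply, Witt.polar_self', show (Q₁ v)⁻¹ * (2 * Q₁ v) = 2 by field_simp, two_smul]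
        simp
      have hpar : ∀ L : List (α → F), (∀ v ∈ L, Q₁ v ≠ 0) → ∀ x, ((L.map (refl Q₁)).prod).1 x = ((-1 : F) ^ L.length) • x := by
        intro L
        induction L with
        | nil => intro _ x; simp
        | cons v L ih =>
          intro hL x
          show (refl Q₁ v).1 (((L.map (refl Q₁)).prod).1 x) = _
          rw [ih (fun w hw => hL w (List.mem_cons_of_mem _ hw)), hneg v (hL v List.mem_cons_self), List.length_cons, pow_succ,
            mul_neg_one, neg_smul]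
      have hlen : (-1 : ℤˣ) ^ L'.length = 1 := by
        rw [← (OmegaCrit.list_mem hB h2 hex L' hL').1, ← e']; exact hev
      have : g₁ = 1 := by
        refine (eI (fun v => (rfl : Q₁ v = Q₁ v))).injective ?_
        rw [map_one, e]
        refine Subtype.ext (LinearEquiv.ext fun x => ?_)
        rw [hpar L hL x, ((neg_one_pow_eq_one_iff_even (R := ℤˣ) (by decide)).1 (by simpa [L'] using hlen)).neg_one_pow, one_smul]
        rfl
      rw [this]; exact one_mem _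
    · rw [OmegaCrit.mem_omega_list (fun _ => rfl) h₁ h2 hk g₁ L hL e]
      have hn : 2 ≤ finrank F (α ⊕ γ → F) := by simp at hk ⊢; omega
      have := (OmegaCrit.mem_omega_list hf hB h2 hn _ L' hL' e').1 hg
      simpa [L', List.map_map, Function.comp_def, hQ'] using this

theorem diag_mem [Fintype F] (h₁ : (QuadraticMap.polarBilin Q₁).Nondegenerate)
    (hex : (∃ c : F, c ≠ 0 ∧ c ≠ 1) ∨ finrank F (α ⊕ α → F) ≠ 4) (g : Cfsg.isometryGroup F ⇑Q₁) :
    sumHom Q₁ Q₁ (g, g) ∈ Cfsg.Omega F (sumFn Q₁ Q₁) := by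
  classical
  rcases Nat.eq_zero_or_pos (Fintype.card α) with h0 | h0
  · haveI := Fintype.card_eq_zero_iff.1 h0
    rw [show g = 1 from Subtype.ext (Units.ext (Matrix.ext fun i => isEmptyElim i))]
    exact (map_one (sumHom Q₁ Q₁)).symm ▸ one_mem (Cfsg.Omega F (sumFn Q₁ Q₁))
  have hf : ∀ v, Qsum Q₁ Q₁ v = sumFn Q₁ Q₁ v := Qsum_apply Q₁ Q₁
  have hB := Qsum_nondeg Q₁ Q₁ h₁ h₁
  let S : Matrix (α ⊕ α) (α ⊕ α) F := Matrix.fromBlocks 0 1 1 0
  have hS : S * S = 1 := by simp [S, Matrix.fromBlocks_multiply, Matrix.fromBlocks_one]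
  let σ : Cfsg.isometryGroup F (sumFn Q₁ Q₁) := ⟨⟨S, S, hS, hS⟩, fun u _ => by
    show sumFn Q₁ Q₁ (S *ᵥ u) = sumFn Q₁ Q₁ u
    simp [sumFn, S, Matrix.fromBlocks_mulVec, add_comm]⟩
  set a := sumHom Q₁ Q₁ (g, 1)
  have hconj : sumHom Q₁ Q₁ (1, g) = σ * a * σ⁻¹ := by
    refine eq_mul_inv_iff_mul_eq.2 (Subtype.ext (Units.ext ?_))
    show Matrix.fromBlocks 1 0 0 _ * S = S * Matrix.fromBlocks _ 0 0 1
    simp [S, Matrix.fromBlocks_multiply]
  have key : ∀ {M : Type} [CommGroup M] (φ : Cfsg.isometryGroup F (sumFn Q₁ Q₁) →* M),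
      φ (sumHom Q₁ Q₁ (g, g)) = φ a * φ a := by
    intro M _ φ
    rw [show ((g, g) : Cfsg.isometryGroup F ⇑Q₁ × Cfsg.isometryGroup F ⇑Q₁) = (g, 1) * (1, g) by simp, map_mul, map_mul,
      hconj, map_mul, map_mul, map_inv, mul_comm (φ σ), mul_inv_cancel_right]
  by_cases h2 : (2 : F) = 0
  · rw [omega_eq hf, commutator_eq_even hB hex h2]
    exact (key ((delta hB hex).comp (eI hf).toMonoidHom)).trans (Int.units_mul_self _)
  · rw [omega_eq hf, commutator_eq hB hex h2 (by simp; omega)]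
    exact (key ((phi hB hex).comp (eI hf).toMonoidHom)).trans (Prod.ext (Int.units_mul_self _) (Int.units_mul_self _))

lemma hex_card [Fintype F] {ι : Type} [Fintype ι] (h : Fintype.card F ≠ 2 ∨ Fintype.card ι ≠ 4) :
    (∃ c : F, c ≠ 0 ∧ c ≠ 1) ∨ finrank F (ι → F) ≠ 4 := by
  classical
  rcases h with h | h
  · left
    by_contra! hc
    refine h ?_
    have hu : (Finset.univ : Finset F) = {0, 1} := by
      ext x
      simp only [Finset.mem_univ, Finset.mem_insert, Finset.mem_singleton, true_iff]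
      exact (em (x = 0)).imp_right (hc x)
    rw [← Finset.card_univ, hu, Finset.card_pair zero_ne_one]
  · right; simpa using h

end Cfsg.Lib.Classical.OmegaSum
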