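import Mathlib
import Cfsg.Agent.Lib.Classical.MinimalIndexSL2

/-! Numerical data of a subgroup of `SL(2, q)` containing transvections. -/

set_option autoImplicit false
set_option linter.unusedSectionVars false
set_option linter.unusedSimpArgs false

namespace Cfsg.Lib.Classical.MinIndex

open Matrix Cfsg.Lib.PStable

variable {F : Type*} [Field F] [Fintype F]

local notation "SL2" => Matrix.SpecialLinearGroup (Fin 2) F

/-- The data of a proper subgroup with transvections moving the first axis. -/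
theorem upper_data {p : ℕ} [Fact p.Prime] [CharP F p] (hp2 : p ≠ 2)
    (M : Subgroup SL2) (hneg : (-1 : SL2) ∈ M) (htop : M ≠ ⊤) {a0 : F} (ha0 : a0 ≠ 0) (hU : a0 ∈ aGrp M)
    {g : SL2} (hg : g ∈ M) (h10 : g 1 0 ≠ 0) :
    ∃ ρ δ O : ℕ, 3 ≤ ρ ∧ ρ ≤ Nat.card (aGrp M) ∧ Nat.card (aGrp M) * ρ ≤ Fintype.card F ∧ ρ ∣ Fintype.card F ∧
      Nat.card (aGrp M) ∣ Fintype.card F ∧ δ ≤ 2 * (ρ - 1) ∧ δ ∣ Fintype.card F - 1 ∧
      Nat.card M = Nat.card (aGrp M) * δ * O ∧ O ≤ Fintype.card F + 1 ∧
      (O = Nat.card (aGrp M) + 1 ∨ Nat.card (aGrp M) = 3) := by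
  classical
  set q := Fintype.card F with hqd
  have hq2' : 2 ≤ q := Fintype.one_lt_card
  have hA : aGrp M ≠ ⊤ := fun h => htop (upper_eq_top (fun a => show a ∈ aGrp M by rw [h]; trivial) hg h10)
  obtain ⟨b, -, hbA⟩ := SetLike.exists_of_lt (lt_top_iff_ne_top.2 hA)
  let R : Subring F :=
    { carrier := {x | ∀ a ∈ aGrp M, x * a ∈ aGrp M}
      one_mem' := fun a ha => by simpa using ha
      mul_mem' := fun {x y} hx hy a ha => by rw [mul_assoc]; exact hx _ (hy a ha)
      zero_mem' := fun a _ => by simpa using (aGrp M).zero_mem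
      add_mem' := fun {x y} hx hy a ha => by rw [add_mul]; exact (aGrp M).add_mem (hx a ha) (hy a ha)
      neg_mem' := fun {x} hx a ha => by rw [neg_mul]; exact (aGrp M).neg_mem (hx a ha) }
  have hRinv : ∀ x ∈ R, x⁻¹ ∈ R := fun x hx => by
    by_cases hx0 : x = 0
    · simpa [hx0] using R.zero_mem
    have h1 : x * x ^ (q - 2) = 1 := by
      rw [← pow_succ', show q - 2 + 1 = q - 1 by omega]
      exact FiniteField.pow_card_sub_one_eq_one x hx0
    rw [← eq_inv_of_mul_eq_one_right h1]
    exact R.pow_mem hx _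
  set α := Nat.card (aGrp M)
  set ρ := Nat.card R
  have hρα : ρ ≤ α := Nat.card_le_card_of_injective (fun r : R => (⟨r.1 * a0, r.2 a0 hU⟩ : aGrp M)) fun r s e =>
    Subtype.ext (mul_right_cancel₀ ha0 (congrArg Subtype.val e))
  have hαρ : α * ρ ≤ q := by
    rw [← Nat.card_prod, hqd, ← Nat.card_eq_fintype_card]
    refine Nat.card_le_card_of_injective (fun x : aGrp M × R => x.1.1 + x.2.1 * b) fun x y e => ?_
    simp only at e
    have hxy : x.2.1 = y.2.1 := by
      by_contra hne'
      refine hbA ?_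
      have h1 : (x.2.1 - y.2.1) * b ∈ aGrp M := by
        rw [show (x.2.1 - y.2.1) * b = y.1.1 - x.1.1 by linear_combination e]
        exact (aGrp M).sub_mem y.1.2 x.1.2
      have := hRinv _ (R.sub_mem x.2.2 y.2.2) _ h1
      rwa [inv_mul_cancel_left₀ (sub_ne_zero.2 hne')] at this
    exact Prod.ext (Subtype.ext (by rw [hxy] at e; exact add_right_cancel e)) (Subtype.ext hxy)
  have hρ2 : 2 ≤ ρ := Finite.one_lt_card_iff_nontrivial.2 ⟨0, 1, fun e => zero_ne_one (α := F) (congrArg Subtype.val e)⟩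
  have hδ : Nat.card (chi M).range ≤ Nat.gcd 2 (q - 1) * (ρ - 1) := by
    let sq : (chi M).range →* Fˣ := (powMonoidHom 2).comp (chi M).range.subtype
    have h1 := sq.ker.card_mul_index
    rw [Subgroup.index_ker] at h1
    have h2 : Nat.card sq.ker ≤ Nat.gcd 2 (q - 1) := by
      have h2' := IsCyclic.card_powMonoidHom_ker (G := Fˣ) 2
      rw [Nat.card_units, Nat.card_eq_fintype_card (α := F), Nat.gcd_comm] at h2'
      rw [← h2']
      exact Nat.card_le_card_of_injective (fun x : sq.ker => (⟨x.1.1, x.2⟩ : (powMonoidHom 2 : Fˣ →* Fˣ).ker))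
        fun x y e => Subtype.ext (Subtype.ext (congrArg (fun z => z.1) e))
    have h3 : Nat.card sq.range ≤ ρ - 1 := by
      have : Nat.card (Option sq.range) ≤ ρ := by
        refine Nat.card_le_card_of_injective (fun o => o.elim (0 : R) fun z => ⟨(z.1 : F), ?_⟩) ?_
        · obtain ⟨⟨_, g', rfl⟩, hg'⟩ := z.2
          rw [← hg']
          intro a ha
          exact sq_mul_mem_aGrp g'.2 ha
        · rintro (_ | x) (_ | y) e
          · rfl
          · exact absurd (congrArg Subtype.val e).symm y.1.ne_zero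
          · exact absurd (congrArg Subtype.val e) x.1.ne_zero
          · exact congrArg some (Subtype.ext (Units.ext (congrArg Subtype.val e)))
      rw [Finite.card_option] at this
      omega
    rw [← h1]
    exact Nat.mul_le_mul h2 h3
  have hM : Nat.card M = α * Nat.card (chi M).range * (borel M).index := by
    rw [← card_borel_eq, Subgroup.card_mul_index]
  have hO := index_borel_le M
  have hαq : α ∣ q := by rw [hqd, ← Nat.card_eq_fintype_card]; exact (aGrp M).card_addSubgroup_dvd_card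
  have hρq : ρ ∣ q := by rw [hqd, ← Nat.card_eq_fintype_card]; exact R.toAddSubgroup.card_addSubgroup_dvd_card
  have hqodd : q % 2 = 1 := FiniteField.odd_card_of_char_ne_two (by rw [ringChar.eq F p]; exact hp2)
  have hq2 : 2 ≤ q := Fintype.one_lt_card
  have g1 : Nat.gcd 2 (q - 1) = 2 := Nat.gcd_eq_left (by omega)
  rw [g1] at hδ
  have hρ3 : 3 ≤ ρ := by
    have : ¬ 2 ∣ ρ := fun h => by have := h.trans hρq; omega
    omega
  have hδq : Nat.card (chi M).range ∣ q - 1 := by
    have := (chi M).range.card_subgroup_dvd_card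
    rwa [Nat.card_units, Nat.card_eq_fintype_card (α := F)] at this
  exact ⟨ρ, _, _, hρ3, hρα, hαρ, hρq, hαq, hδ, hδq, hM, hO, (index_eq hp2 hneg ha0 hU (g0 := ⟨g, hg⟩) h10).imp_right And.left⟩

end Cfsg.Lib.Classical.MinIndex
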