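-- Helper library: quaternion configurations in SL(2, F) and subgroups A4, S4 of PSL(2, F).
import Mathlib
import Cfsg.Agent.Lib.Classical.PSLTwoOdd
import Cfsg.Agent.S0228
import Cfsg.Agent.S1012

set_option autoImplicit false

open Matrix
open scoped Pointwise

namespace Cfsg.Lib.QuatTwo

open Cfsg.Lib.PSLTwoOdd

section Abstract

variable {G : Type*} [Group G]

/-- Relations of `A4`: two commuting involutions and an element of order three permuting them cyclically. -/
structure Rel (x y w : G) : Prop where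
  hx : x * x = 1
  hy : y * y = 1
  hc : x * y = y * x
  hx1 : x ≠ 1
  hy1 : y ≠ 1
  hxy : x ≠ y
  hw : w ^ 3 = 1
  hw1 : w ≠ 1
  hwx : w * x * w⁻¹ = y
  hwy : w * y * w⁻¹ = x * y

variable {x y w : G}

/-- The normal four-group. -/
def Rel.V (h : Rel x y w) : Subgroup G := four h.hx h.hy h.hc

/-- The group generated by the four-group and `w`. -/
def Rel.H (h : Rel x y w) : Subgroup G := h.V ⊔ Subgroup.zpowers w

lemma Rel.mem_V (h : Rel x y w) {v : G} : v ∈ h.V ↔ v = 1 ∨ v = x ∨ v = y ∨ v = x * y := Iff.rfl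

lemma Rel.sq_of_mem_V (h : Rel x y w) {v : G} (hv : v ∈ h.V) : v * v = 1 := by
  rcases h.mem_V.1 hv with rfl | rfl | rfl | rfl
  · simp
  · exact h.hx
  · exact h.hy
  · rw [mul_assoc, ← mul_assoc y x y, ← h.hc, mul_assoc x y y, h.hy, mul_one, h.hx]

lemma Rel.card_V (h : Rel x y w) : Nat.card h.V = 4 := by
  rw [← SetLike.coe_sort_coe, Nat.card_coe_set_eq]
  show ({1, x, y, x * y} : Set G).ncard = 4
  rw [Set.ncard_insert_of_notMem, Set.ncard_insert_of_notMem, Set.ncard_pair]
  · exact fun e => h.hx1 (by simpa using e.symm)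
  · simp only [Set.mem_insert_iff, Set.mem_singleton_iff, not_or]
    exact ⟨h.hxy, fun e => h.hy1 (mul_left_cancel (a := x) (by rw [mul_one]; exact e.symm))⟩
  · simp only [Set.mem_insert_iff, Set.mem_singleton_iff, not_or]
    exact ⟨h.hx1.symm, h.hy1.symm, fun e => h.hxy (by rw [← mul_right_inj x, h.hx]; exact e)⟩

lemma Rel.w_conj (h : Rel x y w) : ∀ v ∈ h.V, w * v * w⁻¹ ∈ h.V := by
  intro v hv
  rcases h.mem_V.1 hv with rfl | rfl | rfl | rfl
  · simp
  · rw [h.hwx]; exact h.mem_V.2 (by tauto)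
  · rw [h.hwy]; exact h.mem_V.2 (by tauto)
  · rw [← conj_mul, h.hwx, h.hwy, h.hc, ← mul_assoc, h.hy, one_mul]; exact h.mem_V.2 (by tauto)

lemma Rel.zpowers_le [Finite G] (h : Rel x y w) : Subgroup.zpowers w ≤ Subgroup.normalizer (h.V : Set G) := by
  rw [Subgroup.zpowers_le]
  refine Subgroup.mem_normalizer_iff.2 fun v => ⟨h.w_conj v, fun hv => ?_⟩
  have e : v = w * (w * (w * v * w⁻¹) * w⁻¹) * w⁻¹ := by
    have h3 : w * w * w = 1 := by rw [← h.hw, pow_succ, pow_two]
    calc v = (w * w * w) * v * (w * w * w)⁻¹ := by rw [h3]; simp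
      _ = _ := by group
  rw [e]
  exact h.w_conj _ (h.w_conj _ hv)

lemma Rel.exists_decomp [Finite G] (h : Rel x y w) {z : G} :
    z ∈ h.H ↔ ∃ v ∈ h.V, ∃ c ∈ Subgroup.zpowers w, z = v * c := by
  rw [← SetLike.mem_coe, Rel.H, Subgroup.coe_mul_of_right_le_normalizer_left _ _ h.zpowers_le, Set.mem_mul]
  exact ⟨fun ⟨v, hv, c, hc, e⟩ => ⟨v, hv, c, hc, e.symm⟩, fun ⟨v, hv, c, hc, e⟩ => ⟨v, hv, c, hc, e.symm⟩⟩

lemma Rel.disjoint (h : Rel x y w) : Disjoint h.V (Subgroup.zpowers w) := by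
  rw [Subgroup.disjoint_def]
  intro c hcV hc
  have h2 : c ^ 2 = 1 := by rw [pow_two]; exact h.sq_of_mem_V hcV
  obtain ⟨k, rfl⟩ := hc
  have h3 : (w ^ k) ^ 3 = 1 := by rw [← zpow_natCast, ← _root_.zpow_mul, mul_comm, _root_.zpow_mul, zpow_natCast, h.hw, _root_.one_zpow]
  rwa [pow_succ, h2, one_mul] at h3

lemma Rel.w_mem (h : Rel x y w) : w ∈ h.H := Subgroup.mem_sup_right (Subgroup.mem_zpowers w)

lemma Rel.V_le (h : Rel x y w) : h.V ≤ h.H := le_sup_left

lemma Rel.card_H [Finite G] (h : Rel x y w) : Nat.card h.H = 12 := by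
  have hW : Nat.card (Subgroup.zpowers w) = 3 := by
    rw [Nat.card_zpowers]
    exact orderOf_eq_prime h.hw h.hw1
  rw [show 12 = Nat.card (h.V × Subgroup.zpowers w) by rw [Nat.card_prod, h.card_V, hW]]
  refine (Nat.card_eq_of_bijective (fun p : h.V × Subgroup.zpowers w =>
    (⟨(p.1 : G) * p.2, mul_mem (h.V_le p.1.2) (Subgroup.mem_sup_right p.2.2)⟩ : h.H)) ⟨?_, ?_⟩).symm
  · intro p r e
    exact Subgroup.mul_injective_of_disjoint h.disjoint (congrArg Subtype.val e)
  · rintro ⟨z, hz⟩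
    obtain ⟨v, hv, c, hc, rfl⟩ := h.exists_decomp.1 hz
    exact ⟨(⟨v, hv⟩, ⟨c, hc⟩), rfl⟩

lemma Rel.mem_V_of_sq [Finite G] (h : Rel x y w) {z : G} (hz : z ∈ h.H) (h2 : z * z ∈ h.V) : z ∈ h.V := by
  obtain ⟨v, hv, c, hc, rfl⟩ := h.exists_decomp.1 hz
  have hn : c * v * c⁻¹ ∈ h.V := (Subgroup.mem_normalizer_iff.1 (h.zpowers_le hc) v).1 hv
  have hcc : c * c ∈ h.V := by
    have := mul_mem (inv_mem (mul_mem hv hn)) h2
    convert this using 1; group
  have h1 := Subgroup.disjoint_def.1 h.disjoint hcc (mul_mem hc hc)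
  have h3 : c ^ 3 = 1 := by
    obtain ⟨k, rfl⟩ := hc
    rw [← zpow_natCast, ← _root_.zpow_mul, mul_comm, _root_.zpow_mul, zpow_natCast, h.hw, _root_.one_zpow]
  rw [pow_succ, pow_two, h1, one_mul] at h3
  rw [h3, mul_one]; exact hv

/-- The generated group is `A4`. -/
theorem Rel.nonempty_A4 [Finite G] (h : Rel x y w) : Nonempty (h.H ≃* alternatingGroup (Fin 4)) := by
  refine Cfsg.Agent.S0228.result h.card_H fun z hz hc => ?_
  have hzz : (z : G) * z = 1 := by
    have := congrArg Subtype.val (hz ▸ pow_orderOf_eq_one z : z ^ 2 = 1)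
    simpa [pow_two] using this
  have hzV : (z : G) ∈ h.V := h.mem_V_of_sq z.2 (by rw [hzz]; exact one_mem _)
  have hw' : w * (z : G) * w⁻¹ = z := by
    have := congrArg Subtype.val (Subgroup.mem_center_iff.1 hc ⟨w, h.w_mem⟩)
    simp only [Subgroup.coe_mul] at this
    rw [this, mul_inv_cancel_right]
  rcases h.mem_V.1 hzV with e | e | e | e <;> rw [e] at hw'
  · rw [show z = 1 from Subtype.ext e, orderOf_one] at hz; omega
  · exact h.hxy (hw'.symm.trans h.hwx)
  · rw [h.hwy] at hw'; exact h.hx1 (mul_eq_right.1 hw')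
  · rw [← conj_mul, h.hwx, h.hwy, h.hc, ← mul_assoc, h.hy, one_mul] at hw'
    exact h.hy1 (mul_eq_right.1 hw'.symm)

/-- Adjoining a square root of `x` gives `S4`. -/
theorem Rel.exists_S4 [Finite G] (h : Rel x y w) (u : G) (hu : u * u = x) (huy : u * y * u⁻¹ = x * y)
    {r : G} (hr : r ∈ h.V) (huw : u * w * u⁻¹ = r * w⁻¹) : ∃ K : Subgroup G, Nonempty (K ≃* Equiv.Perm (Fin 4)) := by
  have hux : u * x * u⁻¹ = x := by rw [← hu]; group
  have huV : ∀ v ∈ h.V, u * v * u⁻¹ ∈ h.V := by
    intro v hv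
    rcases h.mem_V.1 hv with rfl | rfl | rfl | rfl
    · simp
    · rw [hux]; exact h.mem_V.2 (by tauto)
    · rw [huy]; exact h.mem_V.2 (by tauto)
    · rw [← conj_mul, hux, huy, ← mul_assoc, h.hx, one_mul]; exact h.mem_V.2 (by tauto)
  have hxV : x ∈ h.V := h.mem_V.2 (by tauto)
  have huH : h.H ≤ h.H.comap (MulAut.conj u).toMonoidHom := by
    rw [Rel.H, sup_le_iff, Subgroup.zpowers_le]
    refine ⟨fun v hv => Subgroup.mem_sup_left (huV v hv), ?_⟩
    show u * w * u⁻¹ ∈ h.H
    rw [huw]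
    exact mul_mem (h.V_le hr) (inv_mem h.w_mem)
  have hunot : u ∉ h.H := by
    intro hh
    have := h.sq_of_mem_V (h.mem_V_of_sq hh (by rw [hu]; exact hxV))
    rw [hu] at this
    exact h.hx1 this
  have huinv : u⁻¹ = x * u := inv_eq_of_mul_eq_one_right (by
    rw [← mul_assoc, show u * x = x * u by rw [← hu, mul_assoc], mul_assoc, hu, h.hx])
  let K : Subgroup G :=
    { carrier := {g | g ∈ h.H ∨ g * u⁻¹ ∈ h.H}
      one_mem' := Or.inl (one_mem _)
      mul_mem' := fun {a b} ha hb => by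
        have hc : ∀ g ∈ h.H, u * g * u⁻¹ ∈ h.H := fun g hg => huH hg
        rcases ha with ha | ha <;> rcases hb with hb | hb
        · exact Or.inl (mul_mem ha hb)
        · exact Or.inr (by rw [mul_assoc]; exact mul_mem ha hb)
        · exact Or.inr (by
            rw [show a * b * u⁻¹ = (a * u⁻¹) * (u * b * u⁻¹) by group]
            exact mul_mem ha (hc b hb))
        · exact Or.inl (by
            rw [show a * b = (a * u⁻¹) * (u * (b * u⁻¹) * u⁻¹) * (u * u) by group, hu]
            exact mul_mem (mul_mem ha (hc _ hb)) (h.V_le hxV))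
      inv_mem' := fun {a} ha => by
        have hc : ∀ g ∈ h.H, u * g * u⁻¹ ∈ h.H := fun g hg => huH hg
        rcases ha with ha | ha
        · exact Or.inl (inv_mem ha)
        · refine Or.inr ?_
          rw [show a⁻¹ * u⁻¹ = u⁻¹ * (a * u⁻¹)⁻¹ * u⁻¹ by group]
          nth_rewrite 1 [huinv]
          rw [show x * u * (a * u⁻¹)⁻¹ * u⁻¹ = x * (u * (a * u⁻¹)⁻¹ * u⁻¹) by group]
          exact mul_mem (h.V_le hxV) (hc _ (inv_mem ha)) }
  refine ⟨K, Cfsg.Agent.S1012.result ?_ ?_⟩
  · rw [show 24 = Nat.card (h.H × Bool) by rw [Nat.card_prod, h.card_H, Nat.card_eq_fintype_card, Fintype.card_bool]]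
    refine (Nat.card_eq_of_bijective (fun p : h.H × Bool =>
      (⟨if p.2 then (p.1 : G) * u else p.1, by
        cases p.2
        · exact Or.inl p.1.2
        · exact Or.inr (by simp)⟩ : K)) ⟨?_, ?_⟩).symm
    · rintro ⟨p, s⟩ ⟨r, t⟩ e
      have e' := congrArg Subtype.val e
      cases s <;> cases t <;> simp at e'
      · subst e'; rfl
      · exact absurd (by rw [show u = (r : G)⁻¹ * p by rw [e', inv_mul_cancel_left]]; exact mul_mem (inv_mem r.2) p.2) hunot
      · exact absurd (by rw [show u = (p : G)⁻¹ * r by rw [← e', inv_mul_cancel_left]]; exact mul_mem (inv_mem p.2) r.2) hunot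
      · subst e'; rfl
    · rintro ⟨g, hg | hg⟩
      · exact ⟨(⟨g, hg⟩, false), rfl⟩
      · exact ⟨(⟨g * u⁻¹, hg⟩, true), Subtype.ext (by simp)⟩
  · rintro ⟨z, hz⟩ ho
    have hn : ∀ n : ℕ, z ^ n = 1 ↔ 6 ∣ n := fun n => by
      rw [← ho, orderOf_dvd_iff_pow_eq_one, Subtype.ext_iff]; rfl
    have hsq : ∀ g : G, g * u⁻¹ ∈ h.H → g * g ∈ h.H := fun g hg => by
      rw [show g * g = (g * u⁻¹) * (u * (g * u⁻¹) * u⁻¹) * (u * u) by group, hu]
      exact mul_mem (mul_mem hg (huH hg)) (h.V_le hxV)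
    have hc2 : z * z ∈ h.H := hz.elim (fun hz => mul_mem hz hz) (hsq z)
    have e1 : z * z * (z * z) ≠ 1 := fun e => by
      have := (hn 4).1 (by rw [← e]; simp [pow_succ, mul_assoc])
      omega
    have e3 : (z * z) ^ 3 = 1 := by rw [← (hn 6).2 (dvd_refl 6)]; simp [pow_succ, mul_assoc]
    set t := z ^ 3 with ht
    have ht2 : t * t = 1 := by rw [ht, ← pow_add]; exact (hn 6).2 (dvd_refl 6)
    have htne : t ≠ 1 := fun e => by have := (hn 3).1 e; omega
    have htc : t * (z * z) * t⁻¹ = z * z := by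
      rw [ht, ← pow_two, ← pow_add, show 3 + 2 = 2 + 3 from rfl, pow_add, mul_inv_cancel_right]
    obtain ⟨v, hv, c, hc, hzc⟩ := h.exists_decomp.1 hc2
    have hc1 : c ≠ 1 := fun e => by
      rw [e, mul_one] at hzc
      exact e1 (by rw [hzc]; exact h.sq_of_mem_V hv)
    have hwmem : c = w ∨ c = w⁻¹ := by
      obtain ⟨k, rfl⟩ := hc
      have h3 : w ^ (3 : ℤ) = 1 := by rw [show (3 : ℤ) = ((3 : ℕ) : ℤ) from rfl, zpow_natCast, h.hw]
      have hk : w ^ k = w ^ (k % 3) := by
        conv_lhs => rw [← Int.emod_add_mul_ediv k 3, _root_.zpow_add, _root_.zpow_mul, h3, _root_.one_zpow, mul_one]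
      simp only at hc1 ⊢
      rw [hk] at hc1 ⊢
      have : k % 3 = 0 ∨ k % 3 = 1 ∨ k % 3 = 2 := by omega
      rcases this with e | e | e <;> rw [e] at hc1 ⊢
      · exact absurd (zpow_zero w) hc1
      · exact Or.inl (zpow_one w)
      · right
        show w ^ ((2 : ℕ) : ℤ) = w⁻¹
        rw [zpow_natCast]
        exact eq_inv_of_mul_eq_one_left (by rw [← pow_succ]; exact h.hw)
    -- an element of the coset V w centralized by t
    obtain ⟨v1, hv1, hcent⟩ : ∃ v1 ∈ h.V, t * (v1 * w) * t⁻¹ = v1 * w := by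
      rcases hwmem with rfl | rfl
      · exact ⟨v, hv, by rw [← hzc]; exact htc⟩
      · refine ⟨w * v⁻¹ * w⁻¹, h.w_conj _ (inv_mem hv), ?_⟩
        have := congrArg (·⁻¹) htc
        rw [hzc] at this
        simpa [mul_assoc] using this
    by_cases htH : t ∈ h.H
    · have htV : t ∈ h.V := h.mem_V_of_sq htH (by rw [ht2]; exact one_mem _)
      have hv1c : v1 * t = t * v1 := by
        have a := h.sq_of_mem_V (mul_mem hv1 htV)
        have b := h.sq_of_mem_V hv1
        have c := h.sq_of_mem_V htV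
        calc v1 * t = (v1 * t) * (v1 * v1) * (t * t) := by rw [b, c]; simp
          _ = ((v1 * t) * (v1 * t)) * (t⁻¹ * v1 * (t * t)) := by group
          _ = _ := by rw [a, one_mul, c, mul_one, inv_eq_of_mul_eq_one_right c]
      have hwt : w * t * w⁻¹ = t := by
        have e' : t * (v1 * w) = (v1 * w) * t := by
          calc t * (v1 * w) = (t * (v1 * w) * t⁻¹) * t := by group
            _ = _ := by rw [hcent]
        rw [← mul_assoc, ← hv1c, mul_assoc, mul_assoc] at e'
        rw [← mul_left_cancel e', mul_inv_cancel_right]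
      rcases h.mem_V.1 htV with e | e | e | e <;> rw [e] at hwt
      · exact htne e
      · exact h.hxy (hwt.symm.trans h.hwx)
      · rw [h.hwy] at hwt; exact h.hx1 (mul_eq_right.1 hwt)
      · rw [← conj_mul, h.hwx, h.hwy, h.hc, ← mul_assoc, h.hy, one_mul] at hwt
        exact h.hy1 (mul_eq_right.1 hwt.symm)
    · have htu : t * u⁻¹ ∈ h.H := by
        rcases (K.pow_mem hz 3 : z ^ 3 ∈ K) with e | e
        · exact absurd e htH
        · exact e
      obtain ⟨v0, hv0, f, hf, htf⟩ := h.exists_decomp.1 htu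
      have htval : t = v0 * f * u := by rw [← htf, inv_mul_cancel_right]
      -- conjugation by t inverts modulo V
      have hinv : ∃ v2 ∈ h.V, t * (v1 * w) * t⁻¹ = v2 * w⁻¹ := by
        set a := u * v1 * u⁻¹ * r with ha
        have haV : a ∈ h.V := mul_mem (huV v1 hv1) hr
        have hfw : Commute f w := by
          obtain ⟨k, rfl⟩ := hf
          exact (Commute.refl w).zpow_left k
        have hfi : f * w⁻¹ * f⁻¹ = w⁻¹ := by rw [hfw.inv_right.eq, mul_inv_cancel_right]
        refine ⟨v0 * (f * a * f⁻¹) * (w⁻¹ * v0⁻¹ * w), mul_mem (mul_mem hv0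
          ((Subgroup.mem_normalizer_iff.1 (h.zpowers_le hf) a).1 haV)) ?_, ?_⟩
        · have := (Subgroup.mem_normalizer_iff.1 (inv_mem (h.zpowers_le (Subgroup.mem_zpowers w))) v0⁻¹).1 (inv_mem hv0)
          rwa [inv_inv] at this
        · calc t * (v1 * w) * t⁻¹ = v0 * f * ((u * v1 * u⁻¹) * (u * w * u⁻¹)) * f⁻¹ * v0⁻¹ := by rw [htval]; group
            _ = v0 * (f * a * f⁻¹) * (f * w⁻¹ * f⁻¹) * v0⁻¹ := by rw [huw, ha]; group
            _ = _ := by rw [hfi]; group
      obtain ⟨v2, hv2, e⟩ := hinv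
      rw [hcent] at e
      have hww : w * w ∈ h.V := by
        rw [show w * w = v1⁻¹ * v2 by
          have := congrArg (fun g => v1⁻¹ * g * w) e
          simpa [mul_assoc] using this]
        exact mul_mem (inv_mem hv1) hv2
      have := h.mem_V_of_sq h.w_mem hww
      exact h.hw1 (Subgroup.disjoint_def.1 h.disjoint this (Subgroup.mem_zpowers w))

end Abstract

end Cfsg.Lib.QuatTwo

namespace Cfsg.Lib.QuatTwo

open Cfsg.Lib.PSLTwoOdd Cfsg.Lib.Fusion.PSLTwo

variable {F : Type*} [Field F]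

local notation "SL2" => Matrix.SpecialLinearGroup (Fin 2) F
local notation "PSL2" => Matrix.ProjectiveSpecialLinearGroup (Fin 2) F
local notation "π" => QuotientGroup.mk' (Subgroup.center (Matrix.SpecialLinearGroup (Fin 2) F))

/-- The quaternion `j`. -/
def qJ (a b : F) (h : a ^ 2 + b ^ 2 = -1) : SL2 :=
  ⟨!![a, b; b, -a], by rw [Matrix.det_fin_two_of]; linear_combination -h⟩

/-- The element `(-1 - i - j - k)/2`. -/
def qW [NeZero (2 : F)] (a b : F) (h : a ^ 2 + b ^ 2 = -1) : SL2 :=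
  ⟨!![(-1 - a + b) / 2, (1 - a - b) / 2; (-1 - a - b) / 2, (-1 + a - b) / 2], by
    rw [Matrix.det_fin_two_of]
    field_simp
    linear_combination (-2) * h⟩

/-- The element `(1 + i)/s`. -/
def qU (s : F) (hs : s ^ 2 = 2) [NeZero (2 : F)] : SL2 :=
  ⟨!![1 / s, -1 / s; 1 / s, 1 / s], by
    have : s ≠ 0 := fun e => two_ne_zero (α := F) (by rw [← hs, e]; ring)
    rw [Matrix.det_fin_two_of]
    field_simp
    linear_combination -hs⟩

lemma ext_entries {A B : SL2} (h00 : A 0 0 = B 0 0) (h01 : A 0 1 = B 0 1) (h10 : A 1 0 = B 1 0) (h11 : A 1 1 = B 1 1) : A = B := by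
  apply Subtype.ext
  ext i j
  fin_cases i <;> fin_cases j <;> assumption

@[simp] lemma coe_qJ (a b : F) (h : a ^ 2 + b ^ 2 = -1) :
    ((qJ a b h : SL2) : Matrix (Fin 2) (Fin 2) F) = !![a, b; b, -a] := rfl

variable [NeZero (2 : F)] {a b : F} (h : a ^ 2 + b ^ 2 = -1)

lemma qJ_sq : qJ a b h ^ 2 = -1 := by
  rw [pow_two]
  apply ext_entries <;>
    rw [Matrix.SpecialLinearGroup.coe_mul, Matrix.SpecialLinearGroup.coe_neg] <;>
    simp [qJ, Matrix.mul_apply, Fin.sum_univ_two] <;> first | linear_combination h | ring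

lemma qI_qJ : (jay : SL2) * qJ a b h = -(qJ a b h * jay) := by
  apply ext_entries <;>
    rw [Matrix.SpecialLinearGroup.coe_neg, Matrix.SpecialLinearGroup.coe_mul, Matrix.SpecialLinearGroup.coe_mul] <;>
    simp [qJ, Matrix.mul_apply, Fin.sum_univ_two]

lemma qW_qI : qW a b h * jay = qJ a b h * qW a b h := by
  have h2 : (2 : F) ≠ 0 := two_ne_zero
  apply ext_entries <;>
    rw [Matrix.SpecialLinearGroup.coe_mul, Matrix.SpecialLinearGroup.coe_mul] <;>
    simp [qJ, qW, Matrix.mul_apply, Fin.sum_univ_two] <;> field_simp <;>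
    first | linear_combination h | linear_combination -h | linear_combination (0 : F) * h

lemma qW_qJ : qW a b h * qJ a b h = jay * qJ a b h * qW a b h := by
  have h2 : (2 : F) ≠ 0 := two_ne_zero
  apply ext_entries <;>
    rw [Matrix.SpecialLinearGroup.coe_mul, Matrix.SpecialLinearGroup.coe_mul, Matrix.SpecialLinearGroup.coe_mul] <;>
    simp [qJ, qW, Matrix.mul_apply, Fin.sum_univ_two] <;> field_simp <;>
    first | linear_combination h | linear_combination -h | linear_combination 2 * h | linear_combination -2 * h | linear_combination (0 : F) * h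

lemma qW_sq : qW a b h * qW a b h = (qW a b h)⁻¹ := by
  have h2 : (2 : F) ≠ 0 := two_ne_zero
  apply ext_entries <;>
    rw [Matrix.SpecialLinearGroup.coe_mul, Matrix.SpecialLinearGroup.coe_inv, Matrix.adjugate_fin_two] <;>
    simp [qW, Matrix.mul_apply, Fin.sum_univ_two] <;> field_simp <;>
    first | linear_combination h | linear_combination -h | linear_combination 2 * h | linear_combination -2 * h | linear_combination (0 : F) * h

lemma qW_pow_three : qW a b h ^ 3 = 1 := by
  rw [pow_succ, pow_two, qW_sq, inv_mul_cancel]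

lemma qU_sq {s : F} (hs : s ^ 2 = 2) : qU s hs * qU s hs = (jay : SL2) := by
  have h2 : (2 : F) ≠ 0 := two_ne_zero
  have hs0 : s ≠ 0 := fun e => h2 (by rw [← hs, e]; ring)
  apply ext_entries <;>
    rw [Matrix.SpecialLinearGroup.coe_mul] <;>
    simp [qU, Matrix.mul_apply, Fin.sum_univ_two] <;> field_simp <;>
    first | linear_combination hs | linear_combination -hs | linear_combination (0 : F) * hs

lemma qU_qJ {s : F} (hs : s ^ 2 = 2) : qU s hs * qJ a b h = jay * qJ a b h * qU s hs := by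
  have h2 : (2 : F) ≠ 0 := two_ne_zero
  have hs0 : s ≠ 0 := fun e => h2 (by rw [← hs, e]; ring)
  apply ext_entries <;>
    rw [Matrix.SpecialLinearGroup.coe_mul, Matrix.SpecialLinearGroup.coe_mul, Matrix.SpecialLinearGroup.coe_mul] <;>
    simp [qU, qJ, Matrix.mul_apply, Fin.sum_univ_two] <;> field_simp <;> ring

lemma qU_qW {s : F} (hs : s ^ 2 = 2) : qU s hs * qW a b h = jay * qJ a b h * (qW a b h)⁻¹ * qU s hs := by
  have h2 : (2 : F) ≠ 0 := two_ne_zero
  have hs0 : s ≠ 0 := fun e => h2 (by rw [← hs, e]; ring)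
  apply ext_entries <;>
    rw [Matrix.SpecialLinearGroup.coe_mul, Matrix.SpecialLinearGroup.coe_mul,
      Matrix.SpecialLinearGroup.coe_mul, Matrix.SpecialLinearGroup.coe_mul, Matrix.SpecialLinearGroup.coe_inv, Matrix.adjugate_fin_two] <;>
    simp [qU, qW, Matrix.mul_apply, Fin.sum_univ_two] <;> field_simp <;>
    first | linear_combination h | linear_combination -h | linear_combination 2 * h | linear_combination -2 * h | linear_combination (0 : F) * h

lemma mk_neg (A : SL2) : π (-A) = π A := (mk_eq_mk_iff _ _).2 (Or.inr rfl)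

/-- The relations in `PSL(2, F)`. -/
theorem rel_psl [Finite F] : Rel (π (jay : SL2)) (π (qJ a b h)) (π (qW a b h)) := by
  have h2 : (2 : F) ≠ 0 := two_ne_zero
  have ox : orderOf (π (jay : SL2)) = 2 := (orderOf_mk_eq_two _).2 jay_sq
  have oy : orderOf (π (qJ a b h)) = 2 := (orderOf_mk_eq_two _).2 (qJ_sq h)
  refine
    { hx := (pow_two _).symm.trans (orderOf_dvd_iff_pow_eq_one.1 (dvd_of_eq ox))
      hy := (pow_two _).symm.trans (orderOf_dvd_iff_pow_eq_one.1 (dvd_of_eq oy))
      hc := by rw [← map_mul, qI_qJ h, mk_neg, map_mul]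
      hx1 := fun e => by rw [e, orderOf_one] at ox; omega
      hy1 := fun e => by rw [e, orderOf_one] at oy; omega
      hxy := fun e => ?_
      hw := by rw [← map_pow, qW_pow_three, map_one]
      hw1 := fun e => ?_
      hwx := by rw [← map_inv, ← map_mul, ← map_mul, qW_qI h, mul_inv_cancel_right]
      hwy := by rw [← map_inv, ← map_mul, ← map_mul, qW_qJ h, mul_inv_cancel_right, map_mul] }
  · rw [mk_eq_mk_iff] at e
    rcases e with e | e <;>
    · have e01 := congrFun (congrFun (congrArg Subtype.val e) 0) 1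
      have e10 := congrFun (congrFun (congrArg Subtype.val e) 1) 0
      simp at e01 e10
      first
        | exact h2 (by linear_combination e10 - e01)
        | exact h2 (by linear_combination e01 - e10)
        | exact h2 (by linear_combination e01 + e10)
        | exact h2 (by linear_combination -e01 - e10)
  · rw [← map_one (π), mk_eq_mk_iff] at e
    rcases e with e | e <;>
    · have e01 := congrFun (congrFun (congrArg Subtype.val e) 0) 1
      have e10 := congrFun (congrFun (congrArg Subtype.val e) 1) 0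
      simp [qW, h2] at e01 e10
      first
        | exact h2 (by linear_combination e10 - e01)
        | exact h2 (by linear_combination e01 - e10)
        | exact mul_ne_zero h2 h2 (by field_simp at e01 e10; linear_combination e10 - e01)
        | exact mul_ne_zero h2 h2 (by field_simp at e01 e10; linear_combination e01 - e10)

/-- `a² + b² = -1` has a solution. -/
theorem exists_ab [Finite F] : ∃ a b : F, a ^ 2 + b ^ 2 = -1 := by
  obtain ⟨v, w, h⟩ := exists_rep (F := F) 0 1 (-1) 0 (by ring) (by ring)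
  exact ⟨v, w, by linear_combination -h⟩

/-- `A4` in `PSL(2, F)`, `q` odd. -/
theorem exists_A4 [Finite F] : ∃ H : Subgroup PSL2, Nonempty (H ≃* alternatingGroup (Fin 4)) := by
  obtain ⟨a, b, h⟩ := exists_ab (F := F)
  exact ⟨_, (rel_psl h).nonempty_A4⟩

/-- `S4` in `PSL(2, F)` if two is a square. -/
theorem exists_S4 [Finite F] {s : F} (hs : s ^ 2 = 2) : ∃ H : Subgroup PSL2, Nonempty (H ≃* Equiv.Perm (Fin 4)) := by
  obtain ⟨a, b, h⟩ := exists_ab (F := F)
  refine (rel_psl h).exists_S4 (π (qU s hs)) ?_ ?_ (r := π (jay : SL2) * π (qJ a b h))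
    ((rel_psl h).mem_V.2 (Or.inr (Or.inr (Or.inr rfl)))) ?_
  · rw [← map_mul, qU_sq hs]
  · rw [← map_inv, ← map_mul, ← map_mul, qU_qJ h hs, mul_inv_cancel_right, map_mul]
  · rw [← map_inv, ← map_mul, ← map_mul, qU_qW h hs, mul_inv_cancel_right, map_mul, map_mul, map_inv]

end Cfsg.Lib.QuatTwo
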