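import Mathlib
import Cfsg.Agent.Lib.Classical.Transvection

/-!
Subgroups of `GL` containing the rational matrices of determinant one and one irrational root
element contain `SL`.
-/

set_option autoImplicit false

namespace Cfsg.Lib.Classical

open Matrix Module
open scoped MatrixGroups

variable {ι : Type} [Fintype ι] [DecidableEq ι] {F : Type*} [Field F]

/-- `tv w ψ` is in `M`. -/
def TvMem (M : Subgroup (GL ι F)) (w ψ : ι → F) : Prop :=
  ∃ h : ψ ⬝ᵥ w = 0, tvGL w ψ h ∈ M

lemma TvMem.dot {M : Subgroup (GL ι F)} {w ψ : ι → F} (h : TvMem M w ψ) : ψ ⬝ᵥ w = 0 := h.1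

lemma TvMem.of_eq {M : Subgroup (GL ι F)} {w ψ w' ψ' : ι → F} (h : TvMem M w ψ)
    (he : tv w ψ = tv w' ψ') (hd : ψ' ⬝ᵥ w' = 0) : TvMem M w' ψ' := by
  obtain ⟨h1, h2⟩ := h
  exact ⟨hd, by rwa [show tvGL w' ψ' hd = tvGL w ψ h1 from Units.ext (by simp [he])]⟩

lemma TvMem.move {M : Subgroup (GL ι F)} {w ψ : ι → F} {c : F} (h : TvMem M (c • w) ψ) :
    c = 0 ∨ TvMem M w (c • ψ) := by
  refine or_iff_not_imp_left.2 fun hc => h.of_eq (tv_smul w ψ c) ?_
  have := h.dot
  rw [dotProduct_smul] at this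
  rw [smul_dotProduct]
  exact this

/-- The commutator of two transvections. -/
lemma TvMem.comm {M : Subgroup (GL ι F)} {w₁ ψ₁ w₂ ψ₂ : ι → F} (h1 : TvMem M w₁ ψ₁)
    (h2 : TvMem M w₂ ψ₂) (h0 : ψ₂ ⬝ᵥ w₁ = 0) : TvMem M ((ψ₁ ⬝ᵥ w₂) • w₁) ψ₂ := by
  obtain ⟨d1, m1⟩ := h1
  obtain ⟨d2, m2⟩ := h2
  have hd : ψ₂ ⬝ᵥ ((ψ₁ ⬝ᵥ w₂) • w₁) = 0 := by rw [dotProduct_smul, h0, smul_zero]
  refine ⟨hd, ?_⟩
  set T₁ := tvGL w₁ ψ₁ d1
  set T₂ := tvGL w₂ ψ₂ d2
  have e : tvGL ((ψ₁ ⬝ᵥ w₂) • w₁) ψ₂ hd = T₁ * T₂ * T₁⁻¹ * T₂⁻¹ := by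
    rw [eq_mul_inv_iff_mul_eq, conj_tvGL]
    ext1
    rw [Units.val_mul, coe_tvGL, coe_tvGL, coe_tvGL, tv_mul_left _ _ _ d2, coe_tvGL, tv_mulVec]
    have e2 : ψ₂ ᵥ* ((T₁⁻¹ : GL ι F) : Matrix ι ι F) = ψ₂ := by
      rw [coe_tvGL_inv, tv, vecMul_add, vecMul_one, vecMul_vecMulVec]
      simp [h0]
    rw [e2, add_comm w₂]
  rw [e]
  exact M.mul_mem (M.mul_mem (M.mul_mem m1 m2) (M.inv_mem m1)) (M.inv_mem m2)

variable (F₀ : Subfield F)

/-- A vector with all coordinates in the subfield. -/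
def RatVec (v : ι → F) : Prop := ∀ i, v i ∈ F₀

omit [Fintype ι] in
lemma ratVec_single {a : F} (ha : a ∈ F₀) (i : ι) : RatVec F₀ (Pi.single i a) := fun k => by
  rcases eq_or_ne k i with rfl | h <;> simp [*]

variable {F₀}

lemma RatVec.dot {v w : ι → F} (hv : RatVec F₀ v) (hw : RatVec F₀ w) : v ⬝ᵥ w ∈ F₀ :=
  F₀.sum_mem fun i _ => F₀.mul_mem (hv i) (hw i)

variable [Finite F]

/-- No field strictly between `F₀` and `F`. -/
lemma eq_top_of_prime_degree {r : ℕ} (hr : r.Prime) (hcard : Nat.card F = Nat.card F₀ ^ r)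
    (K : Subfield F) (hK : F₀ ≤ K) {a : F} (ha : a ∈ K) (ha0 : a ∉ F₀) (x : F) : x ∈ K := by
  have hfin : Module.finrank F₀ F = r := by
    have h := Module.natCard_eq_pow_finrank (K := F₀) (V := F)
    exact (Nat.pow_right_injective Finite.one_lt_card (hcard.symm.trans h)).symm
  let I : IntermediateField F₀ F := K.toIntermediateField fun y => hK y.2
  have hI := Module.finrank_mul_finrank F₀ I F
  rw [hfin] at hI
  rcases hr.eq_one_or_self_of_dvd _ ⟨_, hI.symm⟩ with h | h
  · exfalso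
    rw [IntermediateField.finrank_eq_one_iff] at h
    obtain ⟨b, hb⟩ := IntermediateField.mem_bot.1 (show a ∈ (⊥ : IntermediateField F₀ F) from h ▸ ha)
    exact ha0 (hb ▸ b.2)
  · rw [h] at hI
    have h1 : Module.finrank I F = 1 :=
      Nat.eq_of_mul_eq_mul_left hr.pos (by rw [hI, mul_one])
    have : I = ⊤ := IntermediateField.finrank_eq_one_iff_eq_top.1 h1
    exact show x ∈ I from this ▸ IntermediateField.mem_top

variable {M : Subgroup (GL ι F)}
  (hM : ∀ v φ : ι → F, RatVec F₀ v → RatVec F₀ φ → φ ⬝ᵥ v = 0 → TvMem M v φ)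
  {r : ℕ} (hr : r.Prime) (hcard : Nat.card F = Nat.card F₀ ^ r) (hn : 7 ≤ Fintype.card ι)

include hn in
omit [Finite F] in
lemma exists_outside (s : Finset ι) (hs : s.card ≤ 6) : ∃ k, k ∉ s := by
  by_contra! h
  have := Finset.card_le_card (show (Finset.univ : Finset ι) ⊆ s from fun k _ => h k)
  rw [Finset.card_univ] at this
  omega

include hM hr hcard hn

/-- One irrational root element gives `SL`. -/
lemma ker_det_le_of_root {i j : ι} (hij : i ≠ j) {a : F} (ha : a ∉ F₀)
    (h : TvMem M (Pi.single i 1) (Pi.single j a)) :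
    (Matrix.GeneralLinearGroup.det : GL ι F →* Fˣ).ker ≤ M := by
  classical
  let P : F → Prop := fun a => ∀ i j : ι, i ≠ j → TvMem M (Pi.single i 1) (Pi.single j a)
  have rat : ∀ {a : F}, a ∈ F₀ → P a := fun {a} ha i j hij =>
    hM _ _ (ratVec_single F₀ F₀.one_mem i) (ratVec_single F₀ ha j) (by simp [hij.symm])
  have prod : ∀ {i j k : ι} {a b : F}, k ≠ i → TvMem M (Pi.single i 1) (Pi.single j a) →
      TvMem M (Pi.single j 1) (Pi.single k b) → TvMem M (Pi.single i 1) (Pi.single k (a * b)) := by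
    intro i j k a b hki h1 h2
    have h3 := h1.comm h2 (by simp [hki])
    refine h3.of_eq ?_ (by simp [hki])
    rw [tv_smul]
    simp [← Pi.single_smul, smul_eq_mul]
  have spread : ∀ {a : F} {i j : ι}, i ≠ j → TvMem M (Pi.single i 1) (Pi.single j a) → P a := by
    intro a i j hij h p q hpq
    obtain ⟨k, hk⟩ := exists_outside hn ({i, j, p, q} : Finset ι) (by
      refine (Finset.card_insert_le _ _).trans ?_
      refine Nat.succ_le_succ ((Finset.card_insert_le _ _).trans ?_)
      refine Nat.succ_le_succ ((Finset.card_insert_le _ _).trans ?_)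
      simp)
    simp only [Finset.mem_insert, Finset.mem_singleton, not_or] at hk
    obtain ⟨l, hl⟩ := exists_outside hn ({i, j, k, p, q} : Finset ι) (by
      refine (Finset.card_insert_le _ _).trans ?_
      refine Nat.succ_le_succ ((Finset.card_insert_le _ _).trans ?_)
      refine Nat.succ_le_succ ((Finset.card_insert_le _ _).trans ?_)
      refine Nat.succ_le_succ ((Finset.card_insert_le _ _).trans ?_)
      simp)
    simp only [Finset.mem_insert, Finset.mem_singleton, not_or] at hl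
    have h1 := prod hk.1 h (rat F₀.one_mem j k (Ne.symm hk.2.1))
    rw [mul_one] at h1
    have h2 := prod (Ne.symm hl.2.2.1) (rat F₀.one_mem l i hl.1) h1
    rw [one_mul] at h2
    have h3 := prod (Ne.symm hl.2.2.2.2) h2 (rat F₀.one_mem k q hk.2.2.2)
    rw [mul_one] at h3
    have h4 := prod (Ne.symm hpq) (rat F₀.one_mem p l (Ne.symm hl.2.2.2.1)) h3
    rw [one_mul] at h4
    exact h4
  have mul : ∀ {a b : F}, P a → P b → P (a * b) := by
    intro a b ha hb i j hij
    obtain ⟨k, hk⟩ := exists_outside hn ({i, j} : Finset ι) (by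
      refine (Finset.card_insert_le _ _).trans ?_
      simp)
    simp only [Finset.mem_insert, Finset.mem_singleton, not_or] at hk
    exact prod hij.symm (ha i k (Ne.symm hk.1)) (hb k j hk.2)
  have add : ∀ {a b : F}, P a → P b → P (a + b) := by
    intro a b ha hb i j hij
    obtain ⟨d1, m1⟩ := ha i j hij
    obtain ⟨d2, m2⟩ := hb i j hij
    have hd : (Pi.single j (a + b) : ι → F) ⬝ᵥ Pi.single i 1 = 0 := by simp [hij.symm]
    refine ⟨hd, ?_⟩
    have e : tvGL (Pi.single i 1) (Pi.single j (a + b)) hd =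
        tvGL _ _ d1 * tvGL _ _ d2 := by
      ext1
      rw [Units.val_mul, coe_tvGL, coe_tvGL, coe_tvGL, tv_mul_right _ _ _ d1, Pi.single_add]
    rw [e]
    exact M.mul_mem m1 m2
  have pw : ∀ {a : F}, P a → ∀ m : ℕ, P (a ^ m) := fun {a} ha m => by
    induction m with
    | zero => rw [pow_zero]; exact rat F₀.one_mem
    | succ m ih => rw [pow_succ]; exact mul ih ha
  have := Fintype.ofFinite F
  let K : Subfield F :=
    { carrier := {a | P a}
      mul_mem' := mul
      one_mem' := rat F₀.one_mem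
      add_mem' := add
      zero_mem' := rat F₀.zero_mem
      neg_mem' := fun {a} ha => by
        have h1 := mul (rat (F₀.neg_mem F₀.one_mem)) ha
        rwa [neg_one_mul] at h1
      inv_mem' := fun a ha => by
        rcases eq_or_ne a 0 with rfl | h0
        · rw [_root_.inv_zero]; exact rat F₀.zero_mem
        · have h2 : 2 ≤ Fintype.card F := Fintype.one_lt_card
          have h1 : a ^ (Fintype.card F - 2) = a⁻¹ := by
            refine eq_inv_of_mul_eq_one_left ?_
            rw [← pow_succ, show Fintype.card F - 2 + 1 = Fintype.card F - 1 by omega,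
              FiniteField.pow_card_sub_one_eq_one a h0]
          rw [← h1]
          exact pw ha _ }
  have all : ∀ x, P x := eq_top_of_prime_degree hr hcard K (fun x hx => rat hx)
    (show a ∈ K from spread hij h) ha
  refine ker_det_le_of_transvection_mem M fun p q hpq c g hg => ?_
  obtain ⟨d, m⟩ := all c p q hpq
  have e : g = tvGL (Pi.single p 1) (Pi.single q c) d := by
    ext1
    rw [hg, transvection_eq_tv, coe_tvGL]
    simp [← Pi.single_smul]
  rwa [e]

/-- Rational centre: the functional is rational. -/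
lemma ker_det_le_of_centre {v φ : ι → F} (hv : RatVec F₀ v) (hv0 : v ≠ 0)
    (h : TvMem M v φ) (hφ : ¬ RatVec F₀ φ) :
    (Matrix.GeneralLinearGroup.det : GL ι F →* Fˣ).ker ≤ M := by
  classical
  simp only [RatVec, not_forall] at hφ
  obtain ⟨j₀, hj₀⟩ := hφ
  obtain ⟨a, ha, haj⟩ : ∃ a, v a ≠ 0 ∧ a ≠ j₀ := by
    by_contra! hcon
    have e : v = Pi.single j₀ (v j₀) := funext fun k => by
      rcases eq_or_ne k j₀ with rfl | hk
      · simp
      · rw [Pi.single_eq_of_ne hk]
        by_contra hk'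
        exact hk (hcon k hk')
    have h0 := h.dot
    rw [e, dotProduct_single] at h0
    have hvj : v j₀ ≠ 0 := fun h1 => hv0 (by rw [e, h1, Pi.single_zero])
    exact hj₀ (((mul_eq_zero.1 h0).resolve_right hvj).symm ▸ F₀.zero_mem)
  obtain ⟨b, hb⟩ := exists_outside hn ({a, j₀} : Finset ι) (by
    refine (Finset.card_insert_le _ _).trans ?_
    simp)
  simp only [Finset.mem_insert, Finset.mem_singleton, not_or] at hb
  obtain ⟨i, hi⟩ := exists_outside hn ({a, b, j₀} : Finset ι) (by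
    refine (Finset.card_insert_le _ _).trans ?_
    refine Nat.succ_le_succ ((Finset.card_insert_le _ _).trans ?_)
    simp)
  simp only [Finset.mem_insert, Finset.mem_singleton, not_or] at hi
  obtain ⟨j, hj⟩ := exists_outside hn ({b, i} : Finset ι) (by
    refine (Finset.card_insert_le _ _).trans ?_
    simp)
  simp only [Finset.mem_insert, Finset.mem_singleton, not_or] at hj
  set f : ι → F := Pi.single a (v b) - Pi.single b (v a) with hf
  have hfr : RatVec F₀ f := fun k =>
    F₀.sub_mem (ratVec_single F₀ (hv b) a k) (ratVec_single F₀ (hv a) b k)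
  have hfv : f ⬝ᵥ v = 0 := by simp [hf, sub_dotProduct, mul_comm]
  have hfu : f ⬝ᵥ Pi.single j₀ 1 = 0 := by simp [hf, Ne.symm haj, Ne.symm hb.2]
  have hfi : f ⬝ᵥ Pi.single i 1 = 0 := by simp [hf, hi.1, hi.2.1]
  have s1 := h.comm (hM _ f (ratVec_single F₀ F₀.one_mem j₀) hfr hfu) hfv
  simp only [dotProduct_single, mul_one] at s1
  rcases s1.move with h0 | s1
  · exact absurd (h0 ▸ F₀.zero_mem) hj₀
  have s2 := (hM (Pi.single i 1) (Pi.single a 1) (ratVec_single F₀ F₀.one_mem i)
    (ratVec_single F₀ F₀.one_mem a) (by simp [Ne.symm hi.1])).comm s1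
    (by rw [smul_dotProduct, hfi, smul_zero])
  simp only [single_dotProduct, one_mul] at s2
  rcases s2.move with h0 | s2
  · exact absurd h0 ha
  have s3 := s2.comm (hM (Pi.single b 1) (Pi.single j 1) (ratVec_single F₀ F₀.one_mem b)
    (ratVec_single F₀ F₀.one_mem j) (by simp [hj.1])) (by simp [hj.2])
  rcases s3.move with h0 | s3
  · simp [hf, Ne.symm hb.1, ha, hb.1] at h0
    exact absurd (h0 ▸ F₀.zero_mem) hj₀
  refine ker_det_le_of_root hM hr hcard hn (Ne.symm hj.2) (a := (v a • φ j₀ • f) ⬝ᵥ Pi.single b 1)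
    ?_ ?_
  · intro hc
    simp [hf, hb.1] at hc
    apply hj₀
    have h5 := F₀.mul_mem (F₀.inv_mem (F₀.mul_mem (hv a) (hv a))) hc
    convert h5 using 1
    field_simp
  · simpa [← Pi.single_smul] using s3

/-- Rational functional: the centre is rational. -/
lemma ker_det_le_of_axis {v φ : ι → F} (hφ : RatVec F₀ φ) (hφ0 : φ ≠ 0)
    (h : TvMem M v φ) (hv : ¬ RatVec F₀ v) :
    (Matrix.GeneralLinearGroup.det : GL ι F →* Fˣ).ker ≤ M := by
  classical
  simp only [RatVec, not_forall] at hv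
  obtain ⟨j₀, hj₀⟩ := hv
  obtain ⟨a, ha, haj⟩ : ∃ a, φ a ≠ 0 ∧ a ≠ j₀ := by
    by_contra! hcon
    have e : φ = Pi.single j₀ (φ j₀) := funext fun k => by
      rcases eq_or_ne k j₀ with rfl | hk
      · simp
      · rw [Pi.single_eq_of_ne hk]
        by_contra hk'
        exact hk (hcon k hk')
    have h0 := h.dot
    rw [e, single_dotProduct] at h0
    have hvj : φ j₀ ≠ 0 := fun h1 => hφ0 (by rw [e, h1, Pi.single_zero])
    exact hj₀ (((mul_eq_zero.1 h0).resolve_left hvj).symm ▸ F₀.zero_mem)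
  obtain ⟨b, hb⟩ := exists_outside hn ({a, j₀} : Finset ι) (by
    refine (Finset.card_insert_le _ _).trans ?_
    simp)
  simp only [Finset.mem_insert, Finset.mem_singleton, not_or] at hb
  set u : ι → F := Pi.single a (φ b) - Pi.single b (φ a) with hu
  have hur : RatVec F₀ u := fun k =>
    F₀.sub_mem (ratVec_single F₀ (hφ b) a k) (ratVec_single F₀ (hφ a) b k)
  have hφu : φ ⬝ᵥ u = 0 := by simp [hu, dotProduct_sub, mul_comm]
  have s1 := (hM u (Pi.single j₀ 1) hur (ratVec_single F₀ F₀.one_mem j₀)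
    (by simp [hu, Ne.symm haj, Ne.symm hb.2])).comm h hφu
  simp only [single_dotProduct, one_mul] at s1
  rcases s1.move with h0 | s1
  · exact absurd (h0 ▸ F₀.zero_mem) hj₀
  refine ker_det_le_of_centre hM hr hcard hn hur (fun e => ?_) s1 fun hc => ?_
  · have h5 := congrFun e b
    simp [hu, hb.1] at h5
    exact ha h5
  · apply hj₀
    have h5 := F₀.mul_mem (hc a) (F₀.inv_mem (hφ a))
    rwa [Pi.smul_apply, smul_eq_mul, mul_inv_cancel_right₀ ha] at h5

omit [Finite F] hM hr hcard hn in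
/-- A rational vector in the kernel of a rational one, with prescribed support. -/
lemma exists_rat_kernel {f ψ : ι → F} (hf : RatVec F₀ f) (hf0 : f ≠ 0)
    (hψ : ∀ e, RatVec F₀ e → f ⬝ᵥ e = 0 → ψ ⬝ᵥ e = 0) : ∃ c : F, ψ = c • f := by
  obtain ⟨a, ha⟩ := Function.ne_iff.1 hf0
  rw [Pi.zero_apply] at ha
  refine ⟨ψ a * (f a)⁻¹, funext fun b => ?_⟩
  have h := hψ (Pi.single a (f b) - Pi.single b (f a))
    (fun k => F₀.sub_mem (ratVec_single F₀ (hf b) a k) (ratVec_single F₀ (hf a) b k))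
    (by simp [dotProduct_sub, mul_comm])
  simp only [dotProduct_sub, dotProduct_single] at h
  rw [Pi.smul_apply, smul_eq_mul]
  field_simp
  linear_combination -h

/-- A transvection killing a rational point is rational. -/
lemma ker_det_le_or_rat_of_point {w ψ e : ι → F} (he : RatVec F₀ e) (he0 : e ≠ 0)
    (hψe : ψ ⬝ᵥ e = 0) (h : TvMem M w ψ) :
    (Matrix.GeneralLinearGroup.det : GL ι F →* Fˣ).ker ≤ M ∨ ∀ i j, w i * ψ j ∈ F₀ := by
  by_cases hex : ∃ f, RatVec F₀ f ∧ f ⬝ᵥ e = 0 ∧ f ⬝ᵥ w ≠ 0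
  · obtain ⟨f, hf, hfe, hfw⟩ := hex
    have s := ((hM e f he hf hfe).comm h hψe).move.resolve_left hfw
    by_cases hr' : RatVec F₀ ((f ⬝ᵥ w) • ψ)
    · by_cases hψ0 : ψ = 0
      · exact Or.inr fun i j => by simp [hψ0]
      have h1 : TvMem M ((f ⬝ᵥ w)⁻¹ • w) ((f ⬝ᵥ w) • ψ) := by
        refine h.of_eq ?_ (by simp [dotProduct_smul, h.dot])
        rw [tv_smul, smul_smul, inv_mul_cancel₀ hfw, one_smul]
      by_cases hw' : RatVec F₀ ((f ⬝ᵥ w)⁻¹ • w)
      · refine Or.inr fun i j => ?_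
        have := F₀.mul_mem (hw' i) (hr' j)
        convert this using 1
        simp only [Pi.smul_apply, smul_eq_mul]
        field_simp
      · exact Or.inl (ker_det_le_of_axis hM hr hcard hn hr' (smul_ne_zero hfw hψ0) h1 hw')
    · exact Or.inl (ker_det_le_of_centre hM hr hcard hn he he0 s hr')
  · push_neg at hex
    obtain ⟨c, rfl⟩ := exists_rat_kernel he he0 (ψ := w) fun f hf hfe => by
      rw [dotProduct_comm]
      exact hex f hf (by rwa [dotProduct_comm])
    rcases h.move with rfl | h1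
    · exact Or.inr fun i j => by simp
    by_cases hr' : RatVec F₀ (c • ψ)
    · refine Or.inr fun i j => ?_
      have := F₀.mul_mem (he i) (hr' j)
      convert this using 1
      simp only [Pi.smul_apply, smul_eq_mul]
      ring
    · exact Or.inl (ker_det_le_of_centre hM hr hcard hn he he0 h1 hr')

end Cfsg.Lib.Classical
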