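import Mathlib

/-! p-subgroups of SL(2) and PSL(2) in characteristic p are abelian. -/

set_option autoImplicit false

namespace Cfsg.Agent.SL2PGroup

open Matrix

variable {F : Type*} [Field F]

theorem commute_of_fix {g h : SpecialLinearGroup (Fin 2) F} {v : Fin 2 → F} (hv : v ≠ 0)
    (hg : (g : Matrix (Fin 2) (Fin 2) F) *ᵥ v = v) (hh : (h : Matrix (Fin 2) (Fin 2) F) *ᵥ v = v) :
    g * h = h * g := by
  have form : ∀ M : Matrix (Fin 2) (Fin 2) F, M.det = 1 → M *ᵥ v = v → ∃ c : F,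
      M = !![1 - c * (v 0 * v 1), c * (v 0 * v 0); -(c * (v 1 * v 1)), 1 + c * (v 0 * v 1)] := by
    intro M hd hM
    have e0 : M 0 0 * v 0 + M 0 1 * v 1 = v 0 := by
      have := congrFun hM 0
      simpa [mulVec, dotProduct, Fin.sum_univ_two] using this
    have e1 : M 1 0 * v 0 + M 1 1 * v 1 = v 1 := by
      have := congrFun hM 1
      simpa [mulVec, dotProduct, Fin.sum_univ_two] using this
    rw [det_fin_two] at hd
    by_cases h0 : v 0 = 0
    · have h1 : v 1 ≠ 0 := fun h1 => hv (funext fun i => by fin_cases i <;> simp [h0, h1])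
      rw [h0, mul_zero, zero_add] at e0 e1
      have hb : M 0 1 = 0 := (mul_eq_zero.1 e0).resolve_right h1
      have hd1 : M 1 1 = 1 := mul_right_cancel₀ h1 (e1.trans (one_mul _).symm)
      refine ⟨-(M 1 0) / (v 1 * v 1), ?_⟩
      rw [hb, hd1] at hd
      conv_lhs => rw [eta_fin_two M]
      ext i j
      fin_cases i <;> fin_cases j <;> simp [h0, hb, hd1] <;> (try field_simp) <;>
        first | linear_combination hd | ring
    · refine ⟨M 0 1 / (v 0 * v 0), ?_⟩
      have ha : M 0 0 = 1 - M 0 1 * v 1 / v 0 := by field_simp; linear_combination e0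
      have hd1 : M 1 1 = 1 + M 0 1 * v 1 / v 0 := by
        field_simp; linear_combination v 0 * hd - M 1 1 * e0 + M 0 1 * e1
      have hc : M 1 0 = -(M 0 1 * v 1 * v 1 / (v 0 * v 0)) := by
        rw [hd1] at e1
        field_simp at e1 ⊢
        linear_combination e1
      conv_lhs => rw [eta_fin_two M]
      ext i j
      fin_cases i <;> fin_cases j <;> simp [ha, hc, hd1] <;> field_simp
  obtain ⟨c, hc⟩ := form _ g.2 hg
  obtain ⟨d, hd⟩ := form _ h.2 hh
  have key : (g : Matrix (Fin 2) (Fin 2) F) * h = h * g := by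
    rw [hc, hd]
    ext i j
    fin_cases i <;> fin_cases j <;> simp [Matrix.mul_apply, Fin.sum_univ_two] <;> ring
  exact Subtype.ext key

theorem pgroup_commute [Fintype F] {p : ℕ} [Fact p.Prime] [CharP F p]
    {P : Subgroup (SpecialLinearGroup (Fin 2) F)} (hP : IsPGroup p P) {g h : SpecialLinearGroup (Fin 2) F}
    (hg : g ∈ P) (hh : h ∈ P) : g * h = h * g := by
  let act : MulAction P (Fin 2 → F) :=
    { smul := fun u v => ((u : SpecialLinearGroup (Fin 2) F) : Matrix (Fin 2) (Fin 2) F) *ᵥ v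
      one_smul := fun v => one_mulVec v
      mul_smul := fun u w v => (mulVec_mulVec v _ _).symm }
  have hdvd : p ∣ Nat.card (Fin 2 → F) := by
    rw [Nat.card_fun, Nat.card_eq_fintype_card, Nat.card_eq_fintype_card, Fintype.card_fin]
    exact dvd_pow ((CharP.cast_eq_zero_iff F p _).1 (FiniteField.cast_card_eq_zero F)) two_ne_zero
  obtain ⟨v, hv, hv0⟩ := hP.exists_fixed_point_of_prime_dvd_card_of_fixed_point (Fin 2 → F) hdvd
    (a := (0 : Fin 2 → F)) (fun u => mulVec_zero _)
  exact commute_of_fix hv0.symm (hv ⟨g, hg⟩) (hv ⟨h, hh⟩)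

theorem psl_pgroup_commute [Fintype F] {p : ℕ} [Fact p.Prime] [CharP F p]
    {P : Subgroup (ProjectiveSpecialLinearGroup (Fin 2) F)} (hP : IsPGroup p P)
    {g h : ProjectiveSpecialLinearGroup (Fin 2) F} (hg : g ∈ P) (hh : h ∈ P) : g * h = h * g := by
  obtain ⟨S, hS⟩ := hP.exists_le_sylow
  let π : SpecialLinearGroup (Fin 2) F →* ProjectiveSpecialLinearGroup (Fin 2) F := QuotientGroup.mk' _
  have hπ : Function.Surjective π := QuotientGroup.mk'_surjective _
  obtain ⟨T⟩ := (inferInstance : Nonempty (Sylow p (SpecialLinearGroup (Fin 2) F)))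
  obtain ⟨x, hx⟩ := MulAction.exists_smul_eq (ProjectiveSpecialLinearGroup (Fin 2) F) (T.mapSurjective hπ) S
  have hcomm : ∀ a ∈ S, ∀ b ∈ S, a * b = b * a := by
    intro a ha b hb
    rw [← hx] at ha hb
    obtain ⟨_, ⟨u, hu, rfl⟩, rfl⟩ := ha
    obtain ⟨_, ⟨w, hw, rfl⟩, rfl⟩ := hb
    show x * π u * x⁻¹ * (x * π w * x⁻¹) = x * π w * x⁻¹ * (x * π u * x⁻¹)
    rw [conj_mul, conj_mul, ← map_mul, ← map_mul, pgroup_commute T.2 hu hw]
  exact hcomm g (hS hg) h (hS hh)

end Cfsg.Agent.SL2PGroup
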