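import Mathlib
import Cfsg.Prelude.Def_Classical

/-! Dimension of totally singular subspaces of the standard forms. -/

set_option autoImplicit false

namespace Cfsg.Agent.SingularDim

open Module

variable {F : Type*} [Field F] {m : ℕ} {a b : F}

theorem finrank_le_minus (hab : ∀ z₁ z₂ : F, z₁ ^ 2 + a * z₁ * z₂ + b * z₂ ^ 2 = 0 → z₁ = 0 ∧ z₂ = 0)
    (U : Submodule F ((Fin m ⊕ Fin m) ⊕ Fin 2 → F)) (hU : ∀ u ∈ U, Cfsg.quadFormMinus m F a b u = 0) :
    finrank F U ≤ m := by
  classical
  let π : U →ₗ[F] (Fin m → F) := (LinearMap.funLeft F F (fun i => Sum.inl (Sum.inr i))).comp U.subtype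
  have hA : ∀ u ∈ LinearMap.ker π, (∀ i, (u : (Fin m ⊕ Fin m) ⊕ Fin 2 → F) (.inl (.inr i)) = 0) ∧
      ∀ k, (u : (Fin m ⊕ Fin m) ⊕ Fin 2 → F) (.inr k) = 0 := by
    intro u hu
    have h0 : ∀ i, (u : (Fin m ⊕ Fin m) ⊕ Fin 2 → F) (.inl (.inr i)) = 0 := fun i => congrFun hu i
    refine ⟨h0, ?_⟩
    have := hU u u.2
    simp only [Cfsg.quadFormMinus, h0, mul_zero, Finset.sum_const_zero, zero_add] at this
    have h2 := hab _ _ this
    intro k
    fin_cases k
    exacts [h2.1, h2.2]
  let ψ : LinearMap.ker π →ₗ[F] Module.Dual F (Fin m → F) :=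
    { toFun := fun u => ∑ i, ((u : U) : (Fin m ⊕ Fin m) ⊕ Fin 2 → F) (.inl (.inl i)) • LinearMap.proj i
      map_add' := fun u v => by simp [add_smul, Finset.sum_add_distrib]
      map_smul' := fun c u => by simp [mul_smul, Finset.smul_sum] }
  have hψ : ∀ u, ψ u ∈ (LinearMap.range π).dualAnnihilator := by
    intro u
    rw [Submodule.mem_dualAnnihilator]
    rintro _ ⟨v, rfl⟩
    have h1 := hU _ (U.add_mem (u : U).2 v.2)
    have h2 := hU v v.2
    obtain ⟨h0, hz⟩ := hA u u.2
    simp only [Cfsg.quadFormMinus, Pi.add_apply, h0, hz, zero_add, add_mul, Finset.sum_add_distrib] at h1 h2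
    simp only [ψ, π, LinearMap.coe_mk, AddHom.coe_mk, LinearMap.coe_sum, Finset.sum_apply, LinearMap.smul_apply,
      LinearMap.proj_apply, LinearMap.comp_apply, LinearMap.funLeft_apply, Submodule.subtype_apply, smul_eq_mul]
    linear_combination h1 - h2
  have hinj : Function.Injective ψ := by
    rw [injective_iff_map_eq_zero]
    intro u hu
    obtain ⟨h0, hz⟩ := hA u u.2
    refine Subtype.ext (Subtype.ext (funext fun k => ?_))
    rcases k with (i | i) | k
    · have := LinearMap.congr_fun hu (Pi.single i 1)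
      simpa [ψ, Pi.single_apply] using this
    · exact h0 i
    · exact hz k
  have h1 : finrank F (LinearMap.ker π) ≤ finrank F (LinearMap.range π).dualAnnihilator :=
    LinearMap.finrank_le_finrank_of_injective (f := ψ.codRestrict _ hψ) fun u v h => hinj (congrArg Subtype.val h)
  have h2 := Subspace.finrank_add_finrank_dualAnnihilator_eq (LinearMap.range π)
  have h3 := LinearMap.finrank_range_add_finrank_ker π
  rw [Module.finrank_pi, Fintype.card_fin] at h2
  omega

theorem finrank_le_plus (hab : ∀ z₁ z₂ : F, z₁ ^ 2 + a * z₁ * z₂ + b * z₂ ^ 2 = 0 → z₁ = 0 ∧ z₂ = 0)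
    (U : Submodule F (Fin m ⊕ Fin m → F)) (hU : ∀ u ∈ U, Cfsg.quadFormPlus m F u = 0) :
    finrank F U ≤ m := by
  let ι : (Fin m ⊕ Fin m → F) →ₗ[F] ((Fin m ⊕ Fin m) ⊕ Fin 2 → F) :=
    { toFun := fun v => Sum.elim v 0
      map_add' := fun v w => by funext k; rcases k with k | k <;> simp
      map_smul' := fun c v => by funext k; rcases k with k | k <;> simp }
  have hι : Function.Injective ι := fun v w h => funext fun k => congrFun h (.inl k)
  rw [(Submodule.equivMapOfInjective ι hι U).finrank_eq]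
  refine finrank_le_minus hab _ ?_
  rintro _ ⟨u, hu, rfl⟩
  simpa [ι, Cfsg.quadFormMinus, Cfsg.quadFormPlus] using hU u hu

theorem exists_subspace (ι κ : Type*) [Fintype ι] [Fintype κ] [DecidableEq κ] (e : ι → κ) (he : Function.Injective e) :
    finrank F (Submodule.span F (Set.range fun i => (Pi.single (e i) 1 : κ → F))) = Fintype.card ι :=
  finrank_span_eq_card ((Pi.basisFun F κ).linearIndependent.comp e he |> fun h => by
    simpa [Function.comp_def, Pi.basisFun_apply] using h)

end Cfsg.Agent.SingularDim
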