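import Mathlib
import Cfsg.Agent.Lib.Classical.RationalRoots

/-!
Overgroups of `SL n F₀` in `GL n F`, for a subfield of prime index: an element which is not a
multiple of a rational matrix forces `SL n F`.

The proof compares two involutions `s`, `s'` of different rank, one rational and one conjugate to a
rational one: the dihedral group they generate supplies an involution commuting with both, and
elements commuting with rational involutions are rational up to a scalar.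
-/

set_option autoImplicit false

namespace Cfsg.Lib.Classical

open Matrix Module
open scoped MatrixGroups

variable {ι : Type} [Fintype ι] [DecidableEq ι] {F : Type*} [Field F] (F₀ : Subfield F)

/-- All entries in the subfield. -/
def RatMat (X : Matrix ι ι F) : Prop := ∀ i j, X i j ∈ F₀

/-- A non-zero multiple is rational. -/
def ScalRat (X : Matrix ι ι F) : Prop := ∃ c : F, c ≠ 0 ∧ RatMat F₀ (c • X)

variable {F₀}

omit [DecidableEq ι] in
lemma RatMat.mul {X Y : Matrix ι ι F} (hX : RatMat F₀ X) (hY : RatMat F₀ Y) :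
    RatMat F₀ (X * Y) := fun i j => F₀.sum_mem fun k _ => F₀.mul_mem (hX i k) (hY k j)

omit [Fintype ι] [DecidableEq ι] in
lemma RatMat.add {X Y : Matrix ι ι F} (hX : RatMat F₀ X) (hY : RatMat F₀ Y) :
    RatMat F₀ (X + Y) := fun i j => F₀.add_mem (hX i j) (hY i j)

omit [Fintype ι] [DecidableEq ι] in
lemma RatMat.sub {X Y : Matrix ι ι F} (hX : RatMat F₀ X) (hY : RatMat F₀ Y) :
    RatMat F₀ (X - Y) := fun i j => F₀.sub_mem (hX i j) (hY i j)

omit [Fintype ι] in
lemma ratMat_one : RatMat F₀ (1 : Matrix ι ι F) := fun i j => by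
  rcases eq_or_ne i j with rfl | h <;> simp [*]

lemma rank_add_le' (X Y : Matrix ι ι F) : (X + Y).rank ≤ X.rank + Y.rank := by
  refine (Submodule.finrank_mono ?_).trans (Submodule.finrank_add_le_finrank_add_finrank _ _)
  rintro _ ⟨v, rfl⟩
  rw [mulVecLin_apply, add_mulVec]
  exact Submodule.add_mem_sup ⟨v, rfl⟩ ⟨v, rfl⟩

lemma rank_conj (y : GL ι F) (X : Matrix ι ι F) :
    ((y : Matrix ι ι F) * X * ((y⁻¹ : GL ι F) : Matrix ι ι F)).rank = X.rank := by
  rw [rank_mul_eq_left_of_isUnit_det _ _ (isUnit_det_of_invertible _),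
    rank_mul_eq_right_of_isUnit_det _ _ (isUnit_det_of_invertible _)]

lemma rank_neg' (X : Matrix ι ι F) : (-X).rank = X.rank := by
  rw [show -X = (-1 : F) • X by simp,
    rank_smul_of_mem_nonZeroDivisors _ (mem_nonZeroDivisors_of_ne_zero (neg_ne_zero.2 one_ne_zero))]

lemma conj_sub_one (y : GL ι F) (X : Matrix ι ι F) :
    (y : Matrix ι ι F) * X * ((y⁻¹ : GL ι F) : Matrix ι ι F) - 1 =
      (y : Matrix ι ι F) * (X - 1) * ((y⁻¹ : GL ι F) : Matrix ι ι F) := by
  rw [mul_sub, sub_mul, mul_one, Units.mul_inv]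

lemma le_rank_neg_sub_one (h2 : (2 : F) ≠ 0) (X : Matrix ι ι F) :
    Fintype.card ι ≤ (X - 1).rank + (-X - 1).rank := by
  refine le_trans ?_ (rank_add_le' _ _)
  rw [show X - 1 + (-X - 1) = (-2 : F) • (1 : Matrix ι ι F) by rw [neg_smul, two_smul]; abel,
    rank_smul_of_mem_nonZeroDivisors _ (mem_nonZeroDivisors_of_ne_zero (neg_ne_zero.2 h2)),
    rank_one]

/-- Left fixed vectors. -/
lemma exists_two_left_kernel (Z : Matrix ι ι F) (hZ : RatMat F₀ Z) (hZZ : Z * Z = 1)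
    (hn : 3 ≤ Fintype.card ι) :
    ∃ ε : F, (ε = 1 ∨ ε = -1) ∧ ∃ f₁ f₂ v u : ι → F, RatVec F₀ f₁ ∧ RatVec F₀ f₂ ∧
      RatVec F₀ v ∧ RatVec F₀ u ∧ f₁ ≠ 0 ∧ f₁ ᵥ* (Z - ε • 1) = 0 ∧ f₂ ᵥ* (Z - ε • 1) = 0 ∧
      f₁ ⬝ᵥ v = 0 ∧ f₂ ⬝ᵥ v ≠ 0 ∧ u ≠ 0 ∧ f₁ ⬝ᵥ u = 0 ∧ f₂ ⬝ᵥ u = 0 := by
  classical
  let Z₀ : Matrix ι ι F₀ := fun i j => ⟨Z i j, hZ i j⟩
  have hmap : Z₀.map F₀.subtype = Z := rfl
  have hZ₀ : Z₀ * Z₀ = 1 := Matrix.map_injective F₀.subtype.injective (by
    dsimp only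
    rw [Matrix.map_mul, hmap, hZZ, Matrix.map_one _ (map_zero _) (map_one _)])
  obtain ⟨ε, hε, hdim⟩ : ∃ ε : F₀, (ε = 1 ∨ ε = -1) ∧
      2 ≤ finrank F₀ (LinearMap.ker (Z₀ - ε • 1).vecMulLinear) := by
    by_contra! hcon
    have h1 := hcon 1 (Or.inl rfl)
    have h2 := hcon (-1) (Or.inr rfl)
    have h3 := LinearMap.finrank_range_add_finrank_ker (Z₀ - (1 : F₀) • 1).vecMulLinear
    have h4 : LinearMap.range (Z₀ - (1 : F₀) • 1).vecMulLinear ≤
        LinearMap.ker (Z₀ - (-1 : F₀) • 1).vecMulLinear := by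
      rintro _ ⟨v, rfl⟩
      rw [LinearMap.mem_ker, vecMulLinear_apply, vecMulLinear_apply, vecMul_vecMul]
      simp [sub_mul, mul_add, hZ₀]
    have h5 := Submodule.finrank_mono h4
    rw [Module.finrank_fintype_fun_eq_card] at h3
    omega
  obtain ⟨g₁, hg₁, hg₁0⟩ := Submodule.exists_mem_ne_zero_of_ne_bot
    (p := LinearMap.ker (Z₀ - ε • 1).vecMulLinear) (fun h => by rw [h, finrank_bot] at hdim; omega)
  obtain ⟨g₂, hg₂, hg₂n⟩ := SetLike.not_le_iff_exists.1
    (show ¬ LinearMap.ker (Z₀ - ε • 1).vecMulLinear ≤ Submodule.span F₀ {g₁} from fun h => by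
      have := Submodule.finrank_mono h
      rw [finrank_span_singleton hg₁0] at this
      omega)
  let co : (ι → F₀) → (ι → F) := fun g i => (g i : F)
  have hco : ∀ g h, co g ⬝ᵥ co h = ((g ⬝ᵥ h : F₀) : F) := fun g h => by
    simp [co, dotProduct]
  have hker : ∀ g ∈ LinearMap.ker (Z₀ - ε • 1).vecMulLinear,
      co g ᵥ* (Z - (ε : F) • 1) = 0 := by
    intro g hg
    rw [LinearMap.mem_ker, vecMulLinear_apply] at hg
    funext j
    have hj := congrArg (fun x : F₀ => (x : F)) (congrFun hg j)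
    simp only [vecMul, dotProduct, Pi.zero_apply, ZeroMemClass.coe_zero] at hj
    rw [Pi.zero_apply, ← hj]
    simp [vecMul, dotProduct, co, Z₀, Matrix.one_apply]
    refine Finset.sum_congr rfl fun x _ => ?_
    congr 1
    change _ = (((⟨Z x j, hZ x j⟩ : F₀) - ε * (1 : Matrix ι ι F₀) x j : F₀) : F)
    rw [Matrix.one_apply]
    split_ifs <;> simp
  obtain ⟨v, hv1, hv2⟩ : ∃ v : ι → F₀, g₁ ⬝ᵥ v = 0 ∧ g₂ ⬝ᵥ v ≠ 0 := by
    by_contra! hcon
    apply hg₂n
    obtain ⟨a, ha⟩ := Function.ne_iff.1 hg₁0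
    rw [Pi.zero_apply] at ha
    refine Submodule.mem_span_singleton.2 ⟨g₂ a * (g₁ a)⁻¹, funext fun b => ?_⟩
    have h := hcon (Pi.single a (g₁ b) - Pi.single b (g₁ a)) (by simp [dotProduct_sub, mul_comm])
    simp only [dotProduct_sub, dotProduct_single] at h
    rw [Pi.smul_apply, smul_eq_mul]
    field_simp
    linear_combination h
  let L : (ι → F₀) →ₗ[F₀] F₀ × F₀ :=
    { toFun := fun x => (g₁ ⬝ᵥ x, g₂ ⬝ᵥ x)
      map_add' := fun x y => by simp [dotProduct_add]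
      map_smul' := fun c x => by simp [dotProduct_smul] }
  obtain ⟨u, hu, hu0⟩ := Submodule.exists_mem_ne_zero_of_ne_bot
    (LinearMap.ker_ne_bot_of_finrank_lt (f := L) (by
      rw [Module.finrank_prod, Module.finrank_self, Module.finrank_fintype_fun_eq_card]; omega))
  refine ⟨(ε : F), ?_, co g₁, co g₂, co v, co u, fun i => (g₁ i).2, fun i => (g₂ i).2,
    fun i => (v i).2, fun i => (u i).2,
    fun h => hg₁0 (funext fun i => Subtype.ext (congrFun h i)), hker _ hg₁, hker _ hg₂, ?_, ?_, ?_, ?_, ?_⟩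
  · rcases hε with rfl | rfl <;> simp
  · rw [hco, hv1]; rfl
  · rw [hco]; exact fun h => hv2 (Subtype.ext h)
  · exact fun h => hu0 (funext fun i => Subtype.ext (congrFun h i))
  · rw [hco, show g₁ ⬝ᵥ u = 0 from (Prod.ext_iff.1 hu).1]; rfl
  · rw [hco, show g₂ ⬝ᵥ u = 0 from (Prod.ext_iff.1 hu).2]; rfl

variable [Finite F] {M : Subgroup (GL ι F)}
  (hM : ∀ g : GL ι F, RatMat F₀ (g : Matrix ι ι F) → (g : Matrix ι ι F).det = 1 → g ∈ M)
  {r : ℕ} (hr : r.Prime) (hcard : Nat.card F = Nat.card F₀ ^ r) (hn : 7 ≤ Fintype.card ι)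

include hM hr hcard hn

/-- An element intertwining two rational involutions is rational up to a scalar. -/
lemma ker_det_le_or_scalRat (hSL : ¬ (Matrix.GeneralLinearGroup.det : GL ι F →* Fˣ).ker ≤ M)
    {Z Z' : Matrix ι ι F} (hZ : RatMat F₀ Z) (hZ' : RatMat F₀ Z') (hZZ : Z * Z = 1)
    (h1 : Z ≠ 1) (h1' : Z ≠ -1) {y : GL ι F} (hy : y ∈ M)
    (hyZ : (y : Matrix ι ι F) * Z = Z' * (y : Matrix ι ι F)) :
    ScalRat F₀ (y : Matrix ι ι F) := by
  classical
  have hMt : ∀ v φ : ι → F, RatVec F₀ v → RatVec F₀ φ → φ ⬝ᵥ v = 0 → TvMem M v φ := by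
    intro v φ hv hφ h
    refine ⟨h, hM _ ?_ ?_⟩
    · intro i j
      rw [coe_tvGL, tv, Matrix.add_apply, vecMulVec_apply]
      exact F₀.add_mem (ratMat_one i j) (F₀.mul_mem (hv i) (hφ j))
    · rw [coe_tvGL, det_tv, h, add_zero]
  obtain ⟨ε, hε, f₁, f₂, v₁, u, hf₁, hf₂, hv₁, hu, hf₁0, k₁, k₂, e₁, e₂, hu0, eu₁, eu₂⟩ :=
    exists_two_left_kernel Z hZ hZZ (by omega)
  set yi : Matrix ι ι F := ((y⁻¹ : GL ι F) : Matrix ι ι F)
  have hN : (y : Matrix ι ι F) * (Z - ε • 1) = (Z' - ε • 1) * (y : Matrix ι ι F) := by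
    rw [mul_sub, sub_mul, hyZ]
    simp
  obtain ⟨k, hk⟩ : ∃ k, (Z' - ε • 1) *ᵥ (Pi.single k 1 : ι → F) ≠ 0 := by
    by_contra! hcon
    have h0 : Z' - ε • 1 = 0 := by
      refine ext_mulVec fun x => ?_
      rw [pi_eq_sum_univ' x, mulVec_sum, mulVec_sum]
      refine Finset.sum_congr rfl fun k _ => ?_
      rw [mulVec_smul, hcon k, smul_zero, zero_mulVec]
    rw [h0, zero_mul] at hN
    have h3 : Z - ε • 1 = 0 := by
      have := congrArg (fun X => yi * X) hN
      simpa [yi, ← mul_assoc] using this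
    rcases hε with rfl | rfl
    · exact h1 (by simpa [sub_eq_zero] using h3)
    · exact h1' (eq_neg_of_add_eq_zero_left (by simpa using h3))
  have hek : RatVec F₀ ((Z' - ε • 1) *ᵥ (Pi.single k 1 : ι → F)) := by
    intro i
    rw [mulVec_single_one]
    refine F₀.sub_mem (hZ' i k) ?_
    rw [Matrix.smul_apply, smul_eq_mul]
    exact F₀.mul_mem (by rcases hε with rfl | rfl <;> simp) (ratMat_one i k)
  have key : ∀ f, RatVec F₀ f → f ᵥ* (Z - ε • 1) = 0 → ∀ v, RatVec F₀ v → f ⬝ᵥ v = 0 →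
      ∀ i j, ((y : Matrix ι ι F) *ᵥ v) i * (f ᵥ* yi) j ∈ F₀ := by
    intro f hf hfN v hv hfv
    obtain ⟨h0, hm⟩ := hMt v f hv hf hfv
    have hd : (f ᵥ* yi) ⬝ᵥ ((y : Matrix ι ι F) *ᵥ v) = 0 := by
      rw [← dotProduct_mulVec, inv_mulVec_mulVec, hfv]
    have hT : TvMem M ((y : Matrix ι ι F) *ᵥ v) (f ᵥ* yi) :=
      ⟨hd, by
        rw [← conj_tvGL y v f h0]
        exact M.mul_mem (M.mul_mem hy hm) (M.inv_mem hy)⟩
    have he : (f ᵥ* yi) ⬝ᵥ ((Z' - ε • 1) *ᵥ (Pi.single k 1 : ι → F)) = 0 := by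
      have h2 : yi * (Z' - ε • 1) = (Z - ε • 1) * yi := by
        have h5 := congrArg (fun X => yi * X * yi) hN
        simp only [yi, mul_assoc, Units.mul_inv, mul_one] at h5
        rw [← mul_assoc, Units.inv_mul, one_mul] at h5
        exact h5.symm
      rw [← dotProduct_mulVec, mulVec_mulVec, h2, ← mulVec_mulVec, dotProduct_mulVec, hfN,
        zero_dotProduct]
    exact (ker_det_le_or_rat_of_point hMt hr hcard hn hek hk he hT).resolve_left hSL
  have hne : ∀ f : ι → F, f ≠ 0 → ∃ j, (f ᵥ* yi) j ≠ 0 := by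
    intro f hf
    by_contra! hcon
    apply hf
    have h5 := congrArg (fun x => x ᵥ* (y : Matrix ι ι F)) (show f ᵥ* yi = 0 from funext hcon)
    simpa [yi, vecMul_vecMul] using h5
  obtain ⟨j₁, hj₁⟩ := hne f₁ hf₁0
  obtain ⟨j₂, hj₂⟩ := hne f₂ fun h => e₂ (by simp [h])
  set s₁ := (f₁ ᵥ* yi) j₁
  set s₂ := (f₂ ᵥ* yi) j₂
  refine ⟨s₁, hj₁, ?_⟩
  obtain ⟨i₀, hi₀⟩ := Function.ne_iff.1 (mulVec_ne_zero y hu0)
  rw [Pi.zero_apply] at hi₀
  have a₁ := key f₁ hf₁ k₁ u hu eu₁ i₀ j₁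
  have a₂ := key f₂ hf₂ k₂ u hu eu₂ i₀ j₂
  have hρ : s₁ / s₂ ∈ F₀ := by
    have := F₀.div_mem a₁ a₂
    rwa [mul_div_mul_left _ _ hi₀] at this
  intro i j
  rw [Matrix.smul_apply, smul_eq_mul]
  set t := (f₂ ⬝ᵥ Pi.single j 1) / (f₂ ⬝ᵥ v₁)
  have hej : RatVec F₀ (Pi.single j 1 : ι → F) := ratVec_single F₀ F₀.one_mem j
  have ht : t ∈ F₀ := F₀.div_mem (hf₂.dot hej) (hf₂.dot hv₁)
  set v' : ι → F := Pi.single j 1 - t • v₁ with hv'
  have hv'r : RatVec F₀ v' := fun k => F₀.sub_mem (hej k) (F₀.mul_mem ht (hv₁ k))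
  have hv'2 : f₂ ⬝ᵥ v' = 0 := by
    rw [hv', dotProduct_sub, dotProduct_smul, smul_eq_mul, div_mul_cancel₀ _ e₂, sub_self]
  have b₂ := F₀.mul_mem (key f₂ hf₂ k₂ v' hv'r hv'2 i j₂) hρ
  have b₁ := F₀.mul_mem ht (key f₁ hf₁ k₁ v₁ hv₁ e₁ i j₁)
  have := F₀.add_mem b₂ b₁
  convert this using 1
  have hcol : (y : Matrix ι ι F) i j = ((y : Matrix ι ι F) *ᵥ v') i +
      t * ((y : Matrix ι ι F) *ᵥ v₁) i := by
    rw [hv', mulVec_sub, mulVec_smul, mulVec_single_one]
    simp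
  rw [hcol]
  change _ = ((y : Matrix ι ι F) *ᵥ v') i * s₂ * (s₁ / s₂) +
    t * (((y : Matrix ι ι F) *ᵥ v₁) i * s₁)
  field_simp

omit hM hr hcard hn in
/-- A scalar multiple of a rational matrix which is conjugate to a rational involution of small rank
is rational. -/
lemma ratMat_of_scalRat {W S : Matrix ι ι F} (hS : RatMat F₀ S) {k : ℕ} (hk : (S - 1).rank ≤ k)
    (hk2 : 2 * k < Fintype.card ι) {y : GL ι F}
    (hW : (y : Matrix ι ι F) * S * ((y⁻¹ : GL ι F) : Matrix ι ι F) = W) (hWW : W * W = 1)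
    (hs : ScalRat F₀ W) : RatMat F₀ W := by
  classical
  obtain ⟨c, hc, hcW⟩ := hs
  have := Fintype.ofFinite F
  have := Fintype.ofFinite F₀
  suffices h : c ∈ F₀ by
    intro i j
    have := F₀.mul_mem (F₀.inv_mem h) (hcW i j)
    rwa [Matrix.smul_apply, smul_eq_mul, inv_mul_cancel_left₀ hc] at this
  obtain ⟨i⟩ : Nonempty ι := Fintype.card_pos_iff.1 (by omega)
  have hcc : c * c ∈ F₀ := by
    have h := hcW.mul hcW i i
    rw [Matrix.smul_mul, Matrix.mul_smul, smul_smul, hWW, Matrix.smul_apply, smul_eq_mul,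
      Matrix.one_apply_eq, mul_one] at h
    exact h
  let σ : F →+* F := (FiniteField.frobeniusAlgHom F₀ F).toRingHom
  have hσ : ∀ x : F, σ x = x ^ Fintype.card F₀ := fun x => rfl
  have hσ0 : ∀ x ∈ F₀, σ x = x := fun x hx =>
    (FiniteField.frobeniusAlgHom F₀ F).commutes ⟨x, hx⟩
  by_contra hcn
  have hσc : σ c ≠ c := by
    intro h
    rw [hσ] at h
    apply hcn
    have hq : 1 < Fintype.card F₀ := Fintype.one_lt_card
    have hne := FiniteField.X_pow_card_sub_X_ne_zero F hq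
    have hsub : Finset.univ.map ⟨((↑) : F₀ → F), Subtype.val_injective⟩ ⊆
        (Polynomial.X ^ Fintype.card F₀ - Polynomial.X : Polynomial F).roots.toFinset := by
      intro x hx
      rw [Finset.mem_map] at hx
      obtain ⟨y, -, rfl⟩ := hx
      rw [Multiset.mem_toFinset, Polynomial.mem_roots hne]
      simp only [Function.Embedding.coeFn_mk, Polynomial.IsRoot.def, Polynomial.eval_sub,
        Polynomial.eval_pow, Polynomial.eval_X, sub_eq_zero]
      rw [← hσ, hσ0 _ y.2]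
    have hle : (Polynomial.X ^ Fintype.card F₀ - Polynomial.X : Polynomial F).roots.toFinset.card ≤
        (Finset.univ.map ⟨((↑) : F₀ → F), Subtype.val_injective⟩).card := by
      rw [Finset.card_map, Finset.card_univ]
      refine (Multiset.toFinset_card_le _).trans ((Polynomial.card_roots' _).trans ?_)
      rw [FiniteField.X_pow_card_sub_X_natDegree_eq F hq]
    have hc' : c ∈ Finset.univ.map ⟨((↑) : F₀ → F), Subtype.val_injective⟩ := by
      rw [Finset.eq_of_subset_of_card_le hsub hle, Multiset.mem_toFinset, Polynomial.mem_roots hne]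
      simp [h]
    rw [Finset.mem_map] at hc'
    obtain ⟨y, -, hy⟩ := hc'
    exact hy ▸ y.2
  have hσn : σ c = -c := by
    have h : σ c * σ c = c * c := by rw [← map_mul, hσ0 _ hcc]
    exact (mul_self_eq_mul_self_iff.1 h).resolve_left hσc
  have h2 : (2 : F) ≠ 0 := by
    intro h2
    apply hσc
    rw [hσn]
    linear_combination (-c) * h2
  have hWσ : W.map σ = -W := by
    ext i j
    have h := hσ0 _ (hcW i j)
    rw [Matrix.smul_apply, smul_eq_mul, map_mul, hσn] at h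
    rw [Matrix.map_apply, Matrix.neg_apply]
    exact mul_left_cancel₀ hc (by linear_combination -h)
  let y' : GL ι F := Matrix.GeneralLinearGroup.map σ y
  have hy' : (y' : Matrix ι ι F) * S * ((y'⁻¹ : GL ι F) : Matrix ι ι F) = -W := by
    have hSσ : S.map σ = S := by
      ext i j
      exact hσ0 _ (hS i j)
    rw [← hWσ, ← hW, Matrix.map_mul, Matrix.map_mul, hSσ, ← map_inv]
    rfl
  have r1 : (W - 1).rank ≤ k := by rwa [← hW, conj_sub_one, rank_conj]
  have r2 : (-W - 1).rank ≤ k := by rwa [← hy', conj_sub_one, rank_conj]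
  have := le_rank_neg_sub_one h2 W
  omega

omit hM hr hcard hn [Fintype ι] [Finite F] in
/-- The two involutions used in the proof. -/
lemma exists_invol [Fintype ι] (k : ℕ) (hk : 2 * k ≤ Fintype.card ι) (hke : Even k) :
    ∃ s : GL ι F, RatMat F₀ (s : Matrix ι ι F) ∧ (s : Matrix ι ι F).det = 1 ∧ s * s = 1 ∧
      ((s : Matrix ι ι F) - 1).rank = k := by
  classical
  obtain ⟨e⟩ : Nonempty (Fin k ⊕ Fin k ↪ ι) :=
    Function.Embedding.nonempty_of_card_le (by simp; omega)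
  let A : Matrix ι (Fin k) F := Matrix.of fun x a => if x = e (Sum.inl a) then 1 else 0
  let B : Matrix ι (Fin k) F := Matrix.of fun x a => if x = e (Sum.inr a) then 1 else 0
  have hAA : Aᵀ * A = 1 := by ext a b; simp [A, mul_apply, one_apply, e.injective.eq_iff, eq_comm]
  have hBB : Bᵀ * B = 1 := by ext a b; simp [B, mul_apply, one_apply, e.injective.eq_iff, eq_comm]
  have hAB : Aᵀ * B = 0 := by ext a b; simp [A, B, mul_apply, e.injective.eq_iff]
  have hBA : Bᵀ * A = 0 := by ext a b; simp [A, B, mul_apply, e.injective.eq_iff]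
  set D := A - B with hD
  have hDD : Dᵀ * D = 2 • (1 : Matrix (Fin k) (Fin k) F) := by
    rw [hD, transpose_sub, Matrix.sub_mul, Matrix.mul_sub, Matrix.mul_sub, hAA, hBB, hAB, hBA, two_smul]
    abel
  have hAD : Aᵀ * D = 1 := by rw [hD, Matrix.mul_sub, hAA, hAB, sub_zero]
  have hDA : Dᵀ * A = 1 := by rw [hD, transpose_sub, Matrix.sub_mul, hAA, hBA, sub_zero]
  have hsq : (1 - D * Dᵀ) * (1 - D * Dᵀ) = 1 := by
    rw [sub_mul, mul_sub, mul_sub, one_mul, one_mul, mul_one,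
      show D * Dᵀ * (D * Dᵀ) = D * (Dᵀ * D) * Dᵀ by simp only [Matrix.mul_assoc], hDD,
      Matrix.mul_smul, Matrix.mul_one, Matrix.smul_mul, two_smul]
    abel
  refine ⟨⟨1 - D * Dᵀ, 1 - D * Dᵀ, hsq, hsq⟩, ?_, ?_, Units.ext hsq, ?_⟩
  · intro i j
    change ((1 - D * Dᵀ : Matrix ι ι F)) i j ∈ F₀
    rw [Matrix.sub_apply, Matrix.mul_apply]
    refine F₀.sub_mem (ratMat_one i j) (F₀.sum_mem fun a _ => ?_)
    refine F₀.mul_mem ?_ ?_ <;>
      simp only [hD, transpose_apply, Matrix.sub_apply, A, B, Matrix.of_apply] <;>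
      split_ifs <;> simp
  · change (1 - D * Dᵀ).det = 1
    rw [det_one_sub_mul_comm, hDD, two_smul, show (1 : Matrix (Fin k) (Fin k) F) - (1 + 1) = -1 by abel,
      det_neg, det_one, mul_one, Fintype.card_fin]
    exact Even.neg_one_pow hke
  · change (1 - D * Dᵀ - 1).rank = k
    rw [show 1 - D * Dᵀ - 1 = -(D * Dᵀ) by abel, rank_neg']
    refine le_antisymm ((rank_mul_le_left _ _).trans ((rank_le_card_width _).trans (by simp))) ?_
    calc k = (Aᵀ * (D * Dᵀ) * A).rank := by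
            rw [Matrix.mul_assoc, Matrix.mul_assoc D, hDA, Matrix.mul_one, hAD, rank_one, Fintype.card_fin]
      _ ≤ (Aᵀ * (D * Dᵀ)).rank := rank_mul_le_left _ _
      _ ≤ (D * Dᵀ).rank := rank_mul_le_right _ _

omit hM hr hcard hn [Fintype ι] [DecidableEq ι] [Finite F] in
/-- Two non-conjugate involutions and the central power of their product. -/
lemma exists_dihedral_pow {G : Type*} [Group G] [Finite G] {s t : G} (hs : s * s = 1)
    (ht : t * t = 1) (hne : ∀ g : G, g * s * g⁻¹ ≠ t) :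
    ∃ (m : ℕ) (z : G), z = (s * t) ^ m ∧ z ≠ 1 ∧ z * z = 1 ∧ z * s = s * z ∧ z * t = t * z ∧
      ∃ g ∈ Subgroup.closure {s, t}, g * s * g⁻¹ = z * s ∨ g * t * g⁻¹ = z * s := by
  set x := s * t with hx
  have si : s⁻¹ = s := inv_eq_of_mul_eq_one_right hs
  have ti : t⁻¹ = t := inv_eq_of_mul_eq_one_right ht
  have hts : t * s = x⁻¹ := by rw [hx, _root_.mul_inv_rev, si, ti]
  have hflip : ∀ a : ℕ, s * (x ^ a)⁻¹ = x ^ a * s := by
    intro a
    induction a with
    | zero => simp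
    | succ a ih =>
      calc s * (x ^ (a + 1))⁻¹ = (s * x⁻¹) * (x ^ a)⁻¹ := by rw [pow_succ, _root_.mul_inv_rev, mul_assoc]
        _ = x * (s * (x ^ a)⁻¹) := by rw [← hts, hx]; group
        _ = x ^ (a + 1) * s := by rw [ih, ← mul_assoc, pow_succ']
  have hflipt : ∀ a : ℕ, x ^ (a + 1) * t * (x ^ (a + 1))⁻¹ = x ^ (2 * a + 1) * s := by
    intro a
    have e : x⁻¹ * s = t := by rw [← hts, mul_assoc, hs, mul_one]
    calc x ^ (a + 1) * t * (x ^ (a + 1))⁻¹
        = x ^ (a + 1) * x⁻¹ * (s * (x ^ (a + 1))⁻¹) := by rw [← e]; group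
      _ = x ^ a * (x ^ (a + 1) * s) := by rw [hflip, pow_succ, mul_inv_cancel_right]
      _ = x ^ (2 * a + 1) * s := by rw [← mul_assoc, ← pow_add]; ring_nf
  have hord := pow_orderOf_eq_one x
  have hpos := orderOf_pos x
  rcases Nat.even_or_odd (orderOf x) with ⟨m, hm⟩ | ⟨l, hl⟩
  swap
  · exfalso
    refine hne (x ^ l) ?_
    rw [mul_assoc, hflip, ← mul_assoc, ← pow_add]
    have e2 : x * x ^ (l + l) = 1 := by
      rw [← pow_succ', show l + l + 1 = orderOf x by omega, hord]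
    rw [eq_inv_of_mul_eq_one_right e2, ← hts, mul_assoc, hs, mul_one]
  · rw [hm] at hord hpos
    have hzz : x ^ m * x ^ m = 1 := by rw [← pow_add, hord]
    have hzi : (x ^ m)⁻¹ = x ^ m := inv_eq_of_mul_eq_one_right hzz
    have hzs : x ^ m * s = s * x ^ m := by rw [← hflip, hzi]
    have hxC : ∀ j : ℕ, x ^ j ∈ Subgroup.closure {s, t} := fun j =>
      pow_mem (mul_mem (Subgroup.subset_closure (by simp)) (Subgroup.subset_closure (by simp))) j
    refine ⟨m, x ^ m, rfl, ?_, hzz, hzs, ?_, ?_⟩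
    · intro h
      have := orderOf_le_of_pow_eq_one (by omega) h
      omega
    · have e : t = s * x := by rw [hx, ← mul_assoc, hs, one_mul]
      rw [e, ← mul_assoc, hzs, mul_assoc, mul_assoc, (Commute.pow_self x m).eq]
    · rcases Nat.even_or_odd m with ⟨l, hl⟩ | ⟨l, hl⟩
      · refine ⟨x ^ l, hxC _, Or.inl ?_⟩
        rw [mul_assoc, hflip, ← mul_assoc, ← pow_add, ← hl]
      · exact ⟨x ^ (l + 1), hxC _, Or.inr (by rw [hflipt, hl])⟩

omit hM hr hcard hn [Fintype ι] [DecidableEq ι] [Finite F] in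
/-- Two non-conjugate involutions and the involution in the dihedral group they generate. -/
lemma exists_dihedral_invol {G : Type*} [Group G] [Finite G] {s t : G} (hs : s * s = 1)
    (ht : t * t = 1) (hne : ∀ g : G, g * s * g⁻¹ ≠ t) :
    ∃ z : G, z ∈ Subgroup.closure {s, t} ∧ z ≠ 1 ∧ z * z = 1 ∧ z * s = s * z ∧ z * t = t * z ∧
      ∃ g : G, g * s * g⁻¹ = z * s ∨ g * t * g⁻¹ = z * s := by
  obtain ⟨m, z, rfl, h1, h2, h3, h4, g, -, hg⟩ := exists_dihedral_pow hs ht hne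
  exact ⟨_, pow_mem (mul_mem (Subgroup.subset_closure (by simp)) (Subgroup.subset_closure (by simp))) m,
    h1, h2, h3, h4, g, hg⟩

/-- **Subfield groups are maximal**: an element of an overgroup which is not a scalar multiple of a
rational matrix forces `SL`. -/
theorem ker_det_le_or_forall_scalRat (hn' : 13 ≤ Fintype.card ι) :
    (Matrix.GeneralLinearGroup.det : GL ι F →* Fˣ).ker ≤ M ∨
      ∀ g ∈ M, ScalRat F₀ (g : Matrix ι ι F) := by
  classical
  refine or_iff_not_imp_left.2 fun hSL g hg => ?_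
  obtain ⟨s, hsR, hsd, hss, hsr⟩ := exists_invol (F₀ := F₀) (ι := ι) 2 (by omega) even_two
  obtain ⟨s₀, hs₀R, hs₀d, hs₀s, hs₀r⟩ := exists_invol (F₀ := F₀) (ι := ι) 4 (by omega) ⟨2, rfl⟩
  have hsM := hM s hsR hsd
  have hs₀M := hM s₀ hs₀R hs₀d
  set t := g * s₀ * g⁻¹ with ht
  have htM : t ∈ M := M.mul_mem (M.mul_mem hg hs₀M) (M.inv_mem hg)
  have htt : t * t = 1 := by
    rw [ht, show g * s₀ * g⁻¹ * (g * s₀ * g⁻¹) = g * (s₀ * s₀) * g⁻¹ by group, hs₀s]
    group
  have rk : ∀ y u : GL ι F,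
      (((y * u * y⁻¹ : GL ι F) : Matrix ι ι F) - 1).rank = ((u : Matrix ι ι F) - 1).rank := by
    intro y u
    rw [Units.val_mul, Units.val_mul, conj_sub_one, rank_conj]
  have htr : ((t : Matrix ι ι F) - 1).rank = 4 := by rw [ht, rk, hs₀r]
  obtain ⟨z, hz, hz1, hzz, hzs, hzt, y, hy⟩ := exists_dihedral_invol hss htt fun y h => by
    have h2 := rk y s
    rw [h, htr, hsr] at h2
    omega
  have hzM : z ∈ M :=
    (Subgroup.closure_le M).2 (by simp [Set.insert_subset_iff, hsM, htM]) hz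
  have ne1 : ∀ u : GL ι F, ∀ k : ℕ, ((u : Matrix ι ι F) - 1).rank = k → 0 < k →
      2 * k < Fintype.card ι → (u : Matrix ι ι F) ≠ 1 ∧ (u : Matrix ι ι F) ≠ -1 := by
    intro u k hk hk0 hkn
    refine ⟨fun h => ?_, fun h => ?_⟩
    · rw [h, sub_self, rank_zero] at hk; omega
    · rw [h] at hk
      by_cases h2 : (2 : F) = 0
      · rw [show (-1 : Matrix ι ι F) - 1 = (-2 : F) • 1 by rw [neg_smul, two_smul]; abel, h2,
          neg_zero, zero_smul, rank_zero] at hk
        omega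
      · have := le_rank_neg_sub_one h2 (1 : Matrix ι ι F)
        rw [sub_self, rank_zero, hk] at this
        omega
  obtain ⟨hs1, hs1'⟩ := ne1 s 2 hsr two_pos (by omega)
  obtain ⟨hs₀1, hs₀1'⟩ := ne1 s₀ 4 hs₀r (by norm_num) (by omega)
  have hwM : z * s ∈ M := M.mul_mem hzM hsM
  have hww : z * s * (z * s) = 1 := by
    rw [mul_assoc, ← mul_assoc s, ← hzs, mul_assoc z s, hss, mul_one, hzz]
  have hwS : ScalRat F₀ ((z * s : GL ι F) : Matrix ι ι F) := by
    refine ker_det_le_or_scalRat hM hr hcard hn hSL hsR hsR (by rw [← Units.val_mul, hss, Units.val_one])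
      hs1 hs1' hwM ?_
    rw [← Units.val_mul, ← Units.val_mul, ← mul_assoc s, ← hzs]
  obtain ⟨hwR, hwk⟩ : RatMat F₀ ((z * s : GL ι F) : Matrix ι ι F) ∧
      (((z * s : GL ι F) : Matrix ι ι F) - 1).rank ≤ 4 := by
    rcases hy with hy | hy
    · refine ⟨?_, by rw [← hy, rk, hsr]; norm_num⟩
      exact ratMat_of_scalRat hsR hsr.le (by omega) (y := y)
        (by rw [← hy, Units.val_mul, Units.val_mul]) (by rw [← Units.val_mul, hww, Units.val_one]) hwS
    · refine ⟨?_, by rw [← hy, rk, htr]⟩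
      refine ratMat_of_scalRat hs₀R hs₀r.le (by omega) (y := y * g) ?_
        (by rw [← Units.val_mul, hww, Units.val_one]) hwS
      rw [← hy, ht, ← Units.val_mul, ← Units.val_mul]
      congr 1
      group
  have hzR : RatMat F₀ (z : Matrix ι ι F) := by
    have := hwR.mul hsR
    rwa [← Units.val_mul, mul_assoc, hss, mul_one] at this
  have hzne : (z : Matrix ι ι F) ≠ -1 := by
    intro h
    by_cases h2 : (2 : F) = 0
    · apply hz1
      ext1
      rw [h, Units.val_one, ← sub_eq_zero,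
        show (-1 : Matrix ι ι F) - 1 = (-2 : F) • 1 by rw [neg_smul, two_smul]; abel, h2, neg_zero,
        zero_smul]
    · have := le_rank_neg_sub_one h2 (s : Matrix ι ι F)
      rw [Units.val_mul, h, neg_one_mul] at hwk
      omega
  have htS : ScalRat F₀ (t : Matrix ι ι F) :=
    ker_det_le_or_scalRat hM hr hcard hn hSL hzR hzR (by rw [← Units.val_mul, hzz, Units.val_one])
      (fun h => hz1 (Units.ext h)) hzne htM (by rw [← Units.val_mul, ← Units.val_mul, hzt])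
  have htR : RatMat F₀ (t : Matrix ι ι F) :=
    ratMat_of_scalRat hs₀R hs₀r.le (by omega) (y := g) (by rw [ht, Units.val_mul, Units.val_mul])
      (by rw [← Units.val_mul, htt, Units.val_one]) htS
  exact ker_det_le_or_scalRat hM hr hcard hn hSL hs₀R htR
    (by rw [← Units.val_mul, hs₀s, Units.val_one]) hs₀1 hs₀1' hg
    (by rw [← Units.val_mul, ← Units.val_mul, ht, inv_mul_cancel_right])

end Cfsg.Lib.Classical
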