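import Mathlib
import Cfsg.Agent.Lib.PermGroup.PrimeDegree

/-!
Subgroups of index six in the symmetric group of degree six.
-/

set_option autoImplicit false

namespace Cfsg.Lib.Classical.SymSix

open MulAction Equiv.Perm
open scoped Pointwise

variable {Ω : Type*} [Fintype Ω] [DecidableEq Ω]

lemma card_perm_eq (h6 : Fintype.card Ω = 6) : Nat.card (Equiv.Perm Ω) = 720 := by
  rw [Nat.card_eq_fintype_card, Fintype.card_perm, h6]; rfl

lemma card_of_index (h6 : Fintype.card Ω = 6) {H : Subgroup (Equiv.Perm Ω)} (hH : H.index = 6) : Nat.card H = 120 := by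
  have := H.card_mul_index
  rw [hH, card_perm_eq h6] at this
  omega

lemma index_stab (h6 : Fintype.card Ω = 6) (a : Ω) : (stabilizer (Equiv.Perm Ω) a).index = 6 := by
  rw [index_stabilizer_of_transitive, Nat.card_eq_fintype_card, h6]

lemma stab_injective (h6 : Fintype.card Ω = 6) {a b : Ω} (h : stabilizer (Equiv.Perm Ω) a = stabilizer (Equiv.Perm Ω) b) : a = b := by
  by_contra hne
  obtain ⟨c, hc⟩ : ∃ c, c ∉ ({a, b} : Finset Ω) := by
    by_contra hc
    push Not at hc
    have : Finset.univ ≤ ({a, b} : Finset Ω) := fun x _ => hc x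
    have := Finset.card_le_card this
    rw [Finset.card_univ, h6, Finset.card_pair hne] at this
    omega
  simp at hc
  have hm : Equiv.swap b c ∈ stabilizer (Equiv.Perm Ω) a := by
    simp [Equiv.Perm.smul_def, Equiv.swap_apply_of_ne_of_ne hne (Ne.symm hc.1)]
  rw [h] at hm
  simp [Equiv.Perm.smul_def] at hm
  exact hc.2 hm

/-- A subgroup of index six is the inverse image of a point stabiliser under an automorphism. -/
lemma exists_auto (h6 : Fintype.card Ω = 6) {H : Subgroup (Equiv.Perm Ω)} (hH : H.index = 6) (a : Ω) :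
    ∃ φ : Equiv.Perm Ω ≃* Equiv.Perm Ω, H = (stabilizer (Equiv.Perm Ω) a).comap φ.toMonoidHom := by
  classical
  have hcard : Fintype.card (Equiv.Perm Ω ⧸ H) = Fintype.card Ω := by
    rw [h6, ← Nat.card_eq_fintype_card, ← Subgroup.index_eq_card, hH]
  let f := toPermHom (Equiv.Perm Ω) (Equiv.Perm Ω ⧸ H)
  have hinj : Function.Injective f := by
    rw [← MonoidHom.ker_eq_bot_iff, ← Subgroup.normalCore_eq_ker]
    by_contra hb
    have hle := Equiv.Perm.alternatingGroup_le_of_normal (α := Ω) (by rw [Nat.card_eq_fintype_card]; omega)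
      ((Subgroup.nontrivial_iff_ne_bot _).2 hb)
    haveI : Nontrivial Ω := Fintype.one_lt_card_iff_nontrivial.1 (by omega)
    have h2 := Subgroup.index_dvd_of_le (hle.trans H.normalCore_le)
    rw [hH, alternatingGroup.index_eq_two] at h2
    omega
  have hbij : Function.Bijective f := (Fintype.bijective_iff_injective_and_card f).2
    ⟨hinj, by rw [Fintype.card_perm, Fintype.card_perm, hcard]⟩
  let e₀ := Fintype.equivOfCardEq hcard
  let e := e₀.trans (Equiv.swap (e₀ ((1 : Equiv.Perm Ω) : Equiv.Perm Ω ⧸ H)) a)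
  have he : e ((1 : Equiv.Perm Ω) : Equiv.Perm Ω ⧸ H) = a := Equiv.swap_apply_left _ _
  refine ⟨(MulEquiv.ofBijective f hbij).trans e.permCongrHom, ?_⟩
  ext g
  show g ∈ H ↔ e (f g (e.symm a)) = a
  rw [← he, e.symm_apply_apply, e.apply_eq_iff_eq]
  show g ∈ H ↔ ((g * 1 : Equiv.Perm Ω) : Equiv.Perm Ω ⧸ H) = (1 : Equiv.Perm Ω)
  rw [mul_one, QuotientGroup.eq, mul_one, inv_mem_iff]

/-- An intransitive subgroup of index six is a point stabiliser. -/
lemma eq_stab_of_not_transitive (h6 : Fintype.card Ω = 6) {H : Subgroup (Equiv.Perm Ω)} (hH : H.index = 6)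
    (ht : ¬ IsPretransitive H Ω) : ∃ z : Ω, H = stabilizer (Equiv.Perm Ω) z := by
  classical
  have fin : ∀ z, H ≤ stabilizer (Equiv.Perm Ω) z → H = stabilizer (Equiv.Perm Ω) z := fun z hle =>
    Subgroup.eq_of_le_of_card_ge hle (le_of_eq (by rw [card_of_index h6 hH, card_of_index h6 (index_stab h6 z)]))
  obtain ⟨x, y, hxy⟩ : ∃ x y : Ω, y ∉ orbit H x := by
    by_contra hc
    push Not at hc
    exact ht ⟨fun x y => hc x y⟩
  set s := orbit H x with hs
  have hxs : x ∈ s := mem_orbit_self x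
  have hHs : ∀ g ∈ H, ∀ z, g z ∈ s ↔ z ∈ s := fun g hg z => by
    have : orbit H ((⟨g, hg⟩ : H) • z) = orbit H z := orbit_eq_iff.2 (mem_orbit z _)
    change (⟨g, hg⟩ : H) • z ∈ s ↔ _
    rw [hs, ← orbit_eq_iff, ← orbit_eq_iff, this]
  let t : Finset Ω := s.toFinset
  let P : Set.powersetCard Ω t.card := ⟨t, rfl⟩
  have hle : H ≤ stabilizer (Equiv.Perm Ω) P := fun g hg => by
    rw [mem_stabilizer_iff]
    refine Subtype.ext ?_
    show g • t = t
    ext z
    rw [← Finset.inv_smul_mem_iff]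
    simp only [t, Set.mem_toFinset, Equiv.Perm.smul_def]
    simpa using hHs g⁻¹ (H.inv_mem hg) z
  haveI : IsPretransitive (Equiv.Perm Ω) (Set.powersetCard Ω t.card) := Set.powersetCard.isPretransitive
  have hdvd : (6 : ℕ).choose t.card ∣ 6 := by
    have := Subgroup.index_dvd_of_le hle
    rwa [hH, index_stabilizer_of_transitive, Set.powersetCard.card, Nat.card_eq_fintype_card, h6] at this
  have ht1 : 0 < t.card := Finset.card_pos.2 ⟨x, Set.mem_toFinset.2 hxs⟩
  have htn : t.card < 6 := h6 ▸ Finset.card_lt_univ_of_notMem (x := y) (by simpa [t] using hxy)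
  have hk : t.card = 1 ∨ tᶜ.card = 1 := by
    rw [Finset.card_compl, h6]
    generalize t.card = k at hdvd ht1 htn
    interval_cases k <;> simp_all +decide
  rcases hk with h | h
  · obtain ⟨z, hz⟩ := Finset.card_eq_one.1 h
    have hz' : ∀ w, w ∈ s ↔ w = z := fun w => by rw [← Set.mem_toFinset, ← Finset.mem_singleton, ← hz]
    exact ⟨z, fin z fun g hg => (hz' _).1 ((hHs g hg z).2 ((hz' z).2 rfl))⟩
  · obtain ⟨z, hz⟩ := Finset.card_eq_one.1 h
    have hz' : ∀ w, w ∉ s ↔ w = z := fun w => by rw [← Set.mem_toFinset, ← Finset.mem_compl, ← Finset.mem_singleton, ← hz]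
    exact ⟨z, fin z fun g hg => (hz' _).1 fun hm => (hz' z).2 rfl ((hHs g hg z).1 hm)⟩

/-- A subgroup of index six containing a transposition is a point stabiliser. -/
lemma eq_stab_of_swap (h6 : Fintype.card Ω = 6) {H : Subgroup (Equiv.Perm Ω)} (hH : H.index = 6)
    {τ : Equiv.Perm Ω} (hτ : τ.IsSwap) (hm : τ ∈ H) : ∃ z : Ω, H = stabilizer (Equiv.Perm Ω) z := by
  classical
  refine eq_stab_of_not_transitive h6 hH fun ht => ?_
  haveI : Fact (Nat.Prime 5) := ⟨by norm_num⟩
  obtain ⟨g, hg⟩ := exists_prime_orderOf_dvd_card' (G := H) 5 (by rw [card_of_index h6 hH]; norm_num)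
  rw [← Subgroup.orderOf_coe] at hg
  have hgc : (g : Equiv.Perm Ω).IsCycle := isCycle_of_prime_order' (by rw [hg]; norm_num) (by rw [hg]; omega)
  have hgs : (g : Equiv.Perm Ω).support.card = 5 := by rw [← hgc.orderOf, hg]
  have hprim := Cfsg.Lib.PermGroup.isPreprimitive_of_cycle ht (by norm_num) hgc hgs g.2 (by omega)
  have := subgroup_eq_top_of_isPreprimitive_of_isSwap_mem hprim τ hτ hm
  rw [this, Subgroup.index_top] at hH
  omega

lemma exists_exotic_fin : ∃ H : Subgroup (Equiv.Perm (Fin 6)), H.index = 6 ∧ ∀ a : Fin 6, H ≠ stabilizer (Equiv.Perm (Fin 6)) a := by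
  classical
  haveI : Fact (Nat.Prime 5) := ⟨by norm_num⟩
  have hc : Nat.card (Equiv.Perm (Fin 5)) = 120 := by rw [Nat.card_eq_fintype_card, Fintype.card_perm]; rfl
  obtain ⟨P⟩ : Nonempty (Sylow 5 (Equiv.Perm (Fin 5))) := inferInstance
  have hP : Nat.card P = 5 := by
    rw [P.card_eq_multiplicity, hc, show (120 : ℕ) = 5 * 24 from rfl, Nat.factorization_mul (by norm_num) (by norm_num)]
    simp [Nat.Prime.factorization_self (show Nat.Prime 5 by norm_num), Nat.factorization_eq_zero_of_not_dvd]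
  have hidx : (P : Subgroup (Equiv.Perm (Fin 5))).index = 24 := by
    have := (P : Subgroup (Equiv.Perm (Fin 5))).card_mul_index
    rw [hP, hc] at this
    omega
  have hnotA : ∀ N : Subgroup (Equiv.Perm (Fin 5)), N.Normal → N ≠ ⊥ → 60 ≤ Nat.card N := by
    intro N hN hne
    have h := Equiv.Perm.alternatingGroup_le_of_normal (α := Fin 5) (N := N) (by simp) ((Subgroup.nontrivial_iff_ne_bot _).2 hne)
    have := Subgroup.card_le_of_le h
    rwa [nat_card_alternatingGroup, Nat.card_eq_fintype_card (α := Fin 5), Fintype.card_fin] at this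
  have h6 : Nat.card (Sylow 5 (Equiv.Perm (Fin 5))) = 6 := by
    have h1 := P.card_dvd_index
    rw [hidx] at h1
    have h2 := card_sylow_modEq_one 5 (Equiv.Perm (Fin 5))
    have h3 : Nat.card (Sylow 5 (Equiv.Perm (Fin 5))) ≠ 1 := by
      intro h
      have hn : (P : Subgroup (Equiv.Perm (Fin 5))).Normal := by
        haveI := (Nat.card_eq_one_iff_unique.1 h).1
        exact P.normal_of_subsingleton
      have := hnotA _ hn (fun hb => by
        have h5 : Nat.card (P : Subgroup (Equiv.Perm (Fin 5))) = 5 := hP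
        rw [hb, Subgroup.card_bot] at h5
        omega)
      have h5 : Nat.card (P : Subgroup (Equiv.Perm (Fin 5))) = 5 := hP
      omega
    have h4 := Nat.le_of_dvd (by norm_num) h1
    unfold Nat.ModEq at h2
    generalize Nat.card (Sylow 5 (Equiv.Perm (Fin 5))) = k at *
    interval_cases k <;> simp_all
  let e : Sylow 5 (Equiv.Perm (Fin 5)) ≃ Fin 6 := (Finite.equivFin _).trans (finCongr h6)
  let f : Equiv.Perm (Fin 5) →* Equiv.Perm (Fin 6) :=
    e.permCongrHom.toMonoidHom.comp (toPermHom (Equiv.Perm (Fin 5)) (Sylow 5 (Equiv.Perm (Fin 5))))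
  have hf : ∀ g Q, f g (e Q) = e (g • Q) := fun g Q => by simp [f, Equiv.permCongrHom]
  have hinj : Function.Injective f := by
    rw [← MonoidHom.ker_eq_bot_iff]
    by_contra hb
    have h60 := hnotA f.ker inferInstance hb
    have hle : f.ker ≤ stabilizer (Equiv.Perm (Fin 5)) P := fun g hg => by
      have := hf g P
      rw [MonoidHom.mem_ker.1 hg] at this
      exact (e.injective (by simpa using this)).symm
    have hi : (stabilizer (Equiv.Perm (Fin 5)) P).index = 6 := by rw [index_stabilizer_of_transitive, h6]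
    have := (stabilizer (Equiv.Perm (Fin 5)) P).card_mul_index
    rw [hi, hc] at this
    have := Subgroup.card_le_of_le hle
    omega
  have hcard : Nat.card f.range = 120 := by
    rw [← hc]; exact (Nat.card_congr (MonoidHom.ofInjective hinj).toEquiv).symm
  refine ⟨f.range, ?_, fun a ha => ?_⟩
  · have := f.range.card_mul_index
    rw [hcard, card_perm_eq (Fintype.card_fin 6)] at this
    omega
  · obtain ⟨Q, rfl⟩ := e.surjective a
    haveI : Nontrivial (Sylow 5 (Equiv.Perm (Fin 5))) := Finite.one_lt_card_iff_nontrivial.1 (by omega)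
    obtain ⟨R, hR⟩ := exists_ne Q
    obtain ⟨g, hg⟩ := exists_smul_eq (Equiv.Perm (Fin 5)) Q R
    have : f g ∈ stabilizer (Equiv.Perm (Fin 6)) (e Q) := ha ▸ ⟨g, rfl⟩
    rw [mem_stabilizer_iff, Equiv.Perm.smul_def, hf, hg, e.apply_eq_iff_eq] at this
    exact hR this

lemma exists_exotic (h6 : Fintype.card Ω = 6) :
    ∃ H : Subgroup (Equiv.Perm Ω), H.index = 6 ∧ ∀ a : Ω, H ≠ stabilizer (Equiv.Perm Ω) a := by
  obtain ⟨H, hH, hne⟩ := exists_exotic_fin
  let e : Ω ≃ Fin 6 := Fintype.equivFinOfCardEq h6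
  refine ⟨H.comap e.permCongrHom.toMonoidHom, ?_, fun a ha => hne (e a) ?_⟩
  · rw [Subgroup.index_comap_of_surjective]
    · exact hH
    · exact e.permCongrHom.surjective
  · ext g
    obtain ⟨g, rfl⟩ := e.permCongrHom.surjective g
    have : g ∈ H.comap e.permCongrHom.toMonoidHom ↔ g a = a := by rw [ha]; rfl
    rw [Subgroup.mem_comap] at this
    refine this.trans ?_
    simp [Equiv.permCongrHom]

lemma odd_involution_cases (h6 : Fintype.card Ω = 6) {x : Equiv.Perm Ω} (hx : x * x = 1) (hs : sign x = -1) :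
    x.IsSwap ∨ x.cycleType = Multiset.replicate 3 2 := by
  classical
  have ho : orderOf x = 2 := orderOf_eq_prime (by rw [pow_two, hx]) (fun h => by rw [h, map_one] at hs; exact absurd hs (by decide))
  obtain ⟨k, hk⟩ := cycleType_prime_order (σ := x) (by rw [ho]; norm_num)
  rw [ho] at hk
  have hsum := x.sum_cycleType
  rw [hk, Multiset.sum_replicate, smul_eq_mul] at hsum
  have hle := x.support.card_le_univ
  rw [sign_of_cycleType, hk] at hs
  rcases (show k = 0 ∨ k = 1 ∨ k = 2 by omega) with rfl | rfl | rfl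
  · left; rw [← card_support_eq_two]; omega
  · rw [show (1 + 1 : ℕ) = 2 from rfl] at hk
    simp at hs
    exact absurd hs (by decide)
  · right; exact hk

/-- All exotic subgroups of index six come from one automorphism. -/
lemma classify (h6 : Fintype.card Ω = 6) {H : Subgroup (Equiv.Perm Ω)} (hH : H.index = 6)
    (hne : ∀ a : Ω, H ≠ stabilizer (Equiv.Perm Ω) a) {a : Ω} {φ : Equiv.Perm Ω ≃* Equiv.Perm Ω}
    (hφ : H = (stabilizer (Equiv.Perm Ω) a).comap φ.toMonoidHom) (K : Subgroup (Equiv.Perm Ω)) (hK : K.index = 6) :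
    ∃ b : Ω, K = stabilizer (Equiv.Perm Ω) b ∨ K = (stabilizer (Equiv.Perm Ω) b).comap φ.toMonoidHom := by
  classical
  by_cases hKs : ∃ b : Ω, K = stabilizer (Equiv.Perm Ω) b
  · obtain ⟨b, hb⟩ := hKs; exact ⟨b, Or.inl hb⟩
  have hnoK : ∀ τ ∈ K, ¬ Equiv.Perm.IsSwap τ := fun τ hm hτ => hKs (eq_stab_of_swap h6 hK hτ hm)
  have hnoH : ∀ τ ∈ H, ¬ Equiv.Perm.IsSwap τ := fun τ hm hτ => by
    obtain ⟨z, hz⟩ := eq_stab_of_swap h6 hH hτ hm; exact hne z hz
  have hsign : ∀ (ψ : Equiv.Perm Ω ≃* Equiv.Perm Ω) (x : Equiv.Perm Ω), sign (ψ x) = sign x := by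
    intro ψ x
    haveI : Nontrivial Ω := Fintype.one_lt_card_iff_nontrivial.1 (by omega)
    have := eq_sign_of_surjective_hom (α := Ω) (s := sign.comp ψ.toMonoidHom)
      (fun u => by obtain ⟨g, hg⟩ := sign_surjective Ω u; exact ⟨ψ.symm g, by simpa using hg⟩)
    exact DFunLike.congr_fun this x
  obtain ⟨ψ, hψ⟩ := exists_auto h6 hK a
  obtain ⟨u, v, hua, hva, huv⟩ : ∃ u v : Ω, u ≠ a ∧ v ≠ a ∧ u ≠ v := by
    have : 1 < ({a}ᶜ : Finset Ω).card := by rw [Finset.card_compl, h6, Finset.card_singleton]; omega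
    obtain ⟨u, hu, v, hv, huv⟩ := Finset.one_lt_card.1 this
    exact ⟨u, v, by simpa using hu, by simpa using hv, huv⟩
  have hw : (Equiv.swap u v).IsSwap := ⟨u, v, huv, rfl⟩
  have hwa : Equiv.swap u v a = a := Equiv.swap_apply_of_ne_of_ne (Ne.symm hua) (Ne.symm hva)
  set x := ψ.symm (Equiv.swap u v) with hxdef
  have hxK : x ∈ K := by rw [hψ]; show ψ x • a = a; rw [hxdef, ψ.apply_symm_apply]; exact hwa
  have hx2 : x * x = 1 := by rw [hxdef, ← map_mul, Equiv.swap_mul_self, map_one]
  have hxs : sign x = -1 := by rw [hxdef, hsign]; exact hw.sign_eq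
  have hφswap : ¬ (φ (Equiv.swap u v)).IsSwap := by
    rintro ⟨c, d, hcd, he⟩
    obtain ⟨z, hz⟩ : ∃ z, z ∉ ({c, d} : Finset Ω) := by
      by_contra hc
      push Not at hc
      have := Finset.card_le_card (fun z (_ : z ∈ Finset.univ) => hc z)
      rw [Finset.card_univ, h6] at this
      have := this.trans (Finset.card_le_two)
      omega
    simp at hz
    let g := Equiv.swap z a
    refine hnoH (φ.symm g * Equiv.swap u v * (φ.symm g)⁻¹) ?_ ?_
    · rw [hφ]
      show φ (φ.symm g * Equiv.swap u v * (φ.symm g)⁻¹) a = a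
      simp [map_mul, map_inv, he, g, Equiv.swap_apply_of_ne_of_ne hz.1 hz.2]
    · exact ⟨φ.symm g u, φ.symm g v, fun h => huv ((φ.symm g).injective h), by rw [Equiv.swap_apply_apply]⟩
  have hφx : (φ x).IsSwap := by
    refine (odd_involution_cases h6 (x := φ x) (by rw [← map_mul, hx2, map_one]) (by rw [hsign, hxs])).resolve_right fun h => ?_
    have h' := (odd_involution_cases h6 (x := φ (Equiv.swap u v)) (by rw [← map_mul, Equiv.swap_mul_self, map_one]) (by rw [hsign]; exact hw.sign_eq)).resolve_left hφswap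
    obtain ⟨g, hg⟩ := isConj_iff.1 (isConj_iff_cycleType_eq.2 (h'.trans h.symm))
    refine hnoK x hxK ?_
    have : x = φ.symm g * Equiv.swap u v * (φ.symm g)⁻¹ := φ.injective (by simp [map_mul, map_inv, hg])
    rw [this]
    exact ⟨φ.symm g u, φ.symm g v, fun h => huv ((φ.symm g).injective h), by rw [Equiv.swap_apply_apply]⟩
  obtain ⟨b, hb⟩ := eq_stab_of_swap h6 (H := K.comap φ.symm.toMonoidHom)
    (by rw [Subgroup.index_comap_of_surjective _ φ.symm.surjective, hK]) hφx
    (by show φ.symm (φ x) ∈ K; rw [φ.symm_apply_apply]; exact hxK)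
  refine ⟨b, Or.inr ?_⟩
  rw [← hb]
  ext g
  simp

end Cfsg.Lib.Classical.SymSix
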