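-- Helper library: decomposition into hyperbolic planes under a symplectic map squaring to a scalar.
import Mathlib
import Cfsg.Prelude.Def_GeometricClasses
import Cfsg.Agent.Lib.Classical.InvolBlocks

set_option autoImplicit false

namespace Cfsg.Lib.SympInvol

open Cfsg.Lib.InvolBlocks

variable {F : Type*} [Field F] {V : Type*} [AddCommGroup V] [Module F V] [FiniteDimensional F V]
variable (B : LinearMap.BilinForm F V)

/-- A hyperbolic system. -/
def Hyp {ι : Type*} [DecidableEq ι] (e f : ι → V) : Prop :=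
  ∀ i j, B (e i) (e j) = 0 ∧ B (f i) (f j) = 0 ∧ B (e i) (f j) = if i = j then 1 else 0

/-- The plane spanned by two vectors. -/
abbrev pl (F : Type*) [Field F] {V : Type*} [AddCommGroup V] [Module F V] (a b : V) : Submodule F V :=
  Submodule.span F {a, b}

/-- `S` is non-degenerate for `B`. -/
def Nondeg (S : Submodule F V) : Prop := ∀ u ∈ S, (∀ v ∈ S, B u v = 0) → u = 0

lemma hyp_sum {ι κ : Type*} [DecidableEq ι] [DecidableEq κ] (hB : B.IsAlt) {e f : ι → V} {e' f' : κ → V}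
    (h : Hyp B e f) (h' : Hyp B e' f') (horth : ∀ i j, B (e i) (e' j) = 0 ∧ B (e i) (f' j) = 0 ∧ B (f i) (e' j) = 0 ∧ B (f i) (f' j) = 0) :
    Hyp B (Sum.elim e e') (Sum.elim f f') := by
  rintro (i | i) (j | j)
  · simpa using h i j
  · simp [(horth i j).1, (horth i j).2.1, (horth i j).2.2.2]
  · simp [← LinearMap.IsAlt.neg hB (e j) (e' i), ← LinearMap.IsAlt.neg hB (f j) (f' i), ← LinearMap.IsAlt.neg hB (f j) (e' i), (horth j i).1, (horth j i).2.2.1, (horth j i).2.2.2]
  · simpa using h' i j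

lemma hyp_comp {ι κ : Type*} [DecidableEq ι] [DecidableEq κ] {e f : ι → V} (h : Hyp B e f) {φ : κ → ι} (hφ : Function.Injective φ) :
    Hyp B (e ∘ φ) (f ∘ φ) := fun i j => by
  simpa [hφ.eq_iff] using h (φ i) (φ j)

lemma hyp_unit (hB : B.IsAlt) {a b : V} (h : B a b = 1) : Hyp B (fun _ : Unit => a) (fun _ => b) :=
  fun _ _ => ⟨hB _, hB _, by simpa using h⟩

lemma hyp_linearIndependent (hB : B.IsAlt) {ι : Type*} [DecidableEq ι] [Fintype ι] {e f : ι → V} (h : Hyp B e f) :
    LinearIndependent F (Sum.elim e f) := by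
  rw [Fintype.linearIndependent_iff]
  intro c hc i
  rw [Fintype.sum_sum_type] at hc
  simp only [Sum.elim_inl, Sum.elim_inr] at hc
  rcases i with i | i
  · have := congrArg (fun x => B x (f i)) hc
    simpa [fun j => (h j i).2.1, fun j => (h j i).2.2] using this
  · have := congrArg (fun x => B (e i) x) hc
    simpa [fun j => (h i j).1, fun j => (h i j).2.2] using this

lemma split (hB : B.IsAlt) (T : V →ₗ[F] V) (hTB : ∀ u v, B (T u) (T v) = B u v) (hTi : Function.Injective T)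
    {S : Submodule F V} (hS : S.map T ≤ S) (hSn : Nondeg B S) {ι : Type*} [DecidableEq ι] [Fintype ι] [Nonempty ι] {e f : ι → V}
    (h : Hyp B e f) (he : ∀ i, e i ∈ S) (hf : ∀ i, f i ∈ S)
    (hTe : ∀ i, T (e i) ∈ Submodule.span F (Set.range (Sum.elim e f)))
    (hTf : ∀ i, T (f i) ∈ Submodule.span F (Set.range (Sum.elim e f))) :
    ∃ S' : Submodule F V, S' < S ∧ S'.map T ≤ S' ∧ Nondeg B S' ∧ Submodule.span F (Set.range (Sum.elim e f)) ⊔ S' = S ∧
      ∀ i, ∀ v ∈ S', B (e i) v = 0 ∧ B (f i) v = 0 := by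
  classical
  set W := Submodule.span F (Set.range (Sum.elim e f)) with hW
  have hWS : W ≤ S := Submodule.span_le.2 (by rintro _ ⟨i | i, rfl⟩; exacts [he i, hf i])
  let S' : Submodule F V := S ⊓ ⨅ i, LinearMap.ker (B (e i)) ⊓ LinearMap.ker (B (f i))
  have hmem : ∀ v, v ∈ S' ↔ v ∈ S ∧ ∀ i, B (e i) v = 0 ∧ B (f i) v = 0 := fun v => by simp [S', Submodule.mem_iInf]
  have hW0 : ∀ w ∈ W, ∀ v ∈ S', B w v = 0 := by
    intro w hw v hv
    induction hw using Submodule.span_induction with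
    | mem x hx => obtain ⟨i | i, rfl⟩ := hx; exacts [(((hmem v).1 hv).2 i).1, (((hmem v).1 hv).2 i).2]
    | zero => simp
    | add x y _ _ hx hy => simp [hx, hy]
    | smul a x _ hx => simp [hx]
  have hsup : W ⊔ S' = S := by
    refine le_antisymm (sup_le hWS inf_le_left) fun v hv => ?_
    set w := ∑ i, (B v (f i) • e i - B v (e i) • f i) with hw
    have hwW : w ∈ W := Submodule.sum_mem _ fun i _ =>
      sub_mem (Submodule.smul_mem _ _ (Submodule.subset_span ⟨Sum.inl i, rfl⟩)) (Submodule.smul_mem _ _ (Submodule.subset_span ⟨Sum.inr i, rfl⟩))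
    refine Submodule.mem_sup.2 ⟨w, hwW, v - w, (hmem _).2 ⟨sub_mem hv (hWS hwW), fun j => ⟨?_, ?_⟩⟩, add_sub_cancel w v⟩
    · have : B (e j) w = B (e j) v := by
        simp [hw, fun i => (h j i).1, fun i => (h j i).2.2, Finset.sum_neg_distrib, ← LinearMap.IsAlt.neg hB v (e j)]
      simp [this]
    · have : B (f j) w = B (f j) v := by
        simp [hw, fun i => (h j i).2.1, fun i => (LinearMap.IsAlt.neg hB (e i) (f j)).symm, fun i => (h i j).2.2, ← LinearMap.IsAlt.neg hB v (f j)]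
      simp [this]
  have hTW : W.map T = W := by
    refine Submodule.eq_of_le_of_finrank_eq ?_ (Submodule.equivMapOfInjective T hTi W).finrank_eq.symm
    rw [hW, Submodule.map_span, Submodule.span_le]
    rintro _ ⟨_, ⟨i | i, rfl⟩, rfl⟩
    exacts [hTe i, hTf i]
  refine ⟨S', lt_of_le_of_ne inf_le_left fun e0 => ?_, ?_, fun u hu hu0 => ?_, hsup, fun i v hv => ((hmem v).1 hv).2 i⟩
  · obtain ⟨i⟩ : Nonempty ι := inferInstance
    have := (((hmem (f i)).1 (e0.symm ▸ hf i)).2 i).1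
    rw [(h i i).2.2, if_pos rfl] at this
    exact one_ne_zero this
  · rintro _ ⟨v, hv, rfl⟩
    refine (hmem _).2 ⟨hS ⟨v, ((hmem v).1 hv).1, rfl⟩, fun i => ⟨?_, ?_⟩⟩
    · obtain ⟨w, hw, e1⟩ : e i ∈ W.map T := by rw [hTW]; exact Submodule.subset_span ⟨Sum.inl i, rfl⟩
      rw [← e1, hTB]; exact hW0 w hw v hv
    · obtain ⟨w, hw, e1⟩ : f i ∈ W.map T := by rw [hTW]; exact Submodule.subset_span ⟨Sum.inr i, rfl⟩
      rw [← e1, hTB]; exact hW0 w hw v hv
  · refine hSn u ((hmem u).1 hu).1 fun v hv => ?_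
    rw [← hsup] at hv
    obtain ⟨w, hw, s, hs, rfl⟩ := Submodule.mem_sup.1 hv
    rw [map_add, ← LinearMap.IsAlt.neg hB w u, hW0 w hw u hu, hu0 s hs]; simp

/-- `S` decomposes into hyperbolic planes permuted by `T` by an involution; the fixed planes satisfy `P`. -/
theorem exists_sys (hB : B.IsAlt) (T : V →ₗ[F] V) (hTB : ∀ u v, B (T u) (T v) = B u v) (hTi : Function.Injective T)
    (P : V → V → Prop) (allow : Prop) (hP : ∀ a b, P a b → T a ∈ pl F a b ∧ T b ∈ pl F a b)
    (step : ∀ S : Submodule F V, S.map T ≤ S → Nondeg B S → S ≠ ⊥ →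
      (∃ a ∈ S, ∃ b ∈ S, B a b = 1 ∧ P a b) ∨
      (allow ∧ ∃ a ∈ S, ∃ b ∈ S, ∃ c ∈ S, ∃ d ∈ S, Hyp B (fun s : Bool => if s then c else a) (fun s : Bool => if s then d else b) ∧
        T a ∈ pl F c d ∧ T b ∈ pl F c d ∧ T c ∈ pl F a b ∧ T d ∈ pl F a b)) :
    ∀ S : Submodule F V, S.map T ≤ S → Nondeg B S →
      ∃ (k r : ℕ) (e f : (Fin k × Bool) ⊕ Fin r → V), Hyp B e f ∧
        (∀ i, T (e i) ∈ pl F (e (swp i)) (f (swp i)) ∧ T (f i) ∈ pl F (e (swp i)) (f (swp i))) ∧
        (∀ j, P (e (Sum.inr j)) (f (Sum.inr j))) ∧ (k ≠ 0 → allow) ∧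
        Submodule.span F (Set.range (Sum.elim e f)) = S := by
  intro S
  induction S using WellFoundedLT.induction with
  | _ S ih =>
    intro hS hSn
    rcases eq_or_ne S ⊥ with rfl | hne
    · exact ⟨0, 0, fun i => 0, fun i => 0, fun i => isEmptyElim i, fun i => isEmptyElim i, fun j => isEmptyElim j,
        fun h => absurd rfl h, by simp⟩
    rcases step S hS hSn hne with ⟨a, ha, b, hb, hab, hPab⟩ | ⟨hall, a, ha, b, hb, c, hc, d, hd, hh, hTa, hTb, hTc, hTd⟩
    · obtain ⟨hTa, hTb⟩ := hP a b hPab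
      have hr : Set.range (Sum.elim (fun _ : Unit => a) (fun _ : Unit => b)) = {a, b} := by
        rw [Set.Sum.elim_range, Set.range_const, Set.range_const, Set.singleton_union]
      obtain ⟨S', hlt, hS', hSn', hsup, horth⟩ := split B hB T hTB hTi hS hSn (hyp_unit B hB hab) (fun _ => ha) (fun _ => hb)
        (fun _ => by rw [hr]; exact hTa) (fun _ => by rw [hr]; exact hTb)
      obtain ⟨k, r, e, f, hh', hT', hP', hk, hspan⟩ := ih S' hlt hS' hSn'
      have hin : ∀ j, e j ∈ S' ∧ f j ∈ S' := fun j =>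
        ⟨hspan ▸ Submodule.subset_span ⟨Sum.inl j, rfl⟩, hspan ▸ Submodule.subset_span ⟨Sum.inr j, rfl⟩⟩
      let φ : (Fin k × Bool) ⊕ Fin (r + 1) ≃ Unit ⊕ ((Fin k × Bool) ⊕ Fin r) :=
        { toFun := Sum.elim (fun p => Sum.inr (Sum.inl p)) (Fin.cases (Sum.inl ()) (fun j => Sum.inr (Sum.inr j)))
          invFun := Sum.elim (fun _ => Sum.inr 0) (Sum.elim Sum.inl (fun j => Sum.inr j.succ))
          left_inv := by rintro (p | j); · rfl
                         · induction j using Fin.cases <;> rfl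
          right_inv := by rintro (_ | _ | _) <;> rfl }
      have hbig := hyp_sum B hB (hyp_unit B hB hab) hh' fun i j =>
        ⟨(horth i _ (hin j).1).1, (horth i _ (hin j).2).1, (horth i _ (hin j).1).2, (horth i _ (hin j).2).2⟩
      refine ⟨k, r + 1, Sum.elim (fun _ => a) e ∘ φ, Sum.elim (fun _ => b) f ∘ φ, hyp_comp B hbig φ.injective, ?_, ?_, hk, ?_⟩
      · rintro (⟨i, s⟩ | j)
        · simpa [φ] using hT' (Sum.inl (i, s))
        · induction j using Fin.cases with
          | zero => simpa [φ] using And.intro hTa hTb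
          | succ j => simpa [φ] using hT' (Sum.inr j)
      · intro j
        induction j using Fin.cases with
        | zero => simpa [φ] using hPab
        | succ j => simpa [φ] using hP' j
      · rw [← hsup, ← hspan, ← Submodule.span_union]
        congr 1
        ext x
        simp only [Set.mem_union, Set.mem_range]
        constructor
        · rintro ⟨i | i, rfl⟩ <;> rcases hi : φ i with u | u
          · exact Or.inl ⟨Sum.inl u, by simp [hi]⟩
          · exact Or.inr ⟨Sum.inl u, by simp [hi]⟩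
          · exact Or.inl ⟨Sum.inr u, by simp [hi]⟩
          · exact Or.inr ⟨Sum.inr u, by simp [hi]⟩
        · rintro (⟨u | u, rfl⟩ | ⟨u | u, rfl⟩)
          · exact ⟨Sum.inl (φ.symm (Sum.inl u)), by simp⟩
          · exact ⟨Sum.inr (φ.symm (Sum.inl u)), by simp⟩
          · exact ⟨Sum.inl (φ.symm (Sum.inr u)), by simp⟩
          · exact ⟨Sum.inr (φ.symm (Sum.inr u)), by simp⟩
    · set e₀ : Bool → V := fun s => if s then c else a with he₀
      set f₀ : Bool → V := fun s => if s then d else b with hf₀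
      have hm : ∀ s, pl F (e₀ s) (f₀ s) ≤ Submodule.span F (Set.range (Sum.elim e₀ f₀)) := fun s =>
        Submodule.span_mono (Set.insert_subset ⟨Sum.inl s, rfl⟩ (Set.singleton_subset_iff.2 ⟨Sum.inr s, rfl⟩))
      obtain ⟨S', hlt, hS', hSn', hsup, horth⟩ := split B hB T hTB hTi hS hSn hh
        (fun s => by cases s <;> simpa) (fun s => by cases s <;> simpa)
        (fun s => by cases s; exacts [hm true hTa, hm false hTc]) (fun s => by cases s; exacts [hm true hTb, hm false hTd])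
      obtain ⟨k, r, e, f, hh', hT', hP', hk, hspan⟩ := ih S' hlt hS' hSn'
      have hin : ∀ j, e j ∈ S' ∧ f j ∈ S' := fun j =>
        ⟨hspan ▸ Submodule.subset_span ⟨Sum.inl j, rfl⟩, hspan ▸ Submodule.subset_span ⟨Sum.inr j, rfl⟩⟩
      let φ : (Fin (k + 1) × Bool) ⊕ Fin r ≃ Bool ⊕ ((Fin k × Bool) ⊕ Fin r) :=
        { toFun := Sum.elim (fun p => Fin.cases (Sum.inl p.2) (fun i => Sum.inr (Sum.inl (i, p.2))) p.1) (fun j => Sum.inr (Sum.inr j))
          invFun := Sum.elim (fun s => Sum.inl (0, s)) (Sum.elim (fun p => Sum.inl (p.1.succ, p.2)) Sum.inr)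
          left_inv := by rintro (⟨i, s⟩ | j)
                         · induction i using Fin.cases <;> rfl
                         · rfl
          right_inv := by rintro (_ | _ | _) <;> rfl }
      have hbig := hyp_sum B hB hh hh' fun i j =>
        ⟨(horth i _ (hin j).1).1, (horth i _ (hin j).2).1, (horth i _ (hin j).1).2, (horth i _ (hin j).2).2⟩
      refine ⟨k + 1, r, Sum.elim e₀ e ∘ φ, Sum.elim f₀ f ∘ φ, hyp_comp B hbig φ.injective, ?_, ?_, fun _ => hall, ?_⟩
      · rintro (⟨i, s⟩ | j)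
        · induction i using Fin.cases with
          | zero => cases s
                    · simpa [φ, e₀, f₀] using And.intro hTa hTb
                    · simpa [φ, e₀, f₀] using And.intro hTc hTd
          | succ i => simpa [φ] using hT' (Sum.inl (i, s))
        · simpa [φ] using hT' (Sum.inr j)
      · intro j
        simpa [φ] using hP' j
      · rw [← hsup, ← hspan, ← Submodule.span_union]
        congr 1
        ext x
        simp only [Set.mem_union, Set.mem_range]
        constructor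
        · rintro ⟨i | i, rfl⟩ <;> rcases hi : φ i with u | u
          · exact Or.inl ⟨Sum.inl u, by simp [hi]⟩
          · exact Or.inr ⟨Sum.inl u, by simp [hi]⟩
          · exact Or.inl ⟨Sum.inr u, by simp [hi]⟩
          · exact Or.inr ⟨Sum.inr u, by simp [hi]⟩
        · rintro (⟨u | u, rfl⟩ | ⟨u | u, rfl⟩)
          · exact ⟨Sum.inl (φ.symm (Sum.inl u)), by simp⟩
          · exact ⟨Sum.inr (φ.symm (Sum.inl u)), by simp⟩
          · exact ⟨Sum.inl (φ.symm (Sum.inr u)), by simp⟩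
          · exact ⟨Sum.inr (φ.symm (Sum.inr u)), by simp⟩

/-- Invariant plane with two eigenvectors. -/
lemma step_eigen (hB : B.IsAlt) (T : V →ₗ[F] V) (hTB : ∀ u v, B (T u) (T v) = B u v) {c : F} (hc : c ≠ 0) (h2 : (2 : F) ≠ 0)
    (hT : ∀ v, T (T v) = (c * c) • v) {S : Submodule F V} (hS : S.map T ≤ S) (hSn : Nondeg B S) (hne : S ≠ ⊥) :
    ∃ a ∈ S, ∃ b ∈ S, B a b = 1 ∧ T a ∈ F ∙ a ∧ T b ∈ F ∙ b := by
  have hTS : ∀ v ∈ S, T v ∈ S := fun v hv => hS ⟨v, hv, rfl⟩
  have hp : ∀ (s : F), s * s = c * c → ∀ v, T (T v + s • v) = s • (T v + s • v) := by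
    intro s hs v
    rw [map_add, map_smul, hT, smul_add, smul_smul, hs, add_comm]
  obtain ⟨u, hu, hu0⟩ := S.exists_mem_ne_zero_of_ne_bot hne
  obtain ⟨a, ha, ha0, s, hTa⟩ : ∃ a ∈ S, a ≠ 0 ∧ ∃ s : F, T a = s • a := by
    by_cases h : T u + c • u = 0
    · exact ⟨u, hu, hu0, -c, by rw [neg_smul]; exact eq_neg_of_add_eq_zero_left h⟩
    · exact ⟨_, add_mem (hTS u hu) (S.smul_mem c hu), h, c, hp c rfl u⟩
  obtain ⟨w, hw, hw0⟩ : ∃ w ∈ S, B a w ≠ 0 := by
    by_contra h
    push Not at h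
    exact ha0 (hSn a ha h)
  have hsplit : ∃ t : F, t * t = c * c ∧ B a (T w + t • w) ≠ 0 := by
    by_contra h
    push Not at h
    have e1 := h c rfl
    have e2 := h (-c) (by ring)
    rw [map_add, map_smul, smul_eq_mul] at e1 e2
    exact mul_ne_zero (mul_ne_zero h2 hc) hw0 (by linear_combination e1 - e2)
  obtain ⟨t, ht, hat⟩ := hsplit
  refine ⟨a, ha, (B a (T w + t • w))⁻¹ • (T w + t • w), S.smul_mem _ (add_mem (hTS w hw) (S.smul_mem t hw)), ?_, ?_, ?_⟩
  · rw [map_smul, smul_eq_mul, inv_mul_cancel₀ hat]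
  · exact Submodule.mem_span_singleton.2 ⟨s, hTa.symm⟩
  · rw [map_smul, hp t ht, smul_comm]
    exact Submodule.mem_span_singleton.2 ⟨t, rfl⟩

/-- Invariant plane `a, T a`. -/
lemma step_swap (T : V →ₗ[F] V) {z : F} (hT : ∀ v, T (T v) = z • v)
    {S : Submodule F V} (hS : S.map T ≤ S) {v : V} (hv : v ∈ S) (hne : B v (T v) ≠ 0) :
    ∃ a ∈ S, ∃ b ∈ S, B a b = 1 ∧ T a ∈ F ∙ b ∧ T b ∈ F ∙ a := by
  refine ⟨v, hv, (B v (T v))⁻¹ • T v, S.smul_mem _ (hS ⟨v, hv, rfl⟩), ?_, ?_, ?_⟩
  · rw [map_smul, smul_eq_mul, inv_mul_cancel₀ hne]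
  · exact Submodule.mem_span_singleton.2 ⟨B v (T v), by rw [smul_smul, mul_inv_cancel₀ hne, one_smul]⟩
  · rw [map_smul, hT, smul_smul]
    exact Submodule.mem_span_singleton.2 ⟨_, rfl⟩

lemma exists_value (hB : B.IsAlt) (T : V →ₗ[F] V) (hTB : ∀ u v, B (T u) (T v) = B u v) (h2 : (2 : F) ≠ 0)
    (hT : ∀ v, T (T v) = (-1 : F) • v) {S : Submodule F V} (hS : S.map T ≤ S) (hSn : Nondeg B S) (hne : S ≠ ⊥) :
    ∃ v ∈ S, B v (T v) ≠ 0 := by
  by_contra h
  push Not at h
  obtain ⟨u, hu, hu0⟩ := S.exists_mem_ne_zero_of_ne_bot hne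
  refine hu0 (hSn u hu fun w hw => ?_)
  have hTu : T u ∈ S := hS ⟨u, hu, rfl⟩
  have e1 := h (T u + w) (add_mem hTu hw)
  have e2 := h (T u) hTu
  have e3 := h w hw
  rw [show T (T u + w) = (-1 : F) • u + T w by rw [map_add, hT], map_add, map_add, LinearMap.add_apply, LinearMap.add_apply] at e1
  rw [hT] at e2
  simp only [map_smul, LinearMap.smul_apply, smul_eq_mul] at e1 e2
  rw [hTB, ← LinearMap.IsAlt.neg hB u w] at e1
  exact mul_left_cancel₀ h2 (by linear_combination e1 - e2 - e3)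

end Cfsg.Lib.SympInvol

namespace Cfsg.Lib.SympInvol

variable {F : Type*} [Field F] {V : Type*} [AddCommGroup V] [Module F V] [FiniteDimensional F V]
variable (B : LinearMap.BilinForm F V)

/-- In characteristic two an isometric involution has an invariant plane or a pair of swapped planes. -/
lemma step_two (hB : B.IsAlt) (T : V →ₗ[F] V) (hTB : ∀ u v, B (T u) (T v) = B u v) (h2 : (2 : F) = 0)
    (hT : ∀ v, T (T v) = v) {S : Submodule F V} (hS : S.map T ≤ S) (hSn : Nondeg B S) (hne : S ≠ ⊥) :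
    (∃ a ∈ S, ∃ b ∈ S, B a b = 1 ∧ T a ∈ pl F a b ∧ T b ∈ pl F a b) ∨
    (True ∧ ∃ a ∈ S, ∃ b ∈ S, ∃ c ∈ S, ∃ d ∈ S, Hyp B (fun s : Bool => if s then c else a) (fun s : Bool => if s then d else b) ∧
      T a ∈ pl F c d ∧ T b ∈ pl F c d ∧ T c ∈ pl F a b ∧ T d ∈ pl F a b) := by
  have hTS : ∀ v ∈ S, T v ∈ S := fun v hv => hS ⟨v, hv, rfl⟩
  by_cases hv : ∃ v ∈ S, B v (T v) ≠ 0
  · obtain ⟨v, hv, hv0⟩ := hv
    obtain ⟨a, ha, b, hb, hab, hTa, hTb⟩ := step_swap B T (z := 1) (fun v => by rw [hT, one_smul]) hS hv hv0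
    exact Or.inl ⟨a, ha, b, hb, hab, Submodule.span_mono (by simp) hTa, Submodule.span_mono (by simp) hTb⟩
  push Not at hv
  by_cases hfix : ∀ v ∈ S, T v = v
  · obtain ⟨u, hu, hu0⟩ := S.exists_mem_ne_zero_of_ne_bot hne
    obtain ⟨w, hw, hw0⟩ : ∃ w ∈ S, B u w ≠ 0 := by
      by_contra h
      push Not at h
      exact hu0 (hSn u hu h)
    refine Or.inl ⟨u, hu, (B u w)⁻¹ • w, S.smul_mem _ hw, ?_, ?_, ?_⟩
    · rw [map_smul, smul_eq_mul, inv_mul_cancel₀ hw0]
    · rw [hfix u hu]; exact Submodule.subset_span (by simp)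
    · rw [hfix _ (S.smul_mem _ hw)]; exact Submodule.subset_span (by simp)
  push Not at hfix
  obtain ⟨u, hu, huT⟩ := hfix
  have hN : T u + u ≠ 0 := fun h => huT (by
    rw [eq_neg_of_add_eq_zero_left h, ← neg_one_smul F u, show (-1 : F) = 1 by linear_combination -h2, one_smul])
  obtain ⟨w, hw, hw0⟩ : ∃ w ∈ S, B (T u + u) w = 1 := by
    obtain ⟨w, hw, hw0⟩ : ∃ w ∈ S, B (T u + u) w ≠ 0 := by
      by_contra h
      push Not at h
      exact hN (hSn _ (add_mem (hTS u hu) hu) h)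
    exact ⟨(B (T u + u) w)⁻¹ • w, S.smul_mem _ hw, by rw [map_smul, smul_eq_mul, inv_mul_cancel₀ hw0]⟩
  have hneg : ∀ x y, B y x = B x y := fun x y => by
    rw [← LinearMap.IsAlt.neg hB x y]; linear_combination (-(B x y)) * h2
  have hflip : ∀ x y, B x (T y) = B (T x) y := fun x y => by
    conv_rhs => rw [← hT y, hTB]
  set b := w + B u (T w) • (T w + w) with hb
  have hTb : T b = T w + B u (T w) • (T w + w) := by
    rw [hb, map_add, map_smul, map_add, hT, add_comm w]
  have hbS : b ∈ S := add_mem hw (S.smul_mem _ (add_mem (hTS w hw) hw))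
  rw [map_add, LinearMap.add_apply, ← hflip] at hw0
  have hub : B u b = 1 := by
    rw [hb]
    simp only [map_add, map_smul, smul_eq_mul]
    linear_combination hw0 + (B u (T w) - 1 + B u w) * 0 + (B u (T w)) * (hw0 - 0) + 0 * h2
  have huTb : B u (T b) = 0 := by
    rw [hTb]
    simp only [map_add, map_smul, smul_eq_mul]
    linear_combination (B u (T w)) * h2 + (B u (T w)) * hw0
  refine Or.inr ⟨trivial, u, hu, b, hbS, T u, hTS u hu, T b, hTS b hbS, ?_, ?_, ?_, ?_, ?_⟩
  · intro i j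
    cases i <;> cases j <;> refine ⟨?_, ?_, ?_⟩ <;> simp only [Bool.false_eq_true, if_false, if_true, reduceIte, reduceCtorEq]
    all_goals first
      | exact hB _
      | exact hub
      | exact huTb
      | exact hv u hu
      | exact hv b hbS
      | exact (hTB _ _).trans hub
      | (rw [hneg]; exact hv u hu)
      | (rw [hneg]; exact hv b hbS)
      | (rw [← hflip]; exact huTb)
  · exact Submodule.subset_span (by simp)
  · exact Submodule.subset_span (by simp)
  · rw [hT]; exact Submodule.subset_span (by simp)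
  · rw [hT]; exact Submodule.subset_span (by simp)

end Cfsg.Lib.SympInvol
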