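import Mathlib
import Cfsg.Prelude.Def_GeometricClasses
import Cfsg.Agent.Lib.Classical.Transvection
import Cfsg.Agent.Lib.Classical.RationalRoots

/-!
Block calculus on `α × β`: the maps `embC f` and `projL φ`, block root elements, and the passage
from one vanishing block to a Kronecker product.
-/

set_option autoImplicit false

namespace Cfsg.Lib.Classical.TensorSL

open Matrix Module Cfsg.Lib.Classical
open scoped MatrixGroups Kronecker

variable {n₁ n₂ : ℕ} {F : Type*} [Field F]

local notation "α" => Fin n₁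
local notation "β" => Fin n₂

/-- `u ↦ u ⊗ f`. -/
def embC (n₁ : ℕ) {n₂ : ℕ} (f : Fin n₂ → F) : Matrix (Fin n₁ × Fin n₂) (Fin n₁) F :=
  Matrix.of fun x j => if x.1 = j then f x.2 else 0

/-- Contraction with `φ`. -/
def projL (n₁ : ℕ) {n₂ : ℕ} (φ : Fin n₂ → F) : Matrix (Fin n₁) (Fin n₁ × Fin n₂) F :=
  Matrix.of fun i x => if i = x.1 then φ x.2 else 0

/-- The generalised block of `y`. -/
def blk (y : Matrix (α × β) (α × β) F) (φ f : β → F) : Matrix α α F := projL n₁ φ * y * embC n₁ f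

lemma projL_embC (φ f : β → F) : projL n₁ φ * embC n₁ f = (φ ⬝ᵥ f) • (1 : Matrix α α F) := by
  ext i j
  simp only [projL, embC, mul_apply, Matrix.of_apply, Fintype.sum_prod_type, dotProduct,
    Matrix.smul_apply, smul_eq_mul]
  rw [Finset.sum_eq_single i (fun b _ hb => by simp [Ne.symm hb]) (by simp)]
  rcases eq_or_ne i j with rfl | h <;> simp [*]

lemma embC_projL (e φ : β → F) :
    embC n₁ e * projL n₁ φ = (1 : Matrix α α F) ⊗ₖ vecMulVec e φ := by
  ext ⟨i, k⟩ ⟨j, l⟩
  simp only [projL, embC, mul_apply, Matrix.of_apply, kroneckerMap_apply, vecMulVec_apply]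
  rw [Finset.sum_eq_single i (fun b _ hb => by simp [Ne.symm hb]) (by simp)]
  rcases eq_or_ne i j with rfl | h <;> simp [*]

lemma kron_embC (a : Matrix α α F) (b : Matrix β β F) (f : β → F) :
    (a ⊗ₖ b) * embC n₁ f = embC n₁ (b *ᵥ f) * a := by
  ext ⟨i, k⟩ j
  simp only [embC, mul_apply, Matrix.of_apply, kroneckerMap_apply, Fintype.sum_prod_type, mulVec,
    dotProduct]
  rw [Finset.sum_eq_single j (fun b _ hb => by simp [hb]) (by simp),
    Finset.sum_eq_single i (fun b _ hb => by simp [Ne.symm hb]) (by simp)]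
  simp [Finset.mul_sum, mul_comm, mul_left_comm]

lemma projL_kron (a : Matrix α α F) (b : Matrix β β F) (φ : β → F) :
    projL n₁ φ * (a ⊗ₖ b) = a * projL n₁ (φ ᵥ* b) := by
  ext i ⟨j, l⟩
  simp only [projL, mul_apply, Matrix.of_apply, kroneckerMap_apply, Fintype.sum_prod_type, vecMul,
    dotProduct]
  rw [Finset.sum_eq_single i (fun b _ hb => by simp [Ne.symm hb]) (by simp),
    Finset.sum_eq_single j (fun b _ hb => by simp [hb]) (by simp)]
  simp [Finset.mul_sum, mul_comm, mul_left_comm]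

lemma blk_kron (a : Matrix α α F) (b : Matrix β β F) (φ f : β → F) :
    blk (a ⊗ₖ b) φ f = (φ ⬝ᵥ (b *ᵥ f)) • a := by
  rw [blk, Matrix.mul_assoc, kron_embC, ← Matrix.mul_assoc, projL_embC, Matrix.smul_mul, one_mul]

lemma embC_add (f g : β → F) : embC n₁ (f + g) = embC n₁ f + embC n₁ g := by
  ext x j
  by_cases h : x.1 = j <;> simp [embC, h]

lemma embC_smul (c : F) (f : β → F) : embC n₁ (c • f) = c • embC n₁ f := by
  ext x j
  by_cases h : x.1 = j <;> simp [embC, h]

lemma projL_add (f g : β → F) : projL n₁ (f + g) = projL n₁ f + projL n₁ g := by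
  ext i x
  by_cases h : i = x.1 <;> simp [projL, h]

lemma projL_smul (c : F) (f : β → F) : projL n₁ (c • f) = c • projL n₁ f := by
  ext i x
  by_cases h : i = x.1 <;> simp [projL, h]

lemma blk_single (y : Matrix (α × β) (α × β) F) (k l : β) (i j : α) :
    blk y (Pi.single k 1) (Pi.single l 1) i j = y (i, k) (j, l) := by
  simp [blk, projL, embC, mul_apply, Fintype.sum_prod_type, Pi.single_apply, ite_and]

/-- Right blocks are linear. -/
def blkR (y : Matrix (α × β) (α × β) F) (φ : β → F) : (β → F) →ₗ[F] Matrix α α F where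
  toFun f := blk y φ f
  map_add' f g := by simp [blk, embC_add, Matrix.mul_add]
  map_smul' c f := by simp [blk, embC_smul, Matrix.mul_smul]

/-- Left blocks are linear. -/
def blkL (y : Matrix (α × β) (α × β) F) (f : β → F) : (β → F) →ₗ[F] Matrix α α F where
  toFun φ := blk y φ f
  map_add' φ ψ := by simp [blk, projL_add, Matrix.add_mul]
  map_smul' c φ := by simp [blk, projL_smul, Matrix.smul_mul]

@[simp] lemma blkR_apply (y : Matrix (α × β) (α × β) F) (φ f : β → F) :
    blkR y φ f = blk y φ f := rfl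

@[simp] lemma blkL_apply (y : Matrix (α × β) (α × β) F) (φ f : β → F) :
    blkL y f φ = blk y φ f := rfl

lemma eq_zero_of_projL {κ : Type*} (X : Matrix (α × β) κ F) (h : ∀ φ : β → F, projL n₁ φ * X = 0) :
    X = 0 := by
  ext ⟨i, k⟩ j
  have := congrFun (congrFun (h (Pi.single k 1)) i) j
  simpa [projL, mul_apply, Fintype.sum_prod_type, Pi.single_apply] using this

lemma eq_zero_of_embC {κ : Type*} (X : Matrix κ (α × β) F) (h : ∀ f : β → F, X * embC n₁ f = 0) :
    X = 0 := by
  ext j ⟨i, k⟩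
  have := congrFun (congrFun (h (Pi.single k 1)) j) i
  simpa [embC, mul_apply, Fintype.sum_prod_type, Pi.single_apply] using this

lemma el_sq (X : Matrix α α F) (e φ : β → F) (h : φ ⬝ᵥ e = 0) :
    embC n₁ e * X * projL n₁ φ * (embC n₁ e * X * projL n₁ φ) = 0 := by
  have h1 : projL n₁ φ * embC n₁ e = 0 := by rw [projL_embC, h, zero_smul]
  simp only [Matrix.mul_assoc]
  rw [← Matrix.mul_assoc (projL n₁ φ) (embC n₁ e), h1, Matrix.zero_mul, Matrix.mul_zero,
    Matrix.mul_zero]

/-- The block root element `1 + X ⊗ eφ`. -/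
def el (X : Matrix α α F) (e φ : β → F) (h : φ ⬝ᵥ e = 0) : GL (α × β) F :=
  ⟨1 + embC n₁ e * X * projL n₁ φ, 1 - embC n₁ e * X * projL n₁ φ, by
    rw [add_mul, one_mul, mul_sub, mul_one, el_sq X e φ h]
    abel, by
    rw [sub_mul, one_mul, mul_add, mul_one, el_sq X e φ h]
    abel⟩

@[simp] lemma coe_el (X : Matrix α α F) (e φ : β → F) (h : φ ⬝ᵥ e = 0) :
    (el X e φ h : Matrix (α × β) (α × β) F) = 1 + embC n₁ e * X * projL n₁ φ := rfl

@[simp] lemma coe_el_inv (X : Matrix α α F) (e φ : β → F) (h : φ ⬝ᵥ e = 0) :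
    (((el X e φ h)⁻¹ : GL (α × β) F) : Matrix (α × β) (α × β) F) =
      1 - embC n₁ e * X * projL n₁ φ := rfl

lemma el_eq_kron (c : F) (e φ : β → F) (h : φ ⬝ᵥ e = 0) :
    (el (c • (1 : Matrix α α F)) e φ h : Matrix (α × β) (α × β) F) = (1 : Matrix α α F) ⊗ₖ tv (c • e) φ := by
  rw [coe_el, Matrix.mul_smul, Matrix.mul_one, Matrix.smul_mul, embC_projL, tv, kronecker_add,
    one_kronecker_one, smul_vecMulVec, kronecker_smul]

/-- A product `(1+A)(1+B)(1-A)(1-B)`. -/
lemma comm_sq_zero {ι : Type*} [Fintype ι] [DecidableEq ι] {A B : Matrix ι ι F}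
    (hAA : A * A = 0) (hBA : B * A = 0) (hBB : B * B = 0) :
    (1 + A) * (1 + B) * (1 - A) * (1 - B) = 1 + A * B := by
  have h1 : (1 + A) * (1 + B) * (1 - A) = 1 + (B + A * B) := by
    noncomm_ring
    simp [hAA, hBA, mul_assoc]
  rw [h1]
  noncomm_ring
  simp [hBB, mul_assoc]

/-- The hypotheses on the subgroup: it contains the determinant-one Kronecker products, and its
block root elements are scalar. -/
structure TensorHyp (M : Subgroup (GL (α × β) F)) : Prop where
  kron : ∀ g ∈ Cfsg.Geo.kroneckerSubgroup n₁ n₂ F, Matrix.GeneralLinearGroup.det g = 1 → g ∈ M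
  scalar : ∀ (X : Matrix α α F) (e φ : β → F) (h : φ ⬝ᵥ e = 0), e ≠ 0 → φ ≠ 0 → el X e φ h ∈ M →
    ∃ c : F, X = c • 1

end Cfsg.Lib.Classical.TensorSL
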