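import Mathlib
import Cfsg.Agent.Lib.Classical.TensorBlocks
import Cfsg.Agent.Lib.Classical.Parabolic

/-!
A non-scalar block root element together with the Kronecker products gives the special linear group.
-/

set_option autoImplicit false

namespace Cfsg.Lib.Classical.TensorSL

open Matrix Module Cfsg.Lib.Classical
open scoped MatrixGroups Kronecker

variable {n₁ n₂ : ℕ} {F : Type*} [Field F]

local notation "α" => Fin n₁
local notation "β" => Fin n₂

lemma exists_orth_not_mem {κ : Type} [Fintype κ] (φ e : κ → F) (h : 3 ≤ Fintype.card κ) :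
    ∃ b : κ → F, φ ⬝ᵥ b = 0 ∧ b ∉ Submodule.span F {e} := by
  classical
  let L : (κ → F) →ₗ[F] F :=
    { toFun := fun b => φ ⬝ᵥ b
      map_add' := dotProduct_add φ
      map_smul' := fun c b => dotProduct_smul c φ b }
  have h1 := LinearMap.finrank_range_add_finrank_ker L
  rw [Module.finrank_fintype_fun_eq_card] at h1
  have h2 := (LinearMap.range L).finrank_le
  rw [Module.finrank_self] at h2
  obtain ⟨b, hb, hbe⟩ := SetLike.not_le_iff_exists.1
    (show ¬ LinearMap.ker L ≤ Submodule.span F {e} from fun hle => by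
      have h3 := Submodule.finrank_mono hle
      have h4 := finrank_span_le_card ({e} : Set (κ → F)) (R := F)
      simp at h4
      omega)
  exact ⟨b, hb, hbe⟩

lemma exists_ann_two {κ : Type} [Fintype κ] [DecidableEq κ] (e f : κ → F) (h : 3 ≤ Fintype.card κ) :
    ∃ χ : κ → F, χ ≠ 0 ∧ χ ⬝ᵥ e = 0 ∧ χ ⬝ᵥ f = 0 := by
  obtain ⟨b, -, hb⟩ := SetLike.not_le_iff_exists.1
    (show ¬ (⊤ : Submodule F (κ → F)) ≤ Submodule.span F (Set.range ![e, f]) from fun hle => by
      have h3 := Submodule.finrank_mono hle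
      have h4 := finrank_range_le_card ![e, f] (R := F)
      rw [Set.finrank, Fintype.card_fin] at h4
      rw [finrank_top, Module.finrank_fintype_fun_eq_card] at h3
      omega)
  obtain ⟨χ, hχ, hχb⟩ := exists_dot_sep _ hb
  exact ⟨χ, fun e0 => by rw [e0, zero_dotProduct] at hχb; exact zero_ne_one hχb,
    hχ _ (Submodule.subset_span ⟨0, rfl⟩), hχ _ (Submodule.subset_span ⟨1, rfl⟩)⟩

lemma exists_sep_vec {κ : Type} [Fintype κ] [DecidableEq κ] {φ χ : κ → F}
    (h : φ ∉ Submodule.span F {χ}) : ∃ f : κ → F, χ ⬝ᵥ f = 0 ∧ φ ⬝ᵥ f = 1 := by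
  obtain ⟨f, hf, hfφ⟩ := exists_dot_sep _ h
  exact ⟨f, by rw [dotProduct_comm]; exact hf _ (Submodule.mem_span_singleton_self χ),
    by rw [dotProduct_comm]; exact hfφ⟩

lemma scalar_of_eigen {κ : Type} [Fintype κ] [DecidableEq κ] [Nonempty κ] (X : Matrix κ κ F)
    (h : ∀ v : κ → F, X *ᵥ v ∈ Submodule.span F {v}) : ∃ c : F, X = c • 1 := by
  choose c hc using fun v => Submodule.mem_span_singleton.1 (h v)
  have hcol : ∀ i k, c (Pi.single i 1) * (if k = i then 1 else 0) = X k i := by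
    intro i k
    have := congrFun (hc (Pi.single i 1)) k
    rw [mulVec_single_one] at this
    simpa [Pi.single_apply] using this
  obtain ⟨i₀⟩ := ‹Nonempty κ›
  refine ⟨c (Pi.single i₀ 1), ?_⟩
  have heq : ∀ i, c (Pi.single i 1) = c (Pi.single i₀ 1) := by
    intro i
    rcases eq_or_ne i i₀ with rfl | hi
    · rfl
    have h3 := hc (Pi.single i 1 + Pi.single i₀ 1)
    have h4 := congrFun h3 i
    have h5 := congrFun h3 i₀
    rw [mulVec_add, mulVec_single_one, mulVec_single_one] at h4 h5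
    simp [← hcol, hi, Ne.symm hi] at h4 h5
    rw [← h4, ← h5]
  ext k i
  rw [← hcol, heq]
  simp [Matrix.one_apply]

variable {M : Subgroup (GL (Fin n₁ × Fin n₂) F)}
  (hK : ∀ g ∈ Cfsg.Geo.kroneckerSubgroup n₁ n₂ F, Matrix.GeneralLinearGroup.det g = 1 → g ∈ M)
  (hn₂ : 3 ≤ n₂)

/-- All block root elements with block `X`. -/
def RootIn (M : Subgroup (GL (α × β) F)) (X : Matrix α α F) : Prop :=
  ∀ (e φ : β → F) (h : φ ⬝ᵥ e = 0), el X e φ h ∈ M

include hK

lemma el_one_mem (c : F) (e φ : β → F) (h : φ ⬝ᵥ e = 0) :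
    el (c • (1 : Matrix α α F)) e φ h ∈ M := by
  have hce : φ ⬝ᵥ (c • e) = 0 := by rw [dotProduct_smul, h, smul_zero]
  refine hK _ ⟨1, tvGL (c • e) φ hce, by rw [el_eq_kron, Units.val_one, coe_tvGL]⟩ (Units.ext ?_)
  rw [Matrix.GeneralLinearGroup.val_det_apply, el_eq_kron, det_kronecker, det_one, one_pow, one_mul,
    det_tv, hce, add_zero, one_pow, Units.val_one]

/-- Changing the row part. -/
lemma el_right {X : Matrix α α F} {e φ χ : β → F} {h : φ ⬝ᵥ e = 0} (hm : el X e φ h ∈ M)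
    (hχ : χ ⬝ᵥ e = 0) (hind : φ ∉ Submodule.span F {χ}) : el X e χ hχ ∈ M := by
  obtain ⟨f, hχf, hφf⟩ := exists_sep_vec hind
  have hB := el_one_mem hK 1 f χ hχf
  convert M.mul_mem (M.mul_mem (M.mul_mem hm hB) (M.inv_mem hm)) (M.inv_mem hB) using 1
  ext1
  simp only [Units.val_mul, coe_el, coe_el_inv, one_smul]
  rw [comm_sq_zero (el_sq X e φ h) ?_ (el_sq 1 f χ hχf)]
  · congr 1
    have : projL n₁ φ * embC n₁ f = (1 : Matrix α α F) := by rw [projL_embC, hφf, one_smul]
    simp only [Matrix.mul_one, Matrix.mul_assoc]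
    rw [← Matrix.mul_assoc (projL n₁ φ), this, Matrix.one_mul]
  · have : projL n₁ χ * embC n₁ e = (0 : Matrix α α F) := by rw [projL_embC, hχ, zero_smul]
    simp only [Matrix.mul_one, Matrix.mul_assoc]
    rw [← Matrix.mul_assoc (projL n₁ χ), this, Matrix.zero_mul, Matrix.mul_zero]

/-- Changing the column part. -/
lemma el_left {X : Matrix α α F} {e φ f : β → F} {h : φ ⬝ᵥ e = 0} (hm : el X e φ h ∈ M)
    (hf : φ ⬝ᵥ f = 0) (hind : e ∉ Submodule.span F {f}) : el X f φ hf ∈ M := by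
  obtain ⟨χ, hχf, hχe⟩ := exists_dot_sep _ hind
  have hχf' : χ ⬝ᵥ f = 0 := hχf _ (Submodule.mem_span_singleton_self f)
  have hA := el_one_mem hK 1 f χ hχf'
  convert M.mul_mem (M.mul_mem (M.mul_mem hA hm) (M.inv_mem hA)) (M.inv_mem hm) using 1
  ext1
  simp only [Units.val_mul, coe_el, coe_el_inv, one_smul]
  rw [comm_sq_zero (el_sq 1 f χ hχf') ?_ (el_sq X e φ h)]
  · congr 1
    have : projL n₁ χ * embC n₁ e = (1 : Matrix α α F) := by rw [projL_embC, hχe, one_smul]
    simp only [Matrix.mul_one, Matrix.mul_assoc]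
    rw [← Matrix.mul_assoc (projL n₁ χ), this, Matrix.one_mul]
  · have : projL n₁ φ * embC n₁ f = (0 : Matrix α α F) := by rw [projL_embC, hf, zero_smul]
    simp only [Matrix.mul_one, Matrix.mul_assoc]
    rw [← Matrix.mul_assoc (projL n₁ φ), this, Matrix.zero_mul, Matrix.mul_zero, Matrix.mul_zero]

include hn₂

lemma rootIn_of_one {X : Matrix α α F} {e φ : β → F} {h : φ ⬝ᵥ e = 0} (he : e ≠ 0) (hφ : φ ≠ 0)
    (hm : el X e φ h ∈ M) : RootIn M X := by
  classical
  have hc : 3 ≤ Fintype.card β := by simpa using hn₂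
  have right : ∀ {e φ χ : β → F} {h : φ ⬝ᵥ e = 0}, e ≠ 0 → φ ≠ 0 → el X e φ h ∈ M → χ ≠ 0 →
      ∀ hχ : χ ⬝ᵥ e = 0, el X e χ hχ ∈ M := by
    intro e φ χ h he hφ hm hχ0 hχ
    by_cases hind : φ ∈ Submodule.span F {χ}
    swap
    · exact el_right hK hm hχ hind
    obtain ⟨b, hb, hbe⟩ := exists_orth_not_mem φ e hc
    obtain ⟨χ', hχ'e, hχ'b⟩ := exists_dot_sep _ hbe
    have h' : χ' ⬝ᵥ e = 0 := hχ'e _ (Submodule.mem_span_singleton_self e)
    have hφχ' : φ ∉ Submodule.span F {χ'} := fun hmem => by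
      obtain ⟨c, hc'⟩ := Submodule.mem_span_singleton.1 hmem
      rw [← hc', smul_dotProduct, hχ'b, smul_eq_mul, mul_one] at hb
      rw [hb, zero_smul] at hc'
      exact hφ hc'.symm
    refine el_right hK (el_right hK hm h' hφχ') hχ fun hmem => hφχ' ?_
    obtain ⟨c, hc'⟩ := Submodule.mem_span_singleton.1 hind
    obtain ⟨d, hd⟩ := Submodule.mem_span_singleton.1 hmem
    have hd0 : d ≠ 0 := fun e0 => by
      rw [e0, zero_smul] at hd
      rw [← hd, zero_dotProduct] at hχ'b
      exact zero_ne_one hχ'b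
    exact Submodule.mem_span_singleton.2 ⟨c * d⁻¹, by
      rw [← hc', ← hd, smul_smul, inv_mul_cancel_right₀ hd0]⟩
  intro e' φ' h'
  rcases eq_or_ne e' 0 with rfl | he'
  · convert one_mem M
    ext1
    have : embC n₁ (0 : β → F) = 0 := by
      rw [show (0 : β → F) = (0 : F) • 0 by simp, embC_smul, zero_smul]
    simp [this]
  rcases eq_or_ne φ' 0 with rfl | hφ'
  · convert one_mem M
    ext1
    have : projL n₁ (0 : β → F) = 0 := by
      rw [show (0 : β → F) = (0 : F) • 0 by simp, projL_smul, zero_smul]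
    simp [this]
  obtain ⟨χ, hχ0, hχe, hχe'⟩ := exists_ann_two e e' hc
  have h1 := right he hφ hm hχ0 hχe
  suffices h2 : el X e' χ hχe' ∈ M from right he' hχ0 h2 hφ' h'
  by_cases hind : e ∈ Submodule.span F {e'}
  swap
  · exact el_left hK h1 hχe' hind
  obtain ⟨f, hf, hfe⟩ := exists_orth_not_mem χ e hc
  have hef : e ∉ Submodule.span F {f} := fun hmem => by
    obtain ⟨c, hc'⟩ := Submodule.mem_span_singleton.1 hmem
    rcases eq_or_ne c 0 with rfl | hc0
    · exact he (by rw [← hc', zero_smul])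
    · exact hfe (Submodule.mem_span_singleton.2 ⟨c⁻¹, by rw [← hc', smul_smul, inv_mul_cancel₀ hc0, one_smul]⟩)
  refine el_left hK (el_left hK h1 hf hef) hχe' fun hmem => hfe ?_
  obtain ⟨c, hc'⟩ := Submodule.mem_span_singleton.1 hind
  obtain ⟨d, hd⟩ := Submodule.mem_span_singleton.1 hmem
  have hc0 : c ≠ 0 := fun e0 => he (by rw [← hc', e0, zero_smul])
  exact Submodule.mem_span_singleton.2 ⟨d * c⁻¹, by
    rw [← hc', ← hd, smul_smul, inv_mul_cancel_right₀ hc0]⟩

omit hn₂ in
lemma RootIn.smul {X : Matrix α α F} (h : RootIn M X) (c : F) : RootIn M (c • X) := by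
  intro e φ he
  convert h (c • e) φ (by rw [dotProduct_smul, he, smul_zero]) using 1
  ext1
  simp [embC_smul]

omit hn₂ in
lemma RootIn.add {X Y : Matrix α α F} (hX : RootIn M X) (hY : RootIn M Y) : RootIn M (X + Y) := by
  intro e φ he
  convert M.mul_mem (hX e φ he) (hY e φ he) using 1
  ext1
  have : projL n₁ φ * embC n₁ e = (0 : Matrix α α F) := by rw [projL_embC, he, zero_smul]
  simp only [Units.val_mul, coe_el]
  rw [add_mul, one_mul, mul_add, mul_one]
  have h2 : embC n₁ e * X * projL n₁ φ * (embC n₁ e * Y * projL n₁ φ) = 0 := by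
    simp only [Matrix.mul_assoc]
    rw [← Matrix.mul_assoc (projL n₁ φ), this, Matrix.zero_mul, Matrix.mul_zero, Matrix.mul_zero]
  rw [h2, Matrix.mul_add, Matrix.add_mul]
  abel

omit hn₂ in
lemma RootIn.sub {X Y : Matrix α α F} (hX : RootIn M X) (hY : RootIn M Y) : RootIn M (X - Y) := by
  have := RootIn.add hK hX (RootIn.smul hK hY (-1))
  rwa [neg_one_smul, ← sub_eq_add_neg] at this

lemma RootIn.mul {X Y : Matrix α α F} (hX : RootIn M X) (hY : RootIn M Y) :
    RootIn M (X * Y) := by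
  have d : ∀ a b : Fin n₂, a ≠ b → (Pi.single a (1 : F) : β → F) ⬝ᵥ Pi.single b 1 = 0 :=
    fun a b hab => by simp [hab.symm]
  let i : β := ⟨0, by omega⟩
  let j : β := ⟨1, by omega⟩
  let k : β := ⟨2, by omega⟩
  have hij : j ≠ i := by simp [i, j, Fin.ext_iff]
  have hjk : k ≠ j := by simp [j, k, Fin.ext_iff]
  have hik : k ≠ i := by simp [i, k, Fin.ext_iff]
  set e : β → F := Pi.single i 1
  set f : β → F := Pi.single j 1
  set χ : β → F := Pi.single k 1
  have hA := hX e f (d _ _ hij)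
  have hB := hY f χ (d _ _ hjk)
  refine rootIn_of_one hK hn₂ (e := e) (φ := χ) (h := d _ _ hik) (by simp [e]) (by simp [χ]) ?_
  convert M.mul_mem (M.mul_mem (M.mul_mem hA hB) (M.inv_mem hA)) (M.inv_mem hB) using 1
  ext1
  simp only [Units.val_mul, coe_el, coe_el_inv]
  rw [comm_sq_zero (el_sq X e f (d _ _ hij)) ?_ (el_sq Y f χ (d _ _ hjk))]
  · congr 1
    have : projL n₁ f * embC n₁ f = (1 : Matrix α α F) := by
      rw [projL_embC, show f ⬝ᵥ f = 1 by simp [f], one_smul]
    simp only [Matrix.mul_assoc]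
    rw [← Matrix.mul_assoc (projL n₁ f), this, Matrix.one_mul]
  · have : projL n₁ χ * embC n₁ e = (0 : Matrix α α F) := by
      rw [projL_embC, d _ _ hik, zero_smul]
    simp only [Matrix.mul_assoc]
    rw [← Matrix.mul_assoc (projL n₁ χ), this, Matrix.zero_mul, Matrix.mul_zero, Matrix.mul_zero]

omit hn₂ in
lemma RootIn.conj {X : Matrix α α F} (hX : RootIn M X) (a : GL α F)
    (ha : Matrix.GeneralLinearGroup.det a = 1) :
    RootIn M ((a : Matrix α α F) * X * ((a⁻¹ : GL α F) : Matrix α α F)) := by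
  intro e φ he
  let g : GL (α × β) F :=
    ⟨(a : Matrix α α F) ⊗ₖ (1 : Matrix β β F), ((a⁻¹ : GL α F) : Matrix α α F) ⊗ₖ (1 : Matrix β β F),
      by rw [← mul_kronecker_mul, Units.mul_inv, one_mul, one_kronecker_one],
      by rw [← mul_kronecker_mul, Units.inv_mul, one_mul, one_kronecker_one]⟩
  have hgM : g ∈ M := hK g ⟨a, 1, rfl⟩ (Units.ext (by
    have hd : (a : Matrix α α F).det = 1 := by
      simpa [Matrix.GeneralLinearGroup.val_det_apply] using congrArg Units.val ha
    rw [Matrix.GeneralLinearGroup.val_det_apply]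
    simp [g, det_kronecker, hd]))
  convert M.mul_mem (M.mul_mem hgM (hX e φ he)) (M.inv_mem hgM) using 1
  ext1
  simp only [Units.val_mul, coe_el]
  change _ = (a : Matrix α α F) ⊗ₖ (1 : Matrix β β F) * _ *
    (((a⁻¹ : GL α F) : Matrix α α F) ⊗ₖ (1 : Matrix β β F))
  have h1 : (a : Matrix α α F) ⊗ₖ (1 : Matrix β β F) * embC n₁ e = embC n₁ e * (a : Matrix α α F) := by
    rw [kron_embC, one_mulVec]
  have h2 : projL n₁ φ * (((a⁻¹ : GL α F) : Matrix α α F) ⊗ₖ (1 : Matrix β β F)) =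
      ((a⁻¹ : GL α F) : Matrix α α F) * projL n₁ φ := by rw [projL_kron, vecMul_one]
  rw [Matrix.mul_add, Matrix.mul_one, Matrix.add_mul]
  congr 1
  · rw [← mul_kronecker_mul, Units.mul_inv, one_mul, one_kronecker_one]
  · simp only [← Matrix.mul_assoc]
    rw [h1]
    simp only [Matrix.mul_assoc]
    rw [h2]

/-- A non-scalar block gives the special linear group. -/
theorem ker_det_le_of_rootIn (hn₁ : 2 ≤ n₁) (hex : n₁ = 2 → ∃ t : F, t ≠ 0 ∧ t ≠ 1)
    {X : Matrix α α F} (hX : RootIn M X) (hns : ∀ c : F, X ≠ c • 1) :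
    (Matrix.GeneralLinearGroup.det : GL (α × β) F →* Fˣ).ker ≤ M := by
  classical
  have : Nonempty α := ⟨⟨0, by omega⟩⟩
  obtain ⟨v, hv⟩ : ∃ v : α → F, X *ᵥ v ∉ Submodule.span F {v} := by
    by_contra! hall
    obtain ⟨c, hc⟩ := scalar_of_eigen X hall
    exact hns c hc
  have hv0 : v ≠ 0 := fun e => hv (by rw [e, mulVec_zero]; exact Submodule.zero_mem _)
  set w := X *ᵥ v with hw
  have tdet : ∀ (x χ : α → F) (h : χ ⬝ᵥ x = 0),
      Matrix.GeneralLinearGroup.det (tvGL x χ h) = 1 := fun x χ h => tvGL_mem_ker_det x χ h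
  have hD : ∀ ψ : α → F, ψ ⬝ᵥ v = 0 →
      RootIn M (vecMulVec v (ψ ᵥ* X) - vecMulVec w ψ - (ψ ⬝ᵥ w) • vecMulVec v ψ) := by
    intro ψ hψ
    have h1 := RootIn.sub hK (RootIn.conj hK hX (tvGL v ψ hψ) (tdet _ _ hψ)) hX
    convert h1 using 1
    rw [coe_tvGL, coe_tvGL_inv, tv, tv, add_mul, one_mul, mul_add, mul_one, add_mul, vecMulVec_mul,
      vecMulVec_mul_vecMulVec, mul_vecMulVec, mulVec_neg, ← hw, ← dotProduct_mulVec]
    ext i j
    simp [vecMulVec_apply, mulVec_neg, ← hw, dotProduct_neg]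
    ring
  obtain ⟨ψ, hψv, hψw⟩ := exists_dot_sep _ hv
  have hψv' : ψ ⬝ᵥ v = 0 := hψv _ (Submodule.mem_span_singleton_self v)
  obtain ⟨η, hη0, hη⟩ : ∃ η : α → F, η ≠ 0 ∧ RootIn M (vecMulVec v η) := by
    by_cases h3 : 3 ≤ n₁
    · obtain ⟨ψ', h0, h1, h2⟩ := exists_ann_two v w (by simpa using h3)
      refine ⟨ψ', h0, ?_⟩
      have hsum := RootIn.sub hK (RootIn.add hK (hD ψ hψv') (hD ψ' h1))
        (hD (ψ + ψ') (by rw [add_dotProduct, hψv', h1, add_zero]))
      convert hsum using 1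
      rw [add_dotProduct, hψw, h2, add_vecMul]
      ext i j
      simp [vecMulVec_apply]
      ring
    · obtain ⟨t, ht0, ht1⟩ := hex (by omega)
      refine ⟨(t * (1 - t)) • ψ, smul_ne_zero (mul_ne_zero ht0 (sub_ne_zero.2 ht1.symm))
        (fun e => by rw [e, zero_dotProduct] at hψw; exact zero_ne_one hψw), ?_⟩
      have hsum := RootIn.sub hK (hD (t • ψ) (by rw [smul_dotProduct, hψv', smul_zero]))
        (RootIn.smul hK (hD ψ hψv') t)
      convert hsum using 1
      rw [smul_dotProduct, hψw, smul_vecMul]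
      ext i j
      simp [vecMulVec_apply]
      ring
  -- every line is a centre
  have hline : ∀ u : α → F, u ≠ 0 → ∃ η : α → F, η ≠ 0 ∧ RootIn M (vecMulVec u η) := by
    intro u hu
    by_cases hvu : v ∈ Submodule.span F {u - v}
    · obtain ⟨c, hc⟩ := Submodule.mem_span_singleton.1 hvu
      have huv : (c • u : α → F) = (1 + c) • v := by
        linear_combination (norm := module) hc
      rcases eq_or_ne c 0 with rfl | hc0
      · exact absurd (by rw [← hc, zero_smul]) hv0
      have h1c : (1 + c) ≠ 0 := fun e0 => hu (by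
        rw [e0, zero_smul] at huv
        exact (smul_eq_zero.1 huv).resolve_left hc0)
      refine ⟨η, hη0, ?_⟩
      have h1 := RootIn.smul hK hη ((1 + c) / c)
      convert h1 using 1
      rw [← smul_vecMulVec, div_eq_inv_mul, ← smul_smul, ← huv, smul_smul, inv_mul_cancel₀ hc0, one_smul]
    obtain ⟨χ, hχ, hχv⟩ := exists_dot_sep _ hvu
    have hχ' : χ ⬝ᵥ (u - v) = 0 := hχ _ (Submodule.mem_span_singleton_self _)
    set a := tvGL (u - v) χ hχ'
    refine ⟨η ᵥ* ((a⁻¹ : GL α F) : Matrix α α F), fun e0 => hη0 ?_, ?_⟩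
    · have := congrArg (fun x => x ᵥ* (a : Matrix α α F)) e0
      simpa [vecMul_vecMul] using this
    · have h1 := RootIn.conj hK hη a (tdet _ _ hχ')
      rw [mul_vecMulVec, vecMulVec_mul, coe_tvGL, tv_mulVec, hχv, one_smul, add_sub_cancel] at h1
      exact h1
  have hall : ∀ u χ : α → F, χ ⬝ᵥ u = 0 → RootIn M (vecMulVec u χ) := by
    intro u χ hχ
    rcases eq_or_ne u 0 with rfl | hu
    · convert RootIn.smul hK hη (0 : F) using 1
      ext i j
      simp [vecMulVec_apply]
    rcases eq_or_ne χ 0 with rfl | hχ0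
    · convert RootIn.smul hK hη (0 : F) using 1
      ext i j
      simp [vecMulVec_apply]
    obtain ⟨η', hη'0, hη'⟩ := hline u hu
    by_cases hind : η' ∈ Submodule.span F {χ}
    · obtain ⟨c, hc⟩ := Submodule.mem_span_singleton.1 hind
      have hc0 : c ≠ 0 := fun e => hη'0 (by rw [← hc, e, zero_smul])
      convert RootIn.smul hK hη' c⁻¹ using 1
      ext i j
      simp [vecMulVec_apply, ← hc]
      field_simp
    obtain ⟨x, hχx, hηx⟩ := exists_sep_vec hind
    have h1 := RootIn.sub hK hη' (RootIn.conj hK hη' (tvGL x χ hχx) (tdet _ _ hχx))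
    convert h1 using 1
    rw [mul_vecMulVec, vecMulVec_mul, coe_tvGL, tv_mulVec, hχ, zero_smul, add_zero, coe_tvGL_inv,
      tv, vecMul_add, vecMul_one, vecMul_vecMulVec, dotProduct_neg]
    rw [dotProduct_comm] at hηx
    ext i j
    simp [vecMulVec_apply, dotProduct_comm η' x, hηx]
    ring
  have hE : ∀ i j : α, RootIn M (Matrix.single i j (1 : F)) := by
    have off : ∀ i j : α, i ≠ j → RootIn M (Matrix.single i j (1 : F)) := by
      intro i j hij
      convert hall (Pi.single i 1) (Pi.single j 1) (by simp [hij.symm]) using 1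
      ext a b
      simp [vecMulVec_apply, Matrix.single_apply, Pi.single_apply]
      grind
    intro i j
    rcases eq_or_ne i j with rfl | hij
    · obtain ⟨k, hk⟩ := Fintype.exists_ne_of_one_lt_card (by simp; omega) i
      simpa using RootIn.mul hK hn₂ (off i k hk.symm) (off k i hk)
    · exact off i j hij
  refine ker_det_le_of_transvection_mem M ?_
  rintro ⟨i, k⟩ ⟨j, l⟩ hne c g hg
  have key : ∀ (X : Matrix α α F) (a b : β), embC n₁ (Pi.single a (1 : F)) * X * projL n₁ (Pi.single b (1 : F)) =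
      X ⊗ₖ Matrix.single a b 1 := by
    intro X a b
    ext ⟨p, q⟩ ⟨r, s⟩
    simp [embC, projL, mul_apply, Matrix.single_apply, Pi.single_apply]
    grind
  have hsing : (Matrix.single (i, k) (j, l) c : Matrix (α × β) (α × β) F) =
      (c • Matrix.single i j (1 : F)) ⊗ₖ Matrix.single k l 1 := by
    ext ⟨p, q⟩ ⟨r, s⟩
    simp [Matrix.single_apply]
    grind
  rcases eq_or_ne k l with rfl | hkl
  · have hij : i ≠ j := fun e => hne (by rw [e])
    obtain ⟨m, hm⟩ := Fintype.exists_ne_of_one_lt_card (by simp; omega) k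
    have dkm : (Pi.single m (1 : F) : β → F) ⬝ᵥ Pi.single k 1 = 0 := by simp [hm.symm]
    have dmk : (Pi.single k (1 : F) : β → F) ⬝ᵥ Pi.single m 1 = 0 := by simp [hm]
    have hA := (RootIn.smul hK (hE i i) c) (Pi.single k 1) (Pi.single m 1) dkm
    have hB := hE i j (Pi.single m 1) (Pi.single k 1) dmk
    convert M.mul_mem (M.mul_mem (M.mul_mem hA hB) (M.inv_mem hA)) (M.inv_mem hB) using 1
    ext1
    simp only [Units.val_mul, coe_el, coe_el_inv, key]
    rw [comm_sq_zero, hg, Matrix.transvection, hsing]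
    · rw [← mul_kronecker_mul]
      simp
    all_goals
      rw [← mul_kronecker_mul]
      simp [hm, hm.symm, hij, hij.symm]
  · convert (RootIn.smul hK (hE i j) c) (Pi.single k 1) (Pi.single l 1) (by simp [Ne.symm hkl]) using 1
    ext1
    rw [hg, coe_el, key, Matrix.transvection, hsing]

end Cfsg.Lib.Classical.TensorSL
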