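import Mathlib
import Cfsg.Agent.Lib.Classical.TensorFull
import Cfsg.Agent.Lib.Classical.SubfieldMax

/-!
With scalar block root elements only, one vanishing block forces a Kronecker product.
-/

set_option autoImplicit false

namespace Cfsg.Lib.Classical.TensorSL

open Matrix Module Cfsg.Lib.Classical
open scoped MatrixGroups Kronecker

variable {n₁ n₂ : ℕ} {F : Type*} [Field F] {M : Subgroup (GL (Fin n₁ × Fin n₂) F)}
  (hM : TensorHyp M) (hn₂ : 3 ≤ n₂) (hn₁ : 1 ≤ n₁)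

local notation "α" => Fin n₁
local notation "β" => Fin n₂

lemma eq_embC_of_ann (X : Matrix (α × β) α F) {e ψ : β → F} (hψ : ψ ⬝ᵥ e = 1)
    (h : ∀ φ : β → F, φ ⬝ᵥ e = 0 → projL n₁ φ * X = 0) : X = embC n₁ e * (projL n₁ ψ * X) := by
  refine sub_eq_zero.1 (eq_zero_of_projL _ fun φ => ?_)
  have h1 := h (φ + (-(φ ⬝ᵥ e)) • ψ) (by
    rw [add_dotProduct, smul_dotProduct, hψ, smul_eq_mul, mul_one, add_neg_cancel])
  rw [projL_add, projL_smul, Matrix.add_mul, Matrix.smul_mul] at h1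
  rw [Matrix.mul_sub, ← Matrix.mul_assoc (projL n₁ φ) (embC n₁ e), projL_embC, Matrix.smul_mul,
    Matrix.one_mul, sub_eq_add_neg, ← neg_smul]
  exact h1

lemma exists_sep_one {κ : Type} [Fintype κ] [DecidableEq κ] {e : κ → F} (he : e ≠ 0) :
    ∃ ψ : κ → F, ψ ⬝ᵥ e = 1 := by
  obtain ⟨ψ, -, hψ⟩ := exists_dot_sep (⊥ : Submodule F (κ → F)) (x := e) (by simpa using he)
  exact ⟨ψ, hψ⟩

include hM hn₂ hn₁

/-- One vanishing block controls a row and the opposite blocks. -/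
lemma row_lemma {y : GL (α × β) F} (hy : y ∈ M) {φ' e : β → F} (hφ' : φ' ≠ 0) (he : e ≠ 0)
    (h0 : blk (y : Matrix (α × β) (α × β) F) φ' e = 0) :
    ∃ R R' : Matrix α α F, R' * R = 1 ∧
      (∀ f, ∃ c : F, blk (y : Matrix (α × β) (α × β) F) φ' f = c • R) ∧
      ∀ φ e', φ' ⬝ᵥ e' = 0 →
        ∃ c : F, blk ((y⁻¹ : GL (α × β) F) : Matrix (α × β) (α × β) F) φ e' = c • R' := by
  classical
  set Y := (y : Matrix (α × β) (α × β) F)
  set Y' := ((y⁻¹ : GL (α × β) F) : Matrix (α × β) (α × β) F)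
  have hYY : Y * Y' = 1 := Units.mul_inv y
  have hc : 3 ≤ Fintype.card β := by simpa using hn₂
  -- scalar products of blocks
  have key : ∀ {e₀ : β → F}, e₀ ≠ 0 → blk Y φ' e₀ = 0 → ∀ (φ e' f : β → F), φ ⬝ᵥ e₀ = 0 →
      φ' ⬝ᵥ e' = 0 → ∃ c : F, blk Y' φ e' * blk Y φ' f = c • 1 := by
    intro e₀ he₀ h0 φ e' f hφ he'
    rcases eq_or_ne φ 0 with rfl | hφ0
    · exact ⟨0, by simpa using congrArg (· * blk Y φ' f) (map_zero (blkL Y' e'))⟩
    have hT : y⁻¹ * el 1 e' φ' he' * y ∈ M := by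
      refine M.mul_mem (M.mul_mem (M.inv_mem hy) ?_) hy
      simpa using el_one_mem hM.kron 1 e' φ' he'
    set A := Y' * (embC n₁ e' * projL n₁ φ') * Y with hA
    have hTA : ((y⁻¹ * el 1 e' φ' he' * y : GL (α × β) F) : Matrix (α × β) (α × β) F) = 1 + A := by
      simp only [Units.val_mul, coe_el, Matrix.mul_one, Matrix.mul_add, Matrix.add_mul, hA, Y, Y',
        Units.inv_mul]
    have hAA : A * A = 0 := by
      have h1 : projL n₁ φ' * embC n₁ e' = (0 : Matrix α α F) := by rw [projL_embC, he', zero_smul]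
      simp only [hA, Matrix.mul_assoc]
      rw [← Matrix.mul_assoc Y Y', hYY, Matrix.one_mul, ← Matrix.mul_assoc (projL n₁ φ') (embC n₁ e'),
        h1, Matrix.zero_mul, Matrix.mul_zero, Matrix.mul_zero]
    have hTi : (((y⁻¹ * el 1 e' φ' he' * y)⁻¹ : GL (α × β) F) : Matrix (α × β) (α × β) F) = 1 - A := by
      refine Units.inv_eq_of_mul_eq_one_right ?_
      rw [hTA, add_mul, one_mul, mul_sub, mul_one, hAA]
      abel
    have hAe : A * embC n₁ e₀ = 0 := by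
      have h1 : projL n₁ φ' * Y * embC n₁ e₀ = 0 := h0
      simp only [hA, Matrix.mul_assoc] at h1 ⊢
      rw [h1, Matrix.mul_zero, Matrix.mul_zero]
    have hB := el_one_mem hM.kron 1 e₀ φ hφ
    set r := el ((1 : F) • (1 : Matrix α α F)) e₀ φ hφ * (y⁻¹ * el 1 e' φ' he' * y) *
      (el ((1 : F) • (1 : Matrix α α F)) e₀ φ hφ)⁻¹ * (y⁻¹ * el 1 e' φ' he' * y)⁻¹ with hr
    have hrM : r ∈ M := M.mul_mem (M.mul_mem (M.mul_mem hB hT) (M.inv_mem hB)) (M.inv_mem hT)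
    set Z := embC n₁ e₀ * projL n₁ φ * A with hZ
    have hrZ : (r : Matrix (α × β) (α × β) F) = 1 + Z := by
      rw [hr, Units.val_mul, Units.val_mul, Units.val_mul, hTA, hTi, coe_el, coe_el_inv, one_smul,
        Matrix.mul_one, comm_sq_zero ?_ ?_ hAA]
      · simpa using el_sq 1 e₀ φ hφ
      · rw [← Matrix.mul_assoc, hAe, Matrix.zero_mul]
    have hZZ : Z * Z = 0 := by
      simp only [hZ, Matrix.mul_assoc] at hAe ⊢
      rw [← Matrix.mul_assoc A (embC n₁ e₀), hAe, Matrix.zero_mul, Matrix.mul_zero, Matrix.mul_zero]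
    have hri : ((r⁻¹ : GL (α × β) F) : Matrix (α × β) (α × β) F) = 1 - Z := by
      refine Units.inv_eq_of_mul_eq_one_right ?_
      rw [hrZ, add_mul, one_mul, mul_sub, mul_one, hZZ]
      abel
    obtain ⟨χ, hχ0, hχe, -⟩ := exists_ann_two e₀ e₀ hc
    rcases eq_or_ne f 0 with rfl | hf
    · exact ⟨0, by simpa using congrArg (blk Y' φ e' * ·) (map_zero (blkR Y φ'))⟩
    -- the commutator with a scalar root element
    have main : ∀ χ : β → F, χ ⬝ᵥ e₀ = 0 → χ ⬝ᵥ f = 0 → χ ≠ 0 →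
        ∃ c : F, blk Y' φ e' * blk Y φ' f = c • 1 := by
      intro χ hχe hχf hχ0
      have hC := el_one_mem hM.kron 1 f χ hχf
      have hm : el (blk Y' φ e' * blk Y φ' f) e₀ χ hχe ∈ M := by
        convert M.mul_mem (M.mul_mem (M.mul_mem hrM hC) (M.inv_mem hrM)) (M.inv_mem hC) using 1
        ext1
        rw [Units.val_mul, Units.val_mul, Units.val_mul, hrZ, hri, coe_el, coe_el, coe_el_inv, one_smul,
          Matrix.mul_one, comm_sq_zero hZZ ?_ ?_]
        · congr 1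
          simp only [hZ, hA, blk, Y, Y', Matrix.mul_assoc]
        · have h1 : projL n₁ χ * embC n₁ e₀ = (0 : Matrix α α F) := by
            rw [projL_embC, hχe, zero_smul]
          simp only [hZ, Matrix.mul_assoc]
          rw [← Matrix.mul_assoc (projL n₁ χ), h1, Matrix.zero_mul, Matrix.mul_zero]
        · simpa using el_sq 1 f χ hχf
      exact hM.scalar _ _ _ _ he₀ hχ0 hm
    obtain ⟨χ, hχ0, hχe, hχf⟩ := exists_ann_two e₀ f hc
    exact main χ hχe hχf hχ0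
  -- a non-zero product
  obtain ⟨φ₀, e₁, f₀, hφ₀, he₁, hne⟩ : ∃ φ₀ e₁ f₀ : β → F, φ₀ ⬝ᵥ e = 0 ∧ φ' ⬝ᵥ e₁ = 0 ∧
      blk Y' φ₀ e₁ * blk Y φ' f₀ ≠ 0 := by
    by_contra! hcon
    obtain ⟨z, hz⟩ := exists_sep_one hφ'
    obtain ⟨ψ, hψ⟩ := exists_sep_one he
    have hz' : φ' ⬝ᵥ z = 1 := by rw [dotProduct_comm]; exact hz
    have hE : ∀ e₁, φ' ⬝ᵥ e₁ = 0 → Y' * embC n₁ e₁ = embC n₁ e * blk Y' ψ e₁ := by
      intro e₁ he₁
      rw [blk, Matrix.mul_assoc]
      refine eq_embC_of_ann _ hψ fun φ hφ => ?_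
      have h1 : projL n₁ φ * (Y' * embC n₁ e₁) * (projL n₁ φ' * Y) = 0 := eq_zero_of_embC _ fun f => by
        have := hcon φ e₁ f hφ he₁
        simpa only [blk, Matrix.mul_assoc] using this
      have h2 := congrArg (· * (Y' * embC n₁ z)) h1
      simp only [Matrix.mul_assoc, Matrix.zero_mul] at h2
      rwa [← Matrix.mul_assoc Y Y', hYY, Matrix.one_mul, projL_embC, hz', one_smul, Matrix.mul_one] at h2
    obtain ⟨b₁, hb₁, hb₁0⟩ := exists_orth_not_mem φ' (0 : β → F) hc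
    obtain ⟨b₂, hb₂, hb₂b⟩ := exists_orth_not_mem φ' b₁ hc
    obtain ⟨χ₁, hχ₁, hχ₁b⟩ := exists_sep_vec (φ := b₁) (χ := b₂) fun hmem => by
      obtain ⟨c, hc'⟩ := Submodule.mem_span_singleton.1 hmem
      rcases eq_or_ne c 0 with rfl | hc0
      · exact hb₁0 (by rw [← hc', zero_smul]; exact Submodule.zero_mem _)
      · exact hb₂b (Submodule.mem_span_singleton.2 ⟨c⁻¹, by
          rw [← hc', smul_smul, inv_mul_cancel₀ hc0, one_smul]⟩)
    obtain ⟨χ₂, hχ₂b⟩ := exists_sep_one (κ := β) (e := b₂) (fun e0 => hb₂b (by rw [e0]; exact Submodule.zero_mem _))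
    rw [dotProduct_comm] at hχ₁ hχ₁b
    have aux : ∀ (χ b : β → F), φ' ⬝ᵥ b = 0 →
        (χ ⬝ᵥ b) • (1 : Matrix α α F) = projL n₁ χ * Y * embC n₁ e * blk Y' ψ b := by
      intro χ b hb
      rw [Matrix.mul_assoc, ← hE b hb, Matrix.mul_assoc, ← Matrix.mul_assoc Y Y', hYY, Matrix.one_mul,
        projL_embC]
    have a1 := aux χ₁ b₁ hb₁
    have a2 := aux χ₁ b₂ hb₂
    have a3 := aux χ₂ b₂ hb₂
    rw [hχ₁b, one_smul] at a1
    rw [hχ₁, zero_smul] at a2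
    rw [hχ₂b, one_smul] at a3
    have hzero : blk Y' ψ b₂ = 0 := by
      have h1 := congrArg (fun X => blk Y' ψ b₁ * X) a2.symm
      simp only [Matrix.mul_zero] at h1
      rwa [← Matrix.mul_assoc, mul_eq_one_comm.1 a1.symm, Matrix.one_mul] at h1
    rw [hzero, Matrix.mul_zero] at a3
    have : Nonempty α := ⟨⟨0, hn₁⟩⟩
    exact one_ne_zero a3
  obtain ⟨c₀, hc₀⟩ := key he h0 φ₀ e₁ f₀ hφ₀ he₁
  have hc₀0 : c₀ ≠ 0 := fun e0 => hne (by rw [hc₀, e0, zero_smul])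
  set R := blk Y φ' f₀ with hR
  set R' := c₀⁻¹ • blk Y' φ₀ e₁ with hR'
  have hRR : R' * R = 1 := by
    rw [hR', Matrix.smul_mul, hc₀, smul_smul, inv_mul_cancel₀ hc₀0, one_smul]
  have hRR' : R * R' = 1 := mul_eq_one_comm.1 hRR
  have hrow : ∀ f, ∃ c : F, blk Y φ' f = c • R := by
    intro f
    obtain ⟨c, hcf⟩ := key he h0 φ₀ e₁ f hφ₀ he₁
    refine ⟨c₀⁻¹ * c, ?_⟩
    have h1 : R' * blk Y φ' f = (c₀⁻¹ * c) • 1 := by rw [hR', Matrix.smul_mul, hcf, smul_smul]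
    have h2 := congrArg (fun X => R * X) h1
    simp only [← Matrix.mul_assoc, hRR', Matrix.one_mul, Matrix.mul_smul, Matrix.mul_one] at h2
    exact h2
  refine ⟨R, R', hRR, hrow, ?_⟩
  -- a second vanishing block in the same row
  obtain ⟨e₂, he₂0, he₂e, he₂r⟩ : ∃ e₂ : β → F, e₂ ≠ 0 ∧ e₂ ∉ Submodule.span F {e} ∧
      blk Y φ' e₂ = 0 := by
    obtain ⟨x, -, hx⟩ := SetLike.not_le_iff_exists.1
      (show ¬ (⊤ : Submodule F (β → F)) ≤ Submodule.span F (Set.range ![e, f₀]) from fun hle => by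
        have h3 := Submodule.finrank_mono hle
        have h4 := finrank_range_le_card ![e, f₀] (R := F)
        rw [Set.finrank, Fintype.card_fin] at h4
        rw [finrank_top, Module.finrank_fintype_fun_eq_card] at h3
        omega)
    obtain ⟨c, hc'⟩ := hrow x
    have hne2 : x - c • f₀ ∉ Submodule.span F {e} := fun hm => hx (by
      have h5 := Submodule.add_mem _
        (Submodule.span_mono (show ({e} : Set (β → F)) ⊆ Set.range ![e, f₀] by simp) hm)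
        (Submodule.smul_mem _ c (Submodule.subset_span (Set.mem_range_self (f := ![e, f₀]) 1)))
      simpa using h5)
    refine ⟨x - c • f₀, fun e0 => hne2 (by rw [e0]; exact Submodule.zero_mem _), hne2, ?_⟩
    rw [← blkR_apply, map_sub, map_smul, blkR_apply, blkR_apply, hc', ← hR, sub_self]
  intro φ e' he'
  have part : ∀ {e₀ : β → F}, e₀ ≠ 0 → blk Y φ' e₀ = 0 → ∀ φ, φ ⬝ᵥ e₀ = 0 →
      ∃ c : F, blk Y' φ e' = c • R' := by
    intro e₀ he₀ hz φ hφ
    obtain ⟨c, hc'⟩ := key he₀ hz φ e' f₀ hφ he'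
    refine ⟨c, ?_⟩
    have h2 := congrArg (fun X => X * R') hc'
    simp only [Matrix.mul_assoc, ← hR, hRR', Matrix.mul_one, Matrix.smul_mul, Matrix.one_mul] at h2
    exact h2
  obtain ⟨ψ, hψ2, hψe⟩ := exists_dot_sep _ (show e ∉ Submodule.span F {e₂} from fun hm => by
    obtain ⟨t, ht⟩ := Submodule.mem_span_singleton.1 hm
    rcases eq_or_ne t 0 with rfl | ht0
    · exact he (by rw [← ht, zero_smul])
    · exact he₂e (Submodule.mem_span_singleton.2 ⟨t⁻¹, by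
        rw [← ht, smul_smul, inv_mul_cancel₀ ht0, one_smul]⟩))
  have hψe₂ : ψ ⬝ᵥ e₂ = 0 := hψ2 _ (Submodule.mem_span_singleton_self _)
  obtain ⟨c₁, hc₁⟩ := part he h0 (φ - (φ ⬝ᵥ e) • ψ) (by
    rw [sub_dotProduct, smul_dotProduct, hψe, smul_eq_mul, mul_one, sub_self])
  obtain ⟨c₂, hc₂⟩ := part he₂0 he₂r ψ hψe₂
  refine ⟨c₁ + (φ ⬝ᵥ e) * c₂, ?_⟩
  rw [add_smul, ← smul_smul, ← hc₁, ← hc₂, ← blkL_apply, ← blkL_apply, ← blkL_apply, map_sub, map_smul,
    sub_add_cancel]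

/-- **One vanishing block forces a Kronecker product.** -/
theorem mem_kron_of_zero_block {y : GL (α × β) F} (hy : y ∈ M) {φ' e : β → F} (hφ' : φ' ≠ 0)
    (he : e ≠ 0) (h0 : blk (y : Matrix (α × β) (α × β) F) φ' e = 0) :
    y ∈ Cfsg.Geo.kroneckerSubgroup n₁ n₂ F := by
  classical
  obtain ⟨R, R', hRR, -, hcol⟩ := row_lemma hM hn₂ hn₁ hy hφ' he h0
  have : Nonempty α := ⟨⟨0, hn₁⟩⟩
  have hR'0 : R' ≠ 0 := fun e0 => (one_ne_zero : (1 : Matrix α α F) ≠ 0) (by rw [← hRR, e0, Matrix.zero_mul])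
  have hc : 3 ≤ Fintype.card β := by simpa using hn₂
  set Y := (y : Matrix (α × β) (α × β) F)
  set Y' := ((y⁻¹ : GL (α × β) F) : Matrix (α × β) (α × β) F) with hY'
  -- each row of the inverse is a multiple of one matrix
  have hrows : ∀ φ : β → F, φ ≠ 0 → ∃ K : Matrix α α F, ∀ f, ∃ c : F, blk Y' φ f = c • K := by
    intro φ hφ
    obtain ⟨b₁, hb₁, hb₁0⟩ := exists_orth_not_mem φ' (0 : β → F) hc
    obtain ⟨b₂, hb₂, hb₂b⟩ := exists_orth_not_mem φ' b₁ hc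
    obtain ⟨c₁, hc₁⟩ := hcol φ b₁ hb₁
    obtain ⟨c₂, hc₂⟩ := hcol φ b₂ hb₂
    have hb₁' : b₁ ≠ 0 := fun e0 => hb₁0 (by rw [e0]; exact Submodule.zero_mem _)
    obtain ⟨e', he'0, he'⟩ : ∃ e' : β → F, e' ≠ 0 ∧ blk Y' φ e' = 0 := by
      rcases eq_or_ne c₁ 0 with rfl | h1
      · exact ⟨b₁, hb₁', by rw [hc₁, zero_smul]⟩
      refine ⟨b₂ - (c₂ / c₁) • b₁, fun e0 => hb₂b (Submodule.mem_span_singleton.2
        ⟨c₂ / c₁, (sub_eq_zero.1 e0).symm⟩), ?_⟩
      rw [← blkR_apply, map_sub, map_smul, blkR_apply, blkR_apply, hY', hc₁, hc₂, smul_smul,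
        div_mul_cancel₀ _ h1, sub_self]
    obtain ⟨K, -, -, hK, -⟩ := row_lemma hM hn₂ hn₁ (M.inv_mem hy) hφ he'0 he'
    exact ⟨K, hK⟩
  -- the rows meeting `R'`
  let Good : (β → F) → Prop := fun φ => ∀ f, ∃ c : F, blk Y' φ f = c • R'
  have good : ∀ (φ : β → F) (e' : β → F) (c : F), φ' ⬝ᵥ e' = 0 → blk Y' φ e' = c • R' → c ≠ 0 →
      Good φ := by
    intro φ e' c _ hce hc0 f
    have hφ : φ ≠ 0 := fun e0 => by
      rw [← blkL_apply, e0, map_zero, eq_comm, smul_eq_zero] at hce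
      exact hce.elim hc0 hR'0
    obtain ⟨K, hK⟩ := hrows φ hφ
    obtain ⟨d, hd⟩ := hK e'
    obtain ⟨d', hd'⟩ := hK f
    rw [hce] at hd
    have hd0 : d ≠ 0 := fun e0 => by
      rw [e0, zero_smul, smul_eq_zero] at hd
      exact hd.elim hc0 hR'0
    refine ⟨d' * (c / d), ?_⟩
    rw [hd', ← smul_smul, div_eq_inv_mul, ← smul_smul, hd, smul_smul d⁻¹, inv_mul_cancel₀ hd0, one_smul]
  have goodsub : ∀ φ ψ, Good φ → Good ψ → Good (φ - ψ) := by
    intro φ ψ h1 h2 f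
    obtain ⟨a, ha⟩ := h1 f
    obtain ⟨b, hb⟩ := h2 f
    exact ⟨a - b, by rw [← blkL_apply, map_sub, blkL_apply, blkL_apply, ha, hb, sub_smul]⟩
  obtain ⟨b₁, hb₁, hb₁0⟩ := exists_orth_not_mem φ' (0 : β → F) hc
  have hb₁' : b₁ ≠ 0 := fun e0 => hb₁0 (by rw [e0]; exact Submodule.zero_mem _)
  obtain ⟨φb, cb, hφb, hcb⟩ : ∃ (φb : β → F) (cb : F), blk Y' φb b₁ = cb • R' ∧ cb ≠ 0 := by
    by_contra! hcon
    have h1 : Y' * embC n₁ b₁ = 0 := eq_zero_of_projL _ fun φ => by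
      obtain ⟨c, hc'⟩ := hcol φ b₁ hb₁
      rw [← Matrix.mul_assoc, ← blk, hY', hc', hcon φ c hc', zero_smul]
    have h2 := congrArg (fun X => Y * X) h1
    simp only [← Matrix.mul_assoc, Y, Y', Units.mul_inv, Matrix.one_mul, Matrix.mul_zero] at h2
    obtain ⟨ψ, hψ⟩ := exists_sep_one hb₁'
    have h3 := congrArg (fun X => projL n₁ ψ * X) h2
    simp only [projL_embC, hψ, one_smul, Matrix.mul_zero] at h3
    exact one_ne_zero h3
  have hall : ∀ φ, Good φ := by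
    intro φ
    obtain ⟨c, hc'⟩ := hcol φ b₁ hb₁
    by_cases hc0 : c = 0
    · have hgb := good φb b₁ cb hb₁ hφb hcb
      have := goodsub _ _ (good (φ + φb) b₁ cb hb₁ (by
        rw [← blkL_apply, map_add, blkL_apply, blkL_apply, hY', hc', hc0, zero_smul, zero_add]
        exact hφb) hcb) hgb
      rwa [add_sub_cancel_right] at this
    · exact good φ b₁ c hb₁ hc' hc0
  choose c hc' using fun k l : β => hall (Pi.single k 1) (Pi.single l 1)
  let b : Matrix β β F := Matrix.of c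
  have heq : Y' = R' ⊗ₖ b := by
    ext ⟨i, k⟩ ⟨j, l⟩
    rw [← blk_single Y' k l i j, hc' k l]
    simp [b, mul_comm]
  have hdet : Y'.det ≠ 0 := by
    rw [hY', ← Matrix.GeneralLinearGroup.val_det_apply]; exact Units.ne_zero _
  rw [heq, det_kronecker] at hdet
  simp only [Fintype.card_fin] at hdet
  have ha : R'.det ≠ 0 := fun e0 => hdet (by rw [e0, zero_pow (by omega), zero_mul])
  have hb : b.det ≠ 0 := fun e0 => hdet (by rw [e0, zero_pow (by omega), mul_zero])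
  rw [← inv_mem_iff]
  exact ⟨Matrix.GeneralLinearGroup.mkOfDetNeZero R' ha, Matrix.GeneralLinearGroup.mkOfDetNeZero b hb, heq⟩

/-- Intertwining two singular block-diagonal matrices forces a Kronecker product. -/
theorem mem_kron_of_intertwine {y : GL (α × β) F} (hy : y ∈ M) {N N' : Matrix β β F} {u : β → F}
    (hu : u ≠ 0) (hNu : N *ᵥ u = 0) (hN' : N' ≠ 0)
    (h : (y : Matrix (α × β) (α × β) F) * ((1 : Matrix α α F) ⊗ₖ N) =
      ((1 : Matrix α α F) ⊗ₖ N') * (y : Matrix (α × β) (α × β) F)) :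
    y ∈ Cfsg.Geo.kroneckerSubgroup n₁ n₂ F := by
  classical
  obtain ⟨k, hk⟩ : ∃ k : β, (Pi.single k (1 : F)) ᵥ* N' ≠ 0 := by
    by_contra! hcon
    refine hN' ?_
    ext k l
    simpa [single_one_vecMul] using congrFun (hcon k) l
  refine mem_kron_of_zero_block hM hn₂ hn₁ hy hk hu ?_
  have h1 : projL n₁ (Pi.single k (1 : F) ᵥ* N') =
      projL n₁ (Pi.single k (1 : F)) * ((1 : Matrix α α F) ⊗ₖ N') := by
    rw [projL_kron, Matrix.one_mul]
  rw [blk, h1, Matrix.mul_assoc (projL n₁ _), ← h, Matrix.mul_assoc, Matrix.mul_assoc,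
    kron_embC, hNu]
  have : embC n₁ (0 : β → F) = 0 := by
    rw [show (0 : β → F) = (0 : F) • 0 by simp, embC_smul, zero_smul]
  simp [this]

end Cfsg.Lib.Classical.TensorSL
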