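import Mathlib
import Cfsg.Agent.Lib.Classical.TensorBlockZero

/-!
Overgroups of the stabiliser of a tensor decomposition: with scalar block root elements every element
is a Kronecker product.
-/

set_option autoImplicit false

namespace Cfsg.Lib.Classical.TensorSL

open Matrix Module Cfsg.Lib.Classical
open scoped MatrixGroups Kronecker

variable {n₁ n₂ : ℕ} {F : Type*} [Field F]

local notation "α" => Fin n₁
local notation "β" => Fin n₂

lemma rank_vv (e₁ φ₁ e₂ φ₂ : β → F) :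
    ((1 : Matrix α α F) ⊗ₖ (vecMulVec e₁ φ₁ + vecMulVec e₂ φ₂)).rank ≤ n₁ + n₁ := by
  rw [kronecker_add, ← embC_projL, ← embC_projL]
  refine (rank_add_le' _ _).trans (Nat.add_le_add ?_ ?_) <;>
    exact (rank_mul_le_left _ _).trans ((rank_le_card_width _).trans (by simp))

lemma one_kron_sub (b : Matrix β β F) :
    (1 : Matrix α α F) ⊗ₖ b - 1 = (1 : Matrix α α F) ⊗ₖ (b - 1) := by
  rw [sub_eq_iff_eq_add]
  conv_rhs => rw [← one_kronecker_one]
  rw [← kronecker_add, sub_add_cancel]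

lemma kron_one_eq {a : Matrix α α F} {b : Matrix β β F} (k : β)
    (h : a ⊗ₖ b = (1 : Matrix (α × β) (α × β) F)) (hn₁ : 1 ≤ n₁) :
    ∃ μ : F, μ ≠ 0 ∧ a = μ • 1 ∧ b = μ⁻¹ • 1 := by
  have h1 : ∀ i j l m, a i j * b l m = (1 : Matrix (α × β) (α × β) F) (i, l) (j, m) := fun i j l m => by
    rw [← h]; rfl
  let i₀ : α := ⟨0, hn₁⟩
  have hb : b k k ≠ 0 := fun e => by have := h1 i₀ i₀ k k; simp [e] at this
  have ha : a = (b k k)⁻¹ • 1 := by
    ext i j
    have h2 := h1 i j k k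
    rw [Matrix.smul_apply, smul_eq_mul]
    rcases eq_or_ne i j with rfl | hij
    · rw [Matrix.one_apply_eq] at h2 ⊢
      rw [mul_one]; exact eq_inv_of_mul_eq_one_left h2
    · rw [Matrix.one_apply_ne (fun e => hij (congrArg Prod.fst e))] at h2
      rw [Matrix.one_apply_ne hij, mul_zero]
      exact (mul_eq_zero.1 h2).resolve_right hb
  refine ⟨_, inv_ne_zero hb, ha, ?_⟩
  ext l m
  have h2 := h1 i₀ i₀ l m
  rw [ha] at h2
  rw [inv_inv, Matrix.smul_apply, smul_eq_mul]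
  rcases eq_or_ne l m with rfl | hlm
  · simp [hb] at h2 ⊢
    field_simp at h2
    exact h2
  · rw [Matrix.one_apply_ne hlm, mul_zero]
    simp [hlm, hb] at h2
    exact h2

lemma kron_left_inj {a : Matrix α α F} (ha : a ≠ 0) {X Y : Matrix β β F}
    (h : a ⊗ₖ X = a ⊗ₖ Y) : X = Y := by
  obtain ⟨i, j, hij⟩ : ∃ i j, a i j ≠ 0 := by
    by_contra! hc
    exact ha (Matrix.ext hc)
  ext k l
  have := congrFun (congrFun h (i, k)) (j, l)
  simpa [hij] using this

lemma card_le_rank_kron {a : Matrix α α F} {b : Matrix β β F}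
    (hb : b.det ≠ 0) {v : α → F} (hv : a *ᵥ v ∉ Submodule.span F {v}) :
    n₂ ≤ (a ⊗ₖ b - 1).rank := by
  classical
  have hv0 : v ≠ 0 := fun e => hv (by rw [e, mulVec_zero]; exact Submodule.zero_mem _)
  obtain ⟨η, hη, hηv⟩ := exists_dot_sep _ hv
  let L : (β → F) →ₗ[F] (α × β → F) :=
    { toFun := fun y => (a ⊗ₖ b - 1) *ᵥ (embC n₁ y *ᵥ v)
      map_add' := fun x y => by rw [embC_add, add_mulVec, mulVec_add]
      map_smul' := fun c x => by rw [embC_smul, smul_mulVec, mulVec_smul]; rfl }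
  have hker : LinearMap.ker L = ⊥ := by
    rw [LinearMap.ker_eq_bot']
    intro y hy
    have hy' : (a ⊗ₖ b - 1) *ᵥ (embC n₁ y *ᵥ v) = 0 := hy
    rw [sub_mulVec, one_mulVec, mulVec_mulVec, kron_embC, ← mulVec_mulVec, sub_eq_zero] at hy'
    have e : ∀ (f : β → F) (w : α → F) (i : α) (k : β), (embC n₁ f *ᵥ w) (i, k) = w i * f k := by
      intro f w i k
      simp [embC, mulVec, dotProduct, mul_comm]
    have h3 : ∀ k, (η ⬝ᵥ (a *ᵥ v)) * (b *ᵥ y) k = (η ⬝ᵥ v) * y k := by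
      intro k
      simp only [dotProduct, Finset.sum_mul]
      refine Finset.sum_congr rfl fun i _ => ?_
      have := congrFun hy' (i, k)
      rw [e, e] at this
      linear_combination η i * this
    have h4 : b *ᵥ y = 0 := funext fun k => by
      have := h3 k
      rw [hηv, hη _ (Submodule.mem_span_singleton_self v), one_mul, zero_mul] at this
      exact this
    exact mulVec_injective_of_isUnit ((Matrix.isUnit_iff_isUnit_det b).2 hb.isUnit)
      (by simpa using h4)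
  have h1 := LinearMap.finrank_range_of_inj (LinearMap.ker_eq_bot.1 hker)
  rw [Module.finrank_fintype_fun_eq_card, Fintype.card_fin] at h1
  have h2 : LinearMap.range L ≤ LinearMap.range (a ⊗ₖ b - 1).mulVecLin := by
    rintro _ ⟨y, rfl⟩; exact ⟨_, rfl⟩
  have h5 := Submodule.finrank_mono h2
  rw [h1] at h5
  exact h5

lemma half_le_rank_kron {a : Matrix α α F} {b : Matrix β β F} {ν : F} (hν : ¬ IsSquare ν)
    (haa : a * a = ν • 1) : n₁ * n₂ ≤ 2 * (a ⊗ₖ b - 1).rank := by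
  classical
  have heig : ∀ (v : α → F) (μ : F), a *ᵥ v = μ • v → v = 0 := by
    intro v μ hv
    by_contra hv0
    refine hν ⟨μ, smul_left_injective F hv0 ?_⟩
    have h1 := congrArg (fun X => X *ᵥ v) haa
    simp only [← mulVec_mulVec, smul_mulVec, one_mulVec, hv, mulVec_smul, smul_smul] at h1
    exact h1.symm
  let am : (α → F) →ₗ[F] (α → F) := a.mulVecLin
  have haa' : ∀ v, am (am v) = ν • v := fun v => by
    simp [am, mulVec_mulVec, haa, smul_mulVec, one_mulVec]
  have grow : ∀ A : Submodule F (α → F), A ⊓ A.map am = ⊥ →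
      A ⊔ A.map am = ⊤ ∨ ∃ A', A < A' ∧ A' ⊓ A'.map am = ⊥ := by
    intro A hA
    refine or_iff_not_imp_left.2 fun hne => ?_
    obtain ⟨x, -, hx⟩ := SetLike.exists_of_lt (lt_top_iff_ne_top.2 hne)
    refine ⟨A ⊔ Submodule.span F {x}, lt_of_le_of_ne le_sup_left fun e => hx
      (Submodule.mem_sup_left (e ▸ Submodule.mem_sup_right (Submodule.mem_span_singleton_self x))), ?_⟩
    rw [Submodule.eq_bot_iff]
    rintro z ⟨hz1, hz2⟩
    obtain ⟨w, hw, rfl⟩ := Submodule.mem_map.1 hz2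
    obtain ⟨u', hu', p, hp, rfl⟩ := Submodule.mem_sup.1 hw
    obtain ⟨d, rfl⟩ := Submodule.mem_span_singleton.1 hp
    obtain ⟨u, hu, q, hq, he⟩ := Submodule.mem_sup.1 hz1
    obtain ⟨c, rfl⟩ := Submodule.mem_span_singleton.1 hq
    rw [map_add, map_smul] at he
    have h0 : ∀ c d : F, c • x - d • am x ∈ A ⊔ A.map am → c = 0 ∧ d = 0 := by
      intro c d hy
      have hS : ∀ y ∈ A ⊔ A.map am, am y ∈ A ⊔ A.map am := by
        intro y hy
        obtain ⟨s, hs, t, ht, rfl⟩ := Submodule.mem_sup.1 hy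
        obtain ⟨t', ht', rfl⟩ := Submodule.mem_map.1 ht
        rw [map_add, haa']
        exact Submodule.add_mem _ (Submodule.mem_sup_right ⟨s, hs, rfl⟩)
          (Submodule.mem_sup_left (A.smul_mem _ ht'))
      have h1 := hS _ hy
      rw [map_sub, map_smul, map_smul, haa'] at h1
      have h2 : (c * c - ν * (d * d)) • x ∈ A ⊔ A.map am := by
        have h3 := Submodule.add_mem _ (Submodule.smul_mem _ c hy) (Submodule.smul_mem _ d h1)
        convert h3 using 1
        module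
      have h4 : c * c - ν * (d * d) = 0 := by
        by_contra h5
        exact hx ((Submodule.smul_mem_iff _ h5).1 h2)
      by_cases hd : d = 0
      · subst hd
        exact ⟨mul_self_eq_zero.1 (by linear_combination h4), rfl⟩
      · exact absurd ⟨c / d, by field_simp; linear_combination -h4⟩ hν
    have hy : c • x - d • am x = am u' - u := by linear_combination (norm := module) he
    obtain ⟨rfl, rfl⟩ := h0 c d (by
      rw [hy]
      exact Submodule.sub_mem _ (Submodule.mem_sup_right ⟨u', hu', rfl⟩) (Submodule.mem_sup_left hu))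
    rw [zero_smul, add_zero, zero_smul, add_zero] at he
    rw [zero_smul, add_zero]
    have h7 : am u' ∈ A ⊓ A.map am := ⟨he ▸ hu, ⟨u', hu', rfl⟩⟩
    rwa [hA, Submodule.mem_bot] at h7
  have hmax : ∀ (m : ℕ) (A : Submodule F (α → F)), A ⊓ A.map am = ⊥ → n₁ - finrank F A ≤ m →
      ∃ A' : Submodule F (α → F), A' ⊓ A'.map am = ⊥ ∧ n₁ ≤ 2 * finrank F A' := by
    intro m
    induction m with
    | zero =>
      intro A hA hm
      exact ⟨A, hA, by omega⟩
    | succ m ih =>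
      intro A hA hm
      rcases grow A hA with htop | ⟨A', hlt, hA'⟩
      · refine ⟨A, hA, ?_⟩
        have h1 := Submodule.finrank_sup_add_finrank_inf_eq A (A.map am)
        rw [htop, finrank_top, Module.finrank_fintype_fun_eq_card, Fintype.card_fin, hA, finrank_bot,
          add_zero] at h1
        have := Submodule.finrank_map_le am A
        omega
      · exact ih A' hA' (by have := Submodule.finrank_lt_finrank_of_lt hlt; omega)
  obtain ⟨A, hA, hdim⟩ := hmax n₁ ⊥ (by simp) (by omega)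
  -- `A ⊗ F^β` meets the fixed space trivially
  let emb : (β → A) →ₗ[F] (α × β → F) :=
    { toFun := fun u x => (u x.2 : α → F) x.1
      map_add' := fun u v => rfl
      map_smul' := fun c u => rfl }
  let L := (a ⊗ₖ b - 1).mulVecLin.comp emb
  have hker : LinearMap.ker L = ⊥ := by
    rw [LinearMap.ker_eq_bot']
    intro u hu
    funext k
    apply Subtype.ext
    have h1 : am (∑ l, b k l • (u l : α → F)) = (u k : α → F) := by
      funext i
      have h2 := congrFun hu (i, k)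
      simp only [L, LinearMap.comp_apply, mulVecLin_apply, sub_mulVec, one_mulVec, Pi.sub_apply,
        Pi.zero_apply, sub_eq_zero] at h2
      change _ = emb u (i, k)
      rw [← h2]
      simp only [am, mulVecLin_apply, mulVec, dotProduct, Finset.sum_apply, Pi.smul_apply, smul_eq_mul,
        Fintype.sum_prod_type, Finset.mul_sum, kroneckerMap_apply, emb, LinearMap.coe_mk, AddHom.coe_mk]
      exact Finset.sum_congr rfl fun j _ => Finset.sum_congr rfl fun l _ => by ring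
    have h3 : (u k : α → F) ∈ A ⊓ A.map am :=
      ⟨(u k).2, _, A.sum_mem fun l _ => A.smul_mem _ (u l).2, h1⟩
    rw [hA, Submodule.mem_bot] at h3
    rw [h3]; rfl
  have h1 := LinearMap.finrank_range_of_inj (LinearMap.ker_eq_bot.1 hker)
  rw [Module.finrank_pi_fintype, Finset.sum_const, Finset.card_univ, Fintype.card_fin, smul_eq_mul] at h1
  have h2 : LinearMap.range L ≤ LinearMap.range (a ⊗ₖ b - 1).mulVecLin := by
    rintro _ ⟨y, rfl⟩; exact ⟨_, rfl⟩
  have h5 := Submodule.finrank_mono h2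
  rw [h1] at h5
  calc n₁ * n₂ ≤ 2 * finrank F A * n₂ := Nat.mul_le_mul_right _ hdim
    _ = 2 * (n₂ * finrank F A) := by ring
    _ ≤ 2 * (a ⊗ₖ b - 1).rank := Nat.mul_le_mul_left _ h5

lemma exists_sub_ann {κ : Type} [Fintype κ] {W : Submodule F (κ → F)}
    (h : 2 ≤ finrank F W) (e : κ → F) : ∃ φ ∈ W, φ ≠ 0 ∧ φ ⬝ᵥ e = 0 := by
  let L : W →ₗ[F] F :=
    { toFun := fun w => (w : κ → F) ⬝ᵥ e
      map_add' := fun x y => add_dotProduct _ _ _
      map_smul' := fun c x => smul_dotProduct _ _ _ }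
  obtain ⟨⟨φ, hφW⟩, hφ, hφ0⟩ := Submodule.exists_mem_ne_zero_of_ne_bot
    (LinearMap.ker_ne_bot_of_finrank_lt (f := L) (by rw [Module.finrank_self]; omega))
  exact ⟨φ, hφW, fun h0 => hφ0 (Subtype.ext h0), hφ⟩

/-- A transvection commuting with an involution. -/
lemma exists_comm_tv {c : Matrix β β F} (hc : c * c = 1) (hn₂ : 3 ≤ n₂) :
    ∃ (ε : F) (e φ : β → F), e ≠ 0 ∧ φ ≠ 0 ∧ φ ⬝ᵥ e = 0 ∧ c *ᵥ e = ε • e ∧ φ ᵥ* c = ε • φ := by
  classical
  set N := c - 1
  have hNt : Nᵀ.rank = N.rank := rank_transpose N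
  have hNN : c * N = -N := by rw [mul_sub, hc, mul_one, neg_sub]
  have hNN' : N * c = -N := by rw [sub_mul, hc, one_mul, neg_sub]
  by_cases hr : 2 ≤ N.rank
  · obtain ⟨e, ⟨p, rfl⟩, he0⟩ := Submodule.exists_mem_ne_zero_of_ne_bot
      (p := LinearMap.range N.mulVecLin) (fun h0 => by rw [Matrix.rank, h0, finrank_bot] at hr; omega)
    obtain ⟨φ, ⟨q, rfl⟩, hφ0, hφe⟩ := exists_sub_ann (W := LinearMap.range Nᵀ.mulVecLin)
      (by rw [← Matrix.rank, hNt]; exact hr) (N.mulVecLin p)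
    refine ⟨-1, _, _, he0, hφ0, hφe, ?_, ?_⟩
    · rw [mulVecLin_apply, mulVec_mulVec, hNN, neg_mulVec, neg_one_smul]
    · rw [mulVecLin_apply, mulVec_transpose, vecMul_vecMul, hNN', vecMul_neg, neg_one_smul]
  · have hk : ∀ X : Matrix β β F, X.rank ≤ 1 → 2 ≤ finrank F (LinearMap.ker X.mulVecLin) := by
      intro X hX
      have h1 := LinearMap.finrank_range_add_finrank_ker X.mulVecLin
      rw [Module.finrank_fintype_fun_eq_card, Fintype.card_fin] at h1
      rw [Matrix.rank] at hX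
      omega
    have h1 := hk N (by omega)
    obtain ⟨e, he, he0⟩ := Submodule.exists_mem_ne_zero_of_ne_bot
      (p := LinearMap.ker N.mulVecLin) (fun h0 => by rw [h0, finrank_bot] at h1; omega)
    obtain ⟨φ, hφ, hφ0, hφe⟩ := exists_sub_ann (hk Nᵀ (by omega)) e
    rw [LinearMap.mem_ker, mulVecLin_apply, sub_mulVec, one_mulVec, sub_eq_zero] at he
    rw [LinearMap.mem_ker, mulVecLin_apply, mulVec_transpose, vecMul_sub, vecMul_one, sub_eq_zero] at hφ
    exact ⟨1, e, φ, he0, hφ0, hφe, by rw [one_smul, he], by rw [one_smul, hφ]⟩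

/-- Blockwise right involution. -/
def pureInv (n₁ : ℕ) {n₂ : ℕ} (b : Matrix (Fin n₂) (Fin n₂) F) (h : b * b = 1) :
    GL (Fin n₁ × Fin n₂) F :=
  ⟨(1 : Matrix (Fin n₁) (Fin n₁) F) ⊗ₖ b, (1 : Matrix (Fin n₁) (Fin n₁) F) ⊗ₖ b,
    by rw [← mul_kronecker_mul, one_mul, h, one_kronecker_one],
    by rw [← mul_kronecker_mul, one_mul, h, one_kronecker_one]⟩

@[simp] lemma coe_pureInv (b : Matrix β β F) (h : b * b = 1) :
    (pureInv n₁ b h : Matrix (α × β) (α × β) F) = (1 : Matrix α α F) ⊗ₖ b := rfl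

variable {M : Subgroup (GL (Fin n₁ × Fin n₂) F)}
  (hM : TensorHyp M) (hn₁ : 2 ≤ n₁) (h12 : n₁ < n₂) (hn₂ : 5 ≤ n₂)

include hM hn₁ h12 hn₂

lemma mem_kron_of_comm {y : GL (α × β) F} (hy : y ∈ M) {c c' : Matrix β β F} (hcc : c * c = 1)
    (h1 : c ≠ 1) (h1' : c' ≠ -1)
    (h : (y : Matrix (α × β) (α × β) F) * ((1 : Matrix α α F) ⊗ₖ c) =
      ((1 : Matrix α α F) ⊗ₖ c') * (y : Matrix (α × β) (α × β) F)) :
    y ∈ Cfsg.Geo.kroneckerSubgroup n₁ n₂ F := by
  obtain ⟨v, hv⟩ : ∃ v, (c - 1) *ᵥ v ≠ 0 := by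
    by_contra! hcon
    exact h1 (sub_eq_zero.1 (ext_mulVec fun x => by rw [hcon x, zero_mulVec]))
  refine mem_kron_of_intertwine hM (by omega) (by omega) hy (N := c + 1) (N' := c' + 1) hv ?_
    (fun e => h1' (eq_neg_of_add_eq_zero_left e)) ?_
  · rw [mulVec_mulVec, add_mul, mul_sub, hcc, mul_one, one_mul]
    rw [show 1 - c + (c - 1) = (0 : Matrix β β F) by abel, zero_mulVec]
  · rw [kronecker_add, kronecker_add, one_kronecker_one, Matrix.mul_add, Matrix.add_mul, h,
      Matrix.mul_one, Matrix.one_mul]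

/-- If a conjugate of a small pure involution is a Kronecker product, so is the conjugator. -/
lemma mem_kron_of_conj {y : GL (α × β) F} (hy : y ∈ M) {b : Matrix β β F} (hbb : b * b = 1)
    (hb1 : b ≠ 1) (hb1' : b ≠ -1) {e₁ φ₁ e₂ φ₂ : β → F}
    (hbd : b - 1 = vecMulVec e₁ φ₁ + vecMulVec e₂ φ₂)
    (hw : y * pureInv n₁ b hbb * y⁻¹ ∈ Cfsg.Geo.kroneckerSubgroup n₁ n₂ F) :
    y ∈ Cfsg.Geo.kroneckerSubgroup n₁ n₂ F := by
  classical
  obtain ⟨a, c, hac⟩ := hw
  set A := (a : Matrix α α F)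
  set C := (c : Matrix β β F)
  set Y := (y : Matrix (α × β) (α × β) F)
  set Yi := ((y⁻¹ : GL (α × β) F) : Matrix (α × β) (α × β) F)
  rw [Units.val_mul, Units.val_mul, coe_pureInv] at hac
  let k : β := ⟨0, by omega⟩
  have hsq : (A * A) ⊗ₖ (C * C) = (1 : Matrix (α × β) (α × β) F) := by
    have h0 : (pureInv n₁ b hbb * pureInv n₁ b hbb : GL (α × β) F) = 1 := by
      ext1
      simp [← mul_kronecker_mul, hbb]
    have h1 : ((y * pureInv n₁ b hbb * y⁻¹) * (y * pureInv n₁ b hbb * y⁻¹) : GL (α × β) F) = 1 := by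
      rw [show y * pureInv n₁ b hbb * y⁻¹ * (y * pureInv n₁ b hbb * y⁻¹) =
        y * (pureInv n₁ b hbb * pureInv n₁ b hbb) * y⁻¹ by group, h0]
      group
    have h2 := congrArg (fun u : GL (α × β) F => (u : Matrix (α × β) (α × β) F)) h1
    simp only [Units.val_mul, coe_pureInv, Units.val_one] at h2
    rw [mul_kronecker_mul, ← hac]
    exact h2
  obtain ⟨ν, hν0, hA2, hC2⟩ := kron_one_eq k hsq (by omega)
  have hrk : (A ⊗ₖ C - 1).rank ≤ n₁ + n₁ := by
    rw [← hac, conj_sub_one, rank_conj]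
    rw [one_kron_sub, hbd]
    exact rank_vv e₁ φ₁ e₂ φ₂
  have hsqν : IsSquare ν := by
    by_contra hns
    have h1 := half_le_rank_kron (b := C) hns hA2
    have h2 : n₁ * 5 ≤ n₁ * n₂ := Nat.mul_le_mul_left _ hn₂
    omega
  obtain ⟨ρ, hρ⟩ := hsqν
  have hρ0 : ρ ≠ 0 := fun e => hν0 (by rw [hρ, e, zero_mul])
  have hC' : ρ • C * (ρ • C) = 1 := by
    rw [Matrix.smul_mul, Matrix.mul_smul, hC2, smul_smul, smul_smul, ← hρ, mul_inv_cancel₀ hν0, one_smul]
  obtain ⟨ε, e, φ, he, hφ, hφe, hce, hφc⟩ := exists_comm_tv hC' (by omega)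
  rw [smul_mulVec] at hce
  rw [vecMul_smul] at hφc
  set T' := el (1 : Matrix α α F) e φ hφe
  have hT'M : T' ∈ M := by simpa using el_one_mem hM.kron 1 e φ hφe
  have hcomm : embC n₁ e * projL n₁ φ * (A ⊗ₖ C) = (A ⊗ₖ C) * (embC n₁ e * projL n₁ φ) := by
    have h1 : C *ᵥ e = (ε / ρ) • e := by
      rw [div_eq_inv_mul, ← smul_smul, ← hce, smul_smul, inv_mul_cancel₀ hρ0, one_smul]
    have h2 : φ ᵥ* C = (ε / ρ) • φ := by
      rw [div_eq_inv_mul, ← smul_smul, ← hφc, smul_smul, inv_mul_cancel₀ hρ0, one_smul]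
    rw [Matrix.mul_assoc, projL_kron, ← Matrix.mul_assoc (A ⊗ₖ C), kron_embC, h1, h2, embC_smul,
      projL_smul]
    simp [Matrix.mul_assoc]
  set T := y⁻¹ * T' * y with hT
  have hTM : T ∈ M := M.mul_mem (M.mul_mem (M.inv_mem hy) hT'M) hy
  have hTT : (T : Matrix (α × β) (α × β) F) = 1 + Yi * (embC n₁ e * projL n₁ φ) * Y := by
    simp only [hT, T', Units.val_mul, coe_el, Matrix.mul_one, Matrix.mul_add, Matrix.add_mul, Y, Yi,
      Units.inv_mul]
  have hS : (1 : Matrix α α F) ⊗ₖ b = Yi * (A ⊗ₖ C) * Y := by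
    rw [← hac]
    simp [Y, Yi, ← Matrix.mul_assoc]
  have hYY : Y * Yi = 1 := Units.mul_inv y
  have hTS : (T : Matrix (α × β) (α × β) F) * ((1 : Matrix α α F) ⊗ₖ b) =
      ((1 : Matrix α α F) ⊗ₖ b) * (T : Matrix (α × β) (α × β) F) := by
    rw [hTT, hS, Matrix.add_mul, Matrix.mul_add, Matrix.one_mul, Matrix.mul_one]
    congr 1
    simp only [Matrix.mul_assoc]
    rw [← Matrix.mul_assoc Y Yi, hYY, Matrix.one_mul, ← Matrix.mul_assoc Y Yi, hYY, Matrix.one_mul]
    congr 1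
    simp only [← Matrix.mul_assoc]
    rw [hcomm]
    simp only [Matrix.mul_assoc]
  obtain ⟨a', c', hT'⟩ := mem_kron_of_comm hM hn₁ h12 hn₂ hTM hbb hb1 hb1' hTS
  have hrT : ((a' : Matrix α α F) ⊗ₖ (c' : Matrix β β F) - 1).rank ≤ n₁ := by
    rw [← hT', hTT, add_sub_cancel_left]
    refine (rank_mul_le_left _ _).trans ((rank_mul_le_right _ _).trans ?_)
    exact (rank_mul_le_left _ _).trans ((rank_le_card_width _).trans (by simp))
  have hc'det : (c' : Matrix β β F).det ≠ 0 := by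
    rw [← Matrix.GeneralLinearGroup.val_det_apply]; exact Units.ne_zero _
  have : Nonempty α := ⟨⟨0, by omega⟩⟩
  obtain ⟨μ, hμ⟩ : ∃ μ : F, (a' : Matrix α α F) = μ • 1 := by
    refine scalar_of_eigen _ fun v => ?_
    by_contra hv
    have := card_le_rank_kron hc'det hv
    omega
  set N := μ • (c' : Matrix β β F) - 1 with hN
  have hN1 : Yi * (embC n₁ e * projL n₁ φ) * Y = (1 : Matrix α α F) ⊗ₖ N := by
    have h3 : (T : Matrix (α × β) (α × β) F) = (1 : Matrix α α F) ⊗ₖ (μ • (c' : Matrix β β F)) := by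
      rw [hT', hμ, smul_kronecker, kronecker_smul]
    rw [hTT] at h3
    rw [← add_sub_cancel_left (1 : Matrix (α × β) (α × β) F) (Yi * (embC n₁ e * projL n₁ φ) * Y), h3]
    rw [hN, one_kron_sub]
  have hNN : N * N = 0 := by
    have h0 : embC n₁ e * projL n₁ φ * (embC n₁ e * projL n₁ φ) = (0 : Matrix (α × β) (α × β) F) := by
      simpa using el_sq (1 : Matrix α α F) e φ hφe
    have h3 : ((1 : Matrix α α F) ⊗ₖ N) * ((1 : Matrix α α F) ⊗ₖ N) = 0 := by
      rw [← hN1]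
      simp only [Matrix.mul_assoc] at h0 ⊢
      rw [← Matrix.mul_assoc Y Yi, hYY, Matrix.one_mul, ← Matrix.mul_assoc (projL n₁ φ) (embC n₁ e),
        projL_embC, hφe, zero_smul, Matrix.zero_mul, Matrix.mul_zero, Matrix.mul_zero]
    rw [← mul_kronecker_mul, Matrix.one_mul] at h3
    ext k l
    have := congrFun (congrFun h3 (⟨0, by omega⟩, k)) (⟨0, by omega⟩, l)
    simpa using this
  have hYN : Y * ((1 : Matrix α α F) ⊗ₖ N) = ((1 : Matrix α α F) ⊗ₖ vecMulVec e φ) * Y := by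
    rw [← hN1, ← embC_projL]
    simp only [Matrix.mul_assoc]
    rw [← Matrix.mul_assoc Y Yi, hYY, Matrix.one_mul]
  have hE0 : vecMulVec e φ ≠ 0 := by
    intro e0
    obtain ⟨i, hi⟩ := Function.ne_iff.1 he
    obtain ⟨j, hj⟩ := Function.ne_iff.1 hφ
    have := congrFun (congrFun e0 i) j
    simp [vecMulVec_apply] at this
    exact this.elim hi hj
  obtain ⟨x, hx⟩ : ∃ x, N *ᵥ x ≠ 0 := by
    by_contra! hcon
    have hN0 : N = 0 := ext_mulVec fun x => by rw [hcon x, zero_mulVec]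
    rw [hN0] at hYN
    have h5 := congrArg (fun X => X * Yi) hYN
    simp [Matrix.mul_assoc, hYY] at h5
    refine hE0 (Matrix.ext fun k l => ?_)
    have := congrFun (congrFun h5.symm (⟨0, by omega⟩, k)) (⟨0, by omega⟩, l)
    simpa using this
  exact mem_kron_of_intertwine hM (by omega) (by omega) hy hx
    (by rw [mulVec_mulVec, hNN, zero_mulVec]) hE0 hYN

/-- The dihedral argument with two prepared involutions. -/
lemma mem_kron_aux [Finite F] (hneg : (-1 : GL (α × β) F) ∈ M) {ε : F} (hε : ε = 1 ∨ ε = -1)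
    {b₁ b₂ : Matrix β β F} (h11 : b₁ * b₁ = 1) (h22 : b₂ * b₂ = 1)
    (hd1 : b₁.det = 1) (hd2 : b₂.det = 1)
    (hb1 : b₁ ≠ 1) (hb1' : b₁ ≠ -1) (hb2 : b₂ ≠ 1) (hb2' : b₂ ≠ -1)
    {e₁ φ₁ e₂ φ₂ : β → F} (hb1d : b₁ - 1 = vecMulVec e₁ φ₁ + vecMulVec e₂ φ₂)
    {e₃ φ₃ e₄ φ₄ : β → F} (hb2d : b₂ - 1 = vecMulVec e₃ φ₃ + vecMulVec e₄ φ₄)
    (hncl : ∀ d : GL β F, (d : Matrix β β F) * b₁ ≠ (ε • b₂) * (d : Matrix β β F))
    {g : GL (α × β) F} (hg : g ∈ M)
    (hvec : (2 : F) = 0 ∨ ∃ v : α × β → F, v ≠ 0 ∧ ((1 : Matrix α α F) ⊗ₖ b₁) *ᵥ v = -v ∧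
      (ε • ((g : Matrix (α × β) (α × β) F) * ((1 : Matrix α α F) ⊗ₖ b₂) *
        ((g⁻¹ : GL (α × β) F) : Matrix (α × β) (α × β) F))) *ᵥ v = -v) :
    g ∈ Cfsg.Geo.kroneckerSubgroup n₁ n₂ F := by
  classical
  set K := Cfsg.Geo.kroneckerSubgroup n₁ n₂ F
  have pmem : ∀ (b : Matrix β β F) (h : b * b = 1), b.det = 1 → pureInv n₁ b h ∈ M := by
    intro b h hd
    refine hM.kron _ ⟨1, ⟨b, b, h, h⟩, by simp⟩ (Units.ext ?_)
    rw [Matrix.GeneralLinearGroup.val_det_apply, coe_pureInv, det_kronecker, det_one, hd]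
    simp
  have hεs : ∀ u ∈ M, ∃ u' ∈ M, (u' : Matrix (α × β) (α × β) F) = ε • (u : Matrix (α × β) (α × β) F) := by
    intro u hu
    rcases hε with rfl | rfl
    · exact ⟨u, hu, (one_smul _ _).symm⟩
    · exact ⟨-1 * u, M.mul_mem hneg hu, by simp⟩
  have hεε : ε * ε = 1 := by rcases hε with rfl | rfl <;> simp
  set s := pureInv n₁ b₁ h11
  have hsM : s ∈ M := pmem b₁ h11 hd1
  obtain ⟨s', hs'M, hs'⟩ := hεs _ (pmem b₂ h22 hd2)
  rw [coe_pureInv] at hs'
  set t := g * s' * g⁻¹ with ht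
  have htM : t ∈ M := M.mul_mem (M.mul_mem hg hs'M) (M.inv_mem hg)
  have hss : (⟨s, hsM⟩ : M) * ⟨s, hsM⟩ = 1 := Subtype.ext (Units.ext (by
    simp [s, ← mul_kronecker_mul, h11]))
  have hs's' : s' * s' = 1 := Units.ext (by
    rw [Units.val_mul, hs', Matrix.smul_mul, Matrix.mul_smul, smul_smul, hεε, one_smul,
      ← mul_kronecker_mul, h22, one_mul, one_kronecker_one, Units.val_one])
  have htt : (⟨t, htM⟩ : M) * ⟨t, htM⟩ = 1 := Subtype.ext (by
    change t * t = 1
    rw [ht, show g * s' * g⁻¹ * (g * s' * g⁻¹) = g * (s' * s') * g⁻¹ by group, hs's']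
    group)
  have hεb : (ε • b₂) * (ε • b₂) = 1 := by
    rw [Matrix.smul_mul, Matrix.mul_smul, smul_smul, hεε, one_smul, h22]
  have ps : (s' : Matrix (α × β) (α × β) F) = (1 : Matrix α α F) ⊗ₖ (ε • b₂) := by
    rw [hs', kronecker_smul]
  have hne : ∀ y : M, y * ⟨s, hsM⟩ * y⁻¹ ≠ ⟨t, htM⟩ := by
    rintro ⟨y, hyM⟩ heq
    have h1 : y * s * y⁻¹ = t := congrArg Subtype.val heq
    have h2 : (g⁻¹ * y) * s * (g⁻¹ * y)⁻¹ = s' := by
      rw [show (g⁻¹ * y) * s * (g⁻¹ * y)⁻¹ = g⁻¹ * (y * s * y⁻¹) * g by group, h1, ht]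
      group
    have hyg : g⁻¹ * y ∈ M := M.mul_mem (M.inv_mem hg) hyM
    obtain ⟨a, d, had⟩ := mem_kron_of_conj hM hn₁ h12 hn₂ hyg h11 hb1 hb1' hb1d
      ⟨1, ⟨ε • b₂, ε • b₂, hεb, hεb⟩, by rw [h2, ps, Units.val_one]⟩
    have h3 : (g⁻¹ * y) * s = s' * (g⁻¹ * y) := by rw [← h2]; group
    have h4 := congrArg (fun u : GL (α × β) F => (u : Matrix (α × β) (α × β) F)) h3
    simp only [Units.val_mul] at h4 had
    rw [ps, had, coe_pureInv, ← mul_kronecker_mul, ← mul_kronecker_mul, mul_one, one_mul] at h4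
    refine hncl d (kron_left_inj ?_ h4)
    intro ha0
    have : Nonempty α := ⟨⟨0, by omega⟩⟩
    have := Matrix.GeneralLinearGroup.det a
    exact Units.ne_zero a ha0
  obtain ⟨m, ⟨z, hzM⟩, hz, hz1, hzz, hzs, hzt, ⟨y, hyM⟩, -, hy⟩ := exists_dihedral_pow hss htt hne
  have hzv : z = (s * t) ^ m := congrArg Subtype.val hz
  have hz1' : z ≠ 1 := fun e => hz1 (Subtype.ext e)
  have hzz' : z * z = 1 := congrArg Subtype.val hzz
  have hzs' : z * s = s * z := congrArg Subtype.val hzs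
  have hzt' : z * t = t * z := congrArg Subtype.val hzt
  have hwM : z * s ∈ M := M.mul_mem hzM hsM
  have hwK : z * s ∈ K := by
    refine mem_kron_of_comm hM hn₁ h12 hn₂ hwM h11 hb1 hb1' ?_
    rw [← coe_pureInv b₁ h11, ← Units.val_mul, ← Units.val_mul]
    congr 1
    change z * s * s = s * (z * s)
    rw [← mul_assoc s, ← hzs']
  obtain ⟨c₀, hc₀⟩ : ∃ c₀ : Matrix β β F,
      ((z * s : GL (α × β) F) : Matrix (α × β) (α × β) F) = (1 : Matrix α α F) ⊗ₖ c₀ := by
    rcases hy with hy | hy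
    · have hy' : y * s * y⁻¹ = z * s := congrArg Subtype.val hy
      obtain ⟨a, d, had⟩ := mem_kron_of_conj hM hn₁ h12 hn₂ hyM h11 hb1 hb1' hb1d (hy' ▸ hwK)
      refine ⟨(d : Matrix β β F) * b₁ * ((d⁻¹ : GL β F) : Matrix β β F), ?_⟩
      have hinv : ((y⁻¹ : GL (α × β) F) : Matrix (α × β) (α × β) F) =
          ((a⁻¹ : GL α F) : Matrix α α F) ⊗ₖ ((d⁻¹ : GL β F) : Matrix β β F) :=
        Units.inv_eq_of_mul_eq_one_right (by
          rw [had, ← mul_kronecker_mul, Units.mul_inv, Units.mul_inv, one_kronecker_one])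
      rw [← hy', Units.val_mul, Units.val_mul, had, hinv, coe_pureInv, ← mul_kronecker_mul,
        ← mul_kronecker_mul, mul_one, Units.mul_inv]
    · have hy' : y * t * y⁻¹ = z * s := congrArg Subtype.val hy
      have hyg : y * g ∈ M := M.mul_mem hyM hg
      have e1 : (y * g) * s' * (y * g)⁻¹ = z * s := by rw [← hy', ht]; group
      have hεK : (y * g) * pureInv n₁ b₂ h22 * (y * g)⁻¹ ∈ K := by
        obtain ⟨a, c, hac⟩ := hwK
        let a' : GL α F := ⟨ε • (a : Matrix α α F), ε • ((a⁻¹ : GL α F) : Matrix α α F),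
          by rw [Matrix.smul_mul, Matrix.mul_smul, smul_smul, hεε, one_smul, Units.mul_inv],
          by rw [Matrix.smul_mul, Matrix.mul_smul, smul_smul, hεε, one_smul, Units.inv_mul]⟩
        refine ⟨a', c, ?_⟩
        change _ = (ε • (a : Matrix α α F)) ⊗ₖ (c : Matrix β β F)
        rw [smul_kronecker, ← hac, ← e1]
        simp only [Units.val_mul, hs', coe_pureInv, Matrix.smul_mul, Matrix.mul_smul, smul_smul, hεε,
          one_smul]
      obtain ⟨a, d, had⟩ := mem_kron_of_conj hM hn₁ h12 hn₂ hyg h22 hb2 hb2' hb2d hεK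
      refine ⟨(d : Matrix β β F) * (ε • b₂) * ((d⁻¹ : GL β F) : Matrix β β F), ?_⟩
      have hinv : (((y * g)⁻¹ : GL (α × β) F) : Matrix (α × β) (α × β) F) =
          ((a⁻¹ : GL α F) : Matrix α α F) ⊗ₖ ((d⁻¹ : GL β F) : Matrix β β F) :=
        Units.inv_eq_of_mul_eq_one_right (by
          rw [had, ← mul_kronecker_mul, Units.mul_inv, Units.mul_inv, one_kronecker_one])
      rw [← e1, Units.val_mul, Units.val_mul, hinv, ps, had, ← mul_kronecker_mul,
        ← mul_kronecker_mul, mul_one, Units.mul_inv]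
  set c := c₀ * b₁ with hc
  have hzc : (z : Matrix (α × β) (α × β) F) = (1 : Matrix α α F) ⊗ₖ c := by
    have h1 : z = z * s * s := by
      rw [mul_assoc, show s * s = 1 from congrArg Subtype.val hss, mul_one]
    rw [h1, Units.val_mul, hc₀, coe_pureInv, ← mul_kronecker_mul, one_mul]
  have hcc : c * c = 1 := by
    have h1 := congrArg (fun u : GL (α × β) F => (u : Matrix (α × β) (α × β) F)) hzz'
    simp only [Units.val_mul, hzc, Units.val_one] at h1
    rw [← mul_kronecker_mul, one_mul] at h1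
    refine kron_left_inj (a := (1 : Matrix α α F)) ?_ (h1.trans one_kronecker_one.symm)
    intro e
    have := congrFun (congrFun e ⟨0, by omega⟩) ⟨0, by omega⟩
    simp at this
  have hc1 : c ≠ 1 := fun e => hz1' (Units.ext (by rw [hzc, e, one_kronecker_one, Units.val_one]))
  have hc1' : c ≠ -1 := by
    intro e
    rcases hvec with h2 | ⟨v, hv0, hsv, htv⟩
    · refine hc1 ?_
      rw [e]
      ext k l
      rw [Matrix.neg_apply]
      rcases eq_or_ne k l with rfl | hkl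
      · rw [Matrix.one_apply_eq]; linear_combination -h2
      · rw [Matrix.one_apply_ne hkl, neg_zero]
    · have htv' : (t : Matrix (α × β) (α × β) F) *ᵥ v = -v := by
        rw [← htv, ht]
        simp only [Units.val_mul, hs', Matrix.smul_mul, Matrix.mul_smul]
      have hx : ∀ j : ℕ, (((s * t) ^ j : GL (α × β) F) : Matrix (α × β) (α × β) F) *ᵥ v = v := by
        intro j
        induction j with
        | zero => simp
        | succ j ih =>
          rw [pow_succ, Units.val_mul, ← mulVec_mulVec, Units.val_mul, ← mulVec_mulVec, htv',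
            mulVec_neg, coe_pureInv, hsv, neg_neg, ih]
      have h3 := hx m
      rw [← hzv, hzc, e] at h3
      have h4 : (1 : Matrix α α F) ⊗ₖ (-1 : Matrix β β F) = -1 := by
        rw [show (-1 : Matrix β β F) = (-1 : F) • 1 by simp, kronecker_smul, one_kronecker_one,
          neg_one_smul]
      rw [h4, neg_mulVec, one_mulVec] at h3
      have h2 : (2 : F) ≠ 0 := by
        intro h2
        refine hc1 ?_
        rw [e]
        ext k l
        rw [Matrix.neg_apply]
        rcases eq_or_ne k l with rfl | hkl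
        · rw [Matrix.one_apply_eq]; linear_combination -h2
        · rw [Matrix.one_apply_ne hkl, neg_zero]
      obtain ⟨x, hxv⟩ := Function.ne_iff.1 hv0
      have := congrFun h3 x
      simp at this
      exact hxv (mul_left_cancel₀ h2 (by rw [Pi.zero_apply, mul_zero]; linear_combination -this))
  have htK : t ∈ K := by
    refine mem_kron_of_comm hM hn₁ h12 hn₂ htM hcc hc1 hc1' ?_
    rw [← hzc, ← Units.val_mul, ← Units.val_mul, hzt']
  refine mem_kron_of_conj hM hn₁ h12 hn₂ hg h22 hb2 hb2' hb2d ?_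
  obtain ⟨a, c', hac⟩ := htK
  let a' : GL α F := ⟨ε • (a : Matrix α α F), ε • ((a⁻¹ : GL α F) : Matrix α α F),
    by rw [Matrix.smul_mul, Matrix.mul_smul, smul_smul, hεε, one_smul, Units.mul_inv],
    by rw [Matrix.smul_mul, Matrix.mul_smul, smul_smul, hεε, one_smul, Units.inv_mul]⟩
  refine ⟨a', c', ?_⟩
  change _ = (ε • (a : Matrix α α F)) ⊗ₖ (c' : Matrix β β F)
  rw [smul_kronecker, ← hac, ht]
  simp only [Units.val_mul, hs', coe_pureInv, Matrix.smul_mul, Matrix.mul_smul, smul_smul, hεε, one_smul]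

omit hM hn₁ h12 in
/-- A reflection pair with a prescribed negated subspace. -/
lemma exists_neg_plane (h2 : (2 : F) ≠ 0) (u₁ u₂ : β → F) :
    ∃ (b : Matrix β β F) (e₁ φ₁ e₂ φ₂ : β → F), b * b = 1 ∧ b.det = 1 ∧ b ≠ 1 ∧ b ≠ -1 ∧
      b - 1 = vecMulVec e₁ φ₁ + vecMulVec e₂ φ₂ ∧ b *ᵥ u₁ = -u₁ ∧ b *ᵥ u₂ = -u₂ ∧
      (b - 1).rank ≤ 2 := by
  classical
  have ext2 : ∀ (j : ℕ) (W : Submodule F (β → F)), finrank F W + j ≤ n₂ →
      ∃ P, W ≤ P ∧ finrank F P = finrank F W + j := by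
    intro j
    induction j with
    | zero => exact fun W _ => ⟨W, le_rfl, rfl⟩
    | succ j ih =>
      intro W hW
      obtain ⟨P, hP, hPd⟩ := ih W (by omega)
      obtain ⟨x, -, hx⟩ := SetLike.not_le_iff_exists.1 (show ¬ (⊤ : Submodule F (β → F)) ≤ P from
        fun hle => by
          have := Submodule.finrank_mono hle
          rw [finrank_top, Module.finrank_fintype_fun_eq_card, Fintype.card_fin] at this
          omega)
      refine ⟨P ⊔ Submodule.span F {x}, hP.trans le_sup_left, ?_⟩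
      have h1 : finrank F P < finrank F ↥(P ⊔ Submodule.span F {x}) :=
        Submodule.finrank_lt_finrank_of_lt (lt_of_le_of_ne le_sup_left fun e =>
          hx (e ▸ Submodule.mem_sup_right (Submodule.mem_span_singleton_self x)))
      have h3 := Submodule.finrank_add_le_finrank_add_finrank P (Submodule.span F {x})
      have h4 := finrank_span_le_card ({x} : Set (β → F)) (R := F)
      simp at h4
      omega
  have hsp := finrank_range_le_card ![u₁, u₂] (R := F)
  rw [Set.finrank, Fintype.card_fin] at hsp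
  obtain ⟨P, hP, hPd⟩ := ext2 (2 - finrank F (Submodule.span F (Set.range ![u₁, u₂])))
    (Submodule.span F (Set.range ![u₁, u₂])) (by omega)
  have hP2 : finrank F P = 2 := by omega
  let bP : Basis (Fin 2) F P := (Module.finBasis F P).reindex (finCongr hP2)
  obtain ⟨Q, hQ⟩ := Submodule.exists_isCompl P
  let ψ : Fin 2 → (β → F) →ₗ[F] F := fun i => (bP.coord i).comp (P.projectionOnto Q hQ)
  let φv : Fin 2 → β → F := fun i l => ψ i (Pi.single l 1)
  have hφ : ∀ i x, φv i ⬝ᵥ x = ψ i x := by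
    intro i x
    conv_rhs => rw [pi_eq_sum_univ' x, map_sum]
    simp [φv, dotProduct, mul_comm]
  let p : Fin 2 → β → F := fun i => (bP i : β → F)
  have hψp : ∀ i j, ψ i (p j) = if i = j then 1 else 0 := by
    intro i j
    simp [ψ, p, Finsupp.single_apply, eq_comm]
  have hrep : ∀ x ∈ P, ψ 0 x • p 0 + ψ 1 x • p 1 = x := by
    intro x hx
    have h1 := congrArg (fun y : P => (y : β → F)) (bP.sum_repr ⟨x, hx⟩)
    simp only [Fin.sum_univ_two, Submodule.coe_add, Submodule.coe_smul] at h1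
    have h3 : ∀ i, ψ i x = bP.repr ⟨x, hx⟩ i := fun i => by
      simp [ψ, Submodule.projectionOnto_apply_left hQ ⟨x, hx⟩]
    rw [h3, h3]
    exact h1
  set φ₁ := (-2 : F) • φv 0
  set φ₂ := (-2 : F) • φv 1
  set b : Matrix β β F := tv (p 0) φ₁ * tv (p 1) φ₂ with hb
  have hb' : ∀ x, b *ᵥ x = x + (-2 * ψ 0 x) • p 0 + (-2 * ψ 1 x) • p 1 := by
    intro x
    rw [hb, ← mulVec_mulVec, tv_mulVec, tv_mulVec]
    simp only [φ₁, φ₂, smul_dotProduct, hφ, map_add, map_smul, hψp, smul_eq_mul]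
    simp
    abel
  have hneg : ∀ x ∈ P, b *ᵥ x = -x := by
    intro x hx
    rw [hb']
    linear_combination (norm := module) (-2 : F) • hrep x hx
  have hbd : b - 1 = vecMulVec (p 0) φ₁ + vecMulVec (p 1) φ₂ := by
    refine ext_mulVec fun x => ?_
    rw [sub_mulVec, one_mulVec, hb', add_mulVec, vecMulVec_mulVec, vecMulVec_mulVec, op_smul_eq_smul,
      op_smul_eq_smul]
    simp only [φ₁, φ₂, smul_dotProduct, hφ, smul_eq_mul]
    abel
  have hr : (b - 1).rank ≤ 2 := by
    rw [hbd]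
    exact (rank_add_le' _ _).trans (Nat.add_le_add (rank_vecMulVec_le _ _) (rank_vecMulVec_le _ _))
  refine ⟨b, p 0, φ₁, p 1, φ₂, ?_, ?_, ?_, ?_, hbd, ?_, ?_, hr⟩
  · refine ext_mulVec fun x => ?_
    rw [← mulVec_mulVec, hb' (b *ᵥ x), one_mulVec, hb']
    simp only [map_add, map_smul, hψp, smul_eq_mul]
    simp
    module
  · rw [hb, det_mul, det_tv, det_tv]
    simp only [φ₁, φ₂, smul_dotProduct, hφ, hψp, smul_eq_mul]
    norm_num
  · intro e
    have h1 := hneg (p 0) (bP 0).2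
    rw [e, one_mulVec] at h1
    have h3 := congrArg (ψ 0) h1
    rw [map_neg, hψp, if_pos rfl] at h3
    exact h2 (by linear_combination h3)
  · intro e
    have h1 := le_rank_neg_sub_one h2 (1 : Matrix β β F)
    rw [sub_self, rank_zero, ← e, Fintype.card_fin] at h1
    omega
  · exact hneg _ (hP (Submodule.subset_span (Set.mem_range_self (f := ![u₁, u₂]) 0)))
  · exact hneg _ (hP (Submodule.subset_span (Set.mem_range_self (f := ![u₁, u₂]) 1)))

/-- **With scalar block root elements, every element is a Kronecker product.** -/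
theorem forall_mem_kron [Finite F] (hneg : (-1 : GL (α × β) F) ∈ M) :
    ∀ g ∈ M, g ∈ Cfsg.Geo.kroneckerSubgroup n₁ n₂ F := by
  classical
  intro g hg
  by_cases h2 : (2 : F) = 0
  · let i₀ : β := ⟨0, by omega⟩
    let i₁ : β := ⟨1, by omega⟩
    let i₂ : β := ⟨2, by omega⟩
    let i₃ : β := ⟨3, by omega⟩
    let d : Fin n₂ → β → F := fun i => Pi.single i 1
    have dd : ∀ i j : β, i ≠ j → d i ⬝ᵥ d j = 0 := fun i j h => by simp [d, h.symm]
    set b₁ := tv (d i₀) (d i₁)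
    set b₂ := tv (d i₀) (d i₂) * tv (d i₁) (d i₃)
    have n01 : i₁ ≠ i₀ := by simp [i₁, i₀, Fin.ext_iff]
    have n20 : i₂ ≠ i₀ := by simp [i₂, i₀, Fin.ext_iff]
    have n31 : i₃ ≠ i₁ := by simp [i₃, i₁, Fin.ext_iff]
    have n21 : i₂ ≠ i₁ := by simp [i₂, i₁, Fin.ext_iff]
    have n30 : i₃ ≠ i₀ := by simp [i₃, i₀, Fin.ext_iff]
    have n32 : i₃ ≠ i₂ := by simp [i₃, i₂, Fin.ext_iff]
    have hneg1 : ∀ X : Matrix β β F, X ≠ 1 → X ≠ -1 := fun X hX e => hX (by
      rw [e]
      ext k l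
      rw [Matrix.neg_apply]
      rcases eq_or_ne k l with rfl | hkl
      · rw [Matrix.one_apply_eq]; linear_combination -h2
      · rw [Matrix.one_apply_ne hkl, neg_zero])
    have b1m : ∀ x, b₁ *ᵥ x = x + (d i₁ ⬝ᵥ x) • d i₀ := fun x => tv_mulVec _ _ _
    have b2m : ∀ x, b₂ *ᵥ x = x + (d i₃ ⬝ᵥ x) • d i₁ + (d i₂ ⬝ᵥ x) • d i₀ := fun x => by
      rw [← mulVec_mulVec, tv_mulVec, tv_mulVec, dotProduct_add, dotProduct_smul, dd _ _ n21,
        smul_zero, add_zero]
    have hb1 : b₁ ≠ 1 := fun e => by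
      have h := congrFun (b1m (d i₁)) i₀
      rw [e, one_mulVec] at h
      simp [d, n01, n01.symm] at h
    have hb2 : b₂ ≠ 1 := fun e => by
      have h := congrFun (b2m (d i₂)) i₀
      rw [e, one_mulVec] at h
      simp [d, n20, n20.symm, n21, n21.symm, n32, n32.symm] at h
    refine mem_kron_aux hM hn₁ h12 hn₂ hneg (ε := 1) (Or.inl rfl) (b₁ := b₁) (b₂ := b₂) ?_ ?_ ?_ ?_
      hb1 (hneg1 _ hb1) hb2 (hneg1 _ hb2)
      (e₁ := d i₀) (φ₁ := d i₁) (e₂ := 0) (φ₂ := 0) ?_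
      (e₃ := d i₀) (φ₃ := d i₂) (e₄ := d i₁) (φ₄ := d i₃) ?_ ?_ hg (Or.inl h2)
    · refine ext_mulVec fun x => ?_
      rw [← mulVec_mulVec, b1m, b1m, one_mulVec, dotProduct_add, dotProduct_smul, dd _ _ n01,
        smul_zero, add_zero, add_assoc, ← add_smul, ← two_mul, h2, zero_mul, zero_smul, add_zero]
    · refine ext_mulVec fun x => ?_
      rw [← mulVec_mulVec, b2m, b2m, one_mulVec]
      simp only [dotProduct_add, dotProduct_smul, dd _ _ n20, dd _ _ n21, dd _ _ n30, dd _ _ n31,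
        smul_zero, add_zero]
      rw [show ∀ p q : β → F, x + p + q + p + q = x + ((2 : F) • p + (2 : F) • q) from
        fun p q => by module, h2, zero_smul, zero_smul, add_zero, add_zero]
    · rw [det_tv, dd _ _ n01, add_zero]
    · rw [det_mul, det_tv, det_tv, dd _ _ n20, dd _ _ n31, add_zero, one_mul]
    · simp [b₁, tv, vecMulVec_zero]
    · refine ext_mulVec fun x => ?_
      rw [sub_mulVec, one_mulVec, b2m, add_mulVec, vecMulVec_mulVec, vecMulVec_mulVec, op_smul_eq_smul,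
        op_smul_eq_smul]
      abel
    · intro D hD
      rw [one_smul] at hD
      obtain ⟨Di, hDi⟩ : ∃ Di : Matrix β β F, Di * (D : Matrix β β F) = 1 := ⟨_, Units.inv_mul D⟩
      have h3 : ∀ x, (d i₁ ⬝ᵥ x) • ((D : Matrix β β F) *ᵥ d i₀) =
          (d i₃ ⬝ᵥ ((D : Matrix β β F) *ᵥ x)) • d i₁ + (d i₂ ⬝ᵥ ((D : Matrix β β F) *ᵥ x)) • d i₀ := by
        intro x
        have h4 := congrArg (fun X => X *ᵥ x) hD
        simp only [← mulVec_mulVec, b1m, b2m, mulVec_add, mulVec_smul] at h4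
        rw [add_assoc] at h4
        exact add_left_cancel h4
      obtain ⟨x₂, hx₂⟩ : ∃ x, (D : Matrix β β F) *ᵥ x = d i₂ := ⟨_, mulVec_inv_mulVec D _⟩
      obtain ⟨x₃, hx₃⟩ : ∃ x, (D : Matrix β β F) *ᵥ x = d i₃ := ⟨_, mulVec_inv_mulVec D _⟩
      have e2 := h3 x₂
      have e3 := h3 x₃
      rw [hx₂, dd _ _ n32, zero_smul, zero_add, show d i₂ ⬝ᵥ d i₂ = 1 by simp [d], one_smul] at e2
      rw [hx₃, dd _ _ n32.symm, zero_smul, add_zero, show d i₃ ⬝ᵥ d i₃ = 1 by simp [d], one_smul] at e3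
      have h0 := congrFun e2 i₀
      have h0' := congrFun e2 i₁
      have h1' := congrFun e3 i₁
      simp [d, n01, n01.symm] at h0 h0' h1'
      rcases mul_eq_zero.1 (show (d i₁ ⬝ᵥ x₂) * ((D : Matrix β β F) *ᵥ d i₀) i₁ = 0 by
        simpa [d] using h0') with h | h
      · simp [d] at h
        rw [h, zero_mul] at h0
        exact zero_ne_one h0
      · simp [d] at h
        rw [h, mul_zero] at h1'
        exact zero_ne_one h1'
  · obtain ⟨b₂, e₃, φ₃, e₄, φ₄, h22, hd2, hb2, hb2', hb2d, -, -, hr2⟩ := exists_neg_plane hn₂ h2 0 0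
    set S : Matrix (α × β) (α × β) F := (1 : Matrix α α F) ⊗ₖ b₂ with hSdef
    let i₀ : α := ⟨0, by omega⟩
    let i₁ : α := ⟨1, by omega⟩
    let T := {i : α // i ≠ i₀ ∧ i ≠ i₁}
    have hT : Fintype.card T + 2 = n₁ := by
      have h1 : Fintype.card T = (Finset.univ.filter fun i : α => i ≠ i₀ ∧ i ≠ i₁).card :=
        Fintype.card_subtype _
      have h3 : (Finset.univ.filter fun i : α => i ≠ i₀ ∧ i ≠ i₁) = ({i₀, i₁} : Finset α)ᶜ := by
        ext i; simp
      rw [h1, h3, Finset.card_compl, Fintype.card_fin, Finset.card_pair (by simp [i₀, i₁, Fin.ext_iff])]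
      omega
    let W := LinearMap.ker (S - 1).mulVecLin
    have hW : n₁ * n₂ ≤ finrank F W + (n₁ + n₁) := by
      have h1 := LinearMap.finrank_range_add_finrank_ker (S - 1).mulVecLin
      rw [Module.finrank_fintype_fun_eq_card, Fintype.card_prod, Fintype.card_fin, Fintype.card_fin] at h1
      have h3 : (S - 1).rank ≤ n₁ + n₁ := by
        rw [hSdef, one_kron_sub, hb2d]
        exact rank_vv e₃ φ₃ e₄ φ₄
      rw [Matrix.rank] at h3
      change _ ≤ finrank F ↥(LinearMap.ker (S - 1).mulVecLin) + _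
      omega
    let L : W →ₗ[F] (T × β → F) :=
      { toFun := fun p x => ((g : Matrix (α × β) (α × β) F) *ᵥ (p : α × β → F)) (x.1.1, x.2)
        map_add' := fun p q => by funext x; simp [mulVec_add]
        map_smul' := fun c p => by funext x; simp [mulVec_smul] }
    obtain ⟨⟨p, hpW⟩, hp, hp0⟩ := Submodule.exists_mem_ne_zero_of_ne_bot
      (LinearMap.ker_ne_bot_of_finrank_lt (f := L) (by
        rw [Module.finrank_fintype_fun_eq_card, Fintype.card_prod, Fintype.card_fin]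
        have h1 : Fintype.card T * n₂ + 2 * n₂ = n₁ * n₂ := by rw [← add_mul, hT]
        omega))
    set v := (g : Matrix (α × β) (α × β) F) *ᵥ p with hv
    have hv0 : v ≠ 0 := mulVec_ne_zero g fun e => hp0 (Subtype.ext e)
    obtain ⟨b₁, e₁, φ₁, e₂, φ₂, h11, hd1, hb1, hb1', hb1d, hu1, hu2, hr1⟩ :=
      exists_neg_plane hn₂ h2 (fun k => v (i₀, k)) (fun k => v (i₁, k))
    refine mem_kron_aux hM hn₁ h12 hn₂ hneg (ε := -1) (Or.inr rfl) h11 h22 hd1 hd2 hb1 hb1' hb2 hb2'
      hb1d hb2d (fun D hD => ?_) hg (Or.inr ⟨v, hv0, ?_, ?_⟩)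
    · have h3 : (D : Matrix β β F) * b₁ * ((D⁻¹ : GL β F) : Matrix β β F) = (-1 : F) • b₂ := by
        rw [hD, mul_assoc, Units.mul_inv, mul_one]
      have h4 := conj_sub_one D b₁
      rw [h3] at h4
      have h5 := congrArg Matrix.rank h4
      rw [rank_conj, neg_one_smul] at h5
      have h6 := le_rank_neg_sub_one h2 b₂
      rw [Fintype.card_fin] at h6
      omega
    · funext x
      obtain ⟨i, k⟩ := x
      have e : (((1 : Matrix α α F) ⊗ₖ b₁) *ᵥ v) (i, k) = (b₁ *ᵥ fun l => v (i, l)) k := by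
        simp [mulVec, dotProduct, Fintype.sum_prod_type, Matrix.one_apply]
      rw [e]
      rcases eq_or_ne i i₀ with rfl | hi0
      · exact congrFun hu1 k
      rcases eq_or_ne i i₁ with rfl | hi1
      · exact congrFun hu2 k
      have hz : ∀ l, v (i, l) = 0 := fun l => congrFun hp (⟨i, hi0, hi1⟩, l)
      have : (fun l => v (i, l)) = 0 := funext hz
      rw [this, mulVec_zero, Pi.neg_apply, hz k, neg_zero, Pi.zero_apply]
    · have hSp : S *ᵥ p = p := by
        rw [LinearMap.mem_ker, mulVecLin_apply, sub_mulVec, one_mulVec, sub_eq_zero] at hpW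
        exact hpW
      rw [← hSdef, smul_mulVec, ← mulVec_mulVec, ← mulVec_mulVec, hv, inv_mulVec_mulVec, hSp,
        neg_one_smul]

end Cfsg.Lib.Classical.TensorSL
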