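import Cfsg.Agent.Lib.Classical.TwoDimDiscrete
import Cfsg.Agent.Lib.Classical.TwoDimHalves

/-! Completeness of the discrete series of `SL₂`. -/

set_option autoImplicit false
set_option linter.unusedSectionVars false

namespace Cfsg.Lib.Classical.TwoDim

open Matrix
open scoped ComplexConjugate
open Cfsg Cfsg.Lib.Characters Cfsg.Lib.Classical Cfsg.Lib.Classical.ProjLine

/-- A central element acts by a scalar. -/
theorem central_mul {G : Type*} [Group G] [Finite G] {χ : G → ℂ} (hχ : IsIrrCharacter G χ) {z : G}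
    (hz : ∀ x, z * x = x * z) (g : G) : χ (z * g) * χ 1 = χ z * χ g := by
  classical
  have := Fintype.ofFinite G
  obtain ⟨n, ρ, hρi, rfl⟩ := hχ
  have := hρi
  obtain ⟨w, hw⟩ := schur_scalar ρ (ρ z) fun x => by rw [← map_mul, ← map_mul, hz]
  have key : ∀ x, ρ.character (z * x) = w * ρ.character x := fun x => by
    show LinearMap.trace ℂ _ (ρ (z * x)) = w * LinearMap.trace ℂ _ (ρ x)
    rw [map_mul, hw, smul_mul_assoc, show (LinearMap.id : (Fin n → ℂ) →ₗ[ℂ] _) * ρ x = ρ x from LinearMap.id_comp _,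
      map_smul, smul_eq_mul]
  have h1 := key 1
  rw [mul_one] at h1
  rw [key, h1]; ring

variable {F : Type*} [Field F] [Fintype F] [DecidableEq F]

/-- Restrictions of cuspidal characters are cuspidal-like. -/
theorem cusp_of_gl (h2 : (2 : F) ≠ 0) {π : GL (Fin 2) F → ℂ} (hπ : IsIrrCharacter _ π)
    (hd : π 1 = (Fintype.card F : ℂ) - 1) (h1 : π 1 ≠ 1) :
    CuspLike (fun A : SpecialLinearGroup (Fin 2) F => π (SpecialLinearGroup.toGL A)) := by
  classical
  have hu : π (GL2.u 1) = -1 := by linear_combination hd - sub_u_eq hπ h1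
  have hcls : IsClassFunction (SpecialLinearGroup (Fin 2) F) (fun A => π (SpecialLinearGroup.toGL A)) := fun a b => by
    simp only [map_mul, map_inv]; exact hπ.isClassFunction _ _
  refine ⟨hcls, fun g hg h4 => ?_, fun z hz g hgz htr => ?_⟩
  · obtain ⟨x, hx⟩ := exists_upper hg
    refine (hcls g x).symm.trans ?_
    set g' := x * g * x⁻¹
    have h4' : tr g' ^ 2 ≠ 4 := by simpa [g', tr_conj] using h4
    have hdet := g'.2
    rw [det_fin_two, hx, mul_zero, sub_zero] at hdet
    set a := Units.mk0 _ (left_ne_zero_of_mul_eq_one hdet)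
    set d := Units.mk0 _ (right_ne_zero_of_mul_eq_one hdet)
    have hne : (a : F) ≠ (d : F) := fun e => h4' (by
      simp only [a, d, Units.val_mk0] at e
      rw [← e] at hdet
      simp only [tr, ← e]; linear_combination 4 * hdet)
    obtain ⟨y, hy⟩ := isConj_iff.1 (isConj_of_tr_det (A := SpecialLinearGroup.toGL g') (B := dg a d)
      (fun c h => hne (by
        have h0 := congrFun (congrFun h 0) 0
        have h1 := congrFun (congrFun h 1) 1
        simp at h0 h1
        simp only [a, d, Units.val_mk0, h0, h1]))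
      (fun c h => hne (by
        have h0 := congrFun (congrFun h 0) 0
        have h1 := congrFun (congrFun h 1) 1
        simp at h0 h1
        simp only [h0, h1]))
      (by simp [trace_fin_two, a, d]) (by simp [det_fin_two, a, d, hdet]))
    show π (SpecialLinearGroup.toGL g') = 0
    rw [← hπ.isClassFunction _ y, hy]
    refine eq_zero_diag hπ.isCharacter ?_ (by simp) (by simp) (by simpa using hne)
    rw [sum_u hπ.isClassFunction, hd, hu]; ring
  · obtain ⟨e, he, hzm⟩ : ∃ e : F, e * e = 1 ∧ (z : Matrix (Fin 2) (Fin 2) F) = !![e, 0; 0, e] := by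
      rcases hz with rfl | rfl
      · exact ⟨1, one_mul 1, by ext i j; fin_cases i <;> fin_cases j <;> simp⟩
      · exact ⟨-1, by simp, by ext i j; fin_cases i <;> fin_cases j <;> simp⟩
    have hzc : ∀ x : GL (Fin 2) F, SpecialLinearGroup.toGL z * x = x * SpecialLinearGroup.toGL z := fun x => by
      refine Units.ext ?_
      show (z : Matrix (Fin 2) (Fin 2) F) * (x : Matrix (Fin 2) (Fin 2) F) = (x : Matrix (Fin 2) (Fin 2) F) * (z : Matrix (Fin 2) (Fin 2) F)
      rw [hzm]
      ext i j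
      fin_cases i <;> fin_cases j <;> simp [Matrix.mul_apply, Fin.sum_univ_two, mul_comm]
    obtain ⟨y, hy⟩ := isConj_iff.1 (isConj_of_tr_det (A := SpecialLinearGroup.toGL g) (B := SpecialLinearGroup.toGL z * GL2.u 1)
      (fun c h => hgz (Subtype.ext (by
        have h' : (g : Matrix (Fin 2) (Fin 2) F) = diagonal fun _ => c := h
        have hdet := g.2
        simp only [tr, h', hzm] at htr
        simp at htr
        rw [hzm, h']
        have hc : c = e := mul_left_cancel₀ h2 (by linear_combination htr)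
        ext i j; fin_cases i <;> fin_cases j <;> simp [hc])))
      (fun c h => by
        have h' : (z : Matrix (Fin 2) (Fin 2) F) * !![1, 1; 0, 1] = diagonal fun _ => c := h
        rw [hzm] at h'
        have := congrFun (congrFun h' 0) 1
        simp [Matrix.mul_apply, Fin.sum_univ_two] at this
        rw [this] at he; simp at he)
      (by
        show (g : Matrix (Fin 2) (Fin 2) F).trace = ((z : Matrix (Fin 2) (Fin 2) F) * !![1, 1; 0, 1]).trace
        simp only [tr, hzm] at htr
        simp [trace_fin_two, hzm, Matrix.mul_apply, Fin.sum_univ_two] at htr ⊢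
        exact htr)
      (by
        show (g : Matrix (Fin 2) (Fin 2) F).det = ((z : Matrix (Fin 2) (Fin 2) F) * !![1, 1; 0, 1]).det
        rw [g.2, det_mul, z.2]; simp [det_fin_two]))
    show π (SpecialLinearGroup.toGL g) = -π (SpecialLinearGroup.toGL z) / ((Fintype.card F : ℂ) - 1)
    rw [← hπ.isClassFunction _ y, hy, eq_div_iff (qsub_ne (F := F)), ← hd, central_mul hπ hzc, hu, mul_neg_one]

variable {ε : F} (h2 : (2 : F) ≠ 0) (hε : ¬ IsSquare ε)

include h2 hε

lemma hat_inv {f : SpecialLinearGroup (Fin 2) F → ℂ} (hf : CuspLike f) (c : nsTorus ε) : hat f c⁻¹ = hat f c := by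
  have hi : f ((c : SpecialLinearGroup (Fin 2) F))⁻¹ = f c := by
    obtain ⟨w, hw⟩ := (ns_data h2 hε).neW
    rw [← (ns_data h2 hε).inv_conj hw c.2, hf.cls]
  have hiff : (((c : SpecialLinearGroup (Fin 2) F))⁻¹ = 1 ∨ ((c : SpecialLinearGroup (Fin 2) F))⁻¹ = -1) ↔
      ((c : SpecialLinearGroup (Fin 2) F) = 1 ∨ (c : SpecialLinearGroup (Fin 2) F) = -1) := by
    rw [inv_eq_one, inv_eq_iff_eq_inv, show (-1 : SpecialLinearGroup (Fin 2) F)⁻¹ = -1 from inv_eq_of_mul_eq_one_left (by simp)]
  unfold hat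
  simp only [Subgroup.coe_inv, hi, hiff]

lemma hat_sum_zero {f : SpecialLinearGroup (Fin 2) F → ℂ} (hf : CuspLike f) (h0 : ∑ g, f g = 0) :
    ∑ c : nsTorus ε, hat f c = 0 := by
  classical
  have h := sum_formula h2 hε hf.cls hf.zero (hf.unip 1 (Or.inl rfl)) (hf.unip (-1) (Or.inr rfl))
  rw [h0] at h
  have hT := sum_split h2 hε (hat (ε := ε) f)
  have hrest : ∀ c : nsTorus ε, (if (c : SpecialLinearGroup (Fin 2) F) = 1 ∨ (c : SpecialLinearGroup (Fin 2) F) = -1 then (0 : ℂ) else hat f c) =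
      if (c : SpecialLinearGroup (Fin 2) F) = 1 ∨ (c : SpecialLinearGroup (Fin 2) F) = -1 then 0 else f c := by
    intro c; unfold hat; split_ifs <;> rfl
  rw [Finset.sum_congr rfl fun c _ => hrest c] at hT
  have hq := qsub_ne (F := F)
  have hq0 : (Fintype.card F : ℂ) ≠ 0 := Nat.cast_ne_zero.2 Fintype.card_ne_zero
  rw [hT]
  unfold hat
  simp only [true_or, or_true, if_true]
  field_simp at h ⊢
  set S := ∑ c : nsTorus ε, (if (c : SpecialLinearGroup (Fin 2) F) = 1 ∨ (c : SpecialLinearGroup (Fin 2) F) = -1 then (0 : ℂ) else f c)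
  refine mul_left_cancel₀ (mul_ne_zero hq0 hq) ?_
  linear_combination -h

/-- The quadratic character of the non-split torus. -/
theorem exists_quadT {r : ℕ} (hr : Fintype.card F = 2 * r + 1) :
    ∃ θ₀ : nsTorus ε →* ℂˣ, (∀ c, (θ₀ c : ℂ) = if c ^ (r + 1) = 1 then 1 else -1) ∧
      ∀ θ : nsTorus ε →* ℂˣ, (∀ c, θ c ^ 2 = 1) → θ = 1 ∨ θ = θ₀ := by
  classical
  have := isCyclic_nsTorus (ε := ε) hε
  obtain ⟨g, hg⟩ := IsCyclic.exists_generator (α := nsTorus ε)
  have ho : orderOf g = 2 * (r + 1) := by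
    rw [orderOf_eq_card_of_forall_mem_zpowers hg, card_nsTorus h2 hε, hr]; ring
  have hg1 : g ^ (r + 1) ≠ 1 := fun h => by
    have := Nat.le_of_dvd (by omega) (orderOf_dvd_of_pow_eq_one h)
    omega
  have hsq : ∀ c : nsTorus ε, c ^ (r + 1) * c ^ (r + 1) = 1 := fun c => by
    rw [← pow_add, ← two_mul, show 2 * (r + 1) = Nat.card (nsTorus ε) by rw [card_nsTorus h2 hε, hr]; ring, pow_card_eq_one']
  have hz : ∀ c : nsTorus ε, c ^ (r + 1) ≠ 1 → (c ^ (r + 1) : nsTorus ε) = ⟨-1, (ns_data h2 hε).neg_mem⟩ := fun c hc => by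
    rcases eq_one_or_neg_one_of_inv_eq h2 (congrArg Subtype.val (hsq c)) with h | h
    · exact absurd (Subtype.ext h) hc
    · exact Subtype.ext h
  let θ₀ : nsTorus ε →* ℂˣ :=
    { toFun := fun c => if c ^ (r + 1) = 1 then 1 else -1
      map_one' := by simp
      map_mul' := fun a b => by
        haveI : IsMulCommutative (nsTorus ε) := inferInstance
        have hab : (a * b) ^ (r + 1) = a ^ (r + 1) * b ^ (r + 1) :=
          (show Commute a b from Subtype.ext ((ns_data h2 hε).comm _ a.2 _ b.2)).mul_pow _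
        by_cases ha : a ^ (r + 1) = 1 <;> by_cases hb : b ^ (r + 1) = 1
        · simp [hab, ha, hb]
        · rw [hab, ha, one_mul]; simp [hb]
        · rw [hab, hb, mul_one]; simp [ha]
        · show (if (a * b) ^ (r + 1) = 1 then (1 : ℂˣ) else -1) = (if a ^ (r + 1) = 1 then (1 : ℂˣ) else -1) * (if b ^ (r + 1) = 1 then (1 : ℂˣ) else -1)
          rw [if_neg ha, if_neg hb, if_pos (by rw [hab, hz a ha, hz b hb]; exact Subtype.ext (by simp))]
          simp }
  refine ⟨θ₀, fun c => ?_, fun θ hθ => ?_⟩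
  · show ((if c ^ (r + 1) = 1 then (1 : ℂˣ) else -1 : ℂˣ) : ℂ) = _
    split <;> simp
  · have h := hθ g
    rw [sq] at h
    have hext : ∀ ψ : nsTorus ε →* ℂˣ, θ g = ψ g → θ = ψ := fun ψ e => MonoidHom.ext fun c => by
      obtain ⟨k, rfl⟩ := hg c
      simp [e]
    have h' : (θ g : ℂ) * θ g = 1 := by rw [← Units.val_mul, h, Units.val_one]
    rcases mul_self_eq_one_iff.1 h' with e | e
    · exact Or.inl (hext 1 (Units.ext (by simpa using e)))
    · refine Or.inr (hext θ₀ (Units.ext ?_))
      rw [e]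
      show (-1 : ℂ) = ((if g ^ (r + 1) = 1 then (1 : ℂˣ) else -1 : ℂˣ) : ℂ)
      rw [if_neg hg1]; simp

/-- A cuspidal-like function orthogonal to the discrete series. -/
theorem hat_eq_quad {r : ℕ} (hr : Fintype.card F = 2 * r + 1) {f : SpecialLinearGroup (Fin 2) F → ℂ} (hf : CuspLike f)
    (h0 : ∑ g, f g = 0)
    (hperp : ∀ (α : MulChar F ℂ) (θ : nsTorus ε →* ℂˣ), α (-1) = (θ ⟨-1, (ns_data h2 hε).neg_mem⟩ : ℂ) → (∃ c, θ c ^ 2 ≠ 1) →
      classInner f (disc α θ) = 0) (c : nsTorus ε) :
    hat f c = (-2 * f 1 / ((Fintype.card F : ℂ) - 1)) * (if c ^ (r + 1) = 1 then 1 else -1) := by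
  classical
  obtain ⟨θ₀, hθ₀, hclass⟩ := exists_quadT h2 hε hr
  have : IsMulCommutative (nsTorus ε) := ⟨⟨fun a b => Subtype.ext ((ns_data h2 hε).comm _ a.2 _ b.2)⟩⟩
  have hcl : ∀ f : nsTorus ε → ℂ, IsClassFunction (nsTorus ε) f := fun f a b => by
    rw [IsMulCommutative.is_comm.comm b a, mul_inv_cancel_right]
  set e₀ : nsTorus ε → ℂ := fun c => (θ₀ c : ℂ)
  have he₀ : IsIrrCharacter (nsTorus ε) e₀ := isIrrCharacter_linear θ₀
  set β := classInner (hat (ε := ε) f) e₀
  have hkey : hat (ε := ε) f = β • e₀ := by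
    refine classFunction_ext (hcl _) (hcl _) fun ψ => ?_
    rw [classInner_smul_left]
    obtain ⟨θ, hθ⟩ := exists_hom_of_degree_one ψ.2.isCharacter (degree_one_of_isMulCommutative ψ.2)
    by_cases hsq : ∀ c, θ c ^ 2 = 1
    · rcases hclass θ hsq with rfl | rfl
      · have hψ : ψ.1 = fun _ => (1 : ℂ) := by rw [hθ]; simp
        have hne : e₀ ≠ fun _ => (1 : ℂ) := by
          intro e
          have := isCyclic_nsTorus (ε := ε) hε
          obtain ⟨g, hg⟩ := IsCyclic.exists_generator (α := nsTorus ε)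
          have hg1 : g ^ (r + 1) ≠ 1 := fun h => by
            have := Nat.le_of_dvd (by omega) (orderOf_dvd_of_pow_eq_one h)
            rw [orderOf_eq_card_of_forall_mem_zpowers hg, card_nsTorus h2 hε, hr] at this
            omega
          have := congrFun e g
          simp only [e₀, hθ₀, if_neg hg1] at this
          norm_num at this
        rw [hψ, classInner_irr_ne he₀ isIrrCharacter_one hne, mul_zero]
        have hs := hat_sum_zero h2 hε hf h0
        simp [classInner, hs]
      · have hψ : ψ.1 = e₀ := hθ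
        rw [hψ, classInner_irr_self he₀, mul_one]
    · simp only [not_forall] at hsq
      obtain ⟨α, hα⟩ := exists_alpha h2 hε θ
      have hp := hperp α θ hα hsq
      rw [hf.inner_eq h2 hε (disc_cuspLike h2 hε α θ hα), hat_disc h2 hε α θ hα] at hp
      set a : nsTorus ε → ℂ := fun c => (θ c : ℂ)
      set b : nsTorus ε → ℂ := fun c => ((θ c)⁻¹ : ℂˣ)
      have hab : classInner (hat (ε := ε) f) b = classInner (hat (ε := ε) f) a := by
        simp only [classInner]
        congr 1
        refine Fintype.sum_equiv (Equiv.inv _) _ _ fun c => ?_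
        simp [a, b, hat_inv h2 hε hf]
      rw [show (fun c : nsTorus ε => -((θ c : ℂ) + ((θ c)⁻¹ : ℂˣ))) = -(a + b) from rfl, classInner_neg_right,
        classInner_add_right, hab] at hp
      have hψ : ψ.1 = a := hθ
      rw [hψ, classInner_irr_ne he₀ (isIrrCharacter_linear θ) ?_, mul_zero]
      · linear_combination -hp
      · intro e
        obtain ⟨c, hc⟩ := hsq
        have hce : θ₀ c = θ c := Units.ext (congrFun e c)
        apply hc
        rw [← hce]
        refine Units.ext ?_
        rw [Units.val_pow_eq_pow_val, Units.val_one, hθ₀]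
        split <;> simp
  have h1 := congrFun hkey 1
  simp only [Pi.smul_apply, e₀, map_one, Units.val_one, smul_eq_mul, mul_one, hat, OneMemClass.coe_one, true_or, if_true] at h1
  rw [hkey, h1]
  simp [e₀, hθ₀]

omit h2 hε

lemma pow_upper {g : SpecialLinearGroup (Fin 2) F} (h : (g : Matrix (Fin 2) (Fin 2) F) 1 0 = 0) (k : ℕ) :
    ((g ^ k : SpecialLinearGroup (Fin 2) F) : Matrix (Fin 2) (Fin 2) F) 1 0 = 0 ∧
    ((g ^ k : SpecialLinearGroup (Fin 2) F) : Matrix (Fin 2) (Fin 2) F) 0 0 = (g : Matrix (Fin 2) (Fin 2) F) 0 0 ^ k ∧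
    ((g ^ k : SpecialLinearGroup (Fin 2) F) : Matrix (Fin 2) (Fin 2) F) 1 1 = (g : Matrix (Fin 2) (Fin 2) F) 1 1 ^ k := by
  induction k with
  | zero => simp
  | succ k ih =>
    rw [pow_succ g k]
    refine ⟨?_, ?_, ?_⟩ <;> show ((g ^ k : SpecialLinearGroup (Fin 2) F).1 * g.1) _ _ = _ <;>
      simp only [Matrix.mul_apply, Fin.sum_univ_two, ih.1, ih.2.1, ih.2.2, h, mul_zero, zero_mul, add_zero, zero_add, pow_succ]

/-- A cyclic subgroup of order `q + 1` is conjugate to the non-split torus. -/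
theorem exists_map_eq (h2 : (2 : F) ≠ 0) (hε : ¬ IsSquare ε) {C : Subgroup (SpecialLinearGroup (Fin 2) F)} (hC : IsCyclic C)
    (hcard : Nat.card C = Fintype.card F + 1) :
    ∃ h : SpecialLinearGroup (Fin 2) F, C.map (MulAut.conj h).toMonoidHom = nsTorus ε := by
  classical
  obtain ⟨g, hg⟩ := hC.exists_generator
  have ho : orderOf (g : SpecialLinearGroup (Fin 2) F) = Fintype.card F + 1 := by
    rw [Subgroup.orderOf_coe, orderOf_eq_card_of_forall_mem_zpowers hg, hcard]
  have hq := Fintype.one_lt_card (α := F)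
  have hell : Elliptic ((g : SpecialLinearGroup (Fin 2) F) : Matrix (Fin 2) (Fin 2) F) := by
    by_contra hn
    obtain ⟨x, hx⟩ := exists_upper hn
    set g' := x * (g : SpecialLinearGroup (Fin 2) F) * x⁻¹
    have hd := g'.2
    rw [det_fin_two, hx, mul_zero, sub_zero] at hd
    obtain ⟨p10, p00, p11⟩ := pow_upper hx (Fintype.card F - 1)
    rw [FiniteField.pow_card_sub_one_eq_one _ (left_ne_zero_of_mul_eq_one hd)] at p00
    rw [FiniteField.pow_card_sub_one_eq_one _ (right_ne_zero_of_mul_eq_one hd)] at p11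
    set u := g' ^ (Fintype.card F - 1)
    have hu : u = uSHom (Multiplicative.ofAdd ((u : Matrix (Fin 2) (Fin 2) F) 0 1)) := by
      refine Subtype.ext ?_
      show (u : Matrix (Fin 2) (Fin 2) F) = !![1, (u : Matrix (Fin 2) (Fin 2) F) 0 1; 0, 1]
      ext i j; fin_cases i <;> fin_cases j <;> simp [p10, p00, p11]
    have hpow : g' ^ ((Fintype.card F - 1) * Fintype.card F) = 1 := by
      rw [pow_mul]
      change u ^ Fintype.card F = 1
      rw [hu, ← map_pow, show (Multiplicative.ofAdd ((u : Matrix (Fin 2) (Fin 2) F) 0 1)) ^ Fintype.card F = 1 from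
        by rw [← ofAdd_nsmul, nsmul_eq_mul, Nat.cast_card_eq_zero, zero_mul, ofAdd_zero], map_one]
    have hdvd := orderOf_dvd_of_pow_eq_one hpow
    rw [show g' = MulAut.conj x (g : SpecialLinearGroup (Fin 2) F) from rfl, MulEquiv.orderOf_eq, ho] at hdvd
    have hco : Nat.Coprime (Fintype.card F + 1) (Fintype.card F) := by simp
    have := Nat.le_of_dvd (by omega) (hco.dvd_of_dvd_mul_right hdvd)
    omega
  obtain ⟨h, hh, -⟩ := exists_conj_nsTorus h2 hε hell
  refine ⟨h, Subgroup.eq_of_le_of_card_ge ?_ ?_⟩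
  · rintro _ ⟨c, hc, rfl⟩
    obtain ⟨k, hk⟩ := hg ⟨c, hc⟩
    have hk' : (g : SpecialLinearGroup (Fin 2) F) ^ k = c := by simpa using congrArg Subtype.val hk
    show MulAut.conj h c ∈ nsTorus ε
    rw [← hk', map_zpow]
    exact zpow_mem hh k
  · rw [Subgroup.card_map_of_injective (MulAut.conj h).injective, hcard, card_nsTorus h2 hε]

end Cfsg.Lib.Classical.TwoDim
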