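import Cfsg.Agent.Lib.Classical.TwoDimClasses
import Cfsg.Agent.Lib.Classical.TwoDimDiscreteTable
import Cfsg.Agent.Lib.Blocks.Defect
import Cfsg.Agent.Lib.Blocks.Heights

/-! The `p`-blocks of `SL₂` in its own odd characteristic. -/

set_option autoImplicit false
set_option linter.unusedSectionVars false

namespace Cfsg.Lib.Classical.TwoDim

open Matrix
open scoped ComplexConjugate
open Cfsg Cfsg.Lib.Characters Cfsg.Lib.Classical Cfsg.Lib.Classical.ProjLine Cfsg.Lib.Blocks

variable {F : Type*} [Field F] [Fintype F] [DecidableEq F]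

local notation "S" => SpecialLinearGroup (Fin 2) F

lemma half_not_steinberg (hodd : Odd (Fintype.card F)) {d : ℕ} : (Fintype.card F : ℂ) ≠ 2 * (d : ℂ) := fun h => by
  have : Fintype.card F = 2 * d := Nat.cast_injective (R := ℂ) (by push_cast; exact h)
  obtain ⟨r, hr⟩ := hodd
  omega

lemma exists_steinberg (hodd : Odd (Fintype.card F)) :
    ∃ χ : IrrCharacter S, (χ : S → ℂ) 1 = (Fintype.card F : ℂ) := by
  have hst := stTwist_irr (F := F) 1
  set π := fun g : GL (Fin 2) F => (1 : MulChar F ℂ) (g : Matrix (Fin 2) (Fin 2) F).det * st g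
  have h1 : π 1 = (Fintype.card F : ℂ) := by simp [π, st_one]
  have hne : π 1 ≠ 1 := by
    rw [h1]; intro e; exact (Fintype.one_lt_card (α := F)).ne' (card_inj (n := 1) (by simpa using e))
  rcases res_cases hst hne with h | ⟨x, θ, θ', hθ, -, -, hx, hsum⟩
  · exact ⟨⟨_, h⟩, by simp [map_one, h1]⟩
  · exfalso
    obtain ⟨d, -, hd⟩ := hθ.exists_degree_pos
    have h := hsum 1
    rw [map_one, h1, hx, map_one, hd] at h
    exact half_not_steinberg hodd (d := d) (by rw [h]; ring)

/-- Characters of degree `q` are the restricted Steinberg character. -/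
lemma steinberg_eq (hodd : Odd (Fintype.card F)) {χ : S → ℂ} (hχ : IsIrrCharacter S χ)
    (hd : χ 1 = (Fintype.card F : ℂ)) (A : S) : χ A = st (SpecialLinearGroup.toGL A) := by
  have h1 : χ 1 ≠ 1 := by
    rw [hd]; intro e; exact (Fintype.one_lt_card (α := F)).ne' (card_inj (n := 1) (by simpa using e))
  obtain ⟨π, hπ, hπ1, hdeg, ⟨he, hres⟩ | ⟨he, -⟩⟩ := sl_cases hχ h1
  · rw [hd] at he
    rcases gl_cases hπ hπ1 with ⟨h, -⟩ | ⟨α, rfl⟩ | ⟨α, β, -, rfl⟩
    · exact absurd (show (1 : ℂ) = 0 by linear_combination h - he) one_ne_zero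
    · rw [← hres A]; simp
    · rw [indFun_one'] at he; simp at he
  · exfalso
    rw [hd] at he
    have hq := Fintype.one_lt_card (α := F)
    rcases hdeg with h | h | h
    · exact Nat.cast_ne_zero.2 (show Fintype.card F + 1 ≠ 0 by omega) (by push_cast; linear_combination h - he)
    · exact Nat.cast_ne_zero.2 (show Fintype.card F ≠ 0 by omega) (by linear_combination h - he)
    · exact hq.ne' (card_inj (n := 1) (by push_cast; linear_combination h - he))

lemma steinberg_unique (hodd : Odd (Fintype.card F)) {χ ψ : IrrCharacter S}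
    (hd : (χ : S → ℂ) 1 = (Fintype.card F : ℂ)) (he : (ψ : S → ℂ) 1 = (Fintype.card F : ℂ)) : χ = ψ :=
  Subtype.ext (funext fun A => by rw [steinberg_eq hodd χ.2 hd, steinberg_eq hodd ψ.2 he])

lemma st_central {A : S} (hA : A = 1 ∨ A = -1) : st (SpecialLinearGroup.toGL A) = (Fintype.card F : ℂ) := by
  rw [← st_one (F := F)]
  rcases hA with rfl | rfl
  · rw [map_one]
  · unfold st fixedPointCharacter
    rw [Nat.card_congr (Equiv.subtypeEquivRight fun x => ?_)]
    simp only [MulAction.mem_fixedBy, one_smul, iff_true]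
    induction x using QuotientGroup.induction_on with
    | H y =>
      show (QuotientGroup.mk (SpecialLinearGroup.toGL (-1 : S) * y) : GL (Fin 2) F ⧸ upperTriangularGL 2 F) = QuotientGroup.mk y
      rw [QuotientGroup.eq, show SpecialLinearGroup.toGL (-1 : S) * y = y * SpecialLinearGroup.toGL (-1 : S) from
        Units.ext (by simp), _root_.mul_inv_rev, inv_mul_cancel_right]
      refine inv_mem ?_
      rw [mem_upper]
      simp

variable {p : ℕ} [Fact p.Prime] [CharP F p] {M : Ideal AlgInt} [M.IsPrime]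

lemma p_dvd_card : p ∣ Fintype.card F := by
  obtain ⟨n, -, hn⟩ := FiniteField.card F p
  rw [hn]; exact dvd_pow_self p n.ne_zero

lemma q_resF (hM : IsPModular p M) : (Fintype.card F : ResF M) = 0 :=
  (natCast_resF_eq_zero hM _).2 p_dvd_card

/-- Degrees other than `q` are prime to `p`. -/
lemma degree_resF (hp : p ≠ 2) (hM : IsPModular p M) {χ : IrrCharacter S} {d : ℕ} (hd : (χ : S → ℂ) 1 = d)
    (hq : (χ : S → ℂ) 1 ≠ (Fintype.card F : ℂ)) : (d : ResF M) ≠ 0 := by
  haveI := charP_resF hM
  have hodd : Odd (Fintype.card F) :=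
    Nat.odd_iff.2 (FiniteField.odd_card_of_char_ne_two (by rw [ringChar.eq F p]; exact hp))
  intro h0
  by_cases h1 : (χ : S → ℂ) 1 = 1
  · have : d = 1 := Nat.cast_injective (R := ℂ) (by rw [← hd, h1, Nat.cast_one])
    simp [this] at h0
  obtain ⟨π, -, -, hdeg, hcase⟩ := sl_cases χ.2 h1
  obtain ⟨k, hk⟩ : ∃ k : ℕ, π 1 = ((k * d : ℕ) : ℂ) := by
    rcases hcase with ⟨he, -⟩ | ⟨he, -⟩
    · exact ⟨1, by rw [he, hd]; simp⟩
    · exact ⟨2, by rw [he, hd]; simp⟩
  rcases hdeg with h | h | h
  · have e : k * d + 1 = Fintype.card F := Nat.cast_injective (R := ℂ) (by push_cast at hk ⊢; linear_combination h - hk)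
    have := congrArg (Nat.cast (R := ResF M)) e
    simp [h0, q_resF (F := F) hM] at this
  · rcases hcase with ⟨he, -⟩ | ⟨he, -⟩
    · exact hq (he ▸ h)
    · exact half_not_steinberg hodd (d := d) (by rw [← h, he, hd])
  · have e : k * d = Fintype.card F + 1 := Nat.cast_injective (R := ℂ) (by push_cast at hk ⊢; linear_combination h - hk)
    have := congrArg (Nat.cast (R := ResF M)) e
    simp [h0, q_resF (F := F) hM] at this

lemma sign_cases (χ : IrrCharacter S) :
    (χ : S → ℂ) (-1) = (χ : S → ℂ) 1 ∨ (χ : S → ℂ) (-1) = -(χ : S → ℂ) 1 := by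
  have h := central_mul χ.2 (z := (-1 : S)) (fun x => by simp) (-1)
  rw [neg_one_mul, neg_neg] at h
  exact mul_self_eq_mul_self_iff.1 h.symm

lemma exists_faithful (h2 : (2 : F) ≠ 0) : ∃ χ : IrrCharacter S, (χ : S → ℂ) (-1) = -(χ : S → ℂ) 1 := by
  by_contra h
  push Not at h
  have hc : ¬ IsConj (1 : S) (-1) := fun hc => by
    have h1 := congrArg (fun A : S => (A : Matrix (Fin 2) (Fin 2) F) 0 0) (isConj_one_left.1 hc.symm)
    simp at h1
    exact h2 (by linear_combination -h1)
  have o := column_orthogonality (1 : S) (-1)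
  rw [if_neg hc, Finset.sum_congr rfl fun χ _ => by rw [(sign_cases χ).resolve_right (h χ)]] at o
  have o' := column_orthogonality (1 : S) (1 : S)
  rw [o, if_pos (IsConj.refl _)] at o'
  exact Nat.cast_ne_zero.2 Nat.card_pos.ne' o'.symm

lemma index_split (h2 : (2 : F) ≠ 0) (g : S) (h4 : tr g ^ 2 ≠ 4) :
    Fintype.card F ∣ (Subgroup.centralizer ({g} : Set S)).index := by
  have hq := Fintype.one_lt_card (α := F)
  have hidx := Subgroup.index_mul_card (Subgroup.centralizer ({g} : Set S))
  rw [card_SL] at hidx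
  by_cases he : Elliptic (g : Matrix (Fin 2) (Fin 2) F)
  · obtain ⟨ε, hε⟩ := FiniteField.exists_nonsquare (F := F) (fun h => h2 (by
      have := ringChar.Nat.cast_ringChar (R := F); rw [h] at this; exact_mod_cast this))
    obtain ⟨x, hx, hx10⟩ := exists_conj_nsTorus h2 hε he
    rw [← card_centralizer_conj g x, (ns_data h2 hε).centralizer_elem h2 hx (fun e => hx10 (by rw [e]; simp))
      (fun e => hx10 (by rw [e]; simp)), card_nsTorus h2 hε] at hidx
    exact ⟨Fintype.card F - 1, Nat.eq_of_mul_eq_mul_right (show 0 < Fintype.card F + 1 by omega) (by rw [hidx]; ring)⟩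
  · rw [card_centralizer_split h2 he h4] at hidx
    exact ⟨Fintype.card F + 1, Nat.eq_of_mul_eq_mul_right (show 0 < Fintype.card F - 1 by omega) (by rw [hidx]; ring)⟩

lemma unip_index (hp : p ≠ 2) (hM : IsPModular p M) {z g : S} (hz : z = 1 ∨ z = -1) (hgz : g ≠ z) (ht : tr g = tr z) :
    (2 : ResF M) * ((Subgroup.centralizer ({g} : Set S)).index : ResF M) = -1 := by
  have hodd : Odd (Fintype.card F) :=
    Nat.odd_iff.2 (FiniteField.odd_card_of_char_ne_two (by rw [ringChar.eq F p]; exact hp))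
  have hidx := Subgroup.index_mul_card (Subgroup.centralizer ({g} : Set S))
  rw [card_SL, card_centralizer_unip hodd hz hgz ht] at hidx
  have hq := Fintype.one_lt_card (α := F)
  have e : 2 * (Subgroup.centralizer ({g} : Set S)).index = (Fintype.card F + 1) * (Fintype.card F - 1) :=
    Nat.eq_of_mul_eq_mul_right (show 0 < Fintype.card F by omega) (by linear_combination hidx)
  have := congrArg (Nat.cast (R := ResF M)) e
  push_cast [Nat.cast_sub hq.le] at this
  rw [this, q_resF (F := F) hM]; ring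

lemma tr_four {g : S} (h4 : tr g ^ 2 = 4) : ∃ z : S, (z = 1 ∨ z = -1) ∧ tr g = tr z := by
  have : (tr g - 2) * (tr g + 2) = 0 := by linear_combination h4
  rcases mul_eq_zero.1 this with h | h
  · exact ⟨1, Or.inl rfl, by simp [tr] at h ⊢; linear_combination h⟩
  · exact ⟨-1, Or.inr rfl, by simp [tr] at h ⊢; linear_combination h⟩

lemma red_value (hp : p ≠ 2) (hM : IsPModular p M) (χ : IrrCharacter S) {z g : S} (hz : z = 1 ∨ z = -1)
    (hgz : g ≠ z) (ht : tr g = tr z) : red M ((χ : S → ℂ) g) = red M ((χ : S → ℂ) z) := by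
  obtain ⟨x, b, hb, hx⟩ := exists_unip (Ring.two_ne_zero (by rw [ringChar.eq F p]; exact hp)) hz hgz ht
  rw [← χ.2.isClassFunction g x, hx]
  have hzc : Commute (uS b) z := by rcases hz with rfl | rfl <;> simp [Commute, SemiconjBy]
  rw [← hzc.eq]
  refine red_char_mul_pPart hM χ hzc ?_ ?_
  · refine (Nat.dvd_prime_pow (Fact.out : p.Prime) (m := 1)).1 ?_ |>.imp fun k hk => hk.2
    rw [pow_one]
    refine orderOf_dvd_of_pow_eq_one ?_
    have := (uSHom (F := F)).map_pow (Multiplicative.ofAdd b) p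
    rw [← ofAdd_nsmul, nsmul_eq_mul, CharP.cast_eq_zero, zero_mul, ofAdd_zero, map_one] at this
    exact this.symm
  · intro h
    have h2' : orderOf z ∣ 2 := orderOf_dvd_of_pow_eq_one (by rcases hz with rfl | rfl <;> simp [sq])
    exact hp ((Nat.prime_dvd_prime_iff_eq Fact.out Nat.prime_two).1 (h.trans h2'))

lemma red_centralChar_mul (hM : IsPModular p M) (χ : IrrCharacter S) (g : S) {d : ℕ} (hd : (χ : S → ℂ) 1 = d) :
    red M (centralChar (χ : S → ℂ) g) * (d : ResF M) =
      ((Subgroup.centralizer ({g} : Set S)).index : ResF M) * red M ((χ : S → ℂ) g) := by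
  have hi : (χ : S → ℂ) g ∈ locRing M := isIntegral_mem_locRing M (char_isIntegral χ.2.isCharacter g)
  have hn : ∀ n : ℕ, (n : ℂ) ∈ locRing M := fun n => natCast_mem _ n
  rw [← red_natCast (M := M) d, ← red_natCast (M := M) (Subgroup.index _), ← red_mul (centralChar_mem_locRing M χ g) (hn d),
    ← red_mul (hn _) hi, ← hd, centralChar, div_mul_cancel₀ _ χ.2.one_ne_zero]

/-- The reduced sign of a character at `z`. -/
lemma red_sign (hp : p ≠ 2) (hM : IsPModular p M) (χ : IrrCharacter S)
    (hq : (χ : S → ℂ) 1 ≠ (Fintype.card F : ℂ)) (g : S) :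
    red M (centralChar (χ : S → ℂ) g) =
      if tr g ^ 2 = 4 then (if tr g = tr 1 then 1 else if (χ : S → ℂ) (-1) = (χ : S → ℂ) 1 then 1 else -1) *
        ((Subgroup.centralizer ({g} : Set S)).index : ResF M) else 0 := by
  have h2 : (2 : F) ≠ 0 := Ring.two_ne_zero (by rw [ringChar.eq F p]; exact hp)
  obtain ⟨d, -, hd⟩ := χ.2.exists_degree_pos
  have hd0 := degree_resF hp hM hd hq
  refine mul_right_cancel₀ hd0 ?_
  rw [red_centralChar_mul hM χ g hd]
  by_cases h4 : tr g ^ 2 = 4
  · rw [if_pos h4]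
    obtain ⟨z, hz, ht⟩ := tr_four h4
    have hv : red M ((χ : S → ℂ) g) = red M ((χ : S → ℂ) z) := by
      by_cases hgz : g = z
      · rw [hgz]
      · exact red_value hp hM χ hz hgz ht
    have hne : tr (1 : S) ≠ tr (-1) := fun e => h2 (mul_self_eq_zero.1 (show (2 : F) * 2 = 0 by simp [tr] at e; linear_combination e))
    rcases hz with rfl | rfl
    · rw [if_pos ht, hv, hd, red_natCast]; ring
    · rw [if_neg (fun h1 => hne (h1.symm.trans ht)), hv]
      split_ifs with hs
      · rw [hs, hd, red_natCast]; ring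
      · rw [(sign_cases χ).resolve_left hs, hd, red_neg (natCast_mem _ d), red_natCast]; ring
  · rw [if_neg h4, (natCast_resF_eq_zero hM _).2 ((p_dvd_card (F := F)).trans (index_split h2 g h4))]; ring

end Cfsg.Lib.Classical.TwoDim
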