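import Cfsg.Agent.Lib.Classical.TwoDimBlocks
import Cfsg.Agent.Lib.Classical.TwoDimSylowTwo
import Cfsg.Agent.Lib.Classical.SLGroup
import Cfsg.Agent.Lib.Blocks.Exists
import Cfsg.Agent.S2324
import Cfsg.Agent.S2437

/-! The McKay counts for `SL₂` in odd characteristic. -/

set_option autoImplicit false
set_option linter.unusedSectionVars false

namespace Cfsg.Lib.Classical.TwoDim

open Matrix
open Cfsg Cfsg.Lib.Characters Cfsg.Lib.Classical

universe u v

section General

variable {G : Type u} [Group G]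

lemma charDegree_eq {χ : G → ℂ} {d : ℕ} (h : χ 1 = d) : charDegree χ = d := by
  simp [charDegree, h]

lemma charDegree_iff (χ : IrrCharacter G) (d : ℕ) : charDegree (χ : G → ℂ) = d ↔ (χ : G → ℂ) 1 = d := by
  obtain ⟨e, -, he⟩ := χ.2.exists_degree_pos
  rw [charDegree_eq he, he, Nat.cast_inj]

lemma card_degree_congr {H : Type v} [Group H] (e : G ≃* H) (Pr : ℕ → Prop) :
    Nat.card {χ : IrrCharacter G // Pr (charDegree (χ : G → ℂ))} =
      Nat.card {ψ : IrrCharacter H // Pr (charDegree (ψ : H → ℂ))} := by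
  refine Nat.card_congr
    { toFun := fun χ => ⟨⟨fun h => (χ.1 : G → ℂ) (e.symm h), isIrrCharacter_mulEquiv χ.1.2 e.symm⟩, by
        simpa [charDegree] using χ.2⟩
      invFun := fun ψ => ⟨⟨fun g => (ψ.1 : H → ℂ) (e g), isIrrCharacter_mulEquiv ψ.1.2 e⟩, by
        simpa [charDegree] using ψ.2⟩
      left_inv := fun χ => Subtype.ext (Subtype.ext (funext fun g => by simp))
      right_inv := fun ψ => Subtype.ext (Subtype.ext (funext fun g => by simp)) }

lemma card_classes_congr {H : Type v} [Group H] (e : G ≃* H) :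
    Nat.card (ConjClasses G) = Nat.card (ConjClasses H) := by
  refine Nat.card_congr (Equiv.ofBijective (ConjClasses.map e.toMonoidHom)
    ⟨fun a b h => ?_, ConjClasses.map_surjective e.surjective⟩)
  obtain ⟨x, rfl⟩ := ConjClasses.mk_surjective a
  obtain ⟨y, rfl⟩ := ConjClasses.mk_surjective b
  have h' : IsConj (e x) (e y) := ConjClasses.mk_eq_mk_iff_isConj.1 h
  exact ConjClasses.mk_eq_mk_iff_isConj.2 (by simpa using MonoidHom.map_isConj e.symm.toMonoidHom h')

variable [Fintype G]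

/-- The number of characters of degree `d`. -/
noncomputable def numDeg (G : Type u) [Group G] (d : ℕ) : ℕ :=
  Nat.card {χ : IrrCharacter G // charDegree (χ : G → ℂ) = d}

/-- Counts and sums of squares split along the degrees. -/
lemma degree_split (s : Finset ℕ) (hs : ∀ χ : IrrCharacter G, charDegree (χ : G → ℂ) ∈ s) :
    Nat.card (ConjClasses G) = ∑ d ∈ s, numDeg G d ∧ Nat.card G = ∑ d ∈ s, numDeg G d * d ^ 2 ∧
      ∀ (Pr : ℕ → Prop) [DecidablePred Pr],
        Nat.card {χ : IrrCharacter G // Pr (charDegree (χ : G → ℂ))} = ∑ d ∈ s, if Pr d then numDeg G d else 0 := by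
  classical
  have hn : ∀ d, numDeg G d = (Finset.univ.filter fun χ : IrrCharacter G => charDegree (χ : G → ℂ) = d).card :=
    fun d => by rw [numDeg, Nat.card_eq_fintype_card, Fintype.card_subtype]
  refine ⟨?_, ?_, fun Pr _ => ?_⟩
  · rw [← card_irr_eq_card_conjClasses, Nat.card_eq_fintype_card, ← Finset.card_univ,
      Finset.card_eq_sum_card_fiberwise (t := s) fun χ _ => hs χ]
    exact Finset.sum_congr rfl fun d _ => (hn d).symm
  · apply Nat.cast_injective (R := ℂ)
    rw [← sum_sq_degree (G := G), ← Finset.sum_fiberwise_of_maps_to (t := s) fun χ _ => hs χ, Nat.cast_sum]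
    refine Finset.sum_congr rfl fun d _ => ?_
    rw [Finset.sum_congr rfl fun χ hχ => by rw [(charDegree_iff χ d).1 (Finset.mem_filter.1 hχ).2],
      Finset.sum_const, nsmul_eq_mul, hn]
    push_cast; rfl
  · rw [Nat.card_eq_fintype_card, Fintype.card_subtype,
      Finset.card_eq_sum_card_fiberwise (t := s) fun χ _ => hs χ]
    refine Finset.sum_congr rfl fun d _ => ?_
    rw [Finset.filter_filter]
    split_ifs with h
    · rw [hn]
      exact congrArg _ (Finset.filter_congr fun χ _ => ⟨fun k => k.2, fun k => ⟨k ▸ h, k⟩⟩)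
    · rw [Finset.card_eq_zero]
      exact Finset.filter_eq_empty_iff.2 fun χ _ k => h (k.2 ▸ k.1)

end General

variable {F : Type*} [Field F] [Fintype F] [DecidableEq F]

local notation "SL" => SpecialLinearGroup (Fin 2) F

lemma degree_mem {r : ℕ} (hr : Fintype.card F = 2 * r + 1) (χ : IrrCharacter SL) :
    charDegree (χ : SL → ℂ) ∈ ({1, 2 * r + 1, 2 * r + 2, 2 * r, r + 1, r} : Finset ℕ) := by
  obtain ⟨d, -, hd⟩ := χ.2.exists_degree_pos
  rw [charDegree_eq hd]
  by_cases h1 : (χ : SL → ℂ) 1 = 1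
  · have : d = 1 := Nat.cast_injective (R := ℂ) (by rw [← hd, h1, Nat.cast_one])
    simp [this]
  obtain ⟨π, -, -, hdeg, hcase⟩ := sl_cases χ.2 h1
  obtain ⟨k, hk2, hk⟩ : ∃ k : ℕ, (k = 1 ∨ k = 2) ∧ π 1 = ((k * d : ℕ) : ℂ) := by
    rcases hcase with ⟨he, -⟩ | ⟨he, -⟩
    · exact ⟨1, Or.inl rfl, by rw [he, hd]; simp⟩
    · exact ⟨2, Or.inr rfl, by rw [he, hd]; simp⟩
  have hk' : k * d = 2 * r ∨ k * d = 2 * r + 1 ∨ k * d = 2 * r + 2 := by
    rw [hk, hr] at hdeg
    rcases hdeg with h | h | h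
    · exact Or.inl (Nat.cast_injective (R := ℂ) (by push_cast at h ⊢; linear_combination h))
    · exact Or.inr (Or.inl (Nat.cast_injective (R := ℂ) h))
    · exact Or.inr (Or.inr (Nat.cast_injective (R := ℂ) (by push_cast at h ⊢; linear_combination h)))
  simp only [Finset.mem_insert, Finset.mem_singleton]
  rcases hk2 with rfl | rfl <;> omega

lemma exists_sq_ne (hq : 5 ≤ Fintype.card F) : ∃ a : F, a ≠ 0 ∧ a ^ 2 ≠ 1 := by
  classical
  by_contra h
  push Not at h
  have hsub : (Finset.univ : Finset F) ⊆ {0, 1, -1} := fun a _ => by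
    by_cases ha : a = 0
    · simp [ha]
    · rcases sq_eq_one_iff.1 (h a ha) with e | e <;> simp [e]
  have := (Finset.card_le_card hsub).trans Finset.card_le_three
  rw [Finset.card_univ] at this
  omega

/-- The degrees of `SL₂` and their multiplicities. -/
theorem numDeg_SL {r : ℕ} (hr : Fintype.card F = 2 * r + 1) (hr2 : 2 ≤ r) :
    numDeg SL 1 = 1 ∧ numDeg SL (2 * r + 1) = 1 ∧ numDeg SL (2 * r + 2) = r - 1 ∧ numDeg SL (2 * r) = r ∧
      numDeg SL (r + 1) = 2 ∧ numDeg SL r = 2 := by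
  classical
  have hodd : Odd (Fintype.card F) := ⟨r, hr⟩
  have hq : 5 ≤ Fintype.card F := by omega
  have n1 : numDeg SL 1 = 1 := by
    have h : numDeg SL 1 = Nat.card {χ : IrrCharacter SL // (χ : SL → ℂ) 1 = 1} :=
      Nat.card_congr (Equiv.subtypeEquivRight fun χ => by rw [charDegree_iff]; simp)
    rw [h, card_linear_irr, SLGroup.commutator_sl_eq_top (Or.inr (exists_sq_ne hq)), Subgroup.index_top]
  have nq : numDeg SL (2 * r + 1) = 1 := by
    rw [numDeg, Nat.card_eq_one_iff_unique]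
    refine ⟨⟨fun a b => Subtype.ext (steinberg_unique hodd ?_ ?_)⟩, ?_⟩
    · rw [(charDegree_iff a.1 _).1 a.2, hr]
    · rw [(charDegree_iff b.1 _).1 b.2, hr]
    · obtain ⟨χ, hχ⟩ := exists_steinberg (F := F) hodd
      exact ⟨⟨χ, (charDegree_iff χ _).2 (by rw [hχ, hr])⟩⟩
  have e1 : (Fintype.card F + 1) / 2 = r + 1 := by omega
  have e0 : (Fintype.card F - 1) / 2 = r := by omega
  obtain ⟨s1, s0, t1, t0⟩ := Cfsg.Agent.S2324.result hodd hq (uS (1 : F)) rfl
  rw [e1, e0] at s1
  rw [e1] at t1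
  rw [e0] at s0 t0
  have le2 : ∀ d : ℕ, (d = r ∨ d = r + 1) → numDeg SL d ≤ 2 := by
    intro d hd
    by_contra h
    rw [numDeg, Nat.card_eq_fintype_card, not_le, Fintype.two_lt_card_iff] at h
    obtain ⟨⟨a, ha⟩, ⟨b, hb⟩, ⟨c, hc⟩, hab, hac, hbc⟩ := h
    simp only [ne_eq, Subtype.mk.injEq] at hab hac hbc
    rw [charDegree_iff] at ha hb hc
    have ne : ∀ {x y : IrrCharacter SL}, ¬ x = y → (x : SL → ℂ) ≠ y := fun h k => h (Subtype.ext k)
    have hpow : ((-1 : ℂ)) ^ r * (Fintype.card F : ℂ) ≠ 0 :=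
      mul_ne_zero (pow_ne_zero _ (by norm_num)) (Nat.cast_ne_zero.2 Fintype.card_ne_zero)
    rcases hd with rfl | rfl
    · have k1 := t0 _ _ a.2 b.2 (ne hab) ha hb
      have k2 := t0 _ _ a.2 c.2 (ne hac) ha hc
      have k3 := t0 _ _ b.2 c.2 (ne hbc) hb hc
      refine hpow ((s0 _ a.2 ha).symm.trans ?_)
      rw [show 2 * (a : SL → ℂ) (uS 1) + 1 = 0 by linear_combination k1 + k2 - k3]; norm_num
    · have k1 := t1 _ _ a.2 b.2 (ne hab) ha hb
      have k2 := t1 _ _ a.2 c.2 (ne hac) ha hc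
      have k3 := t1 _ _ b.2 c.2 (ne hbc) hb hc
      refine hpow ((s1 _ a.2 ha).symm.trans ?_)
      rw [show 2 * (a : SL → ℂ) (uS 1) - 1 = 0 by linear_combination k1 + k2 - k3]; norm_num
  have ge2 : 2 ≤ numDeg SL (r + 1) := by
    obtain ⟨π, x, θ, θ', -, -, hθ, hθ', hne, hθd, hx, -⟩ := exists_plus hr
    have hd' : θ' 1 = (r : ℂ) + 1 := by rw [hx, map_one, hθd]
    rw [numDeg, Nat.card_eq_fintype_card]
    refine Fintype.one_lt_card_iff.2 ⟨⟨⟨θ, hθ⟩, (charDegree_iff _ _).2 (by push_cast; exact hθd)⟩,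
      ⟨⟨θ', hθ'⟩, (charDegree_iff _ _).2 (by push_cast; exact hd')⟩, fun e => hne ?_⟩
    exact (congrArg (fun z => (z.1 : SL → ℂ)) e).symm
  have hc : numDeg SL (r + 1) = 2 := le_antisymm (le2 _ (Or.inr rfl)) ge2
  obtain ⟨hcl, hsq, -⟩ := degree_split (G := SL) _ (degree_mem hr)
  rw [card_classes hodd, Finset.sum_insert (by simp; omega), Finset.sum_insert (by simp; omega),
    Finset.sum_insert (by simp; omega), Finset.sum_insert (by simp; omega), Finset.sum_pair (by omega), hr, n1, nq, hc] at hcl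
  rw [card_SL, Finset.sum_insert (by simp; omega), Finset.sum_insert (by simp; omega),
    Finset.sum_insert (by simp; omega), Finset.sum_insert (by simp; omega), Finset.sum_pair (by omega), hr, n1, nq, hc,
    Nat.add_sub_cancel] at hsq
  have hd := le2 r (Or.inl rfl)
  refine ⟨n1, nq, ?_⟩
  generalize numDeg SL (2 * r + 2) = a at hcl hsq ⊢
  generalize numDeg SL (2 * r) = b at hcl hsq ⊢
  generalize numDeg SL r = d at hd hcl hsq ⊢
  have hsq' := congrArg (Nat.cast (R := ℤ)) hsq
  have hcl' := congrArg (Nat.cast (R := ℤ)) hcl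
  push_cast at hsq' hcl'
  have hno : ∀ K : ℤ, (2 * (r : ℤ) + 1) * K = 3 → False := fun K hK => by
    have := Int.le_of_dvd (by norm_num) (Dvd.intro K hK)
    omega
  interval_cases d
  · exact (hno (-(8 * (a : ℤ) - 2 * r + 5)) (by push_cast at hsq' hcl'; linear_combination 2 * hsq' - 8 * (r : ℤ) ^ 2 * hcl')).elim
  · exact (hno (-(16 * (a : ℤ) - 10 * r + 13)) (by push_cast at hsq' hcl'; linear_combination 4 * hsq' - 16 * (r : ℤ) ^ 2 * hcl')).elim
  · have ha : ((a : ℤ) - ((r : ℤ) - 1)) * (8 * r + 4) = 0 := by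
      push_cast at hsq' hcl'; linear_combination -hsq' + 4 * (r : ℤ) ^ 2 * hcl'
    rcases mul_eq_zero.1 ha with h | h <;> omega

lemma not_dvd_of_dvd_two {ℓ d : ℕ} (hℓ : ℓ.Prime) (h2 : ℓ ≠ 2) (hd : d ∣ 2) : ¬ ℓ ∣ d := fun h =>
  h2 ((Nat.prime_dvd_prime_iff_eq hℓ Nat.prime_two).1 (h.trans hd))

/-- All degrees prime to `ℓ`: the count is the class number. -/
lemma card_all {G : Type u} [Group G] [Fintype G] {Pr : ℕ → Prop}
    (h : ∀ χ : IrrCharacter G, Pr (charDegree (χ : G → ℂ))) :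
    Nat.card {χ : IrrCharacter G // Pr (charDegree (χ : G → ℂ))} = Nat.card (ConjClasses G) := by
  rw [Nat.card_congr (Equiv.subtypeUnivEquiv h), card_irr_eq_card_conjClasses]

lemma count_torus (h2 : (2 : F) ≠ 0) {T : Subgroup SL} {W : Set SL} (D : TorusData T W) {k : ℕ}
    (hk : Nat.card SL = Nat.card T * k) {ℓ : ℕ} [Fact ℓ.Prime] (hℓ : ℓ ≠ 2) (hdvd : ℓ ∣ Nat.card T)
    (hnk : ¬ ℓ ∣ k) (P : Sylow ℓ SL) :
    2 * Nat.card {ψ : IrrCharacter (Subgroup.normalizer ((P : Subgroup SL) : Set SL)) //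
      ¬ ℓ ∣ charDegree (ψ : Subgroup.normalizer ((P : Subgroup SL) : Set SL) → ℂ)} = Nat.card T + 6 := by
  classical
  obtain ⟨g, -, hN, X, hX, h1, hn⟩ := D.sylow_conj h2 hk hℓ hdvd hnk P
  set NT := Subgroup.normalizer (T : Set SL)
  let e : NT ≃* Subgroup.normalizer ((P : Subgroup SL) : Set SL) :=
    (NT.equivMapOfInjective (MulAut.conj g).toMonoidHom (MulAut.conj g).injective).trans (MulEquiv.subgroupCongr hN.symm)
  rw [← card_degree_congr e (fun d => ¬ ℓ ∣ d)]
  obtain ⟨c1, c2, -⟩ := D.normalizer_facts h2 hX h1 hn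
  rw [card_all (Pr := fun d => ¬ ℓ ∣ d) fun χ => ?_]
  · exact c2
  have hTN : T ≤ NT := Subgroup.le_normalizer
  have hidx : (T.subgroupOf NT).index = 2 := by
    have h := (T.subgroupOf NT).card_mul_index
    rw [c1, Nat.card_congr (Subgroup.subgroupOfEquivOfLe hTN).toEquiv, mul_comm 2] at h
    exact Nat.eq_of_mul_eq_mul_left Nat.card_pos h
  have hc : IsMulCommutative (T.subgroupOf NT) :=
    ⟨⟨fun x y => Subtype.ext (Subtype.ext (D.comm _ x.2 _ y.2))⟩⟩
  have : (T.subgroupOf NT).Normal := Subgroup.normal_of_index_eq_two hidx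
  obtain ⟨d, -, hd⟩ := χ.2.exists_degree_pos
  rw [charDegree_eq hd]
  exact not_dvd_of_dvd_two Fact.out hℓ (hidx ▸ degree_dvd_index_of_abelian χ.2 _ hd)

lemma odd_count_index_two {G : Type u} [Group G] [Fintype G] (h4 : 4 * Nat.card (ConjClasses G) = Nat.card G + 12)
    (hdeg : ∀ χ : G → ℂ, IsIrrCharacter G χ → ∀ d : ℕ, χ 1 = (d : ℂ) → d ∣ 2) :
    Nat.card {χ : IrrCharacter G // ¬ 2 ∣ charDegree (χ : G → ℂ)} = 4 := by
  classical
  obtain ⟨hcl, hsq, hct⟩ := degree_split (G := G) {1, 2} fun χ => by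
    obtain ⟨d, -, hd⟩ := χ.2.exists_degree_pos
    rw [charDegree_eq hd]
    have := (Nat.dvd_prime Nat.prime_two).1 (hdeg _ χ.2 d hd)
    simpa using this
  rw [hct fun d => ¬ 2 ∣ d, Finset.sum_pair (by norm_num)]
  rw [Finset.sum_pair (by norm_num)] at hcl hsq
  norm_num at hsq ⊢
  simp only [Nat.card_eq_fintype_card] at *
  omega

lemma odd_count_twenty_four {G : Type u} [Group G] [Fintype G] (h24 : Nat.card G = 24)
    (hc : (commutator G).index ∣ 3) :
    Nat.card {χ : IrrCharacter G // ¬ 2 ∣ charDegree (χ : G → ℂ)} = 4 := by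
  classical
  obtain ⟨-, hsq, hct⟩ := degree_split (G := G) {1, 2, 3, 4} fun χ => by
    obtain ⟨d, hd0, hd⟩ := χ.2.exists_degree_pos
    rw [charDegree_eq hd]
    have h25 : d ^ 2 ≤ 24 := by
      have hs : d ^ 2 ≤ ∑ ξ : IrrCharacter G, charDegree (ξ : G → ℂ) ^ 2 := by
        rw [← charDegree_eq hd]
        exact Finset.single_le_sum (f := fun ξ : IrrCharacter G => charDegree (ξ : G → ℂ) ^ 2) (fun _ _ => Nat.zero_le _) (Finset.mem_univ χ)
      have e : ∑ ξ : IrrCharacter G, charDegree (ξ : G → ℂ) ^ 2 = Nat.card G := by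
        apply Nat.cast_injective (R := ℂ)
        rw [← sum_sq_degree (G := G), Nat.cast_sum]
        refine Finset.sum_congr rfl fun ξ _ => ?_
        obtain ⟨k, -, hk⟩ := ξ.2.exists_degree_pos
        rw [charDegree_eq hk, hk]; push_cast; rfl
      omega
    have : d ≤ 4 := by nlinarith
    simp only [Finset.mem_insert, Finset.mem_singleton]
    omega
  have h1 : numDeg G 1 = (commutator G).index := by
    rw [← card_linear_irr]
    exact Nat.card_congr (Equiv.subtypeEquivRight fun χ => by rw [charDegree_iff]; simp)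
  rw [hct fun d => ¬ 2 ∣ d]
  rw [h24] at hsq
  simp [Finset.sum_insert] at hsq ⊢
  rcases (Nat.dvd_prime Nat.prime_three).1 hc with h | h <;> omega

lemma mckay_two (hodd : Odd (Fintype.card F)) (hq : 5 ≤ Fintype.card F) (P : Sylow 2 SL) :
    Nat.card {ψ : IrrCharacter (Subgroup.normalizer ((P : Subgroup SL) : Set SL)) //
      ¬ 2 ∣ charDegree (ψ : Subgroup.normalizer ((P : Subgroup SL) : Set SL) → ℂ)} = 4 := by
  classical
  have h2 := two_ne_zero_of_odd hodd
  obtain ⟨ε, hε⟩ := FiniteField.exists_nonsquare (F := F) (ringChar_ne_two hodd)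
  obtain ⟨r, hr⟩ := hodd
  obtain ⟨T, W, D, hcyc, k, hk, hk2, h4⟩ : ∃ (T : Subgroup SL) (W : Set SL), TorusData T W ∧ IsCyclic T ∧
      ∃ k, Nat.card SL = Nat.card T * (2 * k) ∧ ¬ 2 ∣ k ∧ 4 ∣ Nat.card T := by
    rcases Nat.even_or_odd r with ⟨s, hs⟩ | ⟨s, hs⟩
    · exact ⟨diagTorus, _, diag_data h2, isCyclic_diagTorus, Fintype.card F * (r + 1),
        by rw [card_SL, card_diagTorus, hr, Nat.add_sub_cancel]; ring,
        by rw [Nat.prime_two.dvd_mul]; omega, by rw [card_diagTorus]; omega⟩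
    · exact ⟨nsTorus ε, _, ns_data h2 hε, isCyclic_nsTorus hε, Fintype.card F * r,
        by rw [card_SL, card_nsTorus h2 hε, hr, Nat.add_sub_cancel]; ring,
        by rw [Nat.prime_two.dvd_mul]; omega, by rw [card_nsTorus h2 hε]; omega⟩
  obtain ⟨-, h8, h24, hcomm, hcl, hdeg⟩ := D.sylowTwo h2 hcyc hk hk2 h4 P
  have hP8 : Nat.card P = 2 ^ ((Nat.card T).factorization 2 + 1) := by
    rw [Sylow.card_eq_multiplicity, hk, Nat.factorization_mul Nat.card_pos.ne' (fun h => hk2 (by omega)),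
      Nat.factorization_mul two_ne_zero (fun h => hk2 (by omega)), Finsupp.add_apply, Finsupp.add_apply,
      Nat.factorization_eq_zero_of_not_dvd hk2, Nat.prime_two.factorization_self, add_zero]
  by_cases he : 8 ∣ Nat.card T
  · let e : P ≃* Subgroup.normalizer ((P : Subgroup SL) : Set SL) := MulEquiv.subgroupCongr (h8 he).symm
    rw [← card_degree_congr e (fun d => ¬ 2 ∣ d)]
    exact odd_count_index_two hcl hdeg
  · have hv : (Nat.card T).factorization 2 = 2 := by
      have h3 : ¬ 3 ≤ (Nat.card T).factorization 2 := fun h =>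
        he ((Nat.prime_two.pow_dvd_iff_le_factorization Nat.card_pos.ne').2 h)
      have h2' := (Nat.prime_two.pow_dvd_iff_le_factorization (k := 2) (Nat.card_pos (α := T)).ne').1 h4
      omega
    rw [hv] at hP8
    set N := Subgroup.normalizer ((P : Subgroup SL) : Set SL) with hN
    have hN24 : Nat.card N = 24 := by rw [h24 he, hP8]; norm_num
    refine odd_count_twenty_four hN24 ?_
    have hidx : ((P : Subgroup SL).subgroupOf N).index = 3 := by
      have h := ((P : Subgroup SL).subgroupOf N).card_mul_index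
      rw [hN24, Nat.card_congr (Subgroup.subgroupOfEquivOfLe (Subgroup.le_normalizer (H := (P : Subgroup SL)))).toEquiv, hP8] at h
      omega
    have hle : (P : Subgroup SL).subgroupOf N ≤ commutator N := by
      intro x hx
      have h : (x : SL) ∈ (commutator N).map N.subtype := by
        rw [Subgroup.map_subtype_commutator]; exact hcomm he hx
      obtain ⟨y, hy, e⟩ := h
      rwa [← Subtype.ext e]
    exact hidx ▸ Subgroup.index_dvd_of_le hle

lemma uSHom_apply (a : Multiplicative F) : uSHom (F := F) a = uS a.toAdd := rfl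

lemma mckay_char (hodd : Odd (Fintype.card F)) (p : ℕ) [Fact p.Prime] [CharP F p] (P : Sylow p SL) :
    Nat.card {χ : IrrCharacter SL // ¬ p ∣ charDegree (χ : SL → ℂ)} = Fintype.card F + 3 ∧
    Nat.card {ψ : IrrCharacter (Subgroup.normalizer ((P : Subgroup SL) : Set SL)) //
      ¬ p ∣ charDegree (ψ : Subgroup.normalizer ((P : Subgroup SL) : Set SL) → ℂ)} = Fintype.card F + 3 := by
  classical
  have h2 := two_ne_zero_of_odd hodd
  have hp : p ≠ 2 := fun e => ringChar_ne_two hodd (by rw [ringChar.eq F p, e])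
  have hq := Fintype.one_lt_card (α := F)
  refine ⟨?_, ?_⟩
  · obtain ⟨M, hM⟩ := Cfsg.Lib.Blocks.exists_isPModular p
    have := hM.2.1.isPrime
    obtain ⟨St, hSt⟩ := exists_steinberg (F := F) hodd
    have key : ∀ χ : IrrCharacter SL, ¬ p ∣ charDegree (χ : SL → ℂ) ↔ χ ≠ St := by
      intro χ
      constructor
      · rintro h rfl
        exact h (by rw [charDegree_eq hSt]; exact p_dvd_card)
      · intro hne h
        obtain ⟨d, -, hd⟩ := χ.2.exists_degree_pos
        rw [charDegree_eq hd] at h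
        exact degree_resF hp hM hd (fun e => hne (steinberg_unique hodd e hSt))
          ((Cfsg.Lib.Blocks.natCast_resF_eq_zero hM d).2 h)
    rw [Nat.card_congr (Equiv.subtypeEquivRight key)]
    have h := card_irr_eq_card_conjClasses (G := SL)
    rw [card_classes hodd, Nat.card_eq_fintype_card] at h
    rw [Nat.card_eq_fintype_card, Fintype.card_subtype_compl, Fintype.card_subtype_eq, h]
    omega
  · set U : Subgroup SL := (uSHom (F := F)).range with hU
    have hinj : Function.Injective (uSHom (F := F)) := fun a b h => by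
      have := congrArg (fun z : SL => (z : Matrix (Fin 2) (Fin 2) F) 0 1) h
      simp [uSHom_apply] at this
      exact this
    have hUcard : Nat.card U = p ^ (Nat.card SL).factorization p := by
      obtain ⟨n, -, hn⟩ := FiniteField.card F p
      rw [Nat.card_congr (MonoidHom.ofInjective hinj).toEquiv.symm, Nat.card_congr Multiplicative.toAdd,
        Nat.card_eq_fintype_card, card_SL, Nat.factorization_mul (by omega)
          (Nat.mul_ne_zero (Nat.succ_ne_zero _) (by omega)), Finsupp.add_apply]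
      have hnd : ¬ p ∣ (Fintype.card F + 1) * (Fintype.card F - 1) := by
        intro h
        rcases (Fact.out : p.Prime).dvd_mul.1 h with h | h <;> have h' := Nat.dvd_sub h (p_dvd_card (F := F) (p := p))
        · simp at h'; exact (Fact.out : p.Prime).ne_one h'
        · have h'' := Nat.dvd_sub (p_dvd_card (F := F) (p := p)) h
          rw [show Fintype.card F - (Fintype.card F - 1) = 1 by omega] at h''
          exact (Fact.out : p.Prime).ne_one (Nat.dvd_one.1 h'')
      rw [Nat.factorization_eq_zero_of_not_dvd hnd, add_zero, hn, Nat.factorization_pow,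
        Finsupp.smul_apply, (Fact.out : p.Prime).factorization_self]
      simp
    set B : Subgroup SL := (upperTriangularGL 2 F).comap SpecialLinearGroup.toGL with hB
    have hmem : ∀ g : SL, g ∈ B ↔ (g : Matrix (Fin 2) (Fin 2) F) 1 0 = 0 := fun g => ProjLine.mem_upper
    have hNU : Subgroup.normalizer (U : Set SL) = B := by
      have fwd : ∀ g : SL, (g : Matrix (Fin 2) (Fin 2) F) 1 0 = 0 → ∀ u ∈ U, g * u * g⁻¹ ∈ U := by
        rintro g hg _ ⟨a, rfl⟩
        have hd := g.2
        rw [det_fin_two, hg, mul_zero, sub_zero] at hd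
        refine ⟨Multiplicative.ofAdd ((g : Matrix (Fin 2) (Fin 2) F) 0 0 ^ 2 * a.toAdd), ?_⟩
        refine eq_mul_inv_iff_mul_eq.2 ?_
        rw [uSHom_apply, uSHom_apply, toAdd_ofAdd]
        ext i j
        fin_cases i <;> fin_cases j <;> simp [uSHom_apply, Matrix.mul_apply, Fin.sum_univ_two, hg]
        linear_combination ((g : Matrix (Fin 2) (Fin 2) F) 0 0 * a.toAdd) * hd
      ext g
      rw [hmem]
      constructor
      · intro hg
        obtain ⟨a, ha⟩ := (Subgroup.mem_normalizer_iff.1 hg _).1 (show uS (1 : F) ∈ U from ⟨Multiplicative.ofAdd 1, rfl⟩)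
        have ha' := eq_mul_inv_iff_mul_eq.1 ha
        have h1 := congrArg (fun z : SL => (z : Matrix (Fin 2) (Fin 2) F) 1 1) ha'
        simp [uSHom_apply, Matrix.mul_apply, Fin.sum_univ_two] at h1
        exact h1
      · intro hg
        refine Subgroup.mem_normalizer_iff.2 fun u => ⟨fwd g hg u, fun hu => ?_⟩
        have := fwd g⁻¹ ((hmem _).1 (B.inv_mem ((hmem g).2 hg))) _ hu
        simpa [mul_assoc] using this
    obtain ⟨g, hg⟩ : ∃ g : SL, g • Sylow.ofCard U hUcard = P := MulAction.exists_smul_eq _ _ _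
    have hP : (P : Subgroup SL) = U.map (MulAut.conj g).toMonoidHom := by
      rw [← hg, Sylow.coe_subgroup_smul]; rfl
    have hN : Subgroup.normalizer ((P : Subgroup SL) : Set SL) = B.map (MulAut.conj g).toMonoidHom := by
      rw [hP, ← Subgroup.map_equiv_normalizer_eq U (MulAut.conj g), hNU]
    let e : B ≃* Subgroup.normalizer ((P : Subgroup SL) : Set SL) :=
      (B.equivMapOfInjective (MulAut.conj g).toMonoidHom (MulAut.conj g).injective).trans (MulEquiv.subgroupCongr hN.symm)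
    rw [← card_degree_congr e (fun d => ¬ p ∣ d), card_all (Pr := fun d => ¬ p ∣ d) fun χ => ?_]
    · exact Cfsg.Agent.S2437.result hodd
    have hUB : U ≤ B := hNU ▸ Subgroup.le_normalizer
    have : (U.subgroupOf B).Normal := hNU ▸ Subgroup.normal_in_normalizer
    have hc : IsMulCommutative (U.subgroupOf B) := ⟨⟨fun x y => by
      obtain ⟨a, ha⟩ := x.2
      obtain ⟨b, hb⟩ := y.2
      refine Subtype.ext (Subtype.ext ?_)
      show ((x : B) : SL) * ((y : B) : SL) = ((y : B) : SL) * ((x : B) : SL)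
      rw [show ((x : B) : SL) = uSHom a from ha.symm, show ((y : B) : SL) = uSHom b from hb.symm, ← map_mul, ← map_mul, mul_comm]⟩⟩
    obtain ⟨d, -, hd⟩ := χ.2.exists_degree_pos
    rw [charDegree_eq hd]
    intro h
    have hd' : d ∣ (U.subgroupOf B).index := degree_dvd_index_of_abelian χ.2 _ hd
    exact (Sylow.ofCard U hUcard).not_dvd_index
      ((h.trans hd').trans (Subgroup.relIndex_dvd_index_of_le hUB))

/-- The McKay equality for `SL₂` in odd characteristic. -/
theorem mckay (hodd : Odd (Fintype.card F)) (ℓ : ℕ) [hℓ : Fact ℓ.Prime] (P : Sylow ℓ SL) :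
    Nat.card {χ : IrrCharacter SL // ¬ ℓ ∣ charDegree (χ : SL → ℂ)} =
      Nat.card {ψ : IrrCharacter (Subgroup.normalizer ((P : Subgroup SL) : Set SL)) //
        ¬ ℓ ∣ charDegree (ψ : Subgroup.normalizer ((P : Subgroup SL) : Set SL) → ℂ)} := by
  classical
  have h2 := two_ne_zero_of_odd hodd
  have htop : Subgroup.normalizer ((P : Subgroup SL) : Set SL) = ⊤ →
      Nat.card {χ : IrrCharacter SL // ¬ ℓ ∣ charDegree (χ : SL → ℂ)} =
        Nat.card {ψ : IrrCharacter (Subgroup.normalizer ((P : Subgroup SL) : Set SL)) //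
          ¬ ℓ ∣ charDegree (ψ : Subgroup.normalizer ((P : Subgroup SL) : Set SL) → ℂ)} := fun h =>
    card_degree_congr (Subgroup.topEquiv.symm.trans (MulEquiv.subgroupCongr h.symm)) (fun d => ¬ ℓ ∣ d)
  by_cases hdvd : ℓ ∣ Nat.card SL
  swap
  · refine htop ?_
    have : (P : Subgroup SL) = ⊥ := Subgroup.eq_bot_of_card_eq _ (by
      rw [Sylow.card_eq_multiplicity, Nat.factorization_eq_zero_of_not_dvd hdvd, pow_zero])
    rw [this]
    exact Subgroup.normalizer_eq_top_iff.2 inferInstance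
  by_cases hp : ℓ ∣ Fintype.card F
  · have : CharP F ℓ := by
      obtain ⟨p, hc⟩ := CharP.exists F
      obtain ⟨n, hpp, hn⟩ := FiniteField.card F p
      rw [(Nat.prime_dvd_prime_iff_eq hℓ.out hpp).1 (hℓ.out.dvd_of_dvd_pow (hn ▸ hp))]
      exact hc
    obtain ⟨a, b⟩ := mckay_char hodd ℓ P
    rw [a, b]
  have hq1 := Fintype.one_lt_card (α := F)
  obtain ⟨r, hr⟩ := id hodd
  by_cases hr2 : 2 ≤ r
  swap
  · -- the field of three elements
    have hr1 : r = 1 := by omega
    subst hr1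
    rw [card_SL, hr] at hdvd
    have hℓ2 : ℓ = 2 := by
      rw [hr] at hp
      rcases hℓ.out.dvd_mul.1 hdvd with h | h
      · exact absurd h hp
      · exact (Nat.prime_dvd_prime_iff_eq hℓ.out Nat.prime_two).1
          (hℓ.out.dvd_of_dvd_pow (n := 3) (show ℓ ∣ 2 ^ 3 by simpa using h))
    subst hℓ2
    obtain ⟨ε, hε⟩ := FiniteField.exists_nonsquare (F := F) (ringChar_ne_two hodd)
    obtain ⟨-, -, h24, -⟩ := (ns_data h2 hε).sylowTwo h2 (isCyclic_nsTorus hε) (k := 3)
      (by rw [card_SL, card_nsTorus h2 hε, hr]; norm_num) (by norm_num) (by rw [card_nsTorus h2 hε, hr]; norm_num) P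
    refine htop (Subgroup.eq_top_of_card_eq _ ?_)
    have hPc : Nat.card P = 8 := by
      rw [Sylow.card_eq_multiplicity, card_SL, hr, show (2 * 1 + 1) * ((2 * 1 + 1 + 1) * (2 * 1 + 1 - 1)) = 2 ^ 3 * 3 by norm_num,
        Nat.factorization_mul (by norm_num) (by norm_num), Finsupp.add_apply, Nat.factorization_pow, Finsupp.smul_apply,
        Nat.prime_two.factorization_self, Nat.factorization_eq_zero_of_not_dvd (by norm_num : ¬ 2 ∣ 3)]
      rfl
    rw [h24 (by rw [card_nsTorus h2 hε, hr]; norm_num), hPc, card_SL, hr]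
    norm_num
  obtain ⟨n1, nq, na, nb, nc, nd⟩ := numDeg_SL hr hr2
  obtain ⟨-, -, hct⟩ := degree_split (G := SL) _ (degree_mem hr)
  rw [hct fun d => ¬ ℓ ∣ d, Finset.sum_insert (by simp; omega), Finset.sum_insert (by simp; omega),
    Finset.sum_insert (by simp; omega), Finset.sum_insert (by simp; omega), Finset.sum_pair (by omega),
    n1, nq, na, nb, nc, nd, if_pos (fun h => hℓ.out.ne_one (Nat.dvd_one.1 h)), if_pos (hr ▸ hp)]
  by_cases hℓ2 : ℓ = 2
  · subst hℓ2
    rw [mckay_two hodd (by omega) P]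
    rw [if_neg (by omega), if_neg (by omega)]
    split_ifs <;> omega
  rw [card_SL] at hdvd
  have hd' : ℓ ∣ r ∨ ℓ ∣ r + 1 := by
    rcases hℓ.out.dvd_mul.1 hdvd with h | h
    · exact absurd h hp
    · have h2' : ¬ ℓ ∣ 2 := fun k => hℓ2 ((Nat.prime_dvd_prime_iff_eq hℓ.out Nat.prime_two).1 k)
      rw [hr, show 2 * r + 1 + 1 = 2 * (r + 1) by ring, Nat.add_sub_cancel] at h
      rcases hℓ.out.dvd_mul.1 h with h | h <;> rcases hℓ.out.dvd_mul.1 h with k | k
      · exact absurd k h2'
      · exact Or.inr k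
      · exact absurd k h2'
      · exact Or.inl k
  have hnot : ¬ (ℓ ∣ r ∧ ℓ ∣ r + 1) := fun h => hℓ.out.ne_one (Nat.dvd_one.1 ((Nat.dvd_add_right h.1).1 h.2))
  have h22 : ∀ x, ℓ ∣ 2 * x → ℓ ∣ x := fun x h =>
    (hℓ.out.dvd_mul.1 h).resolve_left fun k => hℓ2 ((Nat.prime_dvd_prime_iff_eq hℓ.out Nat.prime_two).1 k)
  have e2 : 2 * r + 2 = 2 * (r + 1) := by ring
  obtain ⟨ε, hε⟩ := FiniteField.exists_nonsquare (F := F) (ringChar_ne_two hodd)
  rcases hd' with h | h
  · have hT := count_torus h2 (diag_data (F := F) h2) (k := Fintype.card F * (Fintype.card F + 1))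
      (by rw [card_SL, card_diagTorus]; ring) hℓ2 (by rw [card_diagTorus, hr, Nat.add_sub_cancel]; exact h.mul_left 2)
      (fun hk => by
        rcases hℓ.out.dvd_mul.1 hk with k | k
        · exact hp k
        · rw [hr, show 2 * r + 1 + 1 = 2 * (r + 1) by ring] at k; exact hnot ⟨h, h22 _ k⟩) P
    rw [card_diagTorus, hr, Nat.add_sub_cancel] at hT
    rw [e2, if_pos (fun k => hnot ⟨h, h22 _ k⟩), if_neg (not_not.2 (h.mul_left 2)),
      if_pos (fun k => hnot ⟨h, k⟩), if_neg (not_not.2 h)]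
    omega
  · have hT := count_torus h2 (ns_data (F := F) h2 hε) (k := Fintype.card F * (Fintype.card F - 1))
      (by rw [card_SL, card_nsTorus h2 hε]; ring) hℓ2
      (by rw [card_nsTorus h2 hε, hr, show 2 * r + 1 + 1 = 2 * (r + 1) by ring]; exact h.mul_left 2)
      (fun hk => by
        rcases hℓ.out.dvd_mul.1 hk with k | k
        · exact hp k
        · rw [hr, Nat.add_sub_cancel] at k; exact hnot ⟨h22 _ k, h⟩) P
    rw [card_nsTorus h2 hε, hr] at hT
    rw [e2, if_neg (not_not.2 (h.mul_left 2)), if_pos (fun k => hnot ⟨h22 _ k, h⟩),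
      if_neg (not_not.2 h), if_pos (fun k => hnot ⟨k, h⟩)]
    omega

end Cfsg.Lib.Classical.TwoDim
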