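import Cfsg.Agent.Lib.Classical.TwoDimClasses
import Cfsg.Agent.Lib.Classical.TwoDimSylowTwo
import Cfsg.Agent.Lib.Fusion.PSLTwo

/-! The class sizes of `PSL₂` in odd characteristic. -/

set_option autoImplicit false
set_option linter.unusedSectionVars false

namespace Cfsg.Lib.Classical.TwoDim

open Matrix

variable {F : Type*} [Field F] [Fintype F] [DecidableEq F]

/-- The preimage of a centralizer of the projective group. -/
def projCent (A : SpecialLinearGroup (Fin 2) F) : Subgroup (SpecialLinearGroup (Fin 2) F) :=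
  (Subgroup.centralizer ({QuotientGroup.mk' (Subgroup.center (SpecialLinearGroup (Fin 2) F)) A} :
    Set (ProjectiveSpecialLinearGroup (Fin 2) F))).comap (QuotientGroup.mk' (Subgroup.center (SpecialLinearGroup (Fin 2) F)))

lemma mem_projCent {A B : SpecialLinearGroup (Fin 2) F} :
    B ∈ projCent A ↔ B * A * B⁻¹ = A ∨ B * A * B⁻¹ = -A := by
  unfold projCent
  rw [Subgroup.mem_comap, Subgroup.mem_centralizer_singleton_iff, ← map_mul, ← map_mul, QuotientGroup.mk'_eq_mk']
  constructor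
  · rintro ⟨z, hz, e⟩
    rcases Cfsg.Lib.Fusion.PSLTwo.eq_of_mem_center hz with rfl | rfl
    · exact Or.inl (by rw [mul_one] at e; rw [e, mul_inv_cancel_right])
    · refine Or.inr ?_
      rw [mul_neg_one] at e
      rw [show B * A = -(A * B) by rw [← e, neg_neg], neg_mul, mul_inv_cancel_right]
  · rintro (h | h)
    · exact ⟨1, one_mem _, by rw [mul_one]; exact mul_inv_eq_iff_eq_mul.1 h⟩
    · refine ⟨-1, Cfsg.Lib.Fusion.PSLTwo.neg_one_mem_center, ?_⟩
      rw [mul_neg_one, mul_inv_eq_iff_eq_mul.1 h, neg_mul, neg_neg]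

lemma index_projCent (A : SpecialLinearGroup (Fin 2) F) :
    (Subgroup.centralizer ({QuotientGroup.mk' (Subgroup.center (SpecialLinearGroup (Fin 2) F)) A} :
      Set (ProjectiveSpecialLinearGroup (Fin 2) F))).index * Nat.card (projCent A) = Nat.card (SpecialLinearGroup (Fin 2) F) := by
  rw [← Subgroup.index_comap_of_surjective (G' := SpecialLinearGroup (Fin 2) F)
    (f := QuotientGroup.mk' (Subgroup.center (SpecialLinearGroup (Fin 2) F))) _ (QuotientGroup.mk'_surjective _)]
  exact Subgroup.index_mul_card _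

lemma card_projCent_conj (A x : SpecialLinearGroup (Fin 2) F) :
    Nat.card (projCent (x * A * x⁻¹)) = Nat.card (projCent A) := by
  refine Nat.card_congr ((MulAut.conj x⁻¹).toEquiv.subtypeEquiv fun y => ?_)
  simp only [mem_projCent, MulEquiv.toEquiv_eq_coe, EquivLike.coe_coe, MulAut.conj_apply, inv_inv]
  have e : x⁻¹ * y * x * A * (x⁻¹ * y * x)⁻¹ = x⁻¹ * (y * (x * A * x⁻¹) * y⁻¹) * x := by group
  constructor
  · rintro (h | h)
    · exact Or.inl (by rw [e, h]; group)
    · exact Or.inr (by rw [e, h, mul_neg, neg_mul]; congr 1; group)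
  · intro h
    rw [e] at h
    rcases h with h | h
    · left
      calc y * (x * A * x⁻¹) * y⁻¹ = x * (x⁻¹ * (y * (x * A * x⁻¹) * y⁻¹) * x) * x⁻¹ := by group
        _ = x * A * x⁻¹ := by rw [h]
    · right
      calc y * (x * A * x⁻¹) * y⁻¹ = x * (x⁻¹ * (y * (x * A * x⁻¹) * y⁻¹) * x) * x⁻¹ := by group
        _ = -(x * A * x⁻¹) := by rw [h]; simp

lemma projCent_of_tr_ne {A : SpecialLinearGroup (Fin 2) F} (hA : tr A ≠ 0) (h2 : (2 : F) ≠ 0) :
    projCent A = Subgroup.centralizer {A} := by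
  ext B
  rw [mem_projCent, Subgroup.mem_centralizer_singleton_iff]
  refine ⟨fun h => ?_, fun h => Or.inl (by rw [h, mul_inv_cancel_right])⟩
  rcases h with h | h
  · exact mul_inv_eq_iff_eq_mul.1 h
  · exfalso
    refine hA ((mul_eq_zero.1 ?_).resolve_left h2)
    have e := tr_conj B A
    rw [h] at e
    have en : tr (-A) = -tr A := by simp [tr]; ring
    linear_combination -e + en

lemma card_projCent_torus {T : Subgroup (SpecialLinearGroup (Fin 2) F)} {W : Set (SpecialLinearGroup (Fin 2) F)}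
    (D : TorusData T W) (h2 : (2 : F) ≠ 0) {A : SpecialLinearGroup (Fin 2) F} (hA : A ∈ T) (h1 : A ≠ 1) (hn : A ≠ -1) :
    (tr A ≠ 0 → Nat.card (projCent A) = Nat.card T) ∧
      (A * A = -1 → Nat.card (projCent A) = 2 * Nat.card T) := by
  refine ⟨fun h => by rw [projCent_of_tr_ne h h2, D.centralizer_elem h2 hA h1 hn], fun h => ?_⟩
  have hinv : A⁻¹ = -A := inv_eq_of_mul_eq_one_right (by rw [mul_neg, h, neg_neg])
  have : projCent A = Subgroup.normalizer (T : Set (SpecialLinearGroup (Fin 2) F)) := by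
    ext B
    rw [mem_projCent, D.mem_normalizer hA h1 hn]
    constructor
    · rintro (h' | h')
      · exact D.norm B A hA h1 hn (by rw [h']; exact hA)
      · exact D.norm B A hA h1 hn (by rw [h', ← hinv]; exact T.inv_mem hA)
    · rintro (h' | h')
      · exact Or.inl (by rw [D.comm B h' A hA, mul_inv_cancel_right])
      · exact Or.inr (by rw [D.inv_conj h' hA, hinv])
  rw [this]
  exact (D.normalizer_facts h2 hA h1 hn).1

lemma sq_eq_neg_one_of_tr {A : SpecialLinearGroup (Fin 2) F} (h : tr A = 0) : A * A = -1 := by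
  have hd := A.2
  rw [det_fin_two] at hd
  simp only [tr] at h
  refine Subtype.ext ?_
  show (A : Matrix (Fin 2) (Fin 2) F) * (A : Matrix (Fin 2) (Fin 2) F) = ((-1 : SpecialLinearGroup (Fin 2) F) : Matrix (Fin 2) (Fin 2) F)
  ext i j
  fin_cases i <;> fin_cases j <;> simp [Matrix.mul_apply, Fin.sum_univ_two]
  · linear_combination (A : Matrix (Fin 2) (Fin 2) F) 0 0 * h - hd
  · linear_combination (A : Matrix (Fin 2) (Fin 2) F) 0 1 * h
  · linear_combination (A : Matrix (Fin 2) (Fin 2) F) 1 0 * h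
  · linear_combination (A : Matrix (Fin 2) (Fin 2) F) 1 1 * h - hd

lemma tr_eq_zero_of_sq {A : SpecialLinearGroup (Fin 2) F} (h : A * A = -1) : tr A = 0 := by
  simp [tr, tr_zero_of_sq h]

/-- Noncentral elements of a torus: orders. -/
lemma torus_elem {T : Subgroup (SpecialLinearGroup (Fin 2) F)} {W : Set (SpecialLinearGroup (Fin 2) F)}
    (D : TorusData T W) (h2 : (2 : F) ≠ 0) (hcyc : IsCyclic T) (h5 : 5 ≤ Nat.card T) :
    (∃ X ∈ T, X ≠ 1 ∧ X ≠ -1 ∧ tr X ≠ 0) ∧ (4 ∣ Nat.card T → ∃ X ∈ T, X ≠ 1 ∧ X ≠ -1 ∧ X * X = -1) ∧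
      (∀ X ∈ T, X * X = -1 → 4 ∣ Nat.card T) := by
  have hneg := neg_one_ne' (F := F) h2
  refine ⟨?_, fun h4 => ?_, fun X hX h => ?_⟩
  · obtain ⟨X, hX, ho⟩ := TorusData.exists_orderOf hcyc (dvd_refl (Nat.card T))
    have hne : ∀ k, 0 < k → k ≤ 4 → X ^ k ≠ 1 := fun k hk hk4 e => by
      have := Nat.le_of_dvd hk (orderOf_dvd_of_pow_eq_one e)
      omega
    refine ⟨X, hX, fun e => hne 1 one_pos (by norm_num) (by rw [pow_one, e]), fun e => hne 2 two_pos (by norm_num) (by simp [e, sq]), fun e => ?_⟩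
    exact hne 4 (by norm_num) le_rfl (by
      rw [show 4 = 2 * 2 from rfl, pow_mul, sq X, sq_eq_neg_one_of_tr e]; simp [sq])
  · obtain ⟨X, hX, ho⟩ := TorusData.exists_orderOf hcyc h4
    have hne : ∀ k, 0 < k → k < 4 → X ^ k ≠ 1 := fun k hk hk4 e => by
      have := Nat.le_of_dvd hk (orderOf_dvd_of_pow_eq_one e)
      omega
    refine ⟨X, hX, fun e => hne 1 one_pos (by norm_num) (by rw [pow_one, e]), fun e => hne 2 two_pos (by norm_num) (by simp [e, sq]), ?_⟩
    refine (eq_one_or_neg_one_of_inv_eq h2 (show X * X * (X * X) = 1 by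
      rw [← sq, ← pow_two, ← pow_mul]; exact orderOf_dvd_iff_pow_eq_one.1 (by rw [ho]))).resolve_left fun e => hne 2 two_pos (by norm_num) (by rw [sq, e])
  · have ho : orderOf (⟨X, hX⟩ : T) = 4 := by
      rw [Subgroup.orderOf_mk]
      exact orderOf_eq_prime_pow (p := 2) (n := 1) (by rw [pow_one, sq, h]; exact hneg)
        (by rw [show 2 ^ (1 + 1) = 2 * 2 from rfl, pow_mul, sq X, h]; simp [sq])
    exact ho ▸ orderOf_dvd_natCard _

/-- The cases for the centralizer in the projective group. -/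
theorem projCent_cases (hodd : Odd (Fintype.card F)) (h7 : 7 ≤ Fintype.card F) (A : SpecialLinearGroup (Fin 2) F) :
    Nat.card (projCent A) = Nat.card (SpecialLinearGroup (Fin 2) F) ∨
    Nat.card (projCent A) = 2 * Fintype.card F ∨
    Nat.card (projCent A) = Fintype.card F - 1 ∨
    Nat.card (projCent A) = Fintype.card F + 1 ∨
    (Fintype.card F % 4 = 1 ∧ Nat.card (projCent A) = 2 * (Fintype.card F - 1)) ∨
    (Fintype.card F % 4 = 3 ∧ Nat.card (projCent A) = 2 * (Fintype.card F + 1)) := by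
  classical
  have h2 := two_ne_zero_of_odd hodd
  obtain ⟨r, hr⟩ := id hodd
  by_cases h4 : tr A ^ 2 = 4
  · by_cases hc : A = 1 ∨ A = -1
    · left
      have : projCent A = ⊤ := eq_top_iff.2 fun B _ => mem_projCent.2 (Or.inl (by rcases hc with rfl | rfl <;> simp))
      rw [this, Subgroup.card_top]
    · right; left
      simp only [not_or] at hc
      have htr : tr A ≠ 0 := fun e => by
        rw [e] at h4
        exact h2 (mul_self_eq_zero.1 (show (2 : F) * 2 = 0 by linear_combination -h4))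
      rw [projCent_of_tr_ne htr h2]
      have : (tr A - 2) * (tr A + 2) = 0 := by linear_combination h4
      rcases mul_eq_zero.1 this with h | h
      · exact card_centralizer_unip hodd (Or.inl rfl) hc.1 (by simp [tr] at h ⊢; linear_combination h)
      · exact card_centralizer_unip hodd (Or.inr rfl) hc.2 (by simp [tr] at h ⊢; linear_combination h)
  obtain ⟨ε, hε⟩ := FiniteField.exists_nonsquare (F := F) (ringChar_ne_two hodd)
  by_cases he : Elliptic (A : Matrix (Fin 2) (Fin 2) F)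
  · obtain ⟨x, hx, -⟩ := exists_conj_nsTorus h2 hε he
    rw [← card_projCent_conj A x]
    set A' := x * A * x⁻¹
    have h4' : tr A' ^ 2 ≠ 4 := by rw [tr_conj]; exact h4
    obtain ⟨ha, hb⟩ := card_projCent_torus (ns_data h2 hε) h2 hx
      (fun e => h4' (by rw [e]; exact tr_central (Or.inl rfl))) (fun e => h4' (by rw [e]; exact tr_central (Or.inr rfl)))
    rw [card_nsTorus h2 hε] at ha hb
    by_cases ht : tr A' = 0
    · have h := (torus_elem (ns_data h2 hε) h2 (isCyclic_nsTorus hε) (by rw [card_nsTorus h2 hε]; omega)).2.2 A' hx (sq_eq_neg_one_of_tr ht)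
      rw [card_nsTorus h2 hε] at h
      exact Or.inr (Or.inr (Or.inr (Or.inr (Or.inr ⟨by omega, hb (sq_eq_neg_one_of_tr ht)⟩))))
    · exact Or.inr (Or.inr (Or.inr (Or.inl (ha ht))))
  · obtain ⟨x, hx⟩ := exists_upper he
    rw [← card_projCent_conj A x]
    set A' := x * A * x⁻¹ with hA'
    have h4' : tr A' ^ 2 ≠ 4 := by rw [hA', tr_conj]; exact h4
    have hd := A'.2
    rw [det_fin_two, hx, mul_zero, sub_zero] at hd
    let D : SpecialLinearGroup (Fin 2) F := ⟨!![(A' : Matrix (Fin 2) (Fin 2) F) 0 0, 0; 0, (A' : Matrix (Fin 2) (Fin 2) F) 1 1],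
      by rw [det_fin_two]; simpa using hd⟩
    obtain ⟨P, hP⟩ := Cfsg.Lib.SLTwoConj.isConj_of_trace h2 A' D (by simp [D]) h4'
    have htD : tr A' = tr D := by simp [tr, D]
    rw [← card_projCent_conj A' P⁻¹, inv_inv, hP]
    obtain ⟨ha, hb⟩ := card_projCent_torus (diag_data (F := F) h2) h2 (show D ∈ diagTorus from ⟨rfl, rfl⟩)
      (fun e => h4' (by rw [htD, e]; exact tr_central (Or.inl rfl))) (fun e => h4' (by rw [htD, e]; exact tr_central (Or.inr rfl)))
    rw [card_diagTorus] at ha hb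
    by_cases ht : tr D = 0
    · have h := (torus_elem (diag_data (F := F) h2) h2 isCyclic_diagTorus (by rw [card_diagTorus]; omega)).2.2 D ⟨rfl, rfl⟩ (sq_eq_neg_one_of_tr ht)
      rw [card_diagTorus] at h
      exact Or.inr (Or.inr (Or.inr (Or.inr (Or.inl ⟨by omega, hb (sq_eq_neg_one_of_tr ht)⟩))))
    · exact Or.inr (Or.inr (Or.inl (ha ht)))

end Cfsg.Lib.Classical.TwoDim
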