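import Cfsg.Agent.Lib.Classical.U33Data

/-! Kernel checks of the unitary representation of `GL_3(2)` over nine elements. -/

set_option autoImplicit false

namespace Cfsg.Lib.Classical.U33Data

/-- Nine-element field as pairs `a + b i`. -/
abbrev P := ZMod 3 × ZMod 3
/-- Three by three bit matrices. -/
abbrev B := Fin 3 → Fin 3 → ZMod 2
/-- Three by three matrices of pairs. -/
abbrev M := Fin 3 → Fin 3 → P

def mulP (x y : P) : P := (x.1 * y.1 - x.2 * y.2, x.1 * y.2 + x.2 * y.1)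
def addP (x y : P) : P := (x.1 + y.1, x.2 + y.2)
def subP (x y : P) : P := (x.1 - y.1, x.2 - y.2)
def conjP (x : P) : P := (x.1, - x.2)

def mulM (A C : M) : M := fun i j =>
  addP (addP (mulP (A i 0) (C 0 j)) (mulP (A i 1) (C 1 j))) (mulP (A i 2) (C 2 j))

def mulB (A C : B) : B := fun i j => A i 0 * C 0 j + A i 1 * C 1 j + A i 2 * C 2 j

def detB (A : B) : ZMod 2 :=
  A 0 0 * A 1 1 * A 2 2 - A 0 0 * A 1 2 * A 2 1 - A 0 1 * A 1 0 * A 2 2 +
    A 0 1 * A 1 2 * A 2 0 + A 0 2 * A 1 0 * A 2 1 - A 0 2 * A 1 1 * A 2 0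

def detP (A : M) : P :=
  subP (addP (addP (subP (subP (mulP (mulP (A 0 0) (A 1 1)) (A 2 2)) (mulP (mulP (A 0 0) (A 1 2)) (A 2 1)))
    (mulP (mulP (A 0 1) (A 1 0)) (A 2 2))) (mulP (mulP (A 0 1) (A 1 2)) (A 2 0)))
      (mulP (mulP (A 0 2) (A 1 0)) (A 2 1))) (mulP (mulP (A 0 2) (A 1 1)) (A 2 0))

def gram (A : M) : M := fun j k =>
  addP (addP (mulP (A 0 j) (conjP (A 0 k))) (mulP (A 1 j) (conjP (A 1 k)))) (mulP (A 2 j) (conjP (A 2 k)))

def oneB : B := fun i j => if i = j then 1 else 0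
def oneM : M := fun i j => if i = j then (1, 0) else (0, 0)

def enc (A : B) : ℕ :=
  (A 0 0).val + 2 * (A 0 1).val + 4 * (A 0 2).val + 8 * (A 1 0).val + 16 * (A 1 1).val +
    32 * (A 1 2).val + 64 * (A 2 0).val + 128 * (A 2 1).val + 256 * (A 2 2).val

def dec (m : ℕ) : B := fun i j => ((m / 2 ^ (3 * i.val + j.val) % 2 : ℕ) : ZMod 2)

def rep (A : B) : M := fun i j =>
  let c := table.getD (enc A) 0 / 16 ^ (3 * i.val + j.val) % 16
  (((c / 3 : ℕ) : ZMod 3), ((c % 3 : ℕ) : ZMod 3))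

def gen (s : Fin 2) : B := dec (if s = 0 then genA else genB)

def evalW : List (Fin 2) → B
  | [] => oneB
  | s :: w => mulB (gen s) (evalW w)

theorem gen_det : ∀ s : Fin 2, detB (gen s) ≠ 0 := by decide +kernel

theorem rep_one : rep oneB = oneM := by decide +kernel

theorem rep_mul : ∀ A : B, detB A ≠ 0 → ∀ s : Fin 2, rep (mulB (gen s) A) = mulM (rep (gen s)) (rep A) := by
  decide +kernel

theorem word_spec : ∀ A : B, detB A ≠ 0 → evalW (words.getD (enc A) []) = A := by decide +kernel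

theorem rep_gram : ∀ A : B, detB A ≠ 0 → gram (rep A) = oneM := by decide +kernel

theorem rep_det : ∀ A : B, detB A ≠ 0 → detP (rep A) = (1, 0) := by decide +kernel

set_option synthInstance.maxSize 20000 in
set_option synthInstance.maxHeartbeats 400000 in
theorem rep_sep : ∀ A : B, detB A ≠ 0 → A ≠ oneB →
    ∃ s : Fin 2, mulM (rep A) (rep (gen s)) ≠ mulM (rep (gen s)) (rep A) := by
  decide +kernel

end Cfsg.Lib.Classical.U33Data
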